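import Cfsg.Agent.Helper71.McLDefs
import Cfsg.Agent.Helper71.McLA

set_option autoImplicit false
set_option linter.unusedSectionVars false
set_option linter.unusedVariables false
set_option linter.unusedSimpArgs false

/-!
# S5075, piece B: opposition is symmetric on centres, all centres have the same number of axes
-/

namespace Cfsg.Agent.Helper98.McL

open Module Cfsg.Agent.Helper71.McL

variable {F V : Type*} [Field F] [AddCommGroup V] [Module F V]

theorem span_centers (S : TSys F V) (W : Submodule F V) (hG : S.Good W) :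
    Submodule.span F {v | S.IsCenter v} = W := by
  have hle : Submodule.span F {v | S.IsCenter v} ≤ W := by
    rw [Submodule.span_le]
    rintro v ⟨hv0, φ, hφ, h⟩
    exact hG.center_mem φ v h hφ hv0
  have hinv : S.Inv (Submodule.span F {v | S.IsCenter v}) := by
    intro φ v h x hx
    by_cases hv : v = 0
    · rw [hv, smul_zero, add_zero]; exact hx
    by_cases hφ : φ = 0
    · rw [hφ, LinearMap.zero_apply, zero_smul, add_zero]; exact hx
    · exact add_mem hx (Submodule.smul_mem _ _ (Submodule.subset_span ⟨hv, φ, hφ, h⟩))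
  rcases hG.min _ hle hinv with h | h
  · exact h
  · exfalso
    obtain ⟨φ, v, hθ, hφ, hv⟩ := hG.ne
    exact hG.nc φ v hθ hφ hv (h (Submodule.subset_span ⟨hv, φ, hφ, hθ⟩))

/-- A functional which is nonzero somewhere on the span of a set is nonzero on the set. -/
theorem exists_ne_of_span {s : Set V} {φ : Dual F V} {x : V} (hx : x ∈ Submodule.span F s)
    (h : φ x ≠ 0) : ∃ w ∈ s, φ w ≠ 0 := by
  by_contra hcon
  push Not at hcon
  have : Submodule.span F s ≤ LinearMap.ker φ := by
    rw [Submodule.span_le]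
    intro w hw
    exact hcon w hw
  exact h (this hx)

theorem exists_opp (S : TSys F V) (W : Submodule F V) (hG : S.Good W) {v : V}
    (hv : S.IsCenter v) : ∃ w, S.IsCenter w ∧ S.Opp v w := by
  obtain ⟨hv0, φ, hφ, h⟩ := hv
  obtain ⟨x, hxW, hx⟩ := hG.not_type2 φ v h hφ hv0
  rw [← span_centers S W hG] at hxW
  obtain ⟨w, hw, hφw⟩ := exists_ne_of_span hxW hx
  exact ⟨w, hw, φ, h, hφw⟩

/-- KEY1: a one-sided opposition forces a strict inclusion of the spaces of axes. -/
theorem key1 [Module.Finite F V] (S : TSys F V) {u v : V} (h1 : S.Opp u v) (h2 : ¬ S.Opp v u) :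
    finrank F (S.L v) < finrank F (S.L u) := by
  obtain ⟨φ, hφ, hφv⟩ := h1
  apply Submodule.finrank_lt_finrank_of_lt
  refine lt_of_le_of_ne ?_ ?_
  · intro χ hχ
    have hχu : χ u = 0 := by
      by_contra hne
      exact h2 ⟨χ, hχ, hne⟩
    exact lemA S hχ hφ hχu hφv
  · intro heq
    have : φ ∈ S.L v := by rw [heq]; exact hφ
    exact hφv (S.vanish this)

/-- half of KEY2. -/
theorem key2_le [Module.Finite F V] (S : TSys F V) {v w : V} (h1 : S.Opp v w) (h2 : S.Opp w v) :
    finrank F (S.L v) ≤ finrank F (S.L w) := by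
  obtain ⟨φ, hφ, hφw⟩ := h1
  obtain ⟨ψ, hψ, hψv⟩ := h2
  have hmem : ∀ χ : ↥(S.L v), (χ : Dual F V) - ((χ : Dual F V) w / φ w) • φ +
      ((χ : Dual F V) w / φ w) • ψ ∈ S.L w := by
    intro χ
    have hχ : S.Θ (χ : Dual F V) v := χ.2
    have h3 : S.Θ ((χ : Dual F V) - ((χ : Dual F V) w / φ w) • φ) v := by
      have := S.add_left hχ (S.smul_left (-((χ : Dual F V) w / φ w)) hφ)
      have e : (χ : Dual F V) + -((χ : Dual F V) w / φ w) • φ =
          (χ : Dual F V) - ((χ : Dual F V) w / φ w) • φ := by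
        module
      rwa [e] at this
    have h4 : ((χ : Dual F V) - ((χ : Dual F V) w / φ w) • φ) w = 0 := by
      simp only [LinearMap.sub_apply, LinearMap.smul_apply, smul_eq_mul]
      field_simp
      ring
    exact S.add_left (lemA S h3 hψ h4 hψv) (S.smul_left _ hψ)
  let f : ↥(S.L v) →ₗ[F] ↥(S.L w) :=
    { toFun := fun χ => ⟨_, hmem χ⟩
      map_add' := by
        intro χ₁ χ₂
        apply Subtype.ext
        simp only [Submodule.coe_add, LinearMap.add_apply, add_div, add_smul]
        abel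
      map_smul' := by
        intro c χ
        apply Subtype.ext
        simp only [Submodule.coe_smul, LinearMap.smul_apply, smul_eq_mul, RingHom.id_apply,
          mul_div_assoc, smul_add, smul_sub, smul_smul] }
  have hinj : Function.Injective f := by
    intro χ₁ χ₂ h12
    have h5 : (χ₁ : Dual F V) - ((χ₁ : Dual F V) w / φ w) • φ + ((χ₁ : Dual F V) w / φ w) • ψ =
        (χ₂ : Dual F V) - ((χ₂ : Dual F V) w / φ w) • φ + ((χ₂ : Dual F V) w / φ w) • ψ :=
      congrArg Subtype.val h12
    have hχv₁ : (χ₁ : Dual F V) v = 0 := S.vanish χ₁.2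
    have hχv₂ : (χ₂ : Dual F V) v = 0 := S.vanish χ₂.2
    have hφv : φ v = 0 := S.vanish hφ
    have h6 := congrArg (fun θ : Dual F V => θ v) h5
    simp only [LinearMap.add_apply, LinearMap.sub_apply, LinearMap.smul_apply, smul_eq_mul, hχv₁,
      hχv₂, hφv, mul_zero, sub_zero, zero_add] at h6
    have h7 : (χ₁ : Dual F V) w / φ w = (χ₂ : Dual F V) w / φ w := mul_right_cancel₀ hψv h6
    rw [h7] at h5
    apply Subtype.ext
    have h8 := add_right_cancel h5
    exact sub_left_injective h8
  exact LinearMap.finrank_le_finrank_of_injective hinj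

/-- KEY2: mutually opposite centres have the same number of axes. -/
theorem key2 [Module.Finite F V] (S : TSys F V) {v w : V} (h1 : S.Opp v w) (h2 : S.Opp w v) :
    finrank F (S.L v) = finrank F (S.L w) :=
  le_antisymm (key2_le S h1 h2) (key2_le S h2 h1)

/-- All centres have the maximal number of axes. -/
theorem finrank_L_max [Module.Finite F V] (S : TSys F V) (W : Submodule F V) (hG : S.Good W) :
    ∃ d : ℕ, ∀ u, S.IsCenter u → finrank F (S.L u) = d := by
  classical
  -- the set of values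
  let s : Set ℕ := {n | ∃ v, S.IsCenter v ∧ finrank F (S.L v) = n}
  have hne : s.Nonempty := by
    obtain ⟨φ, v, hθ, hφ, hv⟩ := hG.ne
    exact ⟨_, v, ⟨hv, φ, hφ, hθ⟩, rfl⟩
  have hbdd : BddAbove s := by
    refine ⟨finrank F (Dual F V), ?_⟩
    rintro n ⟨v, _, rfl⟩
    exact Submodule.finrank_le _
  obtain ⟨v0, hv0, hd⟩ := Nat.sSup_mem hne hbdd
  have hmax : ∀ u, S.IsCenter u → finrank F (S.L u) ≤ sSup s := fun u hu =>
    le_csSup hbdd ⟨u, hu, rfl⟩
  refine ⟨sSup s, ?_⟩
  -- the span of the centres of maximal rank is W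
  have hle : Submodule.span F {v | S.IsCenter v ∧ finrank F (S.L v) = sSup s} ≤ W := by
    rw [Submodule.span_le]
    rintro v ⟨⟨hv0', φ, hφ, h⟩, _⟩
    exact hG.center_mem φ v h hφ hv0'
  have hinv : S.Inv (Submodule.span F {v | S.IsCenter v ∧ finrank F (S.L v) = sSup s}) := by
    intro ψ w h x hx
    by_cases hψx : ψ x = 0
    · rw [hψx, zero_smul, add_zero]; exact hx
    have hψ : ψ ≠ 0 := fun h0 => hψx (by rw [h0]; rfl)
    by_cases hw : w = 0
    · rw [hw, smul_zero, add_zero]; exact hx
    have hwc : S.IsCenter w := ⟨hw, ψ, hψ, h⟩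
    obtain ⟨v, ⟨hvc, hvd⟩, hψv⟩ := exists_ne_of_span hx hψx
    have hopp : S.Opp w v := ⟨ψ, h, hψv⟩
    have hopp' : S.Opp v w := by
      by_contra hcon
      have := key1 S hopp hcon
      rw [hvd] at this
      exact absurd (hmax w hwc) (not_le.mpr this)
    have hwd : finrank F (S.L w) = sSup s := by rw [← hvd]; exact key2 S hopp hopp'
    exact add_mem hx (Submodule.smul_mem _ _ (Submodule.subset_span ⟨hwc, hwd⟩))
  have hspan : Submodule.span F {v | S.IsCenter v ∧ finrank F (S.L v) = sSup s} = W := by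
    rcases hG.min _ hle hinv with h | h
    · exact h
    · exfalso
      obtain ⟨hv00, φ, hφ, hθ⟩ := hv0
      exact hG.nc φ v0 hθ hφ hv00 (h (Submodule.subset_span ⟨⟨hv00, φ, hφ, hθ⟩, hd⟩))
  intro u hu
  obtain ⟨hu0, φ, hφ, hθ⟩ := hu
  obtain ⟨x, hxW, hx⟩ := hG.not_type2 φ u hθ hφ hu0
  rw [← hspan] at hxW
  obtain ⟨v, ⟨hvc, hvd⟩, hφv⟩ := exists_ne_of_span hxW hx
  have hopp : S.Opp u v := ⟨φ, hθ, hφv⟩
  have hopp' : S.Opp v u := by
    by_contra hcon
    have := key1 S hopp hcon
    rw [hvd] at this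
    exact absurd (hmax u ⟨hu0, φ, hφ, hθ⟩) (not_le.mpr this)
  rw [← hvd]
  exact key2 S hopp hopp'

theorem finrank_L_eq [Module.Finite F V] (S : TSys F V) (W : Submodule F V) (hG : S.Good W)
    {v w : V} (hv : S.IsCenter v) (hw : S.IsCenter w) :
    finrank F (S.L v) = finrank F (S.L w) := by
  obtain ⟨d, hd⟩ := finrank_L_max S W hG
  rw [hd v hv, hd w hw]

theorem sym_of_good [Module.Finite F V] (S : TSys F V) (W : Submodule F V) (hG : S.Good W) :
    S.Sym := by
  intro v w hv hw hopp
  by_contra hcon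
  have := key1 S hopp hcon
  rw [finrank_L_eq S W hG hv hw] at this
  exact lt_irrefl _ this

end Cfsg.Agent.Helper98.McL
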