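import Mathlib
import Cfsg.Prelude.Def_GeometricClasses
import Cfsg.Agent.Helper45.SiegelGen

/-!
Maximality of the stabiliser of a totally singular subspace in `Ω(Q)` (orthogonal parabolic
subgroups), for a quadratic form with non-degenerate polar form over a finite field: via the
set of centres of full Eichler root groups and the generation of `Ω` by Eichler transformations
(helper45).
-/

set_option autoImplicit false
set_option linter.unusedSectionVars false
set_option linter.unusedVariables false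

universe u

namespace Cfsg.Agent.Helper98

open Matrix Cfsg Cfsg.Geo Cfsg.Agent.Helper45

section OPar

variable {ι : Type} [Fintype ι] [DecidableEq ι] {F : Type u} [Field F] [Fintype F]
  (Q : QuadraticForm F (ι → F))

theorem op_eichO_congr {u u' b b' : ι → F} (hu : Q u = 0) (hub : QuadraticMap.polar ⇑Q u b = 0)
    (hu' : Q u' = 0) (hub' : QuadraticMap.polar ⇑Q u' b' = 0) (e1 : u = u') (e2 : b = b') :
    eichO Q u b hu hub = eichO Q u' b' hu' hub' := by
  subst e1
  subst e2
  rfl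

/-- The centres of the full Eichler root groups contained in `M`. -/
def op_C (M : Subgroup ↥(isometryGroup F ⇑Q)) : Set (ι → F) :=
  {u | ∃ hu : Q u = 0, ∀ (b : ι → F) (hub : QuadraticMap.polar ⇑Q u b = 0),
    eichO Q u b hu hub ∈ M}

theorem op_C_mv (M : Subgroup ↥(isometryGroup F ⇑Q)) (g : ↥(isometryGroup F ⇑Q)) (hg : g ∈ M)
    (u : ι → F) (hu : u ∈ op_C Q M) : mv ⇑Q g u ∈ op_C Q M := by
  obtain ⟨hu0, h⟩ := hu
  have hu' : Q (mv ⇑Q g u) = 0 := by
    rw [mv_quad ⇑Q g]
    exact hu0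
  refine ⟨hu', fun b hub => ?_⟩
  have hub0 : QuadraticMap.polar ⇑Q u (mv ⇑Q g⁻¹ b) = 0 := by
    rw [← mv_polar Q g, mv_inv_cancel]
    exact hub
  have hub1 : QuadraticMap.polar ⇑Q (mv ⇑Q g u) (mv ⇑Q g (mv ⇑Q g⁻¹ b)) = 0 := by
    rw [mv_inv_cancel]
    exact hub
  have e := conj_eichO Q g u (mv ⇑Q g⁻¹ b) hu0 hub0 hu' hub1
  rw [op_eichO_congr Q hu' hub hu' hub1 rfl (mv_inv_cancel Q g b).symm, ← e]
  exact M.mul_mem (M.mul_mem hg (h _ hub0)) (M.inv_mem hg)

theorem op_C_smul (M : Subgroup ↥(isometryGroup F ⇑Q)) (u : ι → F) (hu : u ∈ op_C Q M) (t : F) :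
    t • u ∈ op_C Q M := by
  obtain ⟨hu0, h⟩ := hu
  have hu' : Q (t • u) = 0 := by
    rw [QuadraticMap.map_smul, hu0, smul_zero]
  refine ⟨hu', fun b hub => ?_⟩
  have hub0 : QuadraticMap.polar ⇑Q u (t • b) = 0 := by
    rw [QuadraticMap.polar_smul_right]
    rw [QuadraticMap.polar_smul_left] at hub
    exact hub
  have e : eichO Q (t • u) b hu' hub = eichO Q u (t • b) hu0 hub0 := by
    apply ext_mv
    intro x
    rw [mv_eichO, mv_eichO, eich_smul_left]
  rw [e]
  exact h _ hub0

/-- From two non-orthogonal centres `u`, `x`: every singular vector not orthogonal to `u` is a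
centre. -/
theorem op_C_reach (M : Subgroup ↥(isometryGroup F ⇑Q)) (u x z : ι → F) (hu : u ∈ op_C Q M)
    (hx : x ∈ op_C Q M) (hux : QuadraticMap.polar ⇑Q u x ≠ 0) (hz : Q z = 0)
    (huz : QuadraticMap.polar ⇑Q u z ≠ 0) : z ∈ op_C Q M := by
  obtain ⟨hu0, h⟩ := hu
  have hx' := op_C_smul Q M x hx (QuadraticMap.polar ⇑Q u z / QuadraticMap.polar ⇑Q u x)
  obtain ⟨x', hx'def⟩ : ∃ x', x' = (QuadraticMap.polar ⇑Q u z / QuadraticMap.polar ⇑Q u x) • x :=
    ⟨_, rfl⟩
  rw [← hx'def] at hx'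
  obtain ⟨hx'0, _⟩ := hx'
  have hβ : QuadraticMap.polar ⇑Q u x' = QuadraticMap.polar ⇑Q u z := by
    rw [hx'def, QuadraticMap.polar_smul_right, smul_eq_mul, div_mul_cancel₀ _ hux]
  obtain ⟨β, hβdef⟩ : ∃ β, β = QuadraticMap.polar ⇑Q u z := ⟨_, rfl⟩
  rw [← hβdef] at hβ huz
  have hub : QuadraticMap.polar ⇑Q u (β⁻¹ • (x' - z)) = 0 := by
    rw [QuadraticMap.polar_smul_right, QuadraticMap.polar_sub_right, hβ, ← hβdef, sub_self,
      smul_zero]
  have key : Helper44.eich Q u (β⁻¹ • (x' - z)) x' = z := by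
    unfold Helper44.eich
    have c1 : QuadraticMap.polar ⇑Q (β⁻¹ • (x' - z)) x' -
        Q (β⁻¹ • (x' - z)) * QuadraticMap.polar ⇑Q u x' = 0 := by
      rw [hβ, QuadraticMap.polar_smul_left, QuadraticMap.polar_sub_left, QuadraticMap.map_smul,
        q_sub, hx'0, hz, Helper44.polar_self_eq, hx'0, QuadraticMap.polar_comm ⇑Q z x']
      simp only [smul_eq_mul]
      field_simp
      ring
    rw [c1, zero_smul, hβ, smul_smul, mul_inv_cancel₀ huz, one_smul]
    abel
  have h1 := op_C_mv Q M (eichO Q u _ hu0 hub) (h _ hub) x' ⟨hx'0, by assumption⟩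
  rw [mv_eichO, key] at h1
  exact h1

/-- Two non-orthogonal centres force every singular vector to be a centre. -/
theorem op_C_all (hQ : (QuadraticMap.polarBilin Q).Nondegenerate)
    (M : Subgroup ↥(isometryGroup F ⇑Q)) (u x : ι → F) (hu : u ∈ op_C Q M)
    (hx : x ∈ op_C Q M) (hux : QuadraticMap.polar ⇑Q u x ≠ 0) (z : ι → F) (hz : Q z = 0) :
    z ∈ op_C Q M := by
  by_cases h1 : QuadraticMap.polar ⇑Q u z = 0
  · by_cases h2 : ∃ t : F, z = t • u
    · obtain ⟨t, rfl⟩ := h2
      exact op_C_smul Q M u hu t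
    · push Not at h2
      have hxu : QuadraticMap.polar ⇑Q x u ≠ 0 := by
        rw [QuadraticMap.polar_comm]
        exact hux
      by_cases h3 : QuadraticMap.polar ⇑Q x z = 0
      · obtain ⟨b, hub, hzb⟩ := exists_perp_not_perp Q hQ u z h2
        obtain ⟨hu0, hM⟩ := hu
        have hx₂ := op_C_mv Q M (eichO Q u b hu0 hub) (hM b hub) x hx
        rw [mv_eichO] at hx₂
        have e1 : QuadraticMap.polar ⇑Q (Helper44.eich Q u b x) u ≠ 0 := by
          unfold Helper44.eich
          rw [QuadraticMap.polar_sub_left, QuadraticMap.polar_add_left,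
            QuadraticMap.polar_smul_left, QuadraticMap.polar_smul_left, polar_self_zero Q u hu0,
            QuadraticMap.polar_comm ⇑Q b u, hub, smul_zero, smul_zero, add_zero, sub_zero]
          exact hxu
        have e2 : QuadraticMap.polar ⇑Q (Helper44.eich Q u b x) z ≠ 0 := by
          unfold Helper44.eich
          rw [QuadraticMap.polar_sub_left, QuadraticMap.polar_add_left,
            QuadraticMap.polar_smul_left, QuadraticMap.polar_smul_left, h1, h3, smul_zero,
            zero_add, zero_sub, QuadraticMap.polar_comm ⇑Q b z, smul_eq_mul]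
          exact neg_ne_zero.mpr (mul_ne_zero hux hzb)
        exact op_C_reach Q M _ u z hx₂ ⟨hu0, hM⟩ e1 hz e2
      · exact op_C_reach Q M x u z hx hu hxu hz h3
  · exact op_C_reach Q M u x z hu hx hux hz h1

/-- A subgroup with two non-orthogonal Eichler centres contains `Ω`. -/
theorem op_omega_le (hQ : (QuadraticMap.polarBilin Q).Nondegenerate) (hn : 5 ≤ Fintype.card ι)
    (M : Subgroup ↥(isometryGroup F ⇑Q)) (u x : ι → F) (hu : u ∈ op_C Q M)
    (hx : x ∈ op_C Q M) (hux : QuadraticMap.polar ⇑Q u x ≠ 0) : Omega F ⇑Q ≤ M := by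
  rw [omega_eq_eichGroup Q hQ hn]
  unfold eichGroup
  rw [Subgroup.closure_le]
  rintro _ ⟨v, b, hv, hvb, rfl⟩
  obtain ⟨_, h⟩ := op_C_all Q hQ M u x hu hx hux v hv
  exact h b hvb

theorem op_inv_maps (g : ↥(isometryGroup F ⇑Q)) (W : Submodule F (ι → F))
    (h : ∀ v ∈ W, mv ⇑Q g v ∈ W) : ∀ v ∈ W, mv ⇑Q g⁻¹ v ∈ W := by
  have hpow : ∀ k : ℕ, ∀ v ∈ W, mv ⇑Q (g ^ k) v ∈ W := by
    intro k
    induction k with
    | zero =>
      intro v hv
      rw [pow_zero, mv_one]
      exact hv
    | succ k ih =>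
      intro v hv
      rw [pow_succ, mv_mul]
      exact ih _ (h v hv)
  have hg : g⁻¹ = g ^ (orderOf g - 1) := by
    apply inv_eq_of_mul_eq_one_right
    rw [← pow_succ', Nat.sub_add_cancel (orderOf_pos g), pow_orderOf_eq_one]
  rw [hg]
  exact hpow _

theorem op_exists_b (hQ : (QuadraticMap.polarBilin Q).Nondegenerate)
    (W : Submodule F (ι → F)) (hW : ∀ w ∈ W, Q w = 0)
    (hdim : ∀ U : Submodule F (ι → F), (∀ u ∈ U, Q u = 0) →
      Module.finrank F U = Module.finrank F W + 1 → 2 * Module.finrank F U < Fintype.card ι)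
    (z z' : ι → F) (hzW : z ∉ W) (hzQ : Q z = 0)
    (hzperp : ∀ p ∈ W, QuadraticMap.polar ⇑Q p z = 0) :
    ∃ b, (∀ p ∈ W, QuadraticMap.polar ⇑Q p b = 0) ∧ QuadraticMap.polar ⇑Q z' b = 0 ∧ Q b ≠ 0 := by
  by_contra hcon
  push Not at hcon
  have hU : ∀ u ∈ W ⊔ Submodule.span F {z}, Q u = 0 := by
    intro u hu
    obtain ⟨w, hw, v, hv, rfl⟩ := Submodule.mem_sup.mp hu
    obtain ⟨t, rfl⟩ := Submodule.mem_span_singleton.mp hv
    rw [Helper13.Q_add', hW w hw, QuadraticMap.map_smul, hzQ, QuadraticMap.polar_smul_right,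
      hzperp w hw]
    simp
  have hUdim : Module.finrank F ↥(W ⊔ Submodule.span F {z}) = Module.finrank F W + 1 := by
    have h1 := Submodule.finrank_sup_add_finrank_inf_eq W (Submodule.span F {z})
    have hz0 : z ≠ 0 := fun h => hzW (h ▸ W.zero_mem)
    have h2 : Module.finrank F (Submodule.span F {z}) = 1 := finrank_span_singleton hz0
    have h3 : W ⊓ Submodule.span F {z} = ⊥ := by
      rw [eq_bot_iff]
      rintro x ⟨hx1, hx2⟩
      obtain ⟨t, rfl⟩ := Submodule.mem_span_singleton.mp hx2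
      by_cases ht : t = 0
      · rw [ht, zero_smul]
        exact Submodule.zero_mem _
      · exfalso
        apply hzW
        have h4 := W.smul_mem t⁻¹ hx1
        rwa [smul_smul, inv_mul_cancel₀ ht, one_smul] at h4
    rw [h3, finrank_bot, h2] at h1
    omega
  have h1 := hdim _ hU hUdim
  have hX : ∀ b ∈ (LinearMap.BilinForm.orthogonal (QuadraticMap.polarBilin Q) W) ⊓ perpSub Q z',
      Q b = 0 := by
    intro b hb
    refine hcon b ?_ ((mem_perpSub Q z' b).mp hb.2)
    intro p hp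
    exact (LinearMap.BilinForm.mem_orthogonal_iff.mp hb.1) p hp
  have h2 := finrank_ts_le Q hQ _ hX
  have h3 := finrank_inf_perpSub_ge Q (LinearMap.BilinForm.orthogonal (QuadraticMap.polarBilin Q) W) z'
  have h4 := LinearMap.BilinForm.finrank_orthogonal hQ W
  have h5 : Module.finrank F (ι → F) = Fintype.card ι := Module.finrank_fintype_fun_eq_card F
  have h6 : Module.finrank F W ≤ Module.finrank F (ι → F) := Submodule.finrank_le _
  omega

/-- **Maximality of orthogonal parabolic subgroups**: the stabiliser in `Ω(Q)` of a non-zero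
totally singular subspace `W` is maximal, provided no totally singular subspace of dimension
`dim W + 1` has half the dimension of the space. -/
theorem op_parabolic_max (hQ : (QuadraticMap.polarBilin Q).Nondegenerate)
    (hn : 5 ≤ Fintype.card ι) (W : Submodule F (ι → F)) (hW0 : W ≠ ⊥) (hW : ∀ w ∈ W, Q w = 0)
    (hdim : ∀ U : Submodule F (ι → F), (∀ u ∈ U, Q u = 0) →
      Module.finrank F U = Module.finrank F W + 1 → 2 * Module.finrank F U < Fintype.card ι) :
    IsMaximalIn (omegaGL ⇑Q) (subspaceStabilizer W ⊓ omegaGL ⇑Q) := by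
  have hstab : ∀ g : ↥(isometryGroup F ⇑Q), (∀ v ∈ W, mv ⇑Q g v ∈ W) →
      (g : GL ι F) ∈ subspaceStabilizer W := by
    intro g hg v
    constructor
    · intro hv
      exact hg v hv
    · intro hv
      have hv' : mv ⇑Q g v ∈ W := hv
      have h1 := op_inv_maps Q g W hg _ hv'
      rwa [mv_inv_cancel'] at h1
  constructor
  · rw [SetLike.lt_iff_le_and_exists]
    refine ⟨inf_le_right, ?_⟩
    obtain ⟨w, hwW, hw0⟩ := (Submodule.ne_bot_iff W).mp hW0
    obtain ⟨a, ha⟩ : ∃ a, QuadraticMap.polar ⇑Q a w ≠ 0 := by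
      by_contra hcon
      push Not at hcon
      exact hw0 (hQ.2 w hcon)
    obtain ⟨u, hu, huw⟩ : ∃ u, Q u = 0 ∧ QuadraticMap.polar ⇑Q u w ≠ 0 := by
      refine ⟨a - (Q a / QuadraticMap.polar ⇑Q a w) • w, ?_, ?_⟩
      · rw [q_sub, QuadraticMap.map_smul, hW w hwW, QuadraticMap.polar_smul_right, smul_zero,
          add_zero, smul_eq_mul, div_mul_cancel₀ _ ha, sub_self]
      · rw [QuadraticMap.polar_sub_left, QuadraticMap.polar_smul_left,
          polar_self_zero Q w (hW w hwW), smul_zero, sub_zero]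
        exact ha
    obtain ⟨b, hb, hub, _⟩ := exists_nonsing_perp2 Q hQ hn u u
    refine ⟨((eichO Q u b hu hub : ↥(isometryGroup F ⇑Q)) : GL ι F),
      Subgroup.mem_map_of_mem _ (eichO_mem_omega Q hQ hn u b hu hub), fun hmem => ?_⟩
    have h1 : mv ⇑Q (eichO Q u b hu hub) w ∈ W := (hmem.1 w).mp hwW
    rw [mv_eichO] at h1
    have h2 : Helper44.eich Q u b w - w ∈ W := W.sub_mem h1 hwW
    have h3 := hW _ h2
    have h4 : Helper44.eich Q u b w - w =
        (QuadraticMap.polar ⇑Q b w - Q b * QuadraticMap.polar ⇑Q u w) • u -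
          (QuadraticMap.polar ⇑Q u w) • b := by
      unfold Helper44.eich
      abel
    rw [h4, q_sub, QuadraticMap.map_smul, QuadraticMap.map_smul, hu,
      QuadraticMap.polar_smul_left, QuadraticMap.polar_smul_right, hub] at h3
    simp only [smul_eq_mul, mul_zero, zero_add, sub_zero] at h3
    rcases mul_eq_zero.mp h3 with h5 | h5
    · rcases mul_eq_zero.mp h5 with h6 | h6
      · exact huw h6
      · exact huw h6
    · exact hb h5
  · intro M hHM hMG
    by_cases hMH : M = subspaceStabilizer W ⊓ omegaGL ⇑Q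
    · exact Or.inl hMH
    right
    apply le_antisymm hMG
    obtain ⟨M', hM'⟩ : ∃ M' : Subgroup ↥(isometryGroup F ⇑Q),
        M' = M.comap (isometryGroup F ⇑Q).subtype := ⟨_, rfl⟩
    have hmemM' : ∀ g : ↥(isometryGroup F ⇑Q), g ∈ M' ↔ (g : GL ι F) ∈ M := by
      intro g
      rw [hM']
      exact Subgroup.mem_comap
    suffices hΩ : Omega F ⇑Q ≤ M' by
      unfold omegaGL
      rw [Subgroup.map_le_iff_le_comap, ← hM']
      exact hΩ
    have hF1 : ∀ g : ↥(isometryGroup F ⇑Q), g ∈ Omega F ⇑Q → (∀ v ∈ W, mv ⇑Q g v ∈ W) →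
        g ∈ M' := by
      intro g hg hgW
      rw [hmemM']
      exact hHM ⟨hstab g hgW, Subgroup.mem_map_of_mem _ hg⟩
    have hF2 : ∀ w ∈ W, w ∈ op_C Q M' := by
      intro w hw
      refine ⟨hW w hw, fun b hub =>
        hF1 _ (eichO_mem_omega Q hQ hn w b _ hub) (fun v hv => ?_)⟩
      rw [mv_eichO]
      unfold Helper44.eich
      rw [ts_polar Q W hW w hw v hv, mul_zero, sub_zero, zero_smul, sub_zero]
      exact W.add_mem hv (W.smul_mem _ hw)
    obtain ⟨y, hyM, hyH⟩ := SetLike.exists_of_lt (lt_of_le_of_ne hHM (Ne.symm hMH))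
    obtain ⟨y', hy'Ω, rfl⟩ := Subgroup.mem_map.mp (hMG hyM)
    have hy'M : y' ∈ M' := (hmemM' y').mpr hyM
    obtain ⟨g, hgM, w, hwW, hgw⟩ : ∃ g ∈ M', ∃ w ∈ W, mv ⇑Q g w ∉ W := by
      by_contra hcon
      push Not at hcon
      exact hyH ⟨hstab y' (hcon y' hy'M), hMG hyM⟩
    have hz := op_C_mv Q M' g hgM w (hF2 w hwW)
    obtain ⟨z, hzdef⟩ : ∃ z, z = mv ⇑Q g w := ⟨_, rfl⟩
    rw [← hzdef] at hz hgw
    have hzQ : Q z = 0 := by
      obtain ⟨h, _⟩ := hz
      exact h
    by_cases hA : ∃ w₁ ∈ W, QuadraticMap.polar ⇑Q w₁ z ≠ 0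
    · obtain ⟨w₁, hw₁, h⟩ := hA
      exact op_omega_le Q hQ hn M' w₁ z (hF2 w₁ hw₁) hz h
    · push Not at hA
      obtain ⟨a, haW, haz⟩ := exists_perp_of_notMem Q hQ W z hgw
      obtain ⟨z', hz'def⟩ : ∃ z', z' = a - (Q a / QuadraticMap.polar ⇑Q a z) • z := ⟨_, rfl⟩
      have hz'Q : Q z' = 0 := by
        rw [hz'def, q_sub, QuadraticMap.map_smul, hzQ, QuadraticMap.polar_smul_right, smul_zero,
          add_zero, smul_eq_mul, div_mul_cancel₀ _ haz, sub_self]
      have hzz' : QuadraticMap.polar ⇑Q z z' ≠ 0 := by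
        rw [hz'def, QuadraticMap.polar_sub_right, QuadraticMap.polar_smul_right,
          polar_self_zero Q z hzQ, smul_zero, sub_zero, QuadraticMap.polar_comm]
        exact haz
      have hz'W : ∀ p ∈ W, QuadraticMap.polar ⇑Q p z' = 0 := by
        intro p hp
        rw [hz'def, QuadraticMap.polar_sub_right, QuadraticMap.polar_smul_right, haW p hp,
          hA p hp, smul_zero, sub_zero]
      obtain ⟨b, hbW, hz'b, hbQ⟩ := op_exists_b Q hQ W hW hdim z z' hgw hzQ hA
      have hg₂ : eichO Q z' b hz'Q hz'b ∈ M' := by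
        refine hF1 _ (eichO_mem_omega Q hQ hn z' b hz'Q hz'b) (fun v hv => ?_)
        rw [mv_eichO, eich_fix Q z' b v
          (by rw [QuadraticMap.polar_comm]; exact hz'W v hv)
          (by rw [QuadraticMap.polar_comm]; exact hbW v hv)]
        exact hv
      have hz'' := op_C_mv Q M' _ hg₂ z hz
      rw [mv_eichO] at hz''
      refine op_omega_le Q hQ hn M' z _ hz hz'' ?_
      unfold Helper44.eich
      rw [QuadraticMap.polar_sub_right, QuadraticMap.polar_add_right,
        QuadraticMap.polar_smul_right, QuadraticMap.polar_smul_right, polar_self_zero Q z hzQ,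
        zero_add, QuadraticMap.polar_comm ⇑Q z' z, QuadraticMap.polar_comm ⇑Q b z]
      simp only [smul_eq_mul]
      have h1 : (QuadraticMap.polar ⇑Q z b - Q b * QuadraticMap.polar ⇑Q z z') *
          QuadraticMap.polar ⇑Q z z' - QuadraticMap.polar ⇑Q z z' * QuadraticMap.polar ⇑Q z b =
          -(Q b * (QuadraticMap.polar ⇑Q z z' * QuadraticMap.polar ⇑Q z z')) := by ring
      rw [h1]
      exact neg_ne_zero.mpr (mul_ne_zero hbQ (mul_ne_zero hzz' hzz'))

end OPar

section OParFun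

variable {ι : Type} [Fintype ι] [DecidableEq ι] {F : Type u} [Field F]

/-- A non-degenerate quadratic form given as a function, as a bundled quadratic form. -/
def op_qf (Q : (ι → F) → F) (hQ : IsNondegenerateQuadraticForm Q) : QuadraticForm F (ι → F) :=
  QuadraticMap.ofPolar Q (fun a x => by rw [hQ.smul, smul_eq_mul, pow_two])
    (fun x x' y => hQ.polar_bilinear.add_left x x' y)
    (fun a x y => by rw [hQ.polar_bilinear.smul_left, smul_eq_mul])

theorem op_qf_coe (Q : (ι → F) → F) (hQ : IsNondegenerateQuadraticForm Q) :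
    ⇑(op_qf Q hQ) = Q := rfl

theorem op_qf_nondeg (Q : (ι → F) → F) (hQ : IsNondegenerateQuadraticForm Q) :
    (QuadraticMap.polarBilin (op_qf Q hQ)).Nondegenerate := by
  constructor
  · intro z hz
    by_contra h0
    obtain ⟨x, hx⟩ := (hQ.nondegenerate z h0).2
    exact hx (hz x)
  · intro z hz
    by_contra h0
    obtain ⟨x, hx⟩ := (hQ.nondegenerate z h0).1
    exact hx (hz x)

/-- Maximality of orthogonal parabolic subgroups, for a form given as a function. -/
theorem op_parabolic_max_fun [Fintype F] (Q : (ι → F) → F) (hQ : IsNondegenerateQuadraticForm Q)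
    (hn : 5 ≤ Fintype.card ι) (W : Submodule F (ι → F)) (hW0 : W ≠ ⊥)
    (hW : IsTotallySingularQuad Q W)
    (hdim : ∀ U : Submodule F (ι → F), IsTotallySingularQuad Q U →
      Module.finrank F U = Module.finrank F W + 1 → 2 * Module.finrank F U ≠ Fintype.card ι) :
    IsMaximalIn (omegaGL Q) (subspaceStabilizer W ⊓ omegaGL Q) :=
  op_parabolic_max (op_qf Q hQ) (op_qf_nondeg Q hQ) hn W hW0 hW (fun U hU hUd =>
    lt_of_le_of_ne (finrank_ts_le (op_qf Q hQ) (op_qf_nondeg Q hQ) U hU) (hdim U hU hUd))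

end OParFun

end Cfsg.Agent.Helper98
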