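import Mathlib

set_option autoImplicit false
set_option linter.unusedSectionVars false
set_option linter.unusedVariables false
set_option linter.unusedSimpArgs false
set_option linter.style.haveILetI false

namespace Cfsg.Agent.Helper98

open Module

section C3A
variable {F K V : Type*} [Field F] [Field K] [Algebra F K] [AddCommGroup V] [Module F V]
  [Module K V] [IsScalarTower F K V]

/-- scalar multiplication by `k : K` as an `F`-endomorphism of `V` -/
noncomputable def c3_sm (F : Type*) {K V : Type*} [Field F] [Field K] [Algebra F K] [AddCommGroup V]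
    [Module F V] [Module K V] [IsScalarTower F K V] (k : K) : Module.End F V :=
  (k • (LinearMap.id : V →ₗ[K] V)).restrictScalars F

@[simp] theorem c3_sm_apply (k : K) (v : V) : (c3_sm F k) v = k • v := rfl

/-- the endomorphism `v ↦ γ v • c` -/
noncomputable def c3_op (γ : V →ₗ[F] K) (c : V) : Module.End F V :=
  ((LinearMap.toSpanSingleton K V c).restrictScalars F).comp γ

@[simp] theorem c3_op_apply (γ : V →ₗ[F] K) (c v : V) : c3_op γ c v = γ v • c := rfl

/-- the endomorphism `v ↦ φ v • a` -/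
noncomputable def c3_tv (φ : V →ₗ[F] F) (a : V) : Module.End F V :=
  (LinearMap.toSpanSingleton F V a).comp φ

@[simp] theorem c3_tv_apply (φ : V →ₗ[F] F) (a v : V) : c3_tv φ a v = φ v • a := rfl

/-- group-like predicate on endomorphisms -/
structure C3P (P : Module.End F V → Prop) : Prop where
  one : P 1
  mul : ∀ f g, P f → P g → P (f * g)
  inv : ∀ f g, P f → f * g = 1 → g * f = 1 → P g

/-- invertible `K`-semilinear endomorphisms -/
def c3_N (K : Type*) {F V : Type*} [Field F] [Field K] [Algebra F K] [AddCommGroup V] [Module F V]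
    [Module K V] [IsScalarTower F K V] (f : Module.End F V) : Prop :=
  (∃ g : Module.End F V, f * g = 1 ∧ g * f = 1) ∧ ∀ k : K, ∃ k' : K, ∀ v, f (k • v) = k' • f v

theorem c3_unip_mul (A : Module.End F V) (h : A * A = 0) : (1 + A) * (1 - A) = 1 := by
  have : (1 + A) * (1 - A) = 1 - A * A := by noncomm_ring
  rw [this, h, sub_zero]

theorem c3_unip_mul' (A : Module.End F V) (h : A * A = 0) : (1 - A) * (1 + A) = 1 := by
  have : (1 - A) * (1 + A) = 1 - A * A := by noncomm_ring
  rw [this, h, sub_zero]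

theorem c3_unip_pow (A : Module.End F V) (h : A * A = 0) (n : ℕ) : (1 + A) ^ n = 1 + n • A := by
  induction n with
  | zero => simp
  | succ n ih =>
    rw [pow_succ, ih]
    have : (1 + n • A) * (1 + A) = 1 + n • A + A + n • (A * A) := by
      rw [mul_add, mul_one, add_mul, one_mul, smul_mul_assoc]
      abel
    rw [this, h, smul_zero, add_zero, succ_nsmul]
    abel

theorem c3_det_unip [Finite F] (A : Module.End F V) (h : A * A = 0) : LinearMap.det (1 + A) = 1 := by
  obtain ⟨p, hp⟩ := CharP.exists F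
  haveI := hp
  have hpp : p.Prime := CharP.char_is_prime F p
  haveI : Fact p.Prime := ⟨hpp⟩
  have h1 : (1 + A) ^ p = 1 := by
    rw [c3_unip_pow A h]
    have : (p • A : Module.End F V) = 0 := by
      rw [← Nat.cast_smul_eq_nsmul F, CharP.cast_eq_zero, zero_smul]
    rw [this, add_zero]
  have h2 : (LinearMap.det (1 + A)) ^ p = 1 := by
    rw [← map_pow, h1, map_one]
  have h3 : (LinearMap.det (1 + A) - 1) ^ p = 0 := by
    rw [sub_pow_char, h2, one_pow, sub_self]
  exact sub_eq_zero.mp (pow_eq_zero_iff (hpp.ne_zero) |>.mp h3)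

theorem c3_exists_dual (x y : V) (h : ∀ k : K, y ≠ k • x) : ∃ χ : V →ₗ[K] K, χ x = 0 ∧ χ y = 1 := by
  have hy : y ∉ Submodule.span K {x} := by
    intro hy
    obtain ⟨k, hk⟩ := Submodule.mem_span_singleton.mp hy
    exact h k hk.symm
  obtain ⟨f, hf, hf0⟩ := Submodule.exists_dual_map_eq_bot_of_notMem hy inferInstance
  refine ⟨(f y)⁻¹ • f, ?_, ?_⟩
  · have : f x ∈ (Submodule.span K {x}).map f := Submodule.mem_map_of_mem (Submodule.mem_span_singleton_self x)
    rw [hf0] at this
    have hx : f x = 0 := (Submodule.mem_bot K).mp this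
    simp [hx]
  · simp [hf]

theorem c3_exists_dual_one (x : V) (h : x ≠ 0) : ∃ χ : V →ₗ[K] K, χ x = 1 := by
  obtain ⟨χ, -, h2⟩ := c3_exists_dual (K := K) (0 : V) x (fun k => by simpa using h)
  exact ⟨χ, h2⟩

theorem c3_exists_notMem (hm : 2 ≤ finrank K V) (x : V) : ∃ y : V, ∀ k : K, y ≠ k • x := by
  haveI : Module.Finite K V := Module.finite_of_finrank_pos (by omega)
  by_contra hcon
  push Not at hcon
  have htop : Submodule.span K {x} = ⊤ := by
    rw [eq_top_iff]
    intro y _
    obtain ⟨k, hk⟩ := hcon y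
    rw [hk]
    exact Submodule.smul_mem _ _ (Submodule.mem_span_singleton_self x)
  have h1 : finrank K (Submodule.span K {x}) ≤ 1 := by
    have := finrank_span_le_card (R := K) ({x} : Set V)
    simpa using this
  rw [htop, finrank_top] at h1
  omega

theorem c3_N_mul {f g : Module.End F V} (hf : c3_N K f) (hg : c3_N K g) : c3_N K (f * g) := by
  obtain ⟨⟨f', hf1, hf2⟩, hfs⟩ := hf
  obtain ⟨⟨g', hg1, hg2⟩, hgs⟩ := hg
  refine ⟨⟨g' * f', ?_, ?_⟩, ?_⟩
  · calc f * g * (g' * f') = f * (g * g') * f' := by noncomm_ring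
      _ = 1 := by rw [hg1, mul_one, hf1]
  · calc g' * f' * (f * g) = g' * (f' * f) * g := by noncomm_ring
      _ = 1 := by rw [hf2, mul_one, hg2]
  · intro k
    obtain ⟨k1, hk1⟩ := hgs k
    obtain ⟨k2, hk2⟩ := hfs k1
    exact ⟨k2, fun v => by rw [Module.End.mul_apply, hk1, hk2, Module.End.mul_apply]⟩

theorem c3_N_pow {f : Module.End F V} (hf : c3_N K f) (n : ℕ) : c3_N K (f ^ n) := by
  induction n with
  | zero =>
    rw [pow_zero]
    exact ⟨⟨1, by simp, by simp⟩, fun k => ⟨k, fun v => by simp⟩⟩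
  | succ n ih =>
    rw [pow_succ]
    exact c3_N_mul ih hf

theorem c3_N_of_lin (f g : Module.End F V) (h1 : f * g = 1) (h2 : g * f = 1)
    (hlin : ∀ (k : K) (v : V), f (k • v) = k • f v) : c3_N K f :=
  ⟨⟨g, h1, h2⟩, fun k => ⟨k, hlin k⟩⟩

theorem c3_op_mul_zero (γ γ' : V →ₗ[F] K) (c c' : V) (h : ∀ k : K, γ (k • c') = 0) :
    c3_op γ c * c3_op γ' c' = 0 := by
  ext v
  simp [Module.End.mul_apply, h]

theorem c3_ktv_N (χ : V →ₗ[K] K) (c : V) (h : χ c = 0) :
    c3_N K (1 + c3_op (χ.restrictScalars F) c) := by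
  have hsq : c3_op (χ.restrictScalars F) c * c3_op (χ.restrictScalars F) c = 0 :=
    c3_op_mul_zero _ _ _ _ (fun k => by simp [h])
  refine c3_N_of_lin _ (1 - c3_op (χ.restrictScalars F) c) (c3_unip_mul _ hsq) (c3_unip_mul' _ hsq) ?_
  intro k v
  simp [smul_add, smul_smul]

theorem c3_ktv_P [Finite F] {P : Module.End F V → Prop}
    (hN : ∀ f : Module.End F V, c3_N K f → LinearMap.det f = 1 → P f)
    (χ : V →ₗ[K] K) (c : V) (h : χ c = 0) : P (1 + c3_op (χ.restrictScalars F) c) := by
  have hsq : c3_op (χ.restrictScalars F) c * c3_op (χ.restrictScalars F) c = 0 :=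
    c3_op_mul_zero _ _ _ _ (fun k => by simp [h])
  exact hN _ (c3_ktv_N χ c h) (c3_det_unip _ hsq)

theorem c3_inj_of_left_inv (f g : Module.End F V) (h2 : g * f = 1) : Function.Injective f := by
  intro x y hxy
  have := congrArg g hxy
  rw [← Module.End.mul_apply, ← Module.End.mul_apply, h2] at this
  simpa using this

theorem c3_spread [Finite K] (hm : 2 ≤ finrank K V) (f g : Module.End F V) (h1 : f * g = 1)
    (h2 : g * f = 1) (h : ∀ x : V, ∀ k : K, ∃ k' : K, f (k • x) = k' • f x) : c3_N K f := by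
  have hinj : Function.Injective f := c3_inj_of_left_inv f g h2
  have hne : ∀ x : V, x ≠ 0 → f x ≠ 0 := fun x hx h0 => hx (hinj (by rw [h0, map_zero]))
  choose σ hσ using h
  -- surjectivity of σ x
  have hsurj : ∀ x : V, x ≠ 0 → Function.Surjective (σ x) := by
    intro x hx
    apply Finite.injective_iff_surjective.mp
    intro k k' hkk
    have e1 : f (k • x) = f (k' • x) := by rw [hσ, hσ, hkk]
    have e2 := hinj e1
    have e3 : (k - k') • x = 0 := by rw [sub_smul, e2, sub_self]
    rcases smul_eq_zero.mp e3 with h0 | h0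
    · exact sub_eq_zero.mp h0
    · exact absurd h0 hx
  have hind : ∀ x y : V, x ≠ 0 → (∀ k : K, y ≠ k • x) → ∀ c : K, f y ≠ c • f x := by
    intro x y hx hy c hc
    obtain ⟨k1, hk1⟩ := hsurj x hx c
    have : f y = f (k1 • x) := by rw [hσ, hk1, hc]
    exact hy k1 (hinj this)
  have claim1 : ∀ x y : V, x ≠ 0 → (∀ k : K, y ≠ k • x) → ∀ k : K, σ x k = σ y k := by
    intro x y hx hy k
    have e1 : f (k • (x + y)) = σ (x + y) k • (f x + f y) := by rw [hσ, map_add]
    have e2 : f (k • (x + y)) = σ x k • f x + σ y k • f y := by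
      rw [smul_add, map_add, hσ, hσ]
    have e3 : (σ (x + y) k - σ x k) • f x = (σ y k - σ (x + y) k) • f y := by
      have := e1.symm.trans e2
      rw [smul_add] at this
      rw [sub_smul, sub_smul]
      rw [sub_eq_sub_iff_add_eq_add]
      rw [this]; abel
    by_cases hc : σ y k = σ (x + y) k
    · rw [hc, sub_self, zero_smul] at e3
      rcases smul_eq_zero.mp e3 with h0 | h0
      · rw [hc]; exact (sub_eq_zero.mp h0).symm
      · exact absurd h0 (hne x hx)
    · exfalso
      have hc' : σ y k - σ (x + y) k ≠ 0 := sub_ne_zero.mpr hc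
      apply hind x y hx hy ((σ y k - σ (x + y) k)⁻¹ * (σ (x + y) k - σ x k))
      rw [mul_smul, e3, smul_smul, inv_mul_cancel₀ hc', one_smul]
  have claim2 : ∀ x y : V, x ≠ 0 → y ≠ 0 → ∀ k : K, σ x k = σ y k := by
    intro x y hx hy k
    by_cases hxy : ∀ k : K, y ≠ k • x
    · exact claim1 x y hx hxy k
    · push Not at hxy
      obtain ⟨k0, hk0⟩ := hxy
      obtain ⟨z, hz⟩ := c3_exists_notMem hm x
      have hz' : ∀ k : K, z ≠ k • y := by
        intro k' hk'
        apply hz (k' * k0)
        rw [hk', hk0, smul_smul]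
      rw [claim1 x z hx hz k, claim1 y z hy hz' k]
  obtain ⟨x0, hx0⟩ := c3_exists_notMem (K := K) hm (0 : V)
  have hx0' : x0 ≠ 0 := by simpa using hx0 0
  refine ⟨⟨g, h1, h2⟩, fun k => ⟨σ x0 k, fun v => ?_⟩⟩
  by_cases hv : v = 0
  · subst hv; simp
  · rw [hσ, claim2 v x0 hv hx0' k]

end C3A

end Cfsg.Agent.Helper98
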