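import Mathlib
import Cfsg.Agent.Helper98.Basic

set_option autoImplicit false

namespace Cfsg.Agent.Helper98

open scoped LinearAlgebra.Projectivization

section

variable {K V : Type*} [Field K] [AddCommGroup V] [Module K V]

/-- Linear automorphisms as affine automorphisms, as a group homomorphism. -/
def linToAff : (V ≃ₗ[K] V) →* (V ≃ᵃ[K] V) where
  toFun A := A.toAffineEquiv
  map_one' := by ext; rfl
  map_mul' A B := by ext; rfl

theorem linToAff_apply (A : V ≃ₗ[K] V) (v : V) : linToAff A v = A v := rfl

theorem linToAff_injective : Function.Injective (linToAff (K := K) (V := V)) := by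
  intro A B h
  ext v
  have := DFunLike.congr_fun h v
  exact this

theorem linearHom_linToAff (A : V ≃ₗ[K] V) : AffineEquiv.linearHom (linToAff A) = A := by
  ext v
  rfl

theorem linearHom_surjective :
    Function.Surjective (AffineEquiv.linearHom : (V ≃ᵃ[K] V) →* (V ≃ₗ[K] V)) :=
  fun A => ⟨linToAff A, linearHom_linToAff A⟩

theorem affine_apply_eq (e : V ≃ᵃ[K] V) (v : V) : e v = e.linear v + e 0 := by
  have := e.map_vadd 0 v
  simpa using this

theorem mem_range_linToAff (e : V ≃ᵃ[K] V) : e ∈ (linToAff (K := K) (V := V)).range ↔ e 0 = 0 := by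
  constructor
  · rintro ⟨A, rfl⟩
    rw [linToAff_apply, map_zero]
  · intro h
    refine ⟨e.linear, ?_⟩
    ext v
    rw [linToAff_apply, affine_apply_eq e v, h, add_zero]

/-- Linear automorphisms act transitively on non-zero vectors. -/
theorem exists_linearEquiv_apply_eq' (v w : V) (hv : v ≠ 0) (hw : w ≠ 0) :
    ∃ A : V ≃ₗ[K] V, A v = w := by
  have : MulAction.IsPretransitive (V ≃ₗ[K] V) (ℙ K V) :=
    MulAction.isPretransitive_of_is_two_pretransitive
  obtain ⟨A, hA⟩ := MulAction.exists_smul_eq (V ≃ₗ[K] V) (Projectivization.mk K v hv)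
    (Projectivization.mk K w hw)
  rw [Projectivization.smul_mk, Projectivization.mk_eq_mk_iff] at hA
  obtain ⟨a, ha⟩ := hA
  refine ⟨A.trans (LinearEquiv.smulOfUnit a⁻¹), ?_⟩
  have h1 : A v = a • w := ha.symm
  simp [LinearEquiv.smulOfUnit, h1]

/-- The linear automorphisms form a maximal subgroup of the affine group. -/
theorem isCoatom_range_linToAff [Nontrivial V] : IsCoatom (linToAff (K := K) (V := V)).range := by
  constructor
  · obtain ⟨v, hv⟩ := exists_ne (0 : V)
    intro h
    have hmem : AffineEquiv.constVAdd K V v ∈ (linToAff (K := K) (V := V)).range :=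
      h ▸ Subgroup.mem_top _
    rw [mem_range_linToAff] at hmem
    apply hv
    simpa using hmem
  · intro L' hL'
    obtain ⟨e, heL, heM⟩ := SetLike.exists_of_lt hL'
    rw [mem_range_linToAff] at heM
    rw [eq_top_iff]
    intro g _
    by_cases hg : g 0 = 0
    · exact hL'.le ((mem_range_linToAff g).mpr hg)
    · obtain ⟨A, hA⟩ := exists_linearEquiv_apply_eq' (K := K) (e 0) (g 0) heM hg
      set l := linToAff A * e with hl
      have hlL : l ∈ L' := L'.mul_mem (hL'.le ⟨A, rfl⟩) heL
      have hl0 : l 0 = g 0 := by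
        rw [hl, AffineEquiv.coe_mul, Function.comp_apply, linToAff_apply, hA]
      have h2 : l⁻¹ * g ∈ (linToAff (K := K) (V := V)).range := by
        rw [mem_range_linToAff, AffineEquiv.coe_mul, Function.comp_apply, ← hl0]
        exact l.symm_apply_apply 0
      have : g = l * (l⁻¹ * g) := by group
      rw [this]
      exact L'.mul_mem hlL (hL'.le h2)

/-- The index of the linear group in the affine group. -/
theorem index_range_linToAff : (linToAff (K := K) (V := V)).range.index = Nat.card V := by
  let _ : MulAction (V ≃ᵃ[K] V) V :=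
    { smul := fun e v => e v
      one_smul := fun _ => rfl
      mul_smul := fun _ _ _ => rfl }
  have hstab : MulAction.stabilizer (V ≃ᵃ[K] V) (0 : V) = (linToAff (K := K) (V := V)).range := by
    ext e
    rw [mem_range_linToAff]
    exact Iff.rfl
  have : MulAction.IsPretransitive (V ≃ᵃ[K] V) V :=
    ⟨fun v w => ⟨AffineEquiv.constVAdd K V (w - v), by
      show (AffineEquiv.constVAdd K V (w - v)) v = w
      simp⟩⟩
  rw [← hstab, MulAction.index_stabilizer_of_transitive]

/-- In the affine group of a vector space of dimension at least two over a finite field, some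
maximal subgroup of the (maximal) linear group is not maximal in another maximal subgroup. -/
theorem exists_not_second_maximal_affine [Finite V] (w₀ u : V) (hw₀ : w₀ ≠ 0)
    (hu : ∀ c : K, u ≠ c • w₀) :
    ∃ M H J : Subgroup (V ≃ᵃ[K] V), IsCoatom M ∧ M.index = Nat.card V ∧ H ≤ M ∧
      IsCoatom (H.subgroupOf M) ∧ IsCoatom J ∧ H ≤ J ∧ ¬ IsCoatom (H.subgroupOf J) := by
  have hnt : Nontrivial V := ⟨⟨w₀, 0, hw₀⟩⟩
  have hu0 : u ≠ 0 := by
    intro h
    exact hu 0 (by rw [h, zero_smul])
  set pt : ℙ K V := Projectivization.mk K w₀ hw₀ with hpt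
  set pu : ℙ K V := Projectivization.mk K u hu0 with hpu
  have hptu : pt ≠ pu := by
    rw [hpt, hpu, Ne, Projectivization.mk_eq_mk_iff']
    rintro ⟨c, hc⟩
    have h1 : u = c⁻¹ • w₀ := by
      have hc0 : c ≠ 0 := by
        rintro rfl
        rw [zero_smul] at hc
        exact hw₀ hc.symm
      rw [← hc, smul_smul, inv_mul_cancel₀ hc0, one_smul]
    exact hu _ h1
  have hntP : Nontrivial (ℙ K V) := ⟨⟨pt, pu, hptu⟩⟩
  have hprim : MulAction.IsPreprimitive (V ≃ₗ[K] V) (ℙ K V) :=
    MulAction.isPreprimitive_of_is_two_pretransitive (Projectivization.linearEquiv_is_two_pretransitive K V)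
  set S : Subgroup (V ≃ₗ[K] V) := MulAction.stabilizer (V ≃ₗ[K] V) pt with hS
  have hScoatom : IsCoatom S := MulAction.IsPreprimitive.isCoatom_stabilizer_of_isPreprimitive (G := V ≃ₗ[K] V) pt
  -- elements of S preserve the line through w₀
  have hSline : ∀ A ∈ S, ∃ a : Kˣ, A w₀ = a • w₀ := by
    intro A hA
    rw [hS, MulAction.mem_stabilizer_iff, hpt, Projectivization.smul_mk,
      Projectivization.mk_eq_mk_iff] at hA
    obtain ⟨a, ha⟩ := hA
    exact ⟨a, ha.symm⟩
  refine ⟨linToAff.range, S.map linToAff, S.comap AffineEquiv.linearHom, isCoatom_range_linToAff,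
    index_range_linToAff, ?_, isCoatom_map_subgroupOf_range _ linToAff_injective S hScoatom,
    Subgroup.isCoatom_comap_of_surjective linearHom_surjective hScoatom, ?_, ?_⟩
  · rintro _ ⟨A, -, rfl⟩
    exact ⟨A, rfl⟩
  · rintro _ ⟨A, hA, rfl⟩
    rw [Subgroup.mem_comap, linearHom_linToAff]
    exact hA
  · intro hco
    have hHJ : S.map linToAff ≤ S.comap AffineEquiv.linearHom := by
      rintro _ ⟨A, hA, rfl⟩
      rw [Subgroup.mem_comap, linearHom_linToAff]
      exact hA
    rw [isCoatom_subgroupOf_iff hHJ] at hco
    -- the intermediate subgroup: elements of J moving 0 inside the line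
    let T : Subgroup (V ≃ᵃ[K] V) :=
      { carrier := {e | AffineEquiv.linearHom e ∈ S ∧ ∃ c : K, e 0 = c • w₀}
        mul_mem' := by
          rintro e e' ⟨he, c, hc⟩ ⟨he', c', hc'⟩
          refine ⟨S.mul_mem he he', ?_⟩
          obtain ⟨a, ha⟩ := hSline _ he
          refine ⟨c' * a + c, ?_⟩
          rw [AffineEquiv.coe_mul, Function.comp_apply, affine_apply_eq e (e' 0), hc, hc']
          have : e.linear (c' • w₀) = c' • (AffineEquiv.linearHom e) w₀ := by
            rw [map_smul]; rfl
          rw [this, ha, add_smul, mul_smul]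
          rfl
        one_mem' := ⟨S.one_mem, 0, by simp⟩
        inv_mem' := by
          rintro e ⟨he, c, hc⟩
          refine ⟨S.inv_mem he, ?_⟩
          obtain ⟨a, ha⟩ := hSline _ (S.inv_mem he)
          refine ⟨-(c * a), ?_⟩
          have h1 : e⁻¹ (e 0) = 0 := e.symm_apply_apply 0
          rw [affine_apply_eq e⁻¹ (e 0), hc] at h1
          have h2 : e⁻¹.linear (c • w₀) = c • (AffineEquiv.linearHom e⁻¹) w₀ := by
            rw [map_smul]; rfl
          rw [h2, map_inv, ha] at h1
          rw [neg_smul, mul_smul]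
          exact eq_neg_of_add_eq_zero_right h1 }
    have hHT : S.map linToAff ≤ T := by
      rintro _ ⟨A, hA, rfl⟩
      refine ⟨by rw [linearHom_linToAff]; exact hA, 0, ?_⟩
      rw [linToAff_apply, map_zero, zero_smul]
    have hTJ : T ≤ S.comap AffineEquiv.linearHom := fun e he => he.1
    have hlin : ∀ v : V, AffineEquiv.linearHom (AffineEquiv.constVAdd K V v) = 1 := by
      intro v
      ext x
      rfl
    rcases hco.2 T hHT hTJ with h | h
    · -- translation by w₀ is in T but not in the image of S
      have hmem : AffineEquiv.constVAdd K V w₀ ∈ T := by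
        refine ⟨by rw [hlin]; exact S.one_mem, 1, ?_⟩
        simp
      rw [h] at hmem
      obtain ⟨A, -, hA⟩ := hmem
      have := DFunLike.congr_fun hA 0
      rw [linToAff_apply, map_zero] at this
      apply hw₀
      simpa using this.symm
    · -- translation by u is in J but not in T
      have hmem : AffineEquiv.constVAdd K V u ∈ S.comap AffineEquiv.linearHom := by
        rw [Subgroup.mem_comap, hlin]
        exact S.one_mem
      rw [← h] at hmem
      obtain ⟨-, c, hc⟩ := hmem
      apply hu c
      simpa using hc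

end

end Cfsg.Agent.Helper98
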