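import Cfsg.Agent.Helper98.Wreath
import Cfsg.Agent.Helper98.Basic

set_option autoImplicit false

namespace Cfsg.Agent.Helper98

/-! ### The affine structure on eight points adapted to four blocks of size two -/

/-- The ternary operation `i + j + k` of the affine plane over the field with two elements, on
`Fin 4`: if two arguments agree it returns the third, otherwise the fourth point. -/
def m4 (i j k : Fin 4) : Fin 4 :=
  if i = j then k else if i = k then j else if j = k then i
  else ⟨(6 - (i.val + j.val + k.val)) % 4, Nat.mod_lt _ (by norm_num)⟩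

/-- The ternary operation `p + q + r` of the affine space of dimension three over the field with
two elements, on `Fin 4 × Fin 2`. -/
def t8 (p q r : Fin 4 × Fin 2) : Fin 4 × Fin 2 := (m4 p.1 q.1 r.1, p.2 + q.2 + r.2)

theorem m4_spec : ∀ i j k l : Fin 4, i ≠ j → i ≠ k → j ≠ k → l ≠ i → l ≠ j → l ≠ k →
    l = m4 i j k := by
  decide

theorem m4_ne : ∀ i j k : Fin 4, i ≠ j → i ≠ k → j ≠ k →
    m4 i j k ≠ i ∧ m4 i j k ≠ j ∧ m4 i j k ≠ k := by
  decide

theorem m4_left : ∀ i k : Fin 4, m4 i i k = k := by decide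

theorem m4_mid : ∀ i j : Fin 4, m4 i j i = j := by decide

theorem m4_right : ∀ i j : Fin 4, m4 i j j = i := by decide

theorem m4_sum : ∀ c : Fin 4 → Fin 2, c 0 + c 1 + c 2 + c 3 = 0 →
    ∀ i j k, c (m4 i j k) = c i + c j + c k := by
  decide

/-- Every permutation of four points is affine. -/
theorem m4_perm (σ : Equiv.Perm (Fin 4)) (i j k : Fin 4) :
    σ (m4 i j k) = m4 (σ i) (σ j) (σ k) := by
  by_cases hij : i = j
  · subst hij
    rw [m4_left, m4_left]
  by_cases hik : i = k
  · subst hik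
    rw [m4_mid, m4_mid]
  by_cases hjk : j = k
  · subst hjk
    rw [m4_right, m4_right]
  obtain ⟨h1, h2, h3⟩ := m4_ne i j k hij hik hjk
  exact m4_spec (σ i) (σ j) (σ k) _ (fun h => hij (σ.injective h)) (fun h => hik (σ.injective h))
    (fun h => hjk (σ.injective h)) (fun h => h1 (σ.injective h)) (fun h => h2 (σ.injective h))
    (fun h => h3 (σ.injective h))

/-- The group of affine permutations of `Fin 4 × Fin 2`. -/
def aff8 : Subgroup (Equiv.Perm (Fin 4 × Fin 2)) where
  carrier := {g | ∀ p q r, g (t8 p q r) = t8 (g p) (g q) (g r)}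
  mul_mem' := fun {g h} hg hh p q r => by
    rw [Equiv.Perm.mul_apply, hh, hg]
    rfl
  one_mem' := fun _ _ _ => rfl
  inv_mem' := fun {g} hg p q r => by
    apply g.injective
    rw [hg]
    simp

theorem mem_aff8 {g : Equiv.Perm (Fin 4 × Fin 2)} :
    g ∈ aff8 ↔ ∀ p q r, g (t8 p q r) = t8 (g p) (g q) (g r) := Iff.rfl

/-! ### Permutations of two points -/

theorem fin2_cases : ∀ k : Fin 2, k = 0 ∨ k = 1 := by decide

theorem perm2_apply (τ : Equiv.Perm (Fin 2)) (k : Fin 2) : τ k = k + τ 0 := by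
  have hne : τ 1 ≠ τ 0 := fun h => absurd (τ.injective h) (by decide)
  rcases fin2_cases k with hk | hk
  · subst hk
    simp
  · subst hk
    rcases fin2_cases (τ 0) with h0 | h0 <;> rcases fin2_cases (τ 1) with h1 | h1
    · exact absurd (h1.trans h0.symm) hne
    · rw [h1, h0]
      rfl
    · rw [h1, h0]
      rfl
    · exact absurd (h1.trans h0.symm) hne

/-- The sign character on `Fin 2`. -/
def sgn2 (k : Fin 2) : ℤˣ := if k = 0 then 1 else -1

theorem sgn2_add : ∀ k l : Fin 2, sgn2 (k + l) = sgn2 k * sgn2 l := by decide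

theorem sgn2_eq_one : ∀ k : Fin 2, sgn2 k = 1 → k = 0 := by decide

theorem perm2_sign (τ : Equiv.Perm (Fin 2)) : Equiv.Perm.sign τ = sgn2 (τ 0) := by
  rcases fin2_cases (τ 0) with h0 | h0
  · have h1 : τ = 1 := by
      ext k
      rw [perm2_apply τ k, h0]
      simp
    rw [h0, h1]
    rfl
  · have h1 : τ = Equiv.swap 0 1 := by
      ext k
      rw [perm2_apply τ k, h0]
      revert k
      decide
    rw [h0, h1, Equiv.Perm.sign_swap (by decide)]
    rfl

/-! ### Even block-preserving permutations are affine -/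

/-- The wreath decomposition of a permutation preserving the fibres of the first projection. -/
theorem exists_wreath_decomp (g : Equiv.Perm (Fin 4 × Fin 2))
    (hg : g ∈ blockPres (Prod.fst : Fin 4 × Fin 2 → Fin 4)) :
    ∃ (σ : Equiv.Perm (Fin 4)) (τ : Fin 4 → Equiv.Perm (Fin 2)),
      ∀ p, g p = (σ p.1, τ p.1 p.2) := by
  have hinj : Function.Injective (fun i : Fin 4 => (g (i, 0)).1) := by
    intro i j hij
    exact (hg (i, 0) (j, 0)).mpr hij
  have hfst : ∀ (i : Fin 4) (k : Fin 2), (g (i, k)).1 = (g (i, 0)).1 :=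
    fun i k => (hg (i, k) (i, 0)).mp rfl
  have hinj2 : ∀ i : Fin 4, Function.Injective (fun k : Fin 2 => (g (i, k)).2) := by
    intro i k k' hkk
    have h1 : g (i, k) = g (i, k') := Prod.ext ((hfst i k).trans (hfst i k').symm) hkk
    have h2 := g.injective h1
    exact (Prod.ext_iff.mp h2).2
  refine ⟨Equiv.ofBijective _ (Finite.injective_iff_bijective.mp hinj),
    fun i => Equiv.ofBijective _ (Finite.injective_iff_bijective.mp (hinj2 i)), ?_⟩
  rintro ⟨i, k⟩
  exact Prod.ext (hfst i k) rfl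

theorem sign_of_wreath_decomp (g : Equiv.Perm (Fin 4 × Fin 2)) (σ : Equiv.Perm (Fin 4))
    (τ : Fin 4 → Equiv.Perm (Fin 2)) (h : ∀ p, g p = (σ p.1, τ p.1 p.2)) :
    Equiv.Perm.sign g = ∏ i, Equiv.Perm.sign (τ i) := by
  have hg : g = Equiv.prodCongrLeft (fun _ : Fin 2 => σ) * Equiv.prodCongrRight τ := by
    ext p : 1
    rw [h p]
    rfl
  rw [hg, Equiv.Perm.sign_mul, Equiv.Perm.sign_prodCongrLeft, Equiv.Perm.sign_prodCongrRight,
    Fin.prod_univ_two, Int.units_mul_self, one_mul]

theorem mem_aff8_of_even (g : Equiv.Perm (Fin 4 × Fin 2))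
    (hg : g ∈ blockPres (Prod.fst : Fin 4 × Fin 2 → Fin 4)) (hs : Equiv.Perm.sign g = 1) :
    g ∈ aff8 := by
  obtain ⟨σ, τ, h⟩ := exists_wreath_decomp g hg
  have hsign := sign_of_wreath_decomp g σ τ h
  rw [hs, Fin.prod_univ_four, perm2_sign, perm2_sign, perm2_sign, perm2_sign, ← sgn2_add,
    ← sgn2_add, ← sgn2_add] at hsign
  have hsum := sgn2_eq_one _ hsign.symm
  have hc := m4_sum (fun i => τ i 0) hsum
  intro p q r
  rw [h, h p, h q, h r]
  refine Prod.ext (m4_perm σ _ _ _) ?_
  show τ (m4 p.1 q.1 r.1) (p.2 + q.2 + r.2) = τ p.1 p.2 + τ q.1 q.2 + τ r.1 r.2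
  rw [perm2_apply (τ (m4 p.1 q.1 r.1)), perm2_apply (τ p.1), perm2_apply (τ q.1),
    perm2_apply (τ r.1), hc]
  abel

/-! ### Two special permutations -/

/-- An affine even permutation not preserving the blocks. -/
def g8a : Equiv.Perm (Fin 4 × Fin 2) :=
  Equiv.swap ((0 : Fin 4), (1 : Fin 2)) (1, 1) * Equiv.swap ((2 : Fin 4), (1 : Fin 2)) (3, 1)

theorem g8a_mem : g8a ∈ aff8 := by
  rw [mem_aff8]
  decide

theorem g8a_sign : Equiv.Perm.sign g8a = 1 := by
  unfold g8a
  rw [Equiv.Perm.sign_mul, Equiv.Perm.sign_swap (by decide), Equiv.Perm.sign_swap (by decide)]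
  rfl

theorem g8a_not_mem : g8a ∉ blockPres (Prod.fst : Fin 4 × Fin 2 → Fin 4) := by
  intro h
  have h1 := (h ((0 : Fin 4), (0 : Fin 2)) (0, 1)).mp rfl
  revert h1
  decide

/-- An even permutation which is not affine. -/
def g8b : Equiv.Perm (Fin 4 × Fin 2) :=
  Equiv.swap ((0 : Fin 4), (0 : Fin 2)) (0, 1) * Equiv.swap ((0 : Fin 4), (0 : Fin 2)) (1, 0)

theorem g8b_sign : Equiv.Perm.sign g8b = 1 := by
  unfold g8b
  rw [Equiv.Perm.sign_mul, Equiv.Perm.sign_swap (by decide), Equiv.Perm.sign_swap (by decide)]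
  rfl

theorem g8b_not_mem : g8b ∉ aff8 := by
  rw [mem_aff8]
  decide

/-! ### Transport to an arbitrary set of eight points -/

section Transport

variable {Ω : Type*} [Fintype Ω] [DecidableEq Ω] {f : Ω → Fin 4}

omit [Fintype Ω] [DecidableEq Ω] in
theorem permCongr_mem_blockPres {Φ : Ω ≃ Fin 4 × Fin 2} (hΦ : ∀ x, (Φ x).1 = f x)
    (g : Equiv.Perm Ω) :
    Φ.permCongr g ∈ blockPres (Prod.fst : Fin 4 × Fin 2 → Fin 4) ↔ g ∈ blockPres f := by
  have key : ∀ p : Fin 4 × Fin 2, p.1 = f (Φ.symm p) := by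
    intro p
    rw [← hΦ, Equiv.apply_symm_apply]
  constructor
  · intro h x y
    have h1 := h (Φ x) (Φ y)
    simp only [Equiv.permCongr_apply, Equiv.symm_apply_apply, hΦ] at h1
    exact h1
  · intro h p q
    have h1 := h (Φ.symm p) (Φ.symm q)
    simp only [Equiv.permCongr_apply, hΦ]
    rw [key p, key q]
    exact h1

/-- The even part of the stabiliser of a partition of eight points into four pairs is not a
maximal subgroup of the alternating group. -/
theorem not_isCoatom_altBlock8 (hf : ∀ i : Fin 4, Nat.card {x : Ω // f x = i} = 2) :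
    ¬ IsCoatom ((blockPres f ⊓ alternatingGroup Ω).subgroupOf (alternatingGroup Ω)) := by
  obtain ⟨Φ, hΦ⟩ := exists_coord hf
  rw [isCoatom_subgroupOf_iff inf_le_right]
  rintro ⟨-, hmax⟩
  have hle : blockPres f ⊓ alternatingGroup Ω ≤
      aff8.comap (Φ.permCongrHom : Equiv.Perm Ω →* Equiv.Perm (Fin 4 × Fin 2)) ⊓
        alternatingGroup Ω := by
    rintro g ⟨hg1, hg2⟩
    refine ⟨?_, hg2⟩
    have h1 : Φ.permCongr g ∈ blockPres (Prod.fst : Fin 4 × Fin 2 → Fin 4) :=
      (permCongr_mem_blockPres hΦ g).mpr hg1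
    have h2 : Equiv.Perm.sign (Φ.permCongr g) = 1 := by
      rw [Equiv.Perm.sign_permCongr]
      exact Equiv.Perm.mem_alternatingGroup.mp hg2
    exact mem_aff8_of_even _ h1 h2
  have hsymm : ∀ g₀ : Equiv.Perm (Fin 4 × Fin 2), Φ.permCongr (Φ.permCongr.symm g₀) = g₀ :=
    fun g₀ => Equiv.apply_symm_apply _ _
  have heven : ∀ g₀ : Equiv.Perm (Fin 4 × Fin 2), Equiv.Perm.sign g₀ = 1 →
      Φ.permCongr.symm g₀ ∈ alternatingGroup Ω := by
    intro g₀ h
    rw [Equiv.Perm.mem_alternatingGroup, ← Equiv.Perm.sign_permCongr Φ, hsymm]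
    exact h
  rcases hmax _ hle inf_le_right with h | h
  · -- the affine group is bigger than the block stabiliser
    have h1 : Φ.permCongr.symm g8a ∈
        aff8.comap (Φ.permCongrHom : Equiv.Perm Ω →* Equiv.Perm (Fin 4 × Fin 2)) ⊓
          alternatingGroup Ω := by
      refine ⟨?_, heven _ g8a_sign⟩
      show Φ.permCongr (Φ.permCongr.symm g8a) ∈ aff8
      rw [hsymm]
      exact g8a_mem
    rw [h] at h1
    have h2 := (permCongr_mem_blockPres hΦ _).mpr h1.1
    rw [hsymm] at h2
    exact g8a_not_mem h2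
  · -- the affine group is not everything
    have h1 : Φ.permCongr.symm g8b ∈ alternatingGroup Ω := heven _ g8b_sign
    rw [← h] at h1
    have h2 : Φ.permCongr (Φ.permCongr.symm g8b) ∈ aff8 := h1.1
    rw [hsymm] at h2
    exact g8b_not_mem h2

end Transport

end Cfsg.Agent.Helper98
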