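import Mathlib
import Cfsg.Agent.Helper98.C3A

set_option autoImplicit false
set_option linter.unusedSectionVars false
set_option linter.unusedVariables false
set_option linter.unusedSimpArgs false
set_option linter.style.haveILetI false

namespace Cfsg.Agent.Helper98

open Module

section C3B
variable {F K V : Type*} [Field F] [Field K] [Algebra F K] [AddCommGroup V] [Module F V]
  [Module K V] [IsScalarTower F K V]

theorem c3_iter_aux [Finite F] [Finite K] (hm : 2 ≤ finrank K V) {P : Module.End F V → Prop}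
    (hP : C3P P) (hN : ∀ f : Module.End F V, c3_N K f → LinearMap.det f = 1 → P f)
    (c : V) (hc : c ≠ 0) : ∀ (n : ℕ) (f g : Module.End F V) (c₀ : V), P f → f * g = 1 → g * f = 1 →
      (∃ k : K, f c₀ = k • c) → f c₀ ≠ 0 → (∃ κ : K, ∀ k : K, f (κ • c₀) ≠ k • c) →
      Set.ncard {k : K | ∀ κ : K, f (κ • c₀) ≠ k • c} ≤ n →
      ∃ (f g : Module.End F V) (c₀ : V) (χ₀ : V →ₗ[K] K) (k₁ : K),
        P f ∧ f * g = 1 ∧ g * f = 1 ∧ χ₀ c₀ = 0 ∧ (∃ k : K, f c₀ = k • c) ∧ f c₀ ≠ 0 ∧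
        χ₀ (g (k₁ • c)) = 1 ∧
        (∀ k : K, ∃ k' : K, (f * c3_op (χ₀.restrictScalars F) c₀ * g) (k • c) = k' • c) ∧
        ∃ κ : K, ∀ k : K, f (κ • c₀) ≠ k • c := by
  have key : ∀ (f : Module.End F V) (c₀ : V), (∃ κ : K, ∀ k : K, f (κ • c₀) ≠ k • c) →
      ∃ k₁ : K, ∀ κ : K, f (κ • c₀) ≠ k₁ • c := by
    intro f c₀ hκ
    by_contra hcon
    push Not at hcon
    choose κf hκf using hcon
    have hinj : Function.Injective κf := by
      intro k k' hkk
      have : k • c = k' • c := by rw [← hκf k, ← hκf k', hkk]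
      have e3 : (k - k') • c = 0 := by rw [sub_smul, this, sub_self]
      rcases smul_eq_zero.mp e3 with h0 | h0
      · exact sub_eq_zero.mp h0
      · exact absurd h0 hc
    have hsurj := Finite.injective_iff_surjective.mp hinj
    obtain ⟨κ, hκ⟩ := hκ
    obtain ⟨k, hk⟩ := hsurj κ
    exact hκ k (by rw [← hk, hκf])
  intro n
  induction n with
  | zero =>
    intro f g c₀ hPf h1 h2 hfc hfc0 hκ hcard
    exfalso
    obtain ⟨k₁, hk₁⟩ := key f c₀ hκ
    have h0 : Set.ncard {k : K | ∀ κ : K, f (κ • c₀) ≠ k • c} = 0 := by omega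
    rw [Set.ncard_eq_zero (Set.toFinite _)] at h0
    have : k₁ ∈ {k : K | ∀ κ : K, f (κ • c₀) ≠ k • c} := hk₁
    rw [h0] at this
    exact this
  | succ n ih =>
    intro f g c₀ hPf h1 h2 hfc hfc0 hκ hcard
    obtain ⟨k₁, hk₁⟩ := key f c₀ hκ
    have hgx : ∀ k : K, g (k₁ • c) ≠ k • c₀ := by
      intro k hk
      apply hk₁ k
      rw [← hk, ← Module.End.mul_apply, h1]; simp
    obtain ⟨χ₀, hχ1, hχ2⟩ := c3_exists_dual (K := K) c₀ (g (k₁ • c)) hgx
    have hEE : c3_op (χ₀.restrictScalars F) c₀ * c3_op (χ₀.restrictScalars F) c₀ = 0 :=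
      c3_op_mul_zero _ _ _ _ (fun k => by simp [hχ1])
    have hPE : P (1 + c3_op (χ₀.restrictScalars F) c₀) := c3_ktv_P hN χ₀ c₀ hχ1
    have hPg : P g := hP.inv f g hPf h1 h2
    obtain ⟨B, hB⟩ : ∃ B : Module.End F V, B = f * c3_op (χ₀.restrictScalars F) c₀ * g := ⟨_, rfl⟩
    have hBB : B * B = 0 := by
      calc B * B = f * c3_op (χ₀.restrictScalars F) c₀ * (g * f) * c3_op (χ₀.restrictScalars F) c₀ * g := by
            rw [hB]; noncomm_ring
        _ = 0 := by rw [h2, mul_one, mul_assoc f _ _, hEE, mul_zero, zero_mul]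
    have hPB : P (1 + B) := by
      have : 1 + B = f * (1 + c3_op (χ₀.restrictScalars F) c₀) * g := by
        rw [hB, mul_add, add_mul, mul_one, h1]
      rw [this]; exact hP.mul _ _ (hP.mul _ _ hPf hPE) hPg
    have hBx : B (k₁ • c) = f c₀ := by
      rw [hB]; simp [Module.End.mul_apply, hχ2]
    have hBf : ∀ κ : K, B (f (κ • c₀)) = 0 := by
      intro κ
      have : g (f (κ • c₀)) = κ • c₀ := by rw [← Module.End.mul_apply, h2]; simp
      rw [hB]; simp [Module.End.mul_apply, this, hχ1]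
    by_cases hcase : ∀ k : K, ∃ k' : K, B (k • c) = k' • c
    · rw [hB] at hcase
      exact ⟨f, g, c₀, χ₀, k₁, hPf, h1, h2, hχ1, hfc, hfc0, hχ2, hcase, hκ⟩
    · push Not at hcase
      obtain ⟨k₂, hk₂⟩ := hcase
      obtain ⟨kc, hkc⟩ := hfc
      have hkc0 : kc ≠ 0 := by
        rintro rfl
        rw [zero_smul] at hkc
        exact hfc0 hkc
      have hBfc : B (f c₀) = 0 := by simpa using hBf 1
      apply ih (1 + B) (1 - B) (f c₀) hPB (c3_unip_mul B hBB) (c3_unip_mul' B hBB)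
      · refine ⟨kc, ?_⟩
        rw [LinearMap.add_apply, Module.End.one_apply, hBfc, add_zero, hkc]
      · rw [LinearMap.add_apply, Module.End.one_apply, hBfc, add_zero]
        exact hfc0
      · refine ⟨k₂ * kc⁻¹, fun k hk => ?_⟩
        have e1 : (k₂ * kc⁻¹) • f c₀ = k₂ • c := by
          rw [hkc, smul_smul, mul_assoc, inv_mul_cancel₀ hkc0, mul_one]
        rw [e1] at hk
        apply hk₂ (k - k₂)
        have h3 : (1 + B) (k₂ • c) = k₂ • c + B (k₂ • c) := by simp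
        rw [h3] at hk
        rw [sub_smul, ← hk]; abel
      · have hsub : {k : K | ∀ κ : K, (1 + B) (κ • f c₀) ≠ k • c} ⊆
            {k : K | ∀ κ : K, f (κ • c₀) ≠ k • c} \ {k₁} := by
          intro k hk
          simp only [Set.mem_setOf_eq] at hk
          refine ⟨?_, ?_⟩
          · intro κ hκ'
            apply hk (k * kc⁻¹)
            have e1 : (k * kc⁻¹) • f c₀ = k • c := by
              rw [hkc, smul_smul, mul_assoc, inv_mul_cancel₀ hkc0, mul_one]
            rw [e1]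
            have : B (k • c) = 0 := by rw [← hκ']; exact hBf κ
            simp [this]
          · intro hk1
            simp only [Set.mem_singleton_iff] at hk1
            subst hk1
            apply hk ((k - kc) * kc⁻¹)
            have e1 : ((k - kc) * kc⁻¹) • f c₀ = k • c - f c₀ := by
              rw [hkc, smul_smul, mul_assoc, inv_mul_cancel₀ hkc0, mul_one, sub_smul]
            rw [e1]
            simp [hBx, hBfc]
        have hlt : Set.ncard ({k : K | ∀ κ : K, f (κ • c₀) ≠ k • c} \ {k₁}) <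
            Set.ncard {k : K | ∀ κ : K, f (κ • c₀) ≠ k • c} :=
          Set.ncard_diff_singleton_lt_of_mem hk₁ (Set.toFinite _)
        have := Set.ncard_le_ncard hsub (Set.toFinite _)
        omega

theorem c3_iter [Finite F] [Finite K] (hm : 2 ≤ finrank K V) {P : Module.End F V → Prop}
    (hP : C3P P) (hN : ∀ f : Module.End F V, c3_N K f → LinearMap.det f = 1 → P f)
    (f₀ g₀ : Module.End F V) (hf₀ : P f₀) (h1 : f₀ * g₀ = 1) (h2 : g₀ * f₀ = 1)
    (hnN : ¬ c3_N K f₀) :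
    ∃ (c : V) (f g : Module.End F V) (c₀ : V) (χ₀ : V →ₗ[K] K) (k₁ : K),
        c ≠ 0 ∧ P f ∧ f * g = 1 ∧ g * f = 1 ∧ χ₀ c₀ = 0 ∧ (∃ k : K, f c₀ = k • c) ∧ f c₀ ≠ 0 ∧
        χ₀ (g (k₁ • c)) = 1 ∧
        (∀ k : K, ∃ k' : K, (f * c3_op (χ₀.restrictScalars F) c₀ * g) (k • c) = k' • c) ∧
        ∃ κ : K, ∀ k : K, f (κ • c₀) ≠ k • c := by
  have h : ¬ ∀ x : V, ∀ k : K, ∃ k' : K, f₀ (k • x) = k' • f₀ x :=
    fun hh => hnN (c3_spread hm f₀ g₀ h1 h2 hh)
  push Not at h
  obtain ⟨x₀, k₀, hk₀⟩ := h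
  have hx₀ : f₀ x₀ ≠ 0 := by
    intro h0
    have hinj := c3_inj_of_left_inv f₀ g₀ h2
    have : x₀ = 0 := hinj (by rw [h0, map_zero])
    apply hk₀ 0
    rw [this]; simp
  obtain ⟨f, g, c₀, χ₀, k₁, hh⟩ := c3_iter_aux hm hP hN (f₀ x₀) hx₀ _ f₀ g₀ x₀ hf₀ h1 h2
    ⟨1, by simp⟩ hx₀ ⟨k₀, hk₀⟩ le_rfl
  exact ⟨f₀ x₀, f, g, c₀, χ₀, k₁, hx₀, hh⟩

end C3B

end Cfsg.Agent.Helper98
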