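import Mathlib
import Cfsg.Agent.Helper98.C3A
import Cfsg.Agent.Helper61.C3A1

set_option autoImplicit false
set_option linter.unusedSectionVars false
set_option linter.unusedVariables false
set_option linter.unusedSimpArgs false
set_option linter.style.haveILetI false

namespace Cfsg.Agent.Helper98

open Module

section C3C
variable {F K V : Type*} [Field F] [Field K] [Algebra F K] [AddCommGroup V] [Module F V]
  [Module K V] [IsScalarTower F K V] {P : Module.End F V → Prop}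

/-- the group of `K`-valued "transvection functionals" with centre `K c` inside `P` -/
def c3_G (P : Module.End F V → Prop) (c : V) (γ : V →ₗ[F] K) : Prop :=
  (∀ k : K, γ (k • c) = 0) ∧ P (1 + c3_op γ c)

theorem c3_op_zero (c : V) : c3_op (0 : V →ₗ[F] K) c = 0 := by ext v; simp

theorem c3_op_add (γ γ' : V →ₗ[F] K) (c : V) : c3_op (γ + γ') c = c3_op γ c + c3_op γ' c := by
  ext v; simp [add_smul]

theorem c3_op_neg (γ : V →ₗ[F] K) (c : V) : c3_op (-γ) c = - c3_op γ c := by ext v; simp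

theorem c3_G_zero (hP : C3P P) (c : V) : c3_G P c (0 : V →ₗ[F] K) :=
  ⟨fun k => by simp, by rw [c3_op_zero, add_zero]; exact hP.one⟩

theorem c3_G_add (hP : C3P P) (c : V) {γ γ' : V →ₗ[F] K} (h : c3_G P c γ) (h' : c3_G P c γ') :
    c3_G P c (γ + γ') := by
  refine ⟨fun k => by simp [h.1 k, h'.1 k], ?_⟩
  have h0 := c3_op_mul_zero γ γ' c c h.1
  have : 1 + c3_op (γ + γ') c = (1 + c3_op γ c) * (1 + c3_op γ' c) := by
    rw [c3_op_add]
    calc 1 + (c3_op γ c + c3_op γ' c) = (1 + c3_op γ c) * (1 + c3_op γ' c) - c3_op γ c * c3_op γ' c := by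
          noncomm_ring
      _ = _ := by rw [h0, sub_zero]
  rw [this]; exact hP.mul _ _ h.2 h'.2

theorem c3_G_neg (hP : C3P P) (c : V) {γ : V →ₗ[F] K} (h : c3_G P c γ) : c3_G P c (-γ) := by
  refine ⟨fun k => by simp [h.1 k], ?_⟩
  have h0 := c3_op_mul_zero γ γ c c h.1
  rw [c3_op_neg, ← sub_eq_add_neg]
  exact hP.inv _ _ h.2 (c3_unip_mul _ h0) (c3_unip_mul' _ h0)

theorem c3_G_sub (hP : C3P P) (c : V) {γ γ' : V →ₗ[F] K} (h : c3_G P c γ) (h' : c3_G P c γ') :
    c3_G P c (γ - γ') := by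
  rw [sub_eq_add_neg]; exact c3_G_add hP c h (c3_G_neg hP c h')

theorem c3_G_lin [Finite F] (hN : ∀ f : Module.End F V, c3_N K f → LinearMap.det f = 1 → P f)
    (χ : V →ₗ[K] K) (c : V) (h : χ c = 0) : c3_G P c (χ.restrictScalars F) :=
  ⟨fun k => by simp [h], c3_ktv_P hN χ c h⟩

theorem c3_G_conj (hP : C3P P) (c : V) {γ : V →ₗ[F] K} (h : c3_G P c γ) (w w' : Module.End F V)
    (hw : P w) (h1 : w * w' = 1) (h2 : w' * w = 1) (a a' : K →ₗ[F] K)
    (hwa : ∀ k : K, w (k • c) = a k • c) (haa : ∀ k, a (a' k) = k) :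
    c3_G P c (a.comp (γ.comp w')) := by
  have hw' : ∀ k : K, w' (k • c) = a' k • c := by
    intro k
    have : w (a' k • c) = k • c := by rw [hwa, haa]
    rw [← this, ← Module.End.mul_apply, h2]; simp
  refine ⟨fun k => by simp [hw', h.1], ?_⟩
  have : 1 + c3_op (a.comp (γ.comp w')) c = w * (1 + c3_op γ c) * w' := by
    rw [mul_add, add_mul, mul_one, h1]
    congr 1
    ext v
    simp [Module.End.mul_apply, hwa]
  rw [this]
  exact hP.mul _ _ (hP.mul _ _ hw h.2) (hP.inv w w' hw h1 h2)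

theorem c3_pow_P [Fintype F] (hN : ∀ f : Module.End F V, c3_N K f → LinearMap.det f = 1 → P f)
    (w : Module.End F V) (hw : c3_N K w) : P (w ^ (Fintype.card F - 1)) := by
  apply hN _ (c3_N_pow hw _)
  rw [map_pow]
  apply FiniteField.pow_card_sub_one_eq_one
  obtain ⟨⟨w', h1, h2⟩, -⟩ := hw
  intro h0
  have : LinearMap.det w * LinearMap.det w' = 1 := by rw [← map_mul, h1, map_one]
  rw [h0, zero_mul] at this
  exact zero_ne_one this

/-- the `K`-linear dilation: `κ` on `K c`, identity on `ker χc` -/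
noncomputable def c3_dil (F : Type*) {K V : Type*} [Field F] [Field K] [Algebra F K] [AddCommGroup V]
    [Module F V] [Module K V] [IsScalarTower F K V] (χc : V →ₗ[K] K) (c : V) (κ : K) :
    Module.End F V :=
  1 + c3_op (((κ - 1) • χc).restrictScalars F) c

theorem c3_dil_apply (χc : V →ₗ[K] K) (c : V) (κ : K) (v : V) :
    c3_dil F χc c κ v = v + ((κ - 1) * χc v) • c := by
  simp [c3_dil]

theorem c3_dil_mul (χc : V →ₗ[K] K) (c : V) (h : χc c = 1) (κ κ' : K) :
    c3_dil F χc c κ * c3_dil F χc c κ' = c3_dil F χc c (κ * κ') := by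
  ext v
  simp only [Module.End.mul_apply, c3_dil_apply, map_add, map_smul, h, smul_eq_mul, mul_one]
  rw [add_assoc]; congr 1
  rw [← add_smul, ← add_smul]; congr 1; ring

theorem c3_dil_one (χc : V →ₗ[K] K) (c : V) : c3_dil F χc c 1 = 1 := by
  ext v; simp [c3_dil_apply]

theorem c3_dil_pow (χc : V →ₗ[K] K) (c : V) (h : χc c = 1) (κ : K) (n : ℕ) :
    c3_dil F χc c κ ^ n = c3_dil F χc c (κ ^ n) := by
  induction n with
  | zero => simp [c3_dil_one]
  | succ n ih => rw [pow_succ, ih, c3_dil_mul χc c h, pow_succ]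

theorem c3_dil_N (χc : V →ₗ[K] K) (c : V) (h : χc c = 1) (κ : K) (hκ : κ ≠ 0) :
    c3_N K (c3_dil F χc c κ) := by
  refine c3_N_of_lin _ (c3_dil F χc c κ⁻¹) (by rw [c3_dil_mul χc c h, mul_inv_cancel₀ hκ, c3_dil_one])
    (by rw [c3_dil_mul χc c h, inv_mul_cancel₀ hκ, c3_dil_one]) (fun k v => ?_)
  rw [c3_dil_apply, c3_dil_apply, smul_add, smul_smul, map_smul, smul_eq_mul]; congr 2; ring

theorem c3_dil_smul (χc : V →ₗ[K] K) (c : V) (h : χc c = 1) (κ k : K) :
    c3_dil F χc c κ (k • c) = (κ * k) • c := by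
  rw [c3_dil_apply, map_smul, h, smul_eq_mul, mul_one, ← add_smul]; congr 1; ring

theorem c3_sm_mul (k k' : K) : c3_sm F k * c3_sm F k' = (c3_sm F (k * k') : Module.End F V) := by
  ext v; simp [Module.End.mul_apply, smul_smul]

theorem c3_sm_one : (c3_sm F (1 : K) : Module.End F V) = 1 := by ext v; simp

theorem c3_sm_pow (k : K) (n : ℕ) : (c3_sm F k : Module.End F V) ^ n = c3_sm F (k ^ n) := by
  induction n with
  | zero => simp [c3_sm_one]
  | succ n ih => rw [pow_succ, ih, c3_sm_mul, pow_succ]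

theorem c3_sm_N (k : K) (hk : k ≠ 0) : c3_N K (c3_sm F k : Module.End F V) :=
  c3_N_of_lin _ (c3_sm F k⁻¹) (by rw [c3_sm_mul, mul_inv_cancel₀ hk, c3_sm_one])
    (by rw [c3_sm_mul, inv_mul_cancel₀ hk, c3_sm_one]) (fun k' v => by simp [smul_smul, mul_comm])

theorem c3_G_smul [Fintype F] [Finite K] (h2 : 2 ≤ finrank F K) (hP : C3P P)
    (hN : ∀ f : Module.End F V, c3_N K f → LinearMap.det f = 1 → P f) (c : V) (hc : c ≠ 0)
    {γ : V →ₗ[F] K} (h : c3_G P c γ) (k : K) : c3_G P c ((LinearMap.mulLeft F k).comp γ) := by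
  obtain ⟨χc, hχc⟩ := c3_exists_dual_one (K := K) c hc
  have key := Cfsg.Agent.Helper61.c3_lemS (F := F) h2
    {k : K | ∀ γ : V →ₗ[F] K, c3_G P c γ → c3_G P c ((LinearMap.mulLeft F k).comp γ)} ?_ ?_ ?_ ?_ ?_
  · exact key k γ h
  · intro γ hγ
    have : (LinearMap.mulLeft F (1 : K)).comp γ = γ := by ext v; simp
    rw [this]; exact hγ
  · intro a b ha hb γ hγ
    have : (LinearMap.mulLeft F (a + b)).comp γ =
        (LinearMap.mulLeft F a).comp γ + (LinearMap.mulLeft F b).comp γ := by ext v; simp [add_mul]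
    rw [this]; exact c3_G_add hP c (ha γ hγ) (hb γ hγ)
  · intro a ha γ hγ
    have : (LinearMap.mulLeft F (-a)).comp γ = -((LinearMap.mulLeft F a).comp γ) := by ext v; simp
    rw [this]; exact c3_G_neg hP c (ha γ hγ)
  · intro a b ha hb γ hγ
    have : (LinearMap.mulLeft F (a * b)).comp γ =
        (LinearMap.mulLeft F a).comp ((LinearMap.mulLeft F b).comp γ) := by ext v; simp [mul_assoc]
    rw [this]; exact ha _ (hb γ hγ)
  · intro k₀ γ hγ
    by_cases hk₀ : k₀ = 0
    · subst hk₀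
      have hq : Fintype.card F - 1 ≠ 0 := by have := Fintype.one_lt_card (α := F); omega
      have : (LinearMap.mulLeft F ((0 : K) ^ (Fintype.card F - 1))).comp γ = 0 := by
        ext v; simp [zero_pow hq]
      rw [this]; exact c3_G_zero hP c
    · have hκ : k₀ ^ (Fintype.card F - 1) ≠ 0 := pow_ne_zero _ hk₀
      have hPd : P (c3_dil F χc c (k₀ ^ (Fintype.card F - 1))) := by
        rw [← c3_dil_pow χc c hχc]
        exact c3_pow_P hN _ (c3_dil_N χc c hχc k₀ hk₀)
      have := c3_G_conj hP c hγ (c3_dil F χc c (k₀ ^ (Fintype.card F - 1)))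
        (c3_dil F χc c (k₀ ^ (Fintype.card F - 1))⁻¹) hPd
        (by rw [c3_dil_mul χc c hχc, mul_inv_cancel₀ hκ, c3_dil_one])
        (by rw [c3_dil_mul χc c hχc, inv_mul_cancel₀ hκ, c3_dil_one])
        (LinearMap.mulLeft F (k₀ ^ (Fintype.card F - 1)))
        (LinearMap.mulLeft F (k₀ ^ (Fintype.card F - 1))⁻¹)
        (fun k => by rw [c3_dil_smul χc c hχc]; simp) (fun k => by simp [hκ])
      have e : γ.comp (c3_dil F χc c (k₀ ^ (Fintype.card F - 1))⁻¹) = γ := by
        ext v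
        simp [c3_dil_apply, hγ.1]
      rw [e] at this
      exact this

theorem c3_G_comp_op [Finite F] (hP : C3P P)
    (hN : ∀ f : Module.End F V, c3_N K f → LinearMap.det f = 1 → P f) (c : V)
    {γ : V →ₗ[F] K} (h : c3_G P c γ) (χ : V →ₗ[K] K) (c₁ : V) (hχc : χ c = 0) (hχ1 : χ c₁ = 0) :
    c3_G P c (γ.comp (c3_op (χ.restrictScalars F) c₁)) := by
  have hsq : c3_op (χ.restrictScalars F) c₁ * c3_op (χ.restrictScalars F) c₁ = 0 :=
    c3_op_mul_zero _ _ _ _ (fun k => by simp [hχ1])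
  have h1 := c3_G_conj hP c h (1 - c3_op (χ.restrictScalars F) c₁) (1 + c3_op (χ.restrictScalars F) c₁)
    (hP.inv _ _ (c3_ktv_P hN χ c₁ hχ1) (c3_unip_mul _ hsq) (c3_unip_mul' _ hsq))
    (c3_unip_mul' _ hsq) (c3_unip_mul _ hsq) LinearMap.id LinearMap.id
    (fun k => by simp [hχc]) (fun k => rfl)
  have e : γ.comp (c3_op (χ.restrictScalars F) c₁) =
      LinearMap.id.comp (γ.comp (1 + c3_op (χ.restrictScalars F) c₁)) + (-γ) := by ext v; simp
  rw [e]; exact c3_G_add hP c h1 (c3_G_neg hP c h)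

theorem c3_G_comp_sm [Fintype F] [Finite K] (h2 : 2 ≤ finrank F K) (hP : C3P P)
    (hN : ∀ f : Module.End F V, c3_N K f → LinearMap.det f = 1 → P f) (c : V) (hc : c ≠ 0)
    {γ : V →ₗ[F] K} (h : c3_G P c γ) (k : K) : c3_G P c (γ.comp (c3_sm F k)) := by
  have key := Cfsg.Agent.Helper61.c3_lemS (F := F) h2
    {k : K | ∀ γ : V →ₗ[F] K, c3_G P c γ → c3_G P c (γ.comp (c3_sm F k))} ?_ ?_ ?_ ?_ ?_
  · exact key k γ h
  · intro γ hγ
    have : γ.comp (c3_sm F (1 : K)) = γ := by ext v; simp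
    rw [this]; exact hγ
  · intro a b ha hb γ hγ
    have : γ.comp (c3_sm F (a + b)) = γ.comp (c3_sm F a) + γ.comp (c3_sm F b) := by
      ext v; simp [add_smul]
    rw [this]; exact c3_G_add hP c (ha γ hγ) (hb γ hγ)
  · intro a ha γ hγ
    have : γ.comp (c3_sm F (-a)) = -(γ.comp (c3_sm F a)) := by ext v; simp
    rw [this]; exact c3_G_neg hP c (ha γ hγ)
  · intro a b ha hb γ hγ
    have : γ.comp (c3_sm F (a * b)) = (γ.comp (c3_sm F a)).comp (c3_sm F b) := by
      ext v; simp [mul_smul]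
    rw [this]; exact hb _ (ha γ hγ)
  · intro k₀ γ hγ
    by_cases hk₀ : k₀ = 0
    · subst hk₀
      have hq : Fintype.card F - 1 ≠ 0 := by have := Fintype.one_lt_card (α := F); omega
      have : γ.comp (c3_sm F ((0 : K) ^ (Fintype.card F - 1))) = 0 := by
        ext v; simp [zero_pow hq]
      rw [this]; exact c3_G_zero hP c
    · obtain ⟨κ, hκdef⟩ : ∃ κ : K, κ = k₀ ^ (Fintype.card F - 1) := ⟨_, rfl⟩
      rw [← hκdef]
      have hκ : κ ≠ 0 := by rw [hκdef]; exact pow_ne_zero _ hk₀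
      have hPs : P (c3_sm F κ⁻¹) := by
        rw [hκdef, ← inv_pow, ← c3_sm_pow]
        exact c3_pow_P hN _ (c3_sm_N k₀⁻¹ (inv_ne_zero hk₀))
      have h1 := c3_G_conj hP c hγ (c3_sm F κ⁻¹) (c3_sm F κ) hPs
        (by rw [c3_sm_mul, inv_mul_cancel₀ hκ, c3_sm_one])
        (by rw [c3_sm_mul, mul_inv_cancel₀ hκ, c3_sm_one])
        (LinearMap.mulLeft F κ⁻¹) (LinearMap.mulLeft F κ) (fun k => by simp [smul_smul])
        (fun k => by simp [hκ])
      have h3 := c3_G_smul h2 hP hN c hc h1 κ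
      have e : (LinearMap.mulLeft F κ).comp ((LinearMap.mulLeft F κ⁻¹).comp (γ.comp (c3_sm F κ))) =
          γ.comp (c3_sm F κ) := by ext v; simp [hκ]
      rw [e] at h3; exact h3

end C3C

end Cfsg.Agent.Helper98
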