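import Mathlib
import Cfsg.Agent.Helper98.C3C

set_option autoImplicit false
set_option linter.unusedSectionVars false
set_option linter.unusedVariables false
set_option linter.unusedSimpArgs false
set_option linter.style.haveILetI false

namespace Cfsg.Agent.Helper98

open Module

section C3D
variable {F K V : Type*} [Field F] [Field K] [Algebra F K] [AddCommGroup V] [Module F V]
  [Module K V] [IsScalarTower F K V] {P : Module.End F V → Prop}

theorem c3_dual_surj [Finite K] (lam : K →ₗ[F] F) (hlam : lam ≠ 0) (lam' : K →ₗ[F] F) :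
    ∃ k : K, ∀ z : K, lam' z = lam (k * z) := by
  haveI : Module.Finite F K := Module.Finite.of_finite
  let Φ : K →ₗ[F] (K →ₗ[F] F) :=
    { toFun := fun k => lam.comp (LinearMap.mulLeft F k)
      map_add' := fun a b => by ext z; simp [add_mul]
      map_smul' := fun s a => by ext z; simp }
  have hinj : Function.Injective Φ := by
    rw [← LinearMap.ker_eq_bot, LinearMap.ker_eq_bot']
    intro k hk
    by_contra hk0
    apply hlam
    ext z
    have := LinearMap.congr_fun hk (k⁻¹ * z)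
    simpa [Φ, hk0] using this
  have hsurj : Function.Surjective Φ :=
    (LinearMap.injective_iff_surjective_of_finrank_eq_finrank
      (Subspace.dual_finrank_eq (K := F) (V := K)).symm).mp hinj
  obtain ⟨k, hk⟩ := hsurj lam'
  exact ⟨k, fun z => by rw [← hk]; rfl⟩

theorem c3_lemT [Fintype F] [Finite K] (h2 : 2 ≤ finrank F K) (hP : C3P P)
    (hN : ∀ f : Module.End F V, c3_N K f → LinearMap.det f = 1 → P f) (c : V) (hc : c ≠ 0)
    (μ : V →ₗ[F] F) (j₀ : K) (hμ : μ ≠ 0) (hj₀ : j₀ ≠ 0)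
    (hG : c3_G P c ((LinearMap.toSpanSingleton F K j₀).comp μ))
    (χ : V →ₗ[K] K) (hχ : χ c = 0) (lam : K →ₗ[F] F) (k : K) :
    c3_G P c ((LinearMap.toSpanSingleton F K k).comp (lam.comp (χ.restrictScalars F))) := by
  have hG1 : c3_G P c ((LinearMap.toSpanSingleton F K (1 : K)).comp μ) := by
    have := c3_G_smul h2 hP hN c hc hG j₀⁻¹
    have e : (LinearMap.mulLeft F j₀⁻¹).comp ((LinearMap.toSpanSingleton F K j₀).comp μ) =
        (LinearMap.toSpanSingleton F K (1 : K)).comp μ := by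
      ext v; simp [hj₀]
    rw [e] at this; exact this
  by_cases hχ0 : χ = 0
  · subst hχ0
    have : (LinearMap.toSpanSingleton F K k).comp (lam.comp ((0 : V →ₗ[K] K).restrictScalars F)) = 0 := by
      ext v; simp
    rw [this]; exact c3_G_zero hP c
  have hγ1 : ∃ lam₁ : K →ₗ[F] F, lam₁ ≠ 0 ∧
      c3_G P c ((LinearMap.toSpanSingleton F K (1 : K)).comp (lam₁.comp (χ.restrictScalars F))) := by
    by_cases hker : ∀ v, χ v = 0 → μ v = 0
    · obtain ⟨v₀, hv₀⟩ : ∃ v₀, χ v₀ ≠ 0 := by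
        by_contra hcon; push Not at hcon; exact hχ0 (LinearMap.ext hcon)
      obtain ⟨v₁, hv₁⟩ : ∃ v₁, χ v₁ = 1 := ⟨(χ v₀)⁻¹ • v₀, by simp [hv₀]⟩
      have e1 : ∀ v, μ v = μ (χ v • v₁) := by
        intro v
        have : χ (v - χ v • v₁) = 0 := by simp [hv₁]
        have := hker _ this
        rw [map_sub] at this; exact sub_eq_zero.mp this
      refine ⟨μ.comp ((LinearMap.toSpanSingleton K V v₁).restrictScalars F), ?_, ?_⟩
      · intro h0
        apply hμ
        ext v
        rw [e1]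
        have := LinearMap.congr_fun h0 (χ v)
        simpa using this
      · have e : (LinearMap.toSpanSingleton F K (1 : K)).comp
            ((μ.comp ((LinearMap.toSpanSingleton K V v₁).restrictScalars F)).comp (χ.restrictScalars F)) =
            (LinearMap.toSpanSingleton F K (1 : K)).comp μ := by
          ext v
          simp [← e1]
        rw [e]; exact hG1
    · push Not at hker
      obtain ⟨c₁, hc₁, hμc₁⟩ := hker
      refine ⟨μ.comp ((LinearMap.toSpanSingleton K V c₁).restrictScalars F), ?_, ?_⟩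
      · intro h0
        apply hμc₁
        have := LinearMap.congr_fun h0 1
        simpa using this
      · have := c3_G_comp_op hP hN c hG1 χ c₁ hχ hc₁
        have e : ((LinearMap.toSpanSingleton F K (1 : K)).comp μ).comp (c3_op (χ.restrictScalars F) c₁) =
            (LinearMap.toSpanSingleton F K (1 : K)).comp
              ((μ.comp ((LinearMap.toSpanSingleton K V c₁).restrictScalars F)).comp (χ.restrictScalars F)) := by
          ext v; simp
        rw [e] at this; exact this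
  obtain ⟨lam₁, hlam₁, hG2⟩ := hγ1
  obtain ⟨k', hk'⟩ := c3_dual_surj lam₁ hlam₁ lam
  have h3 := c3_G_comp_sm h2 hP hN c hc hG2 k'
  have h4 := c3_G_smul h2 hP hN c hc h3 k
  have e : (LinearMap.mulLeft F k).comp (((LinearMap.toSpanSingleton F K (1 : K)).comp
      (lam₁.comp (χ.restrictScalars F))).comp (c3_sm F k')) =
      (LinearMap.toSpanSingleton F K k).comp (lam.comp (χ.restrictScalars F)) := by
    ext v
    simp [hk']
  rw [e] at h4; exact h4

theorem c3_tv_eq_op (φ : V →ₗ[F] F) (k : K) (c : V) :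
    c3_tv φ (k • c) = c3_op ((LinearMap.toSpanSingleton F K k).comp φ) c := by
  ext v; simp [smul_assoc]

theorem c3_T1 [Fintype F] [Finite K] (hP : C3P P)
    (hN : ∀ f : Module.End F V, c3_N K f → LinearMap.det f = 1 → P f) (c : V) (hc : c ≠ 0)
    (hT : ∀ (χ : V →ₗ[K] K), χ c = 0 → ∀ (lam : K →ₗ[F] F) (k : K),
      c3_G P c ((LinearMap.toSpanSingleton F K k).comp (lam.comp (χ.restrictScalars F))))
    (a : V) (χ : V →ₗ[K] K) (hχa : χ a = 0) (lam : K →ₗ[F] F) :
    P (1 + c3_tv (lam.comp (χ.restrictScalars F)) a) := by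
  by_cases ha : ∃ k : K, a = k • c
  · obtain ⟨k, rfl⟩ := ha
    by_cases hk : k = 0
    · subst hk
      have : c3_tv (lam.comp (χ.restrictScalars F)) ((0 : K) • c) = 0 := by ext v; simp
      rw [this, add_zero]; exact hP.one
    · have hχc : χ c = 0 := by
        rw [map_smul, smul_eq_mul] at hχa
        rcases mul_eq_zero.mp hχa with h | h
        · exact absurd h hk
        · exact h
      rw [c3_tv_eq_op]
      exact (hT χ hχc lam k).2
  · push Not at ha
    have ha' : ∀ k : K, c ≠ k • a := by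
      intro k hk
      have hk0 : k ≠ 0 := by
        rintro rfl
        rw [zero_smul] at hk
        exact hc hk
      apply ha k⁻¹
      rw [hk, smul_smul, inv_mul_cancel₀ hk0, one_smul]
    obtain ⟨χ1, h11, h12⟩ := c3_exists_dual (K := K) a c ha'
    obtain ⟨χ2, h21, h22⟩ := c3_exists_dual (K := K) c a ha
    obtain ⟨χ₃, h3c, h3a⟩ : ∃ χ₃ : V →ₗ[K] K, χ₃ c = 1 ∧ χ₃ a = 1 :=
      ⟨χ1 + χ2, by simp [h12, h21], by simp [h11, h22]⟩
    have h3 : χ₃ (a - c) = 0 := by rw [map_sub, h3a, h3c, sub_self]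
    obtain ⟨hK, hKdef⟩ : ∃ hK : V →ₗ[K] V,
        hK = LinearMap.id + (LinearMap.toSpanSingleton K V (a - c)).comp χ₃ := ⟨_, rfl⟩
    obtain ⟨E, hE⟩ : ∃ E : Module.End F V, E = c3_op (χ₃.restrictScalars F) (a - c) := ⟨_, rfl⟩
    have hEE : E * E = 0 := by rw [hE]; exact c3_op_mul_zero _ _ _ _ (fun k => by simp [h3])
    have hPE : P (1 + E) := by rw [hE]; exact c3_ktv_P hN χ₃ (a - c) h3
    have hPE' : P (1 - E) := hP.inv _ _ hPE (c3_unip_mul _ hEE) (c3_unip_mul' _ hEE)
    have hχ'' : (χ.comp hK) c = 0 := by simp [hKdef, h3c, hχa]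
    have h5 := (hT (χ.comp hK) hχ'' lam 1).2
    have hb : ∀ v, hK ((1 - E) v) = v := by
      intro v
      have : hK ((1 - E) v) = ((1 + E) * (1 - E)) v := by
        simp [hKdef, hE, Module.End.mul_apply]
      rw [this, c3_unip_mul _ hEE]; simp
    have hc' : (1 + E) c = a := by simp [hE, h3c]
    have e1 : c3_tv (lam.comp (χ.restrictScalars F)) a = (1 + E) *
        c3_op ((LinearMap.toSpanSingleton F K (1 : K)).comp (lam.comp ((χ.comp hK).restrictScalars F))) c
        * (1 - E) := by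
      ext v
      rw [Module.End.mul_apply, Module.End.mul_apply, c3_op_apply]
      simp only [LinearMap.comp_apply, LinearMap.restrictScalars_apply,
        LinearMap.toSpanSingleton_apply, hb]
      rw [smul_assoc, one_smul, map_smul, hc']
      simp
    have e : 1 + c3_tv (lam.comp (χ.restrictScalars F)) a = (1 + E) *
        (1 + c3_op ((LinearMap.toSpanSingleton F K (1 : K)).comp
          (lam.comp ((χ.comp hK).restrictScalars F))) c) * (1 - E) := by
      rw [mul_add, add_mul, mul_one, c3_unip_mul _ hEE, ← e1]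
    rw [e]; exact hP.mul _ _ (hP.mul _ _ hPE h5) hPE'

theorem c3_T2 (hP : C3P P) (φ' ψ : V →ₗ[F] F) (a b : V) (h1 : φ' a = 0) (h2 : ψ b = 0)
    (h3 : ψ a = 0) (hX : P (1 + c3_tv φ' a)) (hY : P (1 + c3_tv ψ b)) :
    P (1 + c3_tv (φ' b • ψ) a) := by
  obtain ⟨X, hXdef⟩ : ∃ X : Module.End F V, X = c3_tv φ' a := ⟨_, rfl⟩
  obtain ⟨Y, hYdef⟩ : ∃ Y : Module.End F V, Y = c3_tv ψ b := ⟨_, rfl⟩
  have hXX : X * X = 0 := by ext v; simp [hXdef, Module.End.mul_apply, h1]
  have hYY : Y * Y = 0 := by ext v; simp [hYdef, Module.End.mul_apply, h2]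
  have hYX : Y * X = 0 := by ext v; simp [hXdef, hYdef, Module.End.mul_apply, h3]
  have hXY : X * Y = c3_tv (φ' b • ψ) a := by
    ext v; simp [hXdef, hYdef, Module.End.mul_apply, smul_smul, mul_comm]
  have e : 1 + X * Y = (1 + X) * (1 + Y) * ((1 - X) * (1 - Y)) := by
    have : (1 + X) * (1 + Y) * ((1 - X) * (1 - Y)) =
        1 + X * Y - X * X + (X * X) * Y - Y * X - Y * Y + (Y * X) * Y - X * (Y * X) - X * (Y * Y)
          + X * (Y * X) * Y := by noncomm_ring
    rw [this, hXX, hYY, hYX]; simp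
  rw [← hXY, e]
  rw [← hXdef] at hX
  rw [← hYdef] at hY
  exact hP.mul _ _ (hP.mul _ _ hX hY) (hP.mul _ _
    (hP.inv _ _ hX (c3_unip_mul _ hXX) (c3_unip_mul' _ hXX))
    (hP.inv _ _ hY (c3_unip_mul _ hYY) (c3_unip_mul' _ hYY)))

theorem c3_T3 [Finite K] [Module.Finite K V] (lam₀ : K →ₗ[F] F) (h0 : lam₀ ≠ 0)
    (φ : V →ₗ[F] F) : ∃ χ : V →ₗ[K] K, φ = lam₀.comp (χ.restrictScalars F) := by
  let b := Module.finBasis K V
  have hk : ∀ i, ∃ k : K, ∀ z : K, φ (z • b i) = lam₀ (k * z) := fun i =>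
    c3_dual_surj lam₀ h0 (φ.comp ((LinearMap.toSpanSingleton K V (b i)).restrictScalars F))
  choose kf hkf using hk
  refine ⟨b.constr K kf, ?_⟩
  ext v
  have hv := b.sum_repr v
  have e1 : φ v = ∑ i, lam₀ (kf i * b.repr v i) := by
    conv_lhs => rw [← hv]
    rw [map_sum]
    exact Finset.sum_congr rfl (fun i _ => hkf i _)
  have e2 : (b.constr K kf) v = ∑ i, b.repr v i * kf i := by
    conv_lhs => rw [← hv]
    rw [map_sum]
    exact Finset.sum_congr rfl (fun i _ => by rw [map_smul, Basis.constr_basis, smul_eq_mul])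
  rw [LinearMap.comp_apply, LinearMap.restrictScalars_apply, e1, e2, map_sum]
  exact Finset.sum_congr rfl (fun i _ => by rw [mul_comm])

theorem c3_T4 [Fintype F] [Finite K] (hm : 2 ≤ finrank K V) (hP : C3P P)
    (hN : ∀ f : Module.End F V, c3_N K f → LinearMap.det f = 1 → P f) (c : V) (hc : c ≠ 0)
    (hT : ∀ (χ : V →ₗ[K] K), χ c = 0 → ∀ (lam : K →ₗ[F] F) (k : K),
      c3_G P c ((LinearMap.toSpanSingleton F K k).comp (lam.comp (χ.restrictScalars F))))
    (a : V) (φ : V →ₗ[F] F) (hφ : φ a = 0) : P (1 + c3_tv φ a) := by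
  haveI : Module.Finite K V := Module.finite_of_finrank_pos (by omega)
  by_cases ha : a = 0
  · subst ha
    have : c3_tv φ (0 : V) = 0 := by ext v; simp
    rw [this, add_zero]; exact hP.one
  obtain ⟨lam₀, hlam₀⟩ : ∃ lam₀ : K →ₗ[F] F, lam₀ 1 = 1 :=
    c3_exists_dual_one (K := F) (V := K) (1 : K) one_ne_zero
  have hlam₀' : lam₀ ≠ 0 := by
    intro h; rw [h] at hlam₀; simp at hlam₀
  obtain ⟨χ, hχ⟩ := c3_T3 lam₀ hlam₀' φ
  obtain ⟨χa, hχa⟩ := c3_exists_dual_one (K := K) a ha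
  obtain ⟨κ, hκ⟩ : ∃ κ : K, κ = χ a := ⟨_, rfl⟩
  have hlamκ : lam₀ κ = 0 := by
    rw [hκ]; have := hφ; rw [hχ] at this; simpa using this
  have h2a : (χ - κ • χa) a = 0 := by simp [hχa, hκ]
  have hP2 := c3_T1 hP hN c hc hT a (χ - κ • χa) h2a lam₀
  obtain ⟨b', hb'⟩ := c3_exists_notMem hm a
  obtain ⟨b, hbdef⟩ : ∃ b : V, b = b' - χa b' • a := ⟨_, rfl⟩
  have hb : ∀ k : K, b ≠ k • a := by
    intro k hk
    apply hb' (k + χa b')
    rw [add_smul, ← hk, hbdef]; abel
  have hχab : χa b = 0 := by simp [hbdef, hχa]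
  obtain ⟨χ', hχ'a, hχ'b⟩ := c3_exists_dual (K := K) a b hb
  have hPX := c3_T1 hP hN c hc hT a χ' hχ'a lam₀
  have hPY := c3_T1 hP hN c hc hT b χa hχab (lam₀.comp (LinearMap.mulLeft F κ))
  have hP1 := c3_T2 hP (lam₀.comp (χ'.restrictScalars F))
    ((lam₀.comp (LinearMap.mulLeft F κ)).comp (χa.restrictScalars F)) a b (by simp [hχ'a])
    (by simp [hχab]) (by simp [hχa, hlamκ]) hPX hPY
  have hφ2a : lam₀ ((χ - κ • χa) a) = 0 := by rw [h2a, map_zero]
  have e : 1 + c3_tv φ a = (1 + c3_tv (lam₀.comp ((χ - κ • χa).restrictScalars F)) a) *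
      (1 + c3_tv ((lam₀.comp (χ'.restrictScalars F)) b •
        ((lam₀.comp (LinearMap.mulLeft F κ)).comp (χa.restrictScalars F))) a) := by
    rw [hχ]
    ext v
    simp only [Module.End.mul_apply, LinearMap.add_apply, Module.End.one_apply, c3_tv_apply,
      LinearMap.comp_apply, LinearMap.restrictScalars_apply, LinearMap.smul_apply, hχ'b, hlam₀,
      map_add, map_smul, LinearMap.mulLeft_apply, one_smul, hφ2a, smul_zero, add_zero,
      LinearMap.sub_apply, map_sub, smul_eq_mul, mul_zero]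
    have hφ2a' : lam₀ (χ a) - lam₀ (κ * χa a) = 0 := by
      have := hφ2a
      simpa using this
    rw [hφ2a', zero_smul, add_zero, add_assoc, ← add_smul, sub_add_cancel]
  rw [e]; exact hP.mul _ _ hP2 hP1

theorem c3_main_of_HT [Fintype F] [Finite K] (h2 : 2 ≤ finrank F K) (hm : 2 ≤ finrank K V)
    (hP : C3P P) (hN : ∀ f : Module.End F V, c3_N K f → LinearMap.det f = 1 → P f) (c : V)
    (hc : c ≠ 0) (μ : V →ₗ[F] F) (j₀ : K) (hμ : μ ≠ 0) (hj₀ : j₀ ≠ 0)
    (hG : c3_G P c ((LinearMap.toSpanSingleton F K j₀).comp μ)) :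
    ∀ (a : V) (φ : V →ₗ[F] F), φ a = 0 → P (1 + c3_tv φ a) :=
  fun a φ h => c3_T4 hm hP hN c hc
    (fun χ hχ lam k => c3_lemT h2 hP hN c hc μ j₀ hμ hj₀ hG χ hχ lam k) a φ h

end C3D

end Cfsg.Agent.Helper98
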