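import Mathlib
import Cfsg.Agent.Helper98.C3D

set_option autoImplicit false
set_option linter.unusedSectionVars false
set_option linter.unusedVariables false
set_option linter.unusedSimpArgs false
set_option linter.style.haveILetI false

namespace Cfsg.Agent.Helper98

open Module

section C3F
variable {F K V : Type*} [Field F] [Field K] [Algebra F K] [AddCommGroup V] [Module F V]
  [Module K V] [IsScalarTower F K V] {P : Module.End F V → Prop}

theorem c3_F_decomp [Finite K] (hK : finrank F K = 2) (κ : K) (hκ : ∀ s : F, κ ≠ s • (1 : K)) :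
    ∃ lamF : K →ₗ[F] F, lamF 1 = 0 ∧ lamF κ = 1 ∧
      ∀ z : K, ∃ s : F, z = s • (1 : K) + lamF z • κ := by
  obtain ⟨lamF, hlam1, hlamκ⟩ := c3_exists_dual (K := F) (V := K) (1 : K) κ hκ
  refine ⟨lamF, hlam1, hlamκ, ?_⟩
  have hker : ∀ z : K, lamF z = 0 → ∃ s : F, z = s • (1 : K) := by
    haveI : Module.Finite F K := Module.Finite.of_finite
    have hrk := LinearMap.finrank_range_add_finrank_ker lamF
    have hrange : LinearMap.range lamF = ⊤ := by
      rw [LinearMap.range_eq_top]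
      intro s
      exact ⟨s • κ, by simp [hlamκ]⟩
    rw [hrange, finrank_top, finrank_self, hK] at hrk
    have hk1 : finrank F (LinearMap.ker lamF) = 1 := by omega
    have h1mem : (1 : K) ∈ LinearMap.ker lamF := hlam1
    have := (finrank_eq_one_iff_of_nonzero' (⟨1, h1mem⟩ : LinearMap.ker lamF)
      (by simp [Subtype.ext_iff])).mp hk1
    intro z hz
    obtain ⟨s, hs⟩ := this ⟨z, hz⟩
    exact ⟨s, by have := congrArg Subtype.val hs; simpa using this.symm⟩
  intro z
  obtain ⟨s, hs⟩ := hker (z - lamF z • κ) (by simp [hlamκ])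
  exact ⟨s, by rw [← hs]; abel⟩

theorem c3_ker_eq (hV : finrank K V = 2) (χ : V →ₗ[K] K) (c y : V) (hc : c ≠ 0) (hχc : χ c = 0)
    (hχy : χ y = 1) : ∀ v, χ v = 0 → ∃ k : K, v = k • c := by
  haveI : Module.Finite K V := Module.finite_of_finrank_pos (by omega)
  have hrk := LinearMap.finrank_range_add_finrank_ker χ
  have hrange : LinearMap.range χ = ⊤ := by
    rw [LinearMap.range_eq_top]; intro k; exact ⟨k • y, by simp [hχy]⟩
  rw [hrange, finrank_top, finrank_self, hV] at hrk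
  have hk1 : finrank K (LinearMap.ker χ) = 1 := by omega
  have := (finrank_eq_one_iff_of_nonzero' (⟨c, hχc⟩ : LinearMap.ker χ)
    (by simpa [Subtype.ext_iff] using hc)).mp hk1
  intro v hv
  obtain ⟨k, hk⟩ := this ⟨v, hv⟩
  exact ⟨k, by have := congrArg Subtype.val hk; simpa using this.symm⟩

theorem c3_cube_one [Fintype F] [Finite K] (hF : Fintype.card F = 2) (hK : finrank F K = 2)
    (z : K) (hz : z ≠ 0) : z * z * z = 1 := by
  letI := Fintype.ofFinite K
  have h4 : Fintype.card K = 4 := by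
    rw [Module.card_eq_pow_finrank (K := F) (V := K), hF, hK]; norm_num
  have := FiniteField.pow_card_sub_one_eq_one z hz
  rw [h4] at this
  rw [← this]; ring

/-- a non-`K`-linear element of the transvection group gives the hypothesis of Lemma T -/
theorem c3_HT_of_nonlin [Fintype F] [Finite K] (hK : finrank F K = 2) (hV : finrank K V = 2)
    (hP : C3P P) (hN' : ∀ f : Module.End F V, c3_N K f → LinearMap.det f = 1 → P f) (c : V)
    (hc : c ≠ 0) (γ : V →ₗ[F] K) (hγ : c3_G P c γ)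
    (hnl : ¬ ∀ (k : K) (v : V), γ (k • v) = k * γ v) :
    ∃ (μ : V →ₗ[F] F) (j₀ : K), μ ≠ 0 ∧ j₀ ≠ 0 ∧
      c3_G P c ((LinearMap.toSpanSingleton F K j₀).comp μ) := by
  have hm : 2 ≤ finrank K V := by omega
  have h2K : 2 ≤ finrank F K := by omega
  obtain ⟨y, hy⟩ := c3_exists_notMem hm c
  obtain ⟨χ, hχc, hχy⟩ := c3_exists_dual (K := K) c y hy
  have hker := c3_ker_eq hV χ c y hc hχc hχy
  obtain ⟨ω, hω⟩ := c3_exists_notMem (K := F) (V := K) h2K (1 : K)
  obtain ⟨lamF, hlam1, hlamω, hdec⟩ := c3_F_decomp hK ω hω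
  obtain ⟨γ₁, hγ₁def⟩ : ∃ γ₁ : V →ₗ[F] K,
      γ₁ = γ - (LinearMap.mulLeft F (γ y)).comp (χ.restrictScalars F) := ⟨_, rfl⟩
  have hG1 : c3_G P c γ₁ := by
    rw [hγ₁def]
    exact c3_G_sub hP c hγ (c3_G_smul h2K hP hN' c hc (c3_G_lin hN' χ c hχc) (γ y))
  have hγ₁y : γ₁ y = 0 := by rw [hγ₁def]; simp [hχy]
  have hclaim : ∀ v, γ₁ v = lamF (χ v) • γ₁ (ω • y) := by
    intro v
    obtain ⟨k, hk⟩ := hker (v - χ v • y) (by simp [hχy])
    obtain ⟨s, hs⟩ := hdec (χ v)
    have hv : v = k • c + (s • y + lamF (χ v) • (ω • y)) := by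
      have : χ v • y = s • y + lamF (χ v) • (ω • y) := by
        conv_lhs => rw [hs]
        rw [add_smul, smul_assoc, one_smul, smul_assoc]
      rw [← this, ← hk]; abel
    conv_lhs => rw [hv]
    rw [map_add, hG1.1, zero_add, map_add, map_smul, hγ₁y, smul_zero, zero_add, map_smul]
  have hj₀ : γ₁ (ω • y) ≠ 0 := by
    intro h0
    apply hnl
    have hγeq : ∀ v, γ v = γ y * χ v := by
      intro v
      have := hclaim v
      rw [h0, smul_zero, hγ₁def] at this
      simp only [LinearMap.sub_apply, LinearMap.comp_apply, LinearMap.restrictScalars_apply,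
        LinearMap.mulLeft_apply] at this
      exact sub_eq_zero.mp this
    intro k v
    rw [hγeq (k • v), hγeq v, map_smul, smul_eq_mul]; ring
  refine ⟨lamF.comp (χ.restrictScalars F), γ₁ (ω • y), ?_, hj₀, ?_⟩
  · intro h0
    have := LinearMap.congr_fun h0 (ω • y)
    simp [hχy, hlamω] at this
  · have e : (LinearMap.toSpanSingleton F K (γ₁ (ω • y))).comp (lamF.comp (χ.restrictScalars F)) = γ₁ := by
      ext v
      rw [hclaim v]; simp
    rw [e]; exact hG1

/-- if all elements of the transvection group are `K`-linear, then every element of `P`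
stabilising `K c` is semilinear -/
theorem c3_422_stab [Fintype F] [Finite K] (hF : Fintype.card F = 2) (hK : finrank F K = 2)
    (hV : finrank K V = 2) (hP : C3P P) (hN : ∀ f : Module.End F V, c3_N K f → P f) (c : V)
    (hc : c ≠ 0)
    (hlin : ∀ γ : V →ₗ[F] K, c3_G P c γ → ∀ (k : K) (v : V), γ (k • v) = k * γ v)
    (w w' : Module.End F V) (hw : P w) (h1 : w * w' = 1) (h2 : w' * w = 1)
    (hwc : ∀ k : K, ∃ k' : K, w (k • c) = k' • c) : c3_N K w := by
  have hm : 2 ≤ finrank K V := by omega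
  have h2K : 2 ≤ finrank F K := by omega
  have hN' : ∀ f : Module.End F V, c3_N K f → LinearMap.det f = 1 → P f := fun f hf _ => hN f hf
  obtain ⟨y, hy⟩ := c3_exists_notMem hm c
  have hy0 : y ≠ 0 := by simpa using hy 0
  obtain ⟨χ, hχc, hχy⟩ := c3_exists_dual (K := K) c y hy
  have hy' : ∀ k : K, c ≠ k • y := by
    intro k hk
    have hk0 : k ≠ 0 := by
      rintro rfl
      rw [zero_smul] at hk
      exact hc hk
    apply hy k⁻¹
    rw [hk, smul_smul, inv_mul_cancel₀ hk0, one_smul]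
  obtain ⟨χc, hχcy, hχcc⟩ := c3_exists_dual (K := K) y c hy'
  have hker := c3_ker_eq hV χ c y hc hχc hχy
  obtain ⟨ω, hω⟩ := c3_exists_notMem (K := F) (V := K) h2K (1 : K)
  have hω0 : ω ≠ 0 := by simpa using hω 0
  have hω3 := c3_cube_one hF hK ω hω0
  obtain ⟨a, ha⟩ : ∃ a : Module.End F K, ∀ k, w (k • c) = a k • c :=
    ⟨(χc.restrictScalars F).comp (w.comp ((LinearMap.toSpanSingleton K V c).restrictScalars F)),
      fun k => by obtain ⟨k', hk'⟩ := hwc k; simp [hk', hχcc]⟩
  have hwinj := c3_inj_of_left_inv w w' h2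
  have hw'w : ∀ v, w' (w v) = v := fun v => by rw [← Module.End.mul_apply, h2]; simp
  have hww' : ∀ v, w (w' v) = v := fun v => by rw [← Module.End.mul_apply, h1]; simp
  have hainj : Function.Injective a := by
    intro k k' hkk
    have e1 : w (k • c) = w (k' • c) := by rw [ha, ha, hkk]
    have e2 := hwinj e1
    have e3 : (k - k') • c = 0 := by rw [sub_smul, e2, sub_self]
    rcases smul_eq_zero.mp e3 with h0 | h0
    · exact sub_eq_zero.mp h0
    · exact absurd h0 hc
  have hasurj : Function.Surjective a := Finite.injective_iff_surjective.mp hainj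
  obtain ⟨a', ha'⟩ : ∃ a' : Module.End F K, ∀ k, a (a' k) = k := by
    refine ⟨(χc.restrictScalars F).comp (w'.comp ((LinearMap.toSpanSingleton K V c).restrictScalars F)),
      fun k => ?_⟩
    obtain ⟨k₀, hk₀⟩ := hasurj k
    have : w' (k • c) = k₀ • c := by rw [← hk₀, ← ha, hw'w]
    simp [this, hχcc, hk₀]
  have hγk : ∀ k : K, ∀ (k' : K) (v : V), a (k * χ (w' (k' • v))) = k' * a (k * χ (w' v)) := by
    intro k k' v
    have hG := c3_G_conj hP c (c3_G_smul h2K hP hN' c hc (c3_G_lin hN' χ c hχc) k) w w' hw h1 h2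
      a a' ha ha'
    have := hlin _ hG k' v
    simpa using this
  obtain ⟨z₀, hz₀⟩ : ∃ z₀ : K, z₀ = χ (w' (ω • w y)) := ⟨_, rfl⟩
  have e1 : ∀ k : K, a (k * z₀) = ω * a k := by
    intro k
    have := hγk k ω (w y)
    rw [hw'w, hχy, mul_one, ← hz₀] at this
    exact this
  have e2 : ∀ v : V, χ (w' (ω • w v)) = χ v * z₀ := by
    intro v
    have := hγk 1 ω (w v)
    rw [hw'w, one_mul, one_mul, ← e1] at this
    exact hainj this
  have hz₀ne : z₀ ≠ 0 := by
    intro h0
    have := e1 1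
    rw [h0, mul_zero, map_zero] at this
    have ha1 : a 1 = 0 := by
      rcases mul_eq_zero.mp this.symm with h | h
      · exact absurd h hω0
      · exact h
    exact one_ne_zero (hainj (by rw [ha1, map_zero]))
  have hz3 := c3_cube_one hF hK z₀ hz₀ne
  obtain ⟨u, hu⟩ : ∃ u : Module.End F V, u = w' * c3_sm F ω * w * c3_sm F z₀⁻¹ := ⟨_, rfl⟩
  have hPu : P u := by
    rw [hu]
    exact hP.mul _ _ (hP.mul _ _ (hP.mul _ _ (hP.inv w w' hw h1 h2) (hN _ (c3_sm_N ω hω0))) hw)
      (hN _ (c3_sm_N _ (inv_ne_zero hz₀ne)))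
  have huχ : ∀ v, χ (u v) = χ v := by
    intro v
    rw [hu]
    simp only [Module.End.mul_apply, c3_sm_apply]
    rw [e2, map_smul, smul_eq_mul, mul_comm z₀⁻¹, mul_assoc, inv_mul_cancel₀ hz₀ne, mul_one]
  have huc : ∀ k : K, u (k • c) = k • c := by
    intro k
    rw [hu]
    simp only [Module.End.mul_apply, c3_sm_apply]
    rw [smul_smul, ha, smul_smul, ← e1, mul_comm z₀⁻¹ k, mul_assoc, inv_mul_cancel₀ hz₀ne, mul_one,
      ← ha, hw'w]
  obtain ⟨δ, hδ⟩ : ∃ δ : V →ₗ[F] K, δ = (χc.restrictScalars F).comp (u - 1) := ⟨_, rfl⟩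
  have hD : ∀ v, (u - 1) v = δ v • c := by
    intro v
    have hχ0 : χ ((u - 1) v) = 0 := by simp [huχ]
    obtain ⟨k, hk⟩ := hker _ hχ0
    rw [hδ]; simp only [LinearMap.comp_apply, LinearMap.restrictScalars_apply]
    rw [hk, map_smul, hχcc, smul_eq_mul, mul_one]
  have hu' : u = 1 + c3_op δ c := by
    ext v
    have := hD v
    simp only [LinearMap.sub_apply, Module.End.one_apply] at this
    simp [← this]
  have hδc : ∀ k : K, δ (k • c) = 0 := by
    intro k; rw [hδ]; simp [huc]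
  have hGδ : c3_G P c δ := ⟨hδc, by rw [← hu']; exact hPu⟩
  have hδlin := hlin δ hGδ
  have hulin : ∀ (k : K) (v : V), u (k • v) = k • u v := by
    intro k v
    rw [hu']; simp [hδlin, smul_add, mul_smul]
  have hcomm : u * c3_sm F z₀ = c3_sm F z₀ * u := by
    ext v; simp [Module.End.mul_apply, hulin]
  have hE2 : c3_op δ c * c3_op δ c = 0 := c3_op_mul_zero _ _ _ _ hδc
  have h2F : (2 : F) = 0 := by
    have := FiniteField.cast_card_eq_zero F
    rw [hF] at this; exact_mod_cast this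
  have hu2 : u * u = 1 := by
    rw [hu']
    have : (1 + c3_op δ c) * (1 + c3_op δ c) =
        1 + (2 : F) • c3_op δ c + c3_op δ c * c3_op δ c := by
      rw [two_smul]; noncomm_ring
    rw [this, hE2, h2F, zero_smul]; simp
  have huz : u * c3_sm F z₀ = w' * c3_sm F ω * w := by
    rw [hu, mul_assoc _ (c3_sm F z₀⁻¹), c3_sm_mul, inv_mul_cancel₀ hz₀ne, c3_sm_one, mul_one]
  have hcube : (u * c3_sm F z₀) * (u * c3_sm F z₀) * (u * c3_sm F z₀) = 1 := by
    rw [huz]
    calc w' * c3_sm F ω * w * (w' * c3_sm F ω * w) * (w' * c3_sm F ω * w)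
        = w' * c3_sm F ω * (w * w') * c3_sm F ω * (w * w') * c3_sm F ω * w := by noncomm_ring
      _ = w' * (c3_sm F ω * c3_sm F ω * c3_sm F ω) * w := by rw [h1]; noncomm_ring
      _ = 1 := by rw [c3_sm_mul, c3_sm_mul, hω3, c3_sm_one, mul_one, h2]
  have hu1 : u = 1 := by
    have e : (u * c3_sm F z₀) * (u * c3_sm F z₀) * (u * c3_sm F z₀) =
        (u * u) * u * (c3_sm F z₀ * c3_sm F z₀ * c3_sm F z₀) := by
      calc (u * c3_sm F z₀) * (u * c3_sm F z₀) * (u * c3_sm F z₀)
          = u * (c3_sm F z₀ * u) * (c3_sm F z₀ * u) * c3_sm F z₀ := by noncomm_ring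
        _ = u * (u * c3_sm F z₀) * (u * c3_sm F z₀) * c3_sm F z₀ := by rw [hcomm]
        _ = u * u * (c3_sm F z₀ * u) * c3_sm F z₀ * c3_sm F z₀ := by noncomm_ring
        _ = u * u * (u * c3_sm F z₀) * c3_sm F z₀ * c3_sm F z₀ := by rw [hcomm]
        _ = _ := by noncomm_ring
    rw [e, hu2, one_mul, c3_sm_mul, c3_sm_mul, hz3, c3_sm_one, mul_one] at hcube
    exact hcube
  have hsemi : ∀ v, w (z₀ • v) = ω • w v := by
    intro v
    have e : w' * c3_sm F ω * w = c3_sm F z₀ := by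
      rw [← huz, hu1, one_mul]
    have := congrArg (fun T : Module.End F V => w (T v)) e
    simp only [Module.End.mul_apply, c3_sm_apply, hww'] at this
    exact this.symm
  have hz₀F : ∀ s : F, z₀ ≠ s • (1 : K) := by
    intro s hs
    have := hsemi y
    rw [hs, smul_assoc, one_smul, map_smul] at this
    have h3 : (ω - s • (1 : K)) • w y = 0 := by
      rw [sub_smul, smul_assoc, one_smul, this, sub_self]
    rcases smul_eq_zero.mp h3 with h | h
    · exact hω s (sub_eq_zero.mp h)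
    · exact hy0 (hwinj (by rw [h, map_zero]))
  obtain ⟨lamZ, -, -, hdecZ⟩ := c3_F_decomp hK z₀ hz₀F
  refine ⟨⟨w', h1, h2⟩, fun k => ?_⟩
  obtain ⟨s, hs⟩ := hdecZ k
  refine ⟨s • 1 + lamZ k • ω, fun v => ?_⟩
  conv_lhs => rw [hs]
  rw [add_smul, map_add, smul_assoc, one_smul, map_smul, smul_assoc, map_smul, hsemi, add_smul,
    smul_assoc, one_smul, smul_assoc]

theorem c3_exists_lin_map (c d : V) (hc : c ≠ 0) (hd : d ≠ 0) :
    ∃ n n' : Module.End F V, n * n' = 1 ∧ n' * n = 1 ∧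
      (∀ (k : K) (v : V), n (k • v) = k • n v) ∧ n d = c := by
  by_cases hcd : ∃ k : K, c = k • d
  · obtain ⟨k, hk⟩ := hcd
    have hk0 : k ≠ 0 := by
      rintro rfl
      rw [zero_smul] at hk
      exact hc hk
    refine ⟨c3_sm F k, c3_sm F k⁻¹, by rw [c3_sm_mul, mul_inv_cancel₀ hk0, c3_sm_one],
      by rw [c3_sm_mul, inv_mul_cancel₀ hk0, c3_sm_one], fun k' v => by simp [smul_smul, mul_comm],
      by simp [hk]⟩
  · push Not at hcd
    have hcd' : ∀ k : K, d ≠ k • c := by
      intro k hk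
      have hk0 : k ≠ 0 := by
        rintro rfl
        rw [zero_smul] at hk
        exact hd hk
      apply hcd k⁻¹
      rw [hk, smul_smul, inv_mul_cancel₀ hk0, one_smul]
    obtain ⟨χ1, h11, h12⟩ := c3_exists_dual (K := K) d c hcd
    obtain ⟨χ2, h21, h22⟩ := c3_exists_dual (K := K) c d hcd'
    obtain ⟨χ₃, h3c, h3d⟩ : ∃ χ₃ : V →ₗ[K] K, χ₃ c = 1 ∧ χ₃ d = 1 :=
      ⟨χ1 + χ2, by simp [h12, h21], by simp [h11, h22]⟩
    have h3 : χ₃ (c - d) = 0 := by rw [map_sub, h3d, h3c, sub_self]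
    have hEE : c3_op (χ₃.restrictScalars F) (c - d) * c3_op (χ₃.restrictScalars F) (c - d) = 0 :=
      c3_op_mul_zero _ _ _ _ (fun k => by simp [h3])
    refine ⟨1 + c3_op (χ₃.restrictScalars F) (c - d), 1 - c3_op (χ₃.restrictScalars F) (c - d),
      c3_unip_mul _ hEE, c3_unip_mul' _ hEE, fun k v => by simp [smul_add, smul_smul],
      by simp [h3d]⟩

theorem c3_422_case1 [Fintype F] [Finite K] (hF : Fintype.card F = 2) (hK : finrank F K = 2)
    (hV : finrank K V = 2) (hP : C3P P) (hN : ∀ f : Module.End F V, c3_N K f → P f)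
    (w w' : Module.End F V) (hw : P w) (h1 : w * w' = 1) (h2 : w' * w = 1) (hnN : ¬ c3_N K w)
    (c : V) (hc : c ≠ 0) (hwc : ∀ k : K, ∃ k' : K, w (k • c) = k' • w c) :
    ∀ (a : V) (φ : V →ₗ[F] F), φ a = 0 → P (1 + c3_tv φ a) := by
  have hm : 2 ≤ finrank K V := by omega
  have h2K : 2 ≤ finrank F K := by omega
  have hN' : ∀ f : Module.End F V, c3_N K f → LinearMap.det f = 1 → P f := fun f hf _ => hN f hf
  have hwinj := c3_inj_of_left_inv w w' h2
  have hd : w c ≠ 0 := fun h0 => hc (hwinj (by rw [h0, map_zero]))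
  obtain ⟨n, n', hn1, hn2, hnlin, hnd⟩ := c3_exists_lin_map (F := F) (K := K) c (w c) hc hd
  have hnN' : c3_N K n := c3_N_of_lin n n' hn1 hn2 hnlin
  have hn'N : c3_N K n' := by
    refine c3_N_of_lin n' n hn2 hn1 (fun k v => ?_)
    have hninj := c3_inj_of_left_inv n n' hn2
    apply hninj
    rw [hnlin, ← Module.End.mul_apply, ← Module.End.mul_apply, hn1]; simp
  have hw₁ : P (n * w) := hP.mul _ _ (hN n hnN') hw
  have h11 : (n * w) * (w' * n') = 1 := by
    calc (n * w) * (w' * n') = n * (w * w') * n' := by noncomm_ring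
      _ = 1 := by rw [h1, mul_one, hn1]
  have h12 : (w' * n') * (n * w) = 1 := by
    calc (w' * n') * (n * w) = w' * (n' * n) * w := by noncomm_ring
      _ = 1 := by rw [hn2, mul_one, h2]
  have hw₁c : ∀ k : K, ∃ k' : K, (n * w) (k • c) = k' • c := by
    intro k
    obtain ⟨k', hk'⟩ := hwc k
    exact ⟨k', by rw [Module.End.mul_apply, hk', hnlin, hnd]⟩
  have hw₁N : ¬ c3_N K (n * w) := by
    intro h
    apply hnN
    have : w = n' * (n * w) := by rw [← mul_assoc, hn2, one_mul]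
    rw [this]; exact c3_N_mul hn'N h
  have hex : ¬ ∀ γ : V →ₗ[F] K, c3_G P c γ → ∀ (k : K) (v : V), γ (k • v) = k * γ v :=
    fun hlin => hw₁N (c3_422_stab hF hK hV hP hN c hc hlin (n * w) (w' * n') hw₁ h11 h12 hw₁c)
  push Not at hex
  obtain ⟨γ, hγ, hγnl⟩ := hex
  obtain ⟨μ, j₀, hμ, hj₀, hG⟩ := c3_HT_of_nonlin hK hV hP hN' c hc γ hγ (by push Not; exact hγnl)
  exact c3_main_of_HT h2K hm hP hN' c hc μ j₀ hμ hj₀ hG

end C3F

end Cfsg.Agent.Helper98
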