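import Mathlib
import Cfsg.Agent.Helper98.C3F

set_option autoImplicit false
set_option linter.unusedSectionVars false
set_option linter.unusedVariables false
set_option linter.unusedSimpArgs false
set_option linter.style.haveILetI false

namespace Cfsg.Agent.Helper98

open Module

section C3H
variable {F K V : Type*} [Field F] [Field K] [Algebra F K] [AddCommGroup V] [Module F V]
  [Module K V] [IsScalarTower F K V] {P : Module.End F V → Prop}

theorem c3_422_case2' [Fintype F] [Finite K] (hF : Fintype.card F = 2) (hK : finrank F K = 2)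
    (hV : finrank K V = 2) (hP : C3P P)
    (hN : ∀ f : Module.End F V, c3_N K f → P f)
    (H2 : ∀ (w w' : Module.End F V), P w → w * w' = 1 → w' * w = 1 → ∀ c : V, c ≠ 0 →
      (∀ k : K, ∃ k' : K, w (k • c) = k' • w c) → c3_N K w)
    (g g' : Module.End F V) (hg : P g) (h1 : g * g' = 1) (h2 : g' * g = 1) : c3_N K g := by
  by_contra hnN
  have hm : 2 ≤ finrank K V := by omega
  have h2K : 2 ≤ finrank F K := by omega
  have h2F : (2 : F) = 0 := by
    have := FiniteField.cast_card_eq_zero F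
    rw [hF] at this; exact_mod_cast this
  have hVV : ∀ v : V, v + v = 0 := by
    intro v
    have : (2 : F) • v = 0 := by rw [h2F, zero_smul]
    rwa [two_smul] at this
  have hKK : ∀ k : K, k + k = 0 := by
    intro k
    have : (2 : F) • k = 0 := by rw [h2F, zero_smul]
    rwa [two_smul] at this
  have hs2 : ∀ s : F, s * s = s := by
    intro s
    have := FiniteField.pow_card s
    rw [hF] at this
    rw [← sq]; exact this
  have hk4 : ∀ k : K, (k * k) * (k * k) = k := by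
    intro k
    letI := Fintype.ofFinite K
    have h4 : Fintype.card K = 4 := by
      rw [Module.card_eq_pow_finrank (K := F) (V := K), hF, hK]; norm_num
    have := FiniteField.pow_card k
    rw [h4] at this
    calc (k * k) * (k * k) = k ^ 4 := by ring
      _ = k := this
  have hsq_add : ∀ a b : K, (a + b) * (a + b) = a * a + b * b := by
    intro a b
    have : (a + b) * (a + b) = a * a + b * b + (a * b + a * b) := by ring
    rw [this, hKK, add_zero]
  obtain ⟨ω, hω⟩ := c3_exists_notMem (K := F) (V := K) h2K (1 : K)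
  have hω0 : ω ≠ 0 := by simpa using hω 0
  have hω1 : ω ≠ 1 := by simpa using hω 1
  have hω3 := c3_cube_one hF hK ω hω0
  have hω2 : ω * ω = 1 + ω := by
    have h0 : (ω - 1) * (ω * ω + ω + 1) = 0 := by
      have : (ω - 1) * (ω * ω + ω + 1) = ω * ω * ω - 1 := by ring
      rw [this, hω3, sub_self]
    rcases mul_eq_zero.mp h0 with h | h
    · exact absurd (sub_eq_zero.mp h) hω1
    · have e : ω * ω + (1 + ω) = 0 := by rw [← h]; ring
      have e2 : ω * ω = -(1 + ω) := eq_neg_of_add_eq_zero_left e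
      rw [e2]
      exact neg_eq_of_add_eq_zero_left (hKK _)
  obtain ⟨lamF, hlam1, hlamω, hdec⟩ := c3_F_decomp hK ω hω
  have hginj := c3_inj_of_left_inv g g' h2
  have hg'inj := c3_inj_of_left_inv g' g h1
  have hg'g : ∀ v, g' (g v) = v := fun v => by rw [← Module.End.mul_apply, h2]; simp
  have hgg' : ∀ v, g (g' v) = v := fun v => by rw [← Module.End.mul_apply, h1]; simp
  have hline : ∀ (T : Module.End F V) (c d d' : V), T c = d → T (ω • c) = d' → ∀ k : K,
      ∃ s t : F, k = s • (1 : K) + t • ω ∧ T (k • c) = s • d + t • d' := by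
    intro T c d d' hd hd' k
    obtain ⟨s, hs⟩ := hdec k
    refine ⟨s, lamF k, hs, ?_⟩
    conv_lhs => rw [hs]
    rw [add_smul, map_add, smul_assoc, one_smul, map_smul, smul_assoc, map_smul, hd, hd']
  have hklin : ∀ T : Module.End F V, (∀ v, T (ω • v) = ω • T v) →
      ∀ (k : K) (v : V), T (k • v) = k • T v := by
    intro T hT k v
    obtain ⟨s, t, hst, hTk⟩ := hline T v (T v) (ω • T v) rfl (hT v) k
    rw [hTk]
    conv_rhs => rw [hst]
    rw [add_smul, smul_assoc, one_smul, smul_assoc]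
  obtain ⟨c, hc⟩ : ∃ c : V, c ≠ 0 := by
    obtain ⟨c, hc⟩ := c3_exists_notMem (K := K) hm (0 : V)
    exact ⟨c, by simpa using hc 0⟩
  obtain ⟨x, hx⟩ : ∃ x, x = g c := ⟨_, rfl⟩
  obtain ⟨y, hy⟩ : ∃ y, y = g (ω • c) := ⟨_, rfl⟩
  have hx0 : x ≠ 0 := by
    rw [hx]; exact fun h0 => hc (hginj (by rw [h0, map_zero]))
  have hxy : ∀ k : K, y ≠ k • x := by
    intro k hk
    apply hnN
    apply H2 g g' hg h1 h2 c hc
    intro k₁
    obtain ⟨s, t, hst, hT⟩ := hline g c x y hx.symm hy.symm k₁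
    refine ⟨s • 1 + t • k, ?_⟩
    rw [hT, hk, ← hx, add_smul, smul_assoc, one_smul, smul_assoc]
  have hyx : ∀ k : K, x ≠ k • y := by
    intro k hk
    have hk0 : k ≠ 0 := by
      rintro rfl
      rw [zero_smul] at hk
      exact hx0 hk
    apply hxy k⁻¹
    rw [hk, smul_smul, inv_mul_cancel₀ hk0, one_smul]
  obtain ⟨χy, hχyx, hχyy⟩ := c3_exists_dual (K := K) x y hxy
  obtain ⟨χx, hχxy, hχxx⟩ := c3_exists_dual (K := K) y x hyx
  have hkerY := c3_ker_eq hV χy x y hx0 hχyx hχyy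
  have hdecV : ∀ v, v = χx v • x + χy v • y := by
    intro v
    obtain ⟨k, hk⟩ := hkerY (v - χy v • y) (by simp [hχyy])
    have hkx : χx v = k := by
      have := congrArg χx hk
      simpa [hχxy, hχxx] using this
    rw [hkx, ← hk]; abel
  -- σ
  obtain ⟨σ, hσdef⟩ : ∃ σ : Module.End F V, σ = ((LinearMap.toSpanSingleton K V y).comp χx +
      (LinearMap.toSpanSingleton K V (x + y)).comp χy).restrictScalars F := ⟨_, rfl⟩
  have hσv : ∀ v, σ v = χx v • y + χy v • (x + y) := by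
    intro v; rw [hσdef]; simp
  have hσlin : ∀ (k : K) (v : V), σ (k • v) = k • σ v := by
    intro k v
    rw [hσdef, LinearMap.restrictScalars_apply, LinearMap.restrictScalars_apply, map_smul]
  have hσx : σ x = y := by rw [hσv]; simp [hχxx, hχyx]
  have hσy : σ y = x + y := by rw [hσv]; simp [hχxy, hχyy]
  have hσ3 : ∀ v, σ (σ (σ v)) = v := by
    intro v
    have h3x : σ (σ (σ x)) = x := by
      rw [hσx, hσy, map_add, hσx, hσy]
      have e : y + (x + y) = (y + y) + x := by abel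
      rw [e, hVV, zero_add]
    have h3y : σ (σ (σ y)) = y := by
      rw [hσy, map_add, hσx, hσy, map_add, map_add, hσx, hσy]
      have e : x + y + (y + (x + y)) = (x + x) + (y + y) + y := by abel
      rw [e, hVV, hVV, zero_add, zero_add]
    conv_lhs => rw [hdecV v]
    simp only [map_add, hσlin, h3x, h3y]
    exact (hdecV v).symm
  have hσσ1 : σ * (σ * σ) = 1 := by
    ext v; simp [Module.End.mul_apply, hσ3]
  have hσσ2 : (σ * σ) * σ = 1 := by
    ext v; simp [Module.End.mul_apply, hσ3]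
  have hσN : c3_N K σ := c3_N_of_lin σ (σ * σ) hσσ1 hσσ2 hσlin
  -- φ
  let frobK : K →ₗ[F] K :=
    { toFun := fun k => k * k
      map_add' := fun a b => hsq_add a b
      map_smul' := fun s a => by
        rw [RingHom.id_apply, smul_mul_smul_comm, hs2] }
  obtain ⟨φ, hφdef⟩ : ∃ φ : Module.End F V, φ =
      ((LinearMap.toSpanSingleton K V x).restrictScalars F).comp (frobK.comp (χx.restrictScalars F)) +
      ((LinearMap.toSpanSingleton K V y).restrictScalars F).comp (frobK.comp (χy.restrictScalars F)) :=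
    ⟨_, rfl⟩
  have hφv : ∀ v, φ v = (χx v * χx v) • x + (χy v * χy v) • y := by
    intro v; rw [hφdef]; rfl
  have hχxφ : ∀ v, χx (φ v) = χx v * χx v := by
    intro v; rw [hφv]; simp [hχxx, hχxy]
  have hχyφ : ∀ v, χy (φ v) = χy v * χy v := by
    intro v; rw [hφv]; simp [hχyx, hχyy]
  have hφx : φ x = x := by rw [hφv]; simp [hχxx, hχyx]
  have hφy : φ y = y := by rw [hφv]; simp [hχxy, hχyy]
  have hφsemi : ∀ (k : K) (v : V), φ (k • v) = (k * k) • φ v := by
    intro k v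
    rw [hφv, hφv, map_smul, map_smul, smul_eq_mul, smul_eq_mul, smul_add, smul_smul, smul_smul]
    congr 2 <;> ring
  have hφφ : ∀ v, φ (φ v) = v := by
    intro v
    rw [hφv (φ v), hχxφ, hχyφ, hk4, hk4]
    exact (hdecV v).symm
  have hφφ1 : φ * φ = 1 := by
    ext v; simp [Module.End.mul_apply, hφφ]
  have hφN : c3_N K φ := ⟨⟨φ, hφφ1, hφφ1⟩, fun k => ⟨k * k, hφsemi k⟩⟩
  have hχxσ : ∀ v, χx (σ v) = χy v := by
    intro v; rw [hσv]; simp [hχxx, hχxy]
  have hχyσ : ∀ v, χy (σ v) = χx v + χy v := by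
    intro v; rw [hσv]; simp [hχyx, hχyy]
  have hσφ : ∀ v, σ (φ v) = φ (σ v) := by
    intro v
    rw [hσv (φ v), hχxφ, hχyφ, hφv (σ v), hχxσ, hχyσ, hsq_add, smul_add, add_smul]
    abel
  -- conjugates
  obtain ⟨σ', hσ'def⟩ : ∃ σ' : Module.End F V, σ' = g' * σ * g := ⟨_, rfl⟩
  obtain ⟨φ', hφ'def⟩ : ∃ φ' : Module.End F V, φ' = g' * φ * g := ⟨_, rfl⟩
  have hσ'v : ∀ v, σ' v = g' (σ (g v)) := by intro v; rw [hσ'def]; rfl
  have hφ'v : ∀ v, φ' v = g' (φ (g v)) := by intro v; rw [hφ'def]; rfl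
  have hPg' : P g' := hP.inv g g' hg h1 h2
  have hPσ' : P σ' := by
    rw [hσ'def]; exact hP.mul _ _ (hP.mul _ _ hPg' (hN σ hσN)) hg
  have hPφ' : P φ' := by
    rw [hφ'def]; exact hP.mul _ _ (hP.mul _ _ hPg' (hN φ hφN)) hg
  have hφ'φ' : φ' * φ' = 1 := by
    ext v
    simp only [Module.End.mul_apply, hφ'v, hgg', hφφ, hg'g, Module.End.one_apply]
  have hσ'3 : ∀ v, σ' (σ' (σ' v)) = v := by
    intro v
    simp only [hσ'v, hgg', hσ3, hg'g]
  have hσ'1 : σ' * (σ' * σ') = 1 := by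
    ext v; simp [Module.End.mul_apply, hσ'3]
  have hσ'2 : (σ' * σ') * σ' = 1 := by
    ext v; simp [Module.End.mul_apply, hσ'3]
  have hφ'c : φ' c = c := by rw [hφ'v, ← hx, hφx, hx, hg'g]
  have hφ'ωc : φ' (ω • c) = ω • c := by rw [hφ'v, ← hy, hφy, hy, hg'g]
  have hσ'c : σ' c = ω • c := by rw [hσ'v, ← hx, hσx, hy, hg'g]
  have hσ'ωc : σ' (ω • c) = (1 + ω) • c := by
    rw [hσ'v, ← hy, hσy, map_add, hx, hy, hg'g, hg'g, add_smul, one_smul]
  have hφ'N : c3_N K φ' := by
    apply H2 φ' φ' hPφ' hφ'φ' hφ'φ' c hc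
    intro k
    obtain ⟨s, t, hst, hT⟩ := hline φ' c c (ω • c) hφ'c hφ'ωc k
    refine ⟨k, ?_⟩
    rw [hT, hφ'c]
    conv_rhs => rw [hst]
    rw [add_smul, smul_assoc, one_smul, smul_assoc]
  have hσ'N : c3_N K σ' := by
    apply H2 σ' (σ' * σ') hPσ' hσ'1 hσ'2 c hc
    intro k
    obtain ⟨s, t, hst, hT⟩ := hline σ' c (ω • c) ((1 + ω) • c) hσ'c hσ'ωc k
    refine ⟨(s • ω + t • (1 + ω)) * ω⁻¹, ?_⟩
    rw [hT, hσ'c, smul_smul, mul_assoc, inv_mul_cancel₀ hω0, mul_one,
      add_smul (s • ω) (t • (1 + ω)) c, smul_assoc, smul_assoc]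
  -- K-linearity of φ' and σ'
  have hφ'lin : ∀ (k : K) (v : V), φ' (k • v) = k • φ' v := by
    apply hklin
    obtain ⟨-, hs⟩ := hφ'N
    obtain ⟨k', hk'⟩ := hs ω
    have hk'ω : k' = ω := by
      have := hk' c
      rw [hφ'ωc, hφ'c] at this
      have e3 : (ω - k') • c = 0 := by rw [sub_smul, this, sub_self]
      rcases smul_eq_zero.mp e3 with h0 | h0
      · exact (sub_eq_zero.mp h0).symm
      · exact absurd h0 hc
    rw [hk'ω] at hk'
    exact hk'
  have hσ'lin : ∀ (k : K) (v : V), σ' (k • v) = k • σ' v := by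
    apply hklin
    obtain ⟨-, hs⟩ := hσ'N
    obtain ⟨k', hk'⟩ := hs ω
    have hk'ω : k' = ω := by
      have := hk' c
      rw [hσ'ωc, hσ'c, smul_smul, ← hω2] at this
      have e3 : (ω * ω - k' * ω) • c = 0 := by rw [sub_smul, this, sub_self]
      rcases smul_eq_zero.mp e3 with h0 | h0
      · have : ω * ω = k' * ω := sub_eq_zero.mp h0
        exact (mul_right_cancel₀ hω0 this).symm
      · exact absurd h0 hc
    rw [hk'ω] at hk'
    exact hk'
  -- D = φ' - 1
  have hDlin : ∀ (k : K) (v : V), (φ' - 1) (k • v) = k • (φ' - 1) v := by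
    intro k v
    simp [hφ'lin, smul_sub]
  have hDc : (φ' - 1) c = 0 := by simp [hφ'c]
  have hφ'φ'v : ∀ v, φ' (φ' v) = v := by
    intro v; rw [← Module.End.mul_apply, hφ'φ']; simp
  have hDD : ∀ v, (φ' - 1) ((φ' - 1) v) = 0 := by
    intro v
    simp only [LinearMap.sub_apply, Module.End.one_apply, map_sub, hφ'φ'v]
    have e : v - φ' v - (φ' v - v) = (v + v) - (φ' v + φ' v) := by abel
    rw [e, hVV, hVV, sub_zero]
  have hDne : ∃ v, (φ' - 1) v ≠ 0 := by
    refine ⟨g' (ω • x), ?_⟩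
    simp only [LinearMap.sub_apply, Module.End.one_apply, hφ'v, hgg']
    rw [hφsemi, hφx]
    intro h0
    have h3 := hg'inj (sub_eq_zero.mp h0)
    have e3 : (ω * ω - ω) • x = 0 := by rw [sub_smul, h3, sub_self]
    rcases smul_eq_zero.mp e3 with h4 | h4
    · rw [hω2] at h4
      simp at h4
    · exact hx0 h4
  obtain ⟨y₂, hy₂⟩ := c3_exists_notMem hm c
  obtain ⟨χ₂, hχ₂c, hχ₂y⟩ := c3_exists_dual (K := K) c y₂ hy₂
  have hker₂ := c3_ker_eq hV χ₂ c y₂ hc hχ₂c hχ₂y
  have hDv : ∀ v, (φ' - 1) v = χ₂ v • (φ' - 1) y₂ := by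
    intro v
    obtain ⟨k, hk⟩ := hker₂ (v - χ₂ v • y₂) (by simp [hχ₂y])
    have e : v = k • c + χ₂ v • y₂ := by rw [← hk]; abel
    conv_lhs => rw [e]
    rw [map_add, hDlin, hDc, smul_zero, zero_add, hDlin]
  have hd0 : (φ' - 1) y₂ ≠ 0 := by
    intro h0
    obtain ⟨v, hv⟩ := hDne
    apply hv
    rw [hDv, h0, smul_zero]
  obtain ⟨kd, hkd⟩ : ∃ kd : K, (φ' - 1) y₂ = kd • c := by
    apply hker₂
    have := hDD y₂
    rw [hDv ((φ' - 1) y₂)] at this
    rcases smul_eq_zero.mp this with h | h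
    · exact h
    · exact absurd h hd0
  have hkd0 : kd ≠ 0 := by
    rintro rfl
    rw [zero_smul] at hkd
    exact hd0 hkd
  have hσ'φ' : ∀ v, σ' (φ' v) = φ' (σ' v) := by
    intro v
    simp only [hσ'v, hφ'v, hgg', hσφ]
  have hχ₂σ' : ∀ v, χ₂ (σ' v) = ω * χ₂ v := by
    intro v
    have e1 : σ' ((φ' - 1) v) = (φ' - 1) (σ' v) := by
      simp only [LinearMap.sub_apply, Module.End.one_apply, map_sub, hσ'φ']
    rw [hDv v, hDv (σ' v), hkd, hσ'lin, hσ'lin, hσ'c, smul_smul, smul_smul, smul_smul] at e1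
    have e3 : (χ₂ v * kd * ω - χ₂ (σ' v) * kd) • c = 0 := by rw [sub_smul, e1, sub_self]
    rcases smul_eq_zero.mp e3 with h0 | h0
    · have h5 : χ₂ (σ' v) * kd = (ω * χ₂ v) * kd := by
        rw [← sub_eq_zero.mp h0]; ring
      exact mul_right_cancel₀ hkd0 h5
    · exact absurd h0 hc
  have hσ'ω : ∀ v, σ' v = ω • v := by
    intro v
    obtain ⟨k, hk⟩ := hker₂ (σ' v - ω • v) (by simp [hχ₂σ'])
    have e : σ' v = ω • v + k • c := by rw [← hk]; abel
    have e2 : σ' (σ' v) = (ω * ω) • v := by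
      rw [e, map_add, hσ'lin, hσ'lin, hσ'c, e, smul_add, smul_smul, smul_smul, smul_smul, add_assoc,
        ← add_smul, mul_comm k ω, hKK, zero_smul, add_zero]
    have e3 : σ' (σ' (σ' v)) = v + (ω * ω * k) • c := by
      rw [e2, hσ'lin, e, smul_add, smul_smul, smul_smul, hω3, one_smul]
    rw [hσ'3] at e3
    have e4 : (ω * ω * k) • c = 0 := by
      have := e3.symm
      rwa [add_eq_left] at this
    rcases smul_eq_zero.mp e4 with h0 | h0
    · have hk0 : k = 0 := by
        rcases mul_eq_zero.mp h0 with h5 | h5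
        · exact absurd (mul_self_eq_zero.mp h5) hω0
        · exact h5
      rw [e, hk0, zero_smul, add_zero]
    · exact absurd h0 hc
  have hσg : ∀ v, σ (g v) = g (ω • v) := by
    intro v
    rw [← hσ'ω v, hσ'v, hgg']
  have hσe₁ : σ (x + ω • y) = ω • (x + ω • y) := by
    rw [map_add, hσlin, hσx, hσy, smul_add, smul_add, smul_smul, hω2, add_smul, one_smul]
    abel
  have he₁ : x + ω • y ≠ 0 := by
    intro h0
    have := congrArg χx h0
    simp [hχxx, hχxy] at this
  have hv₁ : g' (x + ω • y) ≠ 0 := by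
    intro h0
    apply he₁
    have := congrArg g h0
    rwa [hgg', map_zero] at this
  apply hnN
  apply H2 g g' hg h1 h2 (g' (x + ω • y)) hv₁
  intro k
  have hgω : g (ω • g' (x + ω • y)) = ω • g (g' (x + ω • y)) := by
    rw [← hσg, hgg', hσe₁]
  obtain ⟨s, t, hst, hT⟩ := hline g (g' (x + ω • y)) (g (g' (x + ω • y)))
    (ω • g (g' (x + ω • y))) rfl hgω k
  refine ⟨k, ?_⟩
  rw [hT]
  conv_rhs => rw [hst]
  rw [add_smul, smul_assoc, one_smul, smul_assoc]

/-- the exceptional case `ΓL₂(4) < GL₄(2)` -/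
theorem c3_case422' [Fintype F] [Finite K] (hF : Fintype.card F = 2) (hK : finrank F K = 2)
    (hV : finrank K V = 2) (hP : C3P P)
    (hN : ∀ f : Module.End F V, c3_N K f → P f)
    (f₀ g₀ : Module.End F V) (hf₀ : P f₀) (h1 : f₀ * g₀ = 1) (h2 : g₀ * f₀ = 1)
    (hnN : ¬ c3_N K f₀) :
    ∀ (a : V) (φ : V →ₗ[F] F), φ a = 0 → P (1 + c3_tv φ a) := by
  by_cases H2 : ∀ (w w' : Module.End F V), P w → w * w' = 1 → w' * w = 1 → ∀ c : V, c ≠ 0 →
      (∀ k : K, ∃ k' : K, w (k • c) = k' • w c) → c3_N K w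
  · exact absurd (c3_422_case2' hF hK hV hP hN H2 f₀ g₀ hf₀ h1 h2) hnN
  · push Not at H2
    obtain ⟨w, w', hw, hw1, hw2, c, hc, hwc, hwN⟩ := H2
    exact c3_422_case1 hF hK hV hP hN w w' hw hw1 hw2 hwN c hc hwc

end C3H

end Cfsg.Agent.Helper98
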