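import Mathlib
import Cfsg.Agent.Helper98.C3B
import Cfsg.Agent.Helper98.C3D
import Cfsg.Agent.Helper61.C3B1
import Cfsg.Agent.Helper61.C3C1
import Cfsg.Agent.Helper98.C3H

set_option autoImplicit false
set_option linter.unusedSectionVars false
set_option linter.unusedVariables false
set_option linter.unusedSimpArgs false
set_option linter.style.haveILetI false

namespace Cfsg.Agent.Helper98

open Module

section C3E
variable {F K V : Type*} [Field F] [Field K] [Algebra F K] [AddCommGroup V] [Module F V]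
  [Module K V] [IsScalarTower F K V] {P : Module.End F V → Prop}

theorem c3_B_props [Finite F] (hP : C3P P)
    (hN : ∀ f : Module.End F V, c3_N K f → LinearMap.det f = 1 → P f)
    (f g : Module.End F V) (c₀ : V) (χ₀ : V →ₗ[K] K) (hPf : P f) (h1 : f * g = 1) (h2 : g * f = 1)
    (hχ : χ₀ c₀ = 0) :
    (f * c3_op (χ₀.restrictScalars F) c₀ * g) * (f * c3_op (χ₀.restrictScalars F) c₀ * g) = 0 ∧
      ∀ s : F, P (1 + s • (f * c3_op (χ₀.restrictScalars F) c₀ * g)) := by
  have hEE : c3_op (χ₀.restrictScalars F) c₀ * c3_op (χ₀.restrictScalars F) c₀ = 0 :=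
    c3_op_mul_zero _ _ _ _ (fun k => by simp [hχ])
  constructor
  · calc (f * c3_op (χ₀.restrictScalars F) c₀ * g) * (f * c3_op (χ₀.restrictScalars F) c₀ * g)
        = f * c3_op (χ₀.restrictScalars F) c₀ * (g * f) * c3_op (χ₀.restrictScalars F) c₀ * g := by
          noncomm_ring
      _ = 0 := by rw [h2, mul_one, mul_assoc f _ _, hEE, mul_zero, zero_mul]
  · intro s
    have hs : s • c3_op (χ₀.restrictScalars F) c₀ =
        c3_op (((algebraMap F K s) • χ₀).restrictScalars F) c₀ := by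
      ext v
      simp [mul_smul]
    have hPs : P (1 + s • c3_op (χ₀.restrictScalars F) c₀) := by
      rw [hs]; exact c3_ktv_P hN _ c₀ (by simp [hχ])
    have : 1 + s • (f * c3_op (χ₀.restrictScalars F) c₀ * g) =
        f * (1 + s • c3_op (χ₀.restrictScalars F) c₀) * g := by
      rw [mul_add, add_mul, mul_one, h1, mul_smul_comm, smul_mul_assoc]
    rw [this]
    exact hP.mul _ _ (hP.mul _ _ hPf hPs) (hP.inv f g hPf h1 h2)

theorem c3_b_exists (c : V) (hc : c ≠ 0) (B : Module.End F V) (hBB : B * B = 0)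
    (hBc : ∀ k : K, ∃ k' : K, B (k • c) = k' • c) :
    ∃ b : Module.End F K, b * b = 0 ∧ ∀ k : K, B (k • c) = b k • c := by
  obtain ⟨χc, hχc⟩ := c3_exists_dual_one (K := K) c hc
  obtain ⟨b, hbdef⟩ : ∃ b : Module.End F K, b = (χc.restrictScalars F).comp
      (B.comp ((LinearMap.toSpanSingleton K V c).restrictScalars F)) := ⟨_, rfl⟩
  have hb : ∀ k : K, B (k • c) = b k • c := by
    intro k
    obtain ⟨k', hk'⟩ := hBc k
    rw [hbdef]
    simp [hk', hχc]
  refine ⟨b, ?_, hb⟩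
  apply LinearMap.ext
  intro k
  have : b (b k) • c = 0 := by
    rw [← hb, ← hb, ← Module.End.mul_apply, hBB]; simp
  rcases smul_eq_zero.mp this with h | h
  · simpa [Module.End.mul_apply] using h
  · exact absurd h hc

theorem c3_alpha [Fintype F] [Finite K] (hr : (finrank F K).Prime) (hm : 2 ≤ finrank K V)
    (hcase : 3 ≤ finrank F K ∨ 3 ≤ Fintype.card F) (hP : C3P P)
    (hN : ∀ f : Module.End F V, c3_N K f → LinearMap.det f = 1 → P f) (c : V) (hc : c ≠ 0)
    (B : Module.End F V) (hBB : B * B = 0) (hPB : ∀ s : F, P (1 + s • B))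
    (hBc : ∀ k : K, ∃ k' : K, B (k • c) = k' • c) (hBne : ∃ k : K, B (k • c) ≠ 0) :
    ∃ (μ : V →ₗ[F] F) (j₀ : K), μ ≠ 0 ∧ j₀ ≠ 0 ∧
      c3_G P c ((LinearMap.toSpanSingleton F K j₀).comp μ) := by
  have h2 : 2 ≤ finrank F K := hr.two_le
  obtain ⟨b, hbb, hb⟩ := c3_b_exists c hc B hBB hBc
  have hbne : b ≠ 0 := by
    obtain ⟨k, hk⟩ := hBne
    intro h0
    apply hk
    rw [hb, h0]; simp
  have hW : ∀ (s : F) (k : K), (1 + s • B) (k • c) = ((1 + s • b) k) • c := by
    intro s k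
    simp [hb, add_smul, smul_assoc]
  have hW' : ∀ (s : F) (k : K), (1 - s • B) (k • c) = ((1 - s • b) k) • c := by
    intro s k
    simp [hb, sub_smul, smul_assoc]
  have hsb : ∀ s : F, (s • b) * (s • b) = 0 := by
    intro s; rw [smul_mul_smul_comm, hbb, smul_zero]
  have hsB : ∀ s : F, (s • B) * (s • B) = 0 := by
    intro s; rw [smul_mul_smul_comm, hBB, smul_zero]
  obtain ⟨s, k, hsk⟩ : ∃ (s : F) (k : K), ∀ k' : K,
      (1 - s • b) * LinearMap.mulLeft F k * (1 + s • b) ≠ LinearMap.mulLeft F k' := by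
    rcases hcase with h3 | h3
    · obtain ⟨k, hk⟩ := Cfsg.Agent.Helper61.c3_L6i hr h3 b hbb hbne
      exact ⟨1, k, by simpa using hk⟩
    · exact Cfsg.Agent.Helper61.c3_L6ii h3 b hbb hbne
  have hE := Cfsg.Agent.Helper61.c3_minrank hr
    {ε : Module.End F K | ∀ γ : V →ₗ[F] K, c3_G P c γ → c3_G P c (ε.comp γ)} ?_ ?_ ?_ ?_
    ((1 - s • b) * LinearMap.mulLeft F k * (1 + s • b)) ?_ hsk
  · obtain ⟨ρ, hρ, lam, j₀, hlam, hj₀, hρz⟩ := hE
    obtain ⟨y, hy⟩ := c3_exists_notMem hm c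
    obtain ⟨χ, hχc', hχy⟩ := c3_exists_dual (K := K) c y hy
    refine ⟨lam.comp (χ.restrictScalars F), j₀, ?_, hj₀, ?_⟩
    · intro h0
      apply hlam
      ext z
      have := LinearMap.congr_fun h0 (z • y)
      simpa [hχy] using this
    · have := hρ _ (c3_G_lin hN χ c hχc')
      have e : ρ.comp (χ.restrictScalars F) =
          (LinearMap.toSpanSingleton F K j₀).comp (lam.comp (χ.restrictScalars F)) := by
        ext v; simp [hρz]
      rw [e] at this; exact this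
  · intro a b' ha hb' γ hγ
    rw [LinearMap.add_comp]; exact c3_G_add hP c (ha γ hγ) (hb' γ hγ)
  · intro a ha γ hγ
    rw [LinearMap.neg_comp]; exact c3_G_neg hP c (ha γ hγ)
  · intro a b' ha hb' γ hγ
    rw [Module.End.mul_eq_comp, LinearMap.comp_assoc]; exact ha _ (hb' γ hγ)
  · intro k' γ hγ
    exact c3_G_smul h2 hP hN c hc hγ k'
  · intro γ hγ
    have g1 := c3_G_conj hP c hγ (1 + s • B) (1 - s • B) (hPB s) (c3_unip_mul _ (hsB s))
      (c3_unip_mul' _ (hsB s)) (1 + s • b) (1 - s • b) (hW s)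
      (fun k => by rw [← Module.End.mul_apply, c3_unip_mul _ (hsb s)]; simp)
    have g2 := c3_G_smul h2 hP hN c hc g1 k
    have hPB' : P (1 - s • B) :=
      hP.inv _ _ (hPB s) (c3_unip_mul _ (hsB s)) (c3_unip_mul' _ (hsB s))
    have g3 := c3_G_conj hP c g2 (1 - s • B) (1 + s • B) hPB' (c3_unip_mul' _ (hsB s))
      (c3_unip_mul _ (hsB s)) (1 - s • b) (1 + s • b) (hW' s)
      (fun k => by rw [← Module.End.mul_apply, c3_unip_mul' _ (hsb s)]; simp)
    have e : (1 - s • b).comp (((LinearMap.mulLeft F k).comp ((1 + s • b).comp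
        (γ.comp (1 - s • B)))).comp (1 + s • B)) =
        ((1 - s • b) * LinearMap.mulLeft F k * (1 + s • b)).comp γ := by
      ext v
      have : (1 - s • B) ((1 + s • B) v) = v := by
        rw [← Module.End.mul_apply, c3_unip_mul' _ (hsB s)]; simp
      simp only [LinearMap.comp_apply, Module.End.mul_apply, this]
    rw [e] at g3; exact g3

theorem c3_exists_dual_pair (x x' y : V) (h : y ∉ Submodule.span K {x, x'}) :
    ∃ χ : V →ₗ[K] K, χ x = 0 ∧ χ x' = 0 ∧ χ y = 1 := by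
  obtain ⟨f, hf, hf0⟩ := Submodule.exists_dual_map_eq_bot_of_notMem h inferInstance
  have hx : f x = 0 := by
    have : f x ∈ (Submodule.span K {x, x'}).map f :=
      Submodule.mem_map_of_mem (Submodule.subset_span (by simp))
    rw [hf0] at this; exact (Submodule.mem_bot K).mp this
  have hx' : f x' = 0 := by
    have : f x' ∈ (Submodule.span K {x, x'}).map f :=
      Submodule.mem_map_of_mem (Submodule.subset_span (by simp))
    rw [hf0] at this; exact (Submodule.mem_bot K).mp this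
  exact ⟨(f y)⁻¹ • f, by simp [hx], by simp [hx'], by simp [hf]⟩

theorem c3_beta [Fintype F] [Finite K] (hr2 : finrank F K = 2) (hm : 3 ≤ finrank K V)
    (hP : C3P P) (hN : ∀ f : Module.End F V, c3_N K f → LinearMap.det f = 1 → P f) (c : V)
    (hc : c ≠ 0) (f g : Module.End F V) (c₀ : V) (χ₀ : V →ₗ[K] K) (k₁ : K)
    (hPf : P f) (h1 : f * g = 1) (h2 : g * f = 1) (hχ₀ : χ₀ c₀ = 0)
    (hfc : ∃ k : K, f c₀ = k • c) (hfc0 : f c₀ ≠ 0) (hk₁ : χ₀ (g (k₁ • c)) = 1)
    (hBc : ∀ k : K, ∃ k' : K, (f * c3_op (χ₀.restrictScalars F) c₀ * g) (k • c) = k' • c)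
    (hκ : ∃ κ : K, ∀ k : K, f (κ • c₀) ≠ k • c) :
    ∃ (μ : V →ₗ[F] F) (j₀ : K), μ ≠ 0 ∧ j₀ ≠ 0 ∧
      c3_G P c ((LinearMap.toSpanSingleton F K j₀).comp μ) := by
  obtain ⟨κ, hκ⟩ := hκ
  obtain ⟨kc, hkc⟩ := hfc
  obtain ⟨hBB, hPB⟩ := c3_B_props hP hN f g c₀ χ₀ hPf h1 h2 hχ₀
  obtain ⟨B, hB⟩ : ∃ B : Module.End F V, B = f * c3_op (χ₀.restrictScalars F) c₀ * g := ⟨_, rfl⟩
  rw [← hB] at hBc hBB hPB
  have hPB1 : P (1 + B) := by simpa using hPB 1
  have hPB1' : P (1 - B) := hP.inv _ _ hPB1 (c3_unip_mul _ hBB) (c3_unip_mul' _ hBB)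
  have hκF : ∀ s : F, κ ≠ s • (1 : K) := by
    intro s hs
    apply hκ (s • kc)
    rw [hs, smul_assoc, one_smul, map_smul, hkc, smul_assoc]
  obtain ⟨lamF, hlam1, hlamκ⟩ := c3_exists_dual (K := F) (V := K) (1 : K) κ hκF
  have hker : ∀ z : K, lamF z = 0 → ∃ s : F, z = s • (1 : K) := by
    haveI : Module.Finite F K := Module.Finite.of_finite
    have hrk := LinearMap.finrank_range_add_finrank_ker lamF
    have hrange : LinearMap.range lamF = ⊤ := by
      rw [LinearMap.range_eq_top]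
      intro s
      exact ⟨s • κ, by simp [hlamκ]⟩
    rw [hrange, finrank_top, finrank_self, hr2] at hrk
    have hk1 : finrank F (LinearMap.ker lamF) = 1 := by omega
    have h1mem : (1 : K) ∈ LinearMap.ker lamF := hlam1
    have := (finrank_eq_one_iff_of_nonzero' (⟨1, h1mem⟩ : LinearMap.ker lamF)
      (by simp [Subtype.ext_iff])).mp hk1
    intro z hz
    obtain ⟨s, hs⟩ := this ⟨z, hz⟩
    exact ⟨s, by have := congrArg Subtype.val hs; simpa using this.symm⟩
  obtain ⟨y, hy⟩ : ∃ y, y = f (κ • c₀) := ⟨_, rfl⟩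
  rw [← hy] at hκ
  obtain ⟨μB, hμB⟩ : ∃ μB : V →ₗ[F] F, μB = lamF.comp ((χ₀.restrictScalars F).comp g) := ⟨_, rfl⟩
  have hBdec : ∀ v : V, ∃ s : F, B v = s • f c₀ + μB v • y := by
    intro v
    obtain ⟨s, hs⟩ := hker (χ₀ (g v) - lamF (χ₀ (g v)) • κ) (by simp [hlamκ])
    refine ⟨s, ?_⟩
    have hz : χ₀ (g v) = s • (1 : K) + lamF (χ₀ (g v)) • κ := by rw [← hs]; abel
    rw [hB, hμB, hy]
    simp only [Module.End.mul_apply, c3_op_apply, LinearMap.comp_apply,
      LinearMap.restrictScalars_apply]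
    conv_lhs => rw [hz]
    rw [add_smul, map_add, smul_assoc, one_smul, map_smul, smul_assoc, map_smul]
  have hμBc : ∀ k : K, μB (k • c) = 0 := by
    intro k
    obtain ⟨k', hk'⟩ := hBc k
    obtain ⟨s, hs⟩ := hBdec (k • c)
    by_contra hne
    apply hκ ((μB (k • c))⁻¹ • (k' - s • kc))
    have : μB (k • c) • y = (k' - s • kc) • c := by
      rw [sub_smul, smul_assoc, ← hkc, ← hk', hs]; abel
    rw [smul_assoc, ← this, smul_smul, inv_mul_cancel₀ hne, one_smul]
  have hμBne : μB ≠ 0 := by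
    intro h0
    have := LinearMap.congr_fun h0 (f (κ • g (k₁ • c)))
    rw [hμB] at this
    have hgf : g (f (κ • g (k₁ • c))) = κ • g (k₁ • c) := by
      rw [← Module.End.mul_apply, h2]; simp
    simp [hgf, hk₁, hlamκ] at this
  haveI : Module.Finite K V := Module.finite_of_finrank_pos (by omega)
  obtain ⟨c₁, hc₁⟩ : ∃ c₁ : V, c₁ ∉ Submodule.span K {c, y} := by
    by_contra hcon
    push Not at hcon
    have htop : Submodule.span K {c, y} = ⊤ := eq_top_iff.mpr (fun v _ => hcon v)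
    have h1 : finrank K (Submodule.span K ({c, y} : Set V)) ≤ 2 := by
      classical
      have h3 : finrank K (Submodule.span K ((({c, y} : Finset V)) : Set V)) ≤
          ({c, y} : Finset V).card := finrank_span_finset_le_card (R := K) ({c, y} : Finset V)
      have h4 : ({c, y} : Finset V).card ≤ 2 := Finset.card_le_two
      have h5 : ((({c, y} : Finset V) : Set V)) = {c, y} := by simp
      rw [h5] at h3
      omega
    rw [htop, finrank_top] at h1
    omega
  have hy' : y ∉ Submodule.span K {c, c₁} := by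
    intro hmem
    obtain ⟨s, t, hst⟩ := Submodule.mem_span_pair.mp hmem
    by_cases ht : t = 0
    · subst ht
      apply hκ s
      rw [← hst]; simp
    · apply hc₁
      rw [Submodule.mem_span_pair]
      refine ⟨-(t⁻¹ * s), t⁻¹, ?_⟩
      rw [← hst, smul_add, smul_smul, smul_smul, inv_mul_cancel₀ ht, one_smul, neg_smul]
      abel
  obtain ⟨χ0', h0c, h0y, h0c₁⟩ := c3_exists_dual_pair (K := K) c y c₁ hc₁
  obtain ⟨χ₁, h1c, h1c₁, h1y⟩ := c3_exists_dual_pair (K := K) c c₁ y hy'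
  obtain ⟨b, hbb, hb⟩ := c3_b_exists c hc B hBB hBc
  have hW : ∀ k : K, (1 + B) (k • c) = ((1 + b) k) • c := by
    intro k
    simp [hb, add_smul]
  have hW' : ∀ k : K, (1 - B) (k • c) = ((1 - b) k) • c := by
    intro k
    simp [hb, sub_smul]
  have hγ : c3_G P c (χ0'.restrictScalars F) := c3_G_lin hN χ0' c h0c
  obtain ⟨E₁, hE₁⟩ : ∃ E₁ : Module.End F V, E₁ = c3_op (χ₁.restrictScalars F) c₁ := ⟨_, rfl⟩
  have g1 := c3_G_conj hP c hγ (1 + B) (1 - B) hPB1 (c3_unip_mul _ hBB)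
    (c3_unip_mul' _ hBB) (1 + b) (1 - b) hW
    (fun k => by rw [← Module.End.mul_apply, c3_unip_mul _ hbb]; simp)
  have g2 := c3_G_comp_op hP hN c g1 χ₁ c₁ h1c h1c₁
  have g3 := c3_G_conj hP c g2 (1 - B) (1 + B) hPB1' (c3_unip_mul' _ hBB)
    (c3_unip_mul _ hBB) (1 - b) (1 + b) hW'
    (fun k => by rw [← Module.End.mul_apply, c3_unip_mul' _ hbb]; simp)
  have g4 := c3_G_comp_op hP hN c hγ χ₁ c₁ h1c h1c₁
  rw [← hE₁] at g2 g3 g4
  have hγB : ∀ w, χ0' (B w) = 0 := by
    intro w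
    obtain ⟨s, hs⟩ := hBdec w
    rw [hs, hkc]; simp [h0c, h0y]
  have hχ1B : ∀ w, χ₁ (B w) = μB w • (1 : K) := by
    intro w
    obtain ⟨s, hs⟩ := hBdec w
    rw [hs, hkc]; simp [h1c, h1y]
  have e : (1 - b).comp ((((1 + b).comp ((χ0'.restrictScalars F).comp (1 - B))).comp E₁).comp
      (1 + B)) - (χ0'.restrictScalars F).comp E₁ = (LinearMap.toSpanSingleton F K (1 : K)).comp μB := by
    ext v
    have hab : ∀ z, (1 - b) ((1 + b) z) = z := fun z => by
      rw [← Module.End.mul_apply, c3_unip_mul' _ hbb]; simp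
    rw [LinearMap.sub_apply]
    simp only [LinearMap.comp_apply, hab, LinearMap.restrictScalars_apply]
    simp only [LinearMap.sub_apply, LinearMap.add_apply, Module.End.one_apply, map_add, map_sub,
      hγB, sub_zero]
    rw [add_sub_cancel_left, hE₁]
    simp [hχ1B, h0c₁]
  refine ⟨μB, 1, hμBne, one_ne_zero, ?_⟩
  rw [← e]
  exact c3_G_sub hP c g3 g4

theorem c3_main [Fintype F] [Finite K] (hr : (finrank F K).Prime) (hm : 2 ≤ finrank K V)
    {P : Module.End F V → Prop} (hP : C3P P)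
    (hN : ∀ f : Module.End F V, c3_N K f → LinearMap.det f = 1 → P f)
    (hex : ∃ f₀ g₀ : Module.End F V, P f₀ ∧ f₀ * g₀ = 1 ∧ g₀ * f₀ = 1 ∧ ¬ c3_N K f₀) :
    ∀ (a : V) (φ : V →ₗ[F] F), φ a = 0 → P (1 + c3_tv φ a) := by
  obtain ⟨f₀, g₀, hf₀, h1, h2, hnN⟩ := hex
  have h2r : 2 ≤ finrank F K := hr.two_le
  obtain ⟨c, f, g, c₀, χ₀, k₁, hc, hPf, hfg, hgf, hχ₀, hfc, hfc0, hk₁, hBc, hκ⟩ :=
    c3_iter hm hP hN f₀ g₀ hf₀ h1 h2 hnN
  by_cases hcase : 3 ≤ finrank F K ∨ 3 ≤ Fintype.card F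
  · obtain ⟨hBB, hPB⟩ := c3_B_props hP hN f g c₀ χ₀ hPf hfg hgf hχ₀
    have hBk₁ : (f * c3_op (χ₀.restrictScalars F) c₀ * g) (k₁ • c) ≠ 0 := by
      have : (f * c3_op (χ₀.restrictScalars F) c₀ * g) (k₁ • c) = f c₀ := by
        simp [Module.End.mul_apply, hk₁]
      rw [this]; exact hfc0
    obtain ⟨μ, j₀, hμ, hj₀, hG⟩ := c3_alpha hr hm hcase hP hN c hc _ hBB hPB hBc ⟨k₁, hBk₁⟩
    exact c3_main_of_HT h2r hm hP hN c hc μ j₀ hμ hj₀ hG
  · push Not at hcase
    have hr2 : finrank F K = 2 := by omega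
    by_cases hm3 : 3 ≤ finrank K V
    · obtain ⟨μ, j₀, hμ, hj₀, hG⟩ := c3_beta hr2 hm3 hP hN c hc f g c₀ χ₀ k₁ hPf hfg hgf hχ₀
        hfc hfc0 hk₁ hBc hκ
      exact c3_main_of_HT h2r hm hP hN c hc μ j₀ hμ hj₀ hG
    · have hq : Fintype.card F = 2 := by
        have := Fintype.one_lt_card (α := F); omega
      have hV : finrank K V = 2 := by omega
      refine c3_case422' hq hr2 hV hP (fun f' hf' => hN f' hf' ?_) f₀ g₀ hf₀ h1
        h2 hnN
      obtain ⟨⟨g', hg1, hg2⟩, -⟩ := hf'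
      have hne : LinearMap.det f' ≠ 0 := by
        intro h0
        have : LinearMap.det f' * LinearMap.det g' = 1 := by rw [← map_mul, hg1, map_one]
        rw [h0, zero_mul] at this
        exact zero_ne_one this
      have := FiniteField.pow_card_sub_one_eq_one (LinearMap.det f') hne
      rw [hq] at this
      simpa using this

end C3E

end Cfsg.Agent.Helper98
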