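import Cfsg.Agent.Helper98.PiSimple

set_option autoImplicit false

namespace Cfsg.Agent.Helper98

/-! ### Characteristic subgroups of a power of a simple group -/

section CharPi

variable {S ι : Type*} [Group S]

/-- Permuting coordinates, as an automorphism of the power. -/
def permCoord (σ : Equiv.Perm ι) : (ι → S) ≃* (ι → S) where
  toFun f := f ∘ σ
  invFun f := f ∘ σ.symm
  left_inv f := by funext k; simp
  right_inv f := by funext k; simp
  map_mul' _ _ := rfl

theorem permCoord_mulSingle [DecidableEq ι] (σ : Equiv.Perm ι) (i : ι) (s : S) :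
    permCoord σ (Pi.mulSingle i s) = Pi.mulSingle (σ.symm i) s := by
  funext k
  show (Pi.mulSingle i s : ι → S) (σ k) = (Pi.mulSingle (σ.symm i) s : ι → S) k
  by_cases hk : σ k = i
  · subst hk
    simp
  · rw [Pi.mulSingle_eq_of_ne hk, Pi.mulSingle_eq_of_ne]
    intro h
    apply hk
    rw [h]
    simp

/-- A transvection of a power of a commutative group. -/
def transv [DecidableEq ι] (hc : ∀ a b : S, a * b = b * a) (i j : ι) (hij : i ≠ j) :
    (ι → S) ≃* (ι → S) where
  toFun f := f * Pi.mulSingle j (f i)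
  invFun f := f * Pi.mulSingle j (f i)⁻¹
  left_inv f := by
    funext k
    by_cases hk : k = j
    · subst hk
      simp [Pi.mulSingle_eq_of_ne hij]
    · simp [Pi.mulSingle_eq_of_ne hk]
  right_inv f := by
    funext k
    by_cases hk : k = j
    · subst hk
      simp [Pi.mulSingle_eq_of_ne hij]
    · simp [Pi.mulSingle_eq_of_ne hk]
  map_mul' f g := by
    funext k
    by_cases hk : k = j
    · subst hk
      simp only [Pi.mul_apply, Pi.mulSingle_eq_same]
      rw [mul_assoc, mul_assoc, ← mul_assoc (g k), hc (g k) (f i), mul_assoc]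
    · simp [Pi.mulSingle_eq_of_ne hk]

theorem transv_apply [DecidableEq ι] (hc : ∀ a b : S, a * b = b * a) (i j : ι) (hij : i ≠ j)
    (f : ι → S) : transv hc i j hij f = f * Pi.mulSingle j (f i) := rfl

/-- A subgroup of a finite power of a simple group which is invariant under all automorphisms is
trivial or everything. -/
theorem pi_char_eq_bot_or_top [Finite ι] [IsSimpleGroup S] (K : Subgroup (ι → S))
    (hK : ∀ β : (ι → S) ≃* (ι → S), ∀ f ∈ K, β f ∈ K) : K = ⊥ ∨ K = ⊤ := by
  classical
  by_cases hbot : K = ⊥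
  · exact Or.inl hbot
  right
  have hN : K.Normal := ⟨fun f hf g => hK (MulAut.conj g) f hf⟩
  obtain ⟨⟨v, hv⟩, hv1⟩ := (Subgroup.ne_bot_iff_exists_ne_one).mp hbot
  have hv1' : v ≠ 1 := fun h => hv1 (Subtype.ext h)
  obtain ⟨i, hi⟩ : ∃ i, v i ≠ 1 := by
    by_contra h
    push Not at h
    exact hv1' (funext h)
  have key : ∃ j, ∀ s, Pi.mulSingle j s ∈ K := by
    by_cases hS : IsMulCommutative S
    · have hc : ∀ a b : S, a * b = b * a := fun a b => hS.is_comm.comm a b
      have hone : ∃ j, Pi.mulSingle j (v i) ∈ K := by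
        by_cases hj : ∃ j, i ≠ j
        · obtain ⟨j, hij⟩ := hj
          refine ⟨j, ?_⟩
          have h1 := hK (transv hc i j hij) v hv
          have h2 : transv hc i j hij v * v⁻¹ ∈ K := K.mul_mem h1 (K.inv_mem hv)
          have h3 : transv hc i j hij v * v⁻¹ = Pi.mulSingle j (v i) := by
            rw [transv_apply]
            funext k
            simp only [Pi.mul_apply, Pi.inv_apply]
            rw [hc (v k), mul_assoc, mul_inv_cancel, mul_one]
          rwa [h3] at h2
        · push Not at hj
          refine ⟨i, ?_⟩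
          have h1 : v = Pi.mulSingle i (v i) := by
            funext k
            rw [← hj k]
            simp
          rw [← h1]
          exact hv
      obtain ⟨j, hj⟩ := hone
      refine ⟨j, fun s => ?_⟩
      have hnorm : (K.comap (MonoidHom.mulSingle (fun _ : ι => S) j)).Normal := hN.comap _
      rcases hnorm.eq_bot_or_eq_top with h | h
      · exfalso
        have h1 : v i ∈ K.comap (MonoidHom.mulSingle (fun _ : ι => S) j) := hj
        rw [h, Subgroup.mem_bot] at h1
        exact hi h1
      · have h1 : s ∈ K.comap (MonoidHom.mulSingle (fun _ : ι => S) j) := h ▸ Subgroup.mem_top s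
        exact h1
    · exact ⟨i, fun s => mulSingle_mem_of_normal hS K i v hv hi s⟩
  obtain ⟨j, hj⟩ := key
  rw [eq_top_iff]
  intro x _
  apply Subgroup.pi_mem_of_mulSingle_mem
  intro k
  have h1 := hK (permCoord (Equiv.swap j k)) _ (hj (x k))
  rw [permCoord_mulSingle] at h1
  simpa using h1

end CharPi

/-! ### Characteristically simple finite groups are powers of simple groups -/

section CharSimple

/-- The multiplicative version of `Fin.cons`. -/
def consMulEquiv (N : Type*) [Group N] (k : ℕ) : (Fin k → N) × N ≃* (Fin (k + 1) → N) where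
  toFun p := Fin.cons p.2 p.1
  invFun f := (Fin.tail f, f 0)
  left_inv p := by simp
  right_inv f := by simp
  map_mul' p q := by
    funext i
    refine Fin.cases ?_ (fun i => ?_) i <;> simp

variable {G : Type*} [Group G]

/-- The join of two disjoint normal subgroups is their direct product. -/
theorem nonempty_prod_mulEquiv_sup (M L : Subgroup G) (hM : M.Normal) (hL : L.Normal)
    (h : Disjoint M L) : Nonempty ((M × L) ≃* (M ⊔ L : Subgroup G)) := by
  have comm : ∀ (m : M) (l : L), Commute (M.subtype m) (L.subtype l) :=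
    fun m l => Subgroup.commute_of_normal_of_disjoint M L hM hL h m l m.2 l.2
  have hinj : Function.Injective (MonoidHom.noncommCoprod M.subtype L.subtype comm) := by
    rw [MonoidHom.noncommCoprod_injective]
    refine ⟨M.subtype_injective, L.subtype_injective, ?_⟩
    rwa [Subgroup.range_subtype, Subgroup.range_subtype]
  have hrange : (MonoidHom.noncommCoprod M.subtype L.subtype comm).range = M ⊔ L := by
    rw [MonoidHom.noncommCoprod_range, Subgroup.range_subtype, Subgroup.range_subtype]
  exact ⟨(MonoidHom.ofInjective hinj).trans (MulEquiv.subgroupCongr hrange)⟩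

theorem exists_pi_of_char_simple [Finite G] [Nontrivial G]
    (hG : ∀ H : Subgroup G, H.Characteristic → H = ⊥ ∨ H = ⊤) :
    ∃ (N : Subgroup G) (k : ℕ), IsSimpleGroup N ∧ 1 ≤ k ∧ Nonempty (G ≃* (Fin k → N)) := by
  classical
  -- a non-trivial normal subgroup of least order
  obtain ⟨N, ⟨hNn, hNb⟩, hNmin⟩ := Set.exists_min_image {K : Subgroup G | K.Normal ∧ K ≠ ⊥}
    (fun K => Nat.card K) (Set.toFinite _) ⟨⊤, inferInstance, top_ne_bot⟩
  -- a normal subgroup of largest order which is a power of `N`
  obtain ⟨M, ⟨hMn, k, ⟨eM⟩⟩, hMmax⟩ := Set.exists_max_image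
    {M : Subgroup G | M.Normal ∧ ∃ k : ℕ, Nonempty (M ≃* (Fin k → N))}
    (fun M => Nat.card M) (Set.toFinite _)
    ⟨⊥, inferInstance, 0, ⟨MulEquiv.ofUnique⟩⟩
  have hle : ∀ α : G ≃* G, N.map α.toMonoidHom ≤ M := by
    intro α
    by_contra hnot
    have hLn : (N.map α.toMonoidHom).Normal := hNn.map _ α.surjective
    have eL : N ≃* N.map α.toMonoidHom := N.equivMapOfInjective _ α.injective
    have hLcard : Nat.card (N.map α.toMonoidHom) = Nat.card N := (Nat.card_congr eL.toEquiv).symm
    have hdisj : Disjoint M (N.map α.toMonoidHom) := by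
      rw [disjoint_iff]
      by_contra hne
      have hnorm : (M ⊓ N.map α.toMonoidHom).Normal := inferInstance
      have h1 := hNmin (M ⊓ N.map α.toMonoidHom) ⟨hnorm, hne⟩
      have h2 : M ⊓ N.map α.toMonoidHom = N.map α.toMonoidHom := by
        apply Subgroup.eq_of_le_of_card_ge inf_le_right
        rw [hLcard]
        exact h1
      exact hnot (h2 ▸ inf_le_left)
    obtain ⟨e⟩ := nonempty_prod_mulEquiv_sup M (N.map α.toMonoidHom) hMn hLn hdisj
    have hbig : (M ⊔ N.map α.toMonoidHom) ∈
        {M : Subgroup G | M.Normal ∧ ∃ k : ℕ, Nonempty (M ≃* (Fin k → N))} :=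
      ⟨inferInstance, k + 1,
        ⟨e.symm.trans ((MulEquiv.prodCongr eM eL.symm).trans (consMulEquiv N k))⟩⟩
    have h3 := hMmax (M ⊔ N.map α.toMonoidHom) hbig
    have h4 : M = M ⊔ N.map α.toMonoidHom := Subgroup.eq_of_le_of_card_ge le_sup_left h3
    exact hnot (h4 ▸ le_sup_right)
  have hC : (⨆ α : G ≃* G, N.map α.toMonoidHom).Characteristic := by
    rw [Subgroup.characteristic_iff_map_le]
    intro β
    rw [Subgroup.map_iSup]
    apply iSup_le
    intro α
    rw [Subgroup.map_map]
    exact le_iSup (fun α : G ≃* G => N.map α.toMonoidHom) (α.trans β)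
  have hCtop : (⨆ α : G ≃* G, N.map α.toMonoidHom) = ⊤ := by
    rcases hG _ hC with h | h
    · exfalso
      apply hNb
      rw [eq_bot_iff, ← h]
      have h1 := le_iSup (fun α : G ≃* G => N.map α.toMonoidHom) (MulEquiv.refl G)
      have h2 : N.map (MulEquiv.refl G).toMonoidHom = N := Subgroup.map_id N
      rwa [h2] at h1
    · exact h
  have hMtop : M = ⊤ := by
    rw [eq_top_iff, ← hCtop]
    exact iSup_le hle
  subst hMtop
  have e : G ≃* (Fin k → N) := Subgroup.topEquiv.symm.trans eM
  have hk : 1 ≤ k := by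
    by_contra hk0
    have hk0' : k = 0 := by omega
    subst hk0'
    have hsub : Subsingleton G := e.toEquiv.subsingleton
    exact not_subsingleton G hsub
  refine ⟨N, k, ?_, hk, ⟨e⟩⟩
  have hNnt : Nontrivial N := (Subgroup.nontrivial_iff_ne_bot N).mpr hNb
  refine { toNontrivial := hNnt, eq_bot_or_eq_top_of_normal := fun A hA => ?_ }
  by_cases hAb : A = ⊥
  · exact Or.inl hAb
  right
  have hB'n : (A.map (MonoidHom.mulSingle (fun _ : Fin k => N) ⟨0, hk⟩)).Normal := by
    constructor
    rintro f ⟨a, ha, rfl⟩ g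
    refine ⟨g ⟨0, hk⟩ * a * (g ⟨0, hk⟩)⁻¹, hA.conj_mem a ha _, ?_⟩
    funext j
    by_cases hj : j = ⟨0, hk⟩
    · subst hj
      simp
    · simp [Pi.mulSingle_eq_of_ne hj]
  have hBn : ((A.map (MonoidHom.mulSingle (fun _ : Fin k => N) ⟨0, hk⟩)).map
      e.symm.toMonoidHom).Normal := hB'n.map _ e.symm.surjective
  have hBcard : Nat.card ((A.map (MonoidHom.mulSingle (fun _ : Fin k => N) ⟨0, hk⟩)).map
      e.symm.toMonoidHom) = Nat.card A := by
    rw [Subgroup.card_map_of_injective e.symm.injective,
      Subgroup.card_map_of_injective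
        (Pi.mulSingle_injective (M := fun _ : Fin k => ↥N) (⟨0, hk⟩ : Fin k))]
  have hBb : ((A.map (MonoidHom.mulSingle (fun _ : Fin k => N) ⟨0, hk⟩)).map
      e.symm.toMonoidHom) ≠ ⊥ := by
    intro hb
    apply hAb
    rw [← Subgroup.card_eq_one] at hb ⊢
    rw [← hBcard]
    exact hb
  have h1 := hNmin _ ⟨hBn, hBb⟩
  rw [hBcard] at h1
  exact Subgroup.eq_top_of_le_card A h1

/-- Every finite group is isomorphic to a group living in the lowest universe. -/
theorem exists_small_group (N : Type*) [Group N] [Finite N] :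
    ∃ (S : Type) (_ : Group S), Nonempty (N ≃* S) := by
  exact ⟨Shrink.{0} N, inferInstance, ⟨(Shrink.mulEquiv).symm⟩⟩

end CharSimple

end Cfsg.Agent.Helper98
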