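import Mathlib

set_option autoImplicit false

namespace Cfsg.Agent.Helper98

/-- Complement from a relatively complemented interval below a subgroup with a unique maximal overgroup. -/
theorem exists_compl_of_interval {G : Type*} [Group G] [Finite G] (T X M : Subgroup G)
    (hTX : T ≤ X)
    (hint : ∀ Y : Subgroup G, T ≤ Y → Y ≤ X → ∃ C : Subgroup G, T ≤ C ∧ C ≤ X ∧ Y ⊔ C = X ∧ Y ⊓ C = T)
    (huniq : ∀ M' : Subgroup G, IsCoatom M' → X ≤ M' → M' = M)
    (H : Subgroup G) (hH : ¬ H ≤ M) (hHT : H ⊓ T = ⊥) :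
    ∃ C : Subgroup G, H ⊔ C = ⊤ ∧ H ⊓ C = ⊥ := by
  obtain ⟨C, hTC, hCX, hsup, hinf⟩ := hint (T ⊔ (H ⊓ X)) le_sup_left (sup_le hTX inf_le_right)
  refine ⟨C, ?_, ?_⟩
  · by_contra hne
    obtain ⟨M', hM', hle⟩ := (eq_top_or_exists_le_coatom (H ⊔ C)).resolve_left hne
    have hXle : X ≤ H ⊔ C := by
      rw [← hsup]
      refine sup_le (sup_le (hTC.trans le_sup_right) (inf_le_left.trans le_sup_left)) le_sup_right
    have : M' = M := huniq M' hM' (hXle.trans hle)
    exact hH (this ▸ (le_sup_left.trans hle))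
  · have h1 : H ⊓ C ≤ T := by
      rw [← hinf]
      refine le_inf ?_ inf_le_right
      exact (le_inf inf_le_left (inf_le_right.trans hCX)).trans le_sup_right
    rw [eq_bot_iff, ← hHT]
    exact le_inf inf_le_left h1

/-- Having a lattice complement is invariant under order isomorphisms. -/
theorem exists_compl_of_orderIso {α β : Type*} [Lattice α] [BoundedOrder α] [Lattice β] [BoundedOrder β]
    (φ : α ≃o β) (a : α) (h : ∃ c : β, φ a ⊔ c = ⊤ ∧ φ a ⊓ c = ⊥) :
    ∃ c : α, a ⊔ c = ⊤ ∧ a ⊓ c = ⊥ := by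
  obtain ⟨c, h1, h2⟩ := h
  refine ⟨φ.symm c, ?_, ?_⟩
  · apply φ.injective
    rw [map_sup, OrderIso.apply_symm_apply, h1, map_top]
  · apply φ.injective
    rw [map_inf, OrderIso.apply_symm_apply, h2, map_bot]

/-- Having a lattice complement is invariant under conjugation. -/
theorem exists_compl_of_conj {G : Type*} [Group G] (g : G) (H : Subgroup G)
    (h : ∃ C : Subgroup G, H.map (MulAut.conj g).toMonoidHom ⊔ C = ⊤ ∧
      H.map (MulAut.conj g).toMonoidHom ⊓ C = ⊥) :
    ∃ C : Subgroup G, H ⊔ C = ⊤ ∧ H ⊓ C = ⊥ :=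
  exists_compl_of_orderIso (MulEquiv.mapSubgroup (MulAut.conj g)) H h

/-- The interval below `X` is complemented when the subgroup lattice of `X` is. -/
theorem interval_bot_of_complementedLattice {G : Type*} [Group G] (X : Subgroup G)
    (hK : ComplementedLattice (Subgroup X)) :
    ∀ Y : Subgroup G, ⊥ ≤ Y → Y ≤ X → ∃ C : Subgroup G, ⊥ ≤ C ∧ C ≤ X ∧ Y ⊔ C = X ∧ Y ⊓ C = ⊥ := by
  intro Y _ hYX
  obtain ⟨C', hC'⟩ := hK.exists_isCompl (Y.subgroupOf X)
  refine ⟨C'.map X.subtype, bot_le, Subgroup.map_subtype_le C', ?_, ?_⟩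
  · have h1 : (Y.subgroupOf X ⊔ C').map X.subtype = X := by
      rw [hC'.sup_eq_top, ← MonoidHom.range_eq_map, Subgroup.range_subtype]
    rw [Subgroup.map_sup, Subgroup.map_subgroupOf_eq_of_le hYX] at h1
    exact h1
  · have h1 : (Y.subgroupOf X ⊓ C').map X.subtype = ⊥ := by
      rw [hC'.inf_eq_bot, Subgroup.map_bot]
    rw [Subgroup.map_inf _ _ _ X.subtype_injective, Subgroup.map_subgroupOf_eq_of_le hYX] at h1
    exact h1

/-- The interval between `N` and `X` is complemented when the subgroup lattice of `X / N` is. -/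
theorem interval_of_complementedLattice_quotient {G : Type*} [Group G] (X N : Subgroup G) (hNX : N ≤ X)
    [(N.subgroupOf X).Normal] (hK : ComplementedLattice (Subgroup (X ⧸ N.subgroupOf X))) :
    ∀ Y : Subgroup G, N ≤ Y → Y ≤ X → ∃ C : Subgroup G, N ≤ C ∧ C ≤ X ∧ Y ⊔ C = X ∧ Y ⊓ C = N := by
  intro Y hNY hYX
  set π := QuotientGroup.mk' (N.subgroupOf X) with hπ
  have hπs : Function.Surjective π := QuotientGroup.mk'_surjective _
  have hker : π.ker = N.subgroupOf X := QuotientGroup.ker_mk' _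
  obtain ⟨C', hC'⟩ := hK.exists_isCompl ((Y.subgroupOf X).map π)
  have hNY' : N.subgroupOf X ≤ Y.subgroupOf X := fun x hx => hNY hx
  have hcm : ((Y.subgroupOf X).map π).comap π = Y.subgroupOf X := by
    rw [Subgroup.comap_map_eq, hker, sup_eq_left.mpr hNY']
  have hNC : N.subgroupOf X ≤ C'.comap π := hker.symm.le.trans (Subgroup.ker_le_comap π C')
  refine ⟨(C'.comap π).map X.subtype, ?_, Subgroup.map_subtype_le _, ?_, ?_⟩
  · have := Subgroup.map_mono (f := X.subtype) hNC
    rwa [Subgroup.map_subgroupOf_eq_of_le hNX] at this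
  · have h1 : (Y.subgroupOf X ⊔ C'.comap π).map X.subtype = X := by
      rw [← hcm, Subgroup.comap_sup_eq _ _ _ hπs, hC'.sup_eq_top, Subgroup.comap_top,
        ← MonoidHom.range_eq_map, Subgroup.range_subtype]
    rw [Subgroup.map_sup, Subgroup.map_subgroupOf_eq_of_le hYX] at h1
    exact h1
  · have h1 : (Y.subgroupOf X ⊓ C'.comap π).map X.subtype = N := by
      rw [← hcm, ← Subgroup.comap_inf, hC'.inf_eq_bot, MonoidHom.comap_bot, hker,
        Subgroup.map_subgroupOf_eq_of_le hNX]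
    rw [Subgroup.map_inf _ _ _ X.subtype_injective, Subgroup.map_subgroupOf_eq_of_le hYX] at h1
    exact h1

end Cfsg.Agent.Helper98
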