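import Cfsg.Agent.Helper98.FieldSub

set_option autoImplicit false

namespace Cfsg.Agent.Helper98

open Matrix

section

variable {ι : Type} [Fintype ι] [DecidableEq ι] {F : Type*} [Field F] [Finite F]

/-- A transvection outside the normaliser of a field subalgebra that is larger than the
scalars. -/
theorem exists_transvection_not_normalizer {S : Subalgebra F (Matrix ι ι F)} (hS : IsFS S)
    (hcard : 2 < Fintype.card ι)
    (hns : ∃ k ∈ S, ∀ c : F, k ≠ algebraMap F (Matrix ι ι F) c) :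
    ∃ g : GL ι F, g ∈ Cfsg.Geo.specialLinear ι F ∧ g ∉ Cfsg.Geo.subalgebraNormalizer S := by
  obtain ⟨i, j, hij⟩ : ∃ i j : ι, i ≠ j := by
    have h1 : 1 < Fintype.card ι := by omega
    exact Fintype.exists_pair_of_one_lt_card h1
  have : Nonempty ι := ⟨i⟩
  let ψ : (ι → F) →ₗ[F] Matrix ι ι F :=
    (Algebra.linearMap F (Matrix ι ι F)).comp (LinearMap.proj j)
  have hψ : ∀ x, ψ x = algebraMap F (Matrix ι ι F) (x j) := fun x => rfl
  have hψbot : ∀ x, ψ x ∈ (⊥ : Subalgebra F (Matrix ι ι F)) :=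
    fun x => Algebra.mem_bot.mpr ⟨x j, rfl⟩
  have hv : (Pi.single i 1 : ι → F) ≠ 0 := by
    intro h
    have h1 := congrFun h i
    rw [Pi.single_eq_same, Pi.zero_apply] at h1
    exact one_ne_zero h1
  have hw : ψ (Pi.single j 1) = 1 := by
    rw [hψ, Pi.single_eq_same, map_one]
  have hψv : ∀ x, ψ (ψ x *ᵥ (Pi.single i 1 : ι → F)) = 0 := by
    intro x
    rw [hψ, hψ]
    have h1 : (algebraMap F (Matrix ι ι F) (x j) *ᵥ (Pi.single i 1 : ι → F)) j = 0 := by
      rw [Algebra.algebraMap_eq_smul_one, Matrix.smul_mulVec, Matrix.one_mulVec, Pi.smul_apply,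
        Pi.single_eq_of_ne hij.symm, smul_zero]
    rw [h1, map_zero]
  obtain ⟨g, hg1, hgS⟩ := exists_unipotent (rankMat ψ (Pi.single i 1))
    (rankMat_mul_self ψ _ hψv)
  refine ⟨g, hgS, fun hgN => ?_⟩
  have hgx : ∀ x, (g : Matrix ι ι F) *ᵥ x = x + ψ x *ᵥ (Pi.single i 1 : ι → F) := by
    intro x
    rw [hg1, Matrix.add_mulVec, Matrix.one_mulVec, rankMat_mulVec]
  have hdim : 2 * Module.finrank F (⊥ : Subalgebra F (Matrix ι ι F)) < Fintype.card ι := by
    rw [Subalgebra.finrank_bot]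
    omega
  have hall := not_normalizer_aux hS bot_le ψ hψbot _ _ hv hw hdim g hgx hgN
  obtain ⟨k, hk, hkc⟩ := hns
  obtain ⟨c, hc⟩ := Algebra.mem_bot.mp (hall k hk)
  exact hkc c hc.symm

/-- An element of `SL` centralising the small field subalgebra `K₀` but not normalising the
larger field subalgebra `K`. -/
theorem exists_centralizer_not_normalizer [Nonempty ι] {K K₀ : Subalgebra F (Matrix ι ι F)}
    (hK : IsFS K) (hK₀ : IsFS K₀) (hle : K₀ ≤ K)
    (hdim : 2 * Module.finrank F K₀ < Fintype.card ι) (hne : ∃ k ∈ K, k ∉ K₀) :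
    ∃ g : GL ι F, g ∈ Cfsg.Geo.specialLinear ι F ∧ g ∈ Cfsg.Geo.subalgebraNormalizer K₀ ∧
      g ∉ Cfsg.Geo.subalgebraNormalizer K := by
  obtain ⟨i⟩ := ‹Nonempty ι›
  have hv : (Pi.single i 1 : ι → F) ≠ 0 := by
    intro h
    have h1 := congrFun h i
    rw [Pi.single_eq_same, Pi.zero_apply] at h1
    exact one_ne_zero h1
  obtain ⟨ψ, hψS, hψlin, hψv0, w, hw⟩ := exists_functional hK₀ (by omega) (Pi.single i 1)
  have hψv : ∀ x, ψ (ψ x *ᵥ (Pi.single i 1 : ι → F)) = 0 := fun x => by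
    rw [hψlin _ (hψS x), hψv0, mul_zero]
  obtain ⟨g, hg1, hgS⟩ := exists_unipotent (rankMat ψ (Pi.single i 1))
    (rankMat_mul_self ψ _ hψv)
  have hgx : ∀ x, (g : Matrix ι ι F) *ᵥ x = x + ψ x *ᵥ (Pi.single i 1 : ι → F) := by
    intro x
    rw [hg1, Matrix.add_mulVec, Matrix.one_mulVec, rankMat_mulVec]
  refine ⟨g, hgS, ?_, ?_⟩
  · apply mem_normalizer_of_commute
    intro k hk
    rw [hg1, add_mul, mul_add, one_mul, mul_one]
    congr 1
    apply matrix_ext_mulVec
    intro x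
    rw [← Matrix.mulVec_mulVec, ← Matrix.mulVec_mulVec, rankMat_mulVec, rankMat_mulVec,
      hψlin k hk, Matrix.mulVec_mulVec]
  · intro hgN
    have hall := not_normalizer_aux hK hle ψ hψS _ w hv hw hdim g hgx hgN
    obtain ⟨k, hk, hk0⟩ := hne
    exact hk0 (hall k hk)

end

/-- For composite `r`, the normaliser of a field subalgebra of degree `r` is not maximal in
`GL_n(F)`, and its intersection with `SL_n(F)` is not maximal in `SL_n(F)`. -/
theorem extField_not_max {F : Type*} [Field F] [Fintype F] (n r : ℕ) (hr1 : 1 < r)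
    (hrp : ¬ r.Prime) (hlt : r < n) (K : Subalgebra F (Matrix (Fin n) (Fin n) F))
    (hK : Cfsg.Geo.IsFieldSubalgebra r K) :
    ¬ IsCoatom (Cfsg.Geo.subalgebraNormalizer K) ∧
      ¬ Cfsg.Geo.IsMaximalIn (Cfsg.Geo.specialLinear (Fin n) F)
        (Cfsg.Geo.subalgebraNormalizer K ⊓ Cfsg.Geo.specialLinear (Fin n) F) := by
  classical
  have : Nonempty (Fin n) := ⟨⟨0, by omega⟩⟩
  have hKf : IsFS K := IsFS.of hK
  obtain ⟨s, hs, hs2, hsr⟩ := Nat.exists_dvd_of_not_prime2 hr1 hrp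
  obtain ⟨p, hp⟩ := CharP.exists F
  have := hp
  have : Fact p.Prime := ⟨CharP.char_is_prime F p⟩
  obtain ⟨e, -, he⟩ := FiniteField.card F p
  have hN : Fintype.card F ^ s = p ^ ((e : ℕ) * s) := by
    rw [he, pow_mul]
  have hadd : ∀ x ∈ K, ∀ y ∈ K, (x + y) ^ (Fintype.card F ^ s) =
      x ^ (Fintype.card F ^ s) + y ^ (Fintype.card F ^ s) := by
    intro x hx y hy
    rw [hN]
    exact add_pow_char_pow_of_commute p _ (hKf.comm x hx y hy)
  have hm : ∀ c : F, c ^ (Fintype.card F ^ s) = c := fun c => FiniteField.pow_card_pow s c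
  have hK₀ : IsFS (frobFix K hKf (Fintype.card F ^ s) hadd hm) := isFS_frobFix
  obtain ⟨hns, hne, hfr⟩ := frobFix_facts hKf hK.finrank_eq hs hs2 hsr
    (frobFix K hKf (Fintype.card F ^ s) hadd hm) (fun x => mem_frobFix)
  have h2s : 2 * s ≤ r := by
    obtain ⟨t, rfl⟩ := hs
    rcases t with _ | _ | t
    · omega
    · omega
    · nlinarith
  have hdim : 2 * Module.finrank F (frobFix K hKf (Fintype.card F ^ s) hadd hm) <
      Fintype.card (Fin n) := by
    rw [Fintype.card_fin]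
    omega
  obtain ⟨g, hgS, hgN0, hgN⟩ := exists_centralizer_not_normalizer hKf hK₀ frobFix_le hdim hne
  obtain ⟨t, htS, htN⟩ := exists_transvection_not_normalizer hK₀
    (by rw [Fintype.card_fin]; omega) hns
  have hle : Cfsg.Geo.subalgebraNormalizer K ≤
      Cfsg.Geo.subalgebraNormalizer (frobFix K hKf (Fintype.card F ^ s) hadd hm) :=
    normalizer_le_frobFix
  constructor
  · intro hco
    have hlt' : Cfsg.Geo.subalgebraNormalizer K <
        Cfsg.Geo.subalgebraNormalizer (frobFix K hKf (Fintype.card F ^ s) hadd hm) :=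
      lt_of_le_of_ne hle (fun h => hgN (by rw [h]; exact hgN0))
    have htop := hco.2 _ hlt'
    exact htN (by rw [htop]; exact Subgroup.mem_top t)
  · rintro ⟨-, hmax⟩
    rcases hmax (Cfsg.Geo.subalgebraNormalizer (frobFix K hKf (Fintype.card F ^ s) hadd hm) ⊓
        Cfsg.Geo.specialLinear (Fin n) F) (inf_le_inf_right _ hle) inf_le_right with h | h
    · have h1 : g ∈ Cfsg.Geo.subalgebraNormalizer K ⊓ Cfsg.Geo.specialLinear (Fin n) F := by
        rw [← h]
        exact ⟨hgN0, hgS⟩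
      exact hgN h1.1
    · have h1 : t ∈ Cfsg.Geo.subalgebraNormalizer (frobFix K hKf (Fintype.card F ^ s) hadd hm) ⊓
          Cfsg.Geo.specialLinear (Fin n) F := by
        rw [h]
        exact htS
      exact htN h1.1

end Cfsg.Agent.Helper98
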