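import Mathlib
import Cfsg.Prelude.Def_GeometricClasses

set_option autoImplicit false

namespace Cfsg.Agent.Helper98

open Matrix

section General

variable {ι : Type} [Fintype ι] [DecidableEq ι] {F : Type*} [Field F]

/-- A subalgebra of the matrix algebra that is a field. -/
structure IsFS (K : Subalgebra F (Matrix ι ι F)) : Prop where
  comm : ∀ x ∈ K, ∀ y ∈ K, x * y = y * x
  inv : ∀ x ∈ K, x ≠ 0 → ∃ y ∈ K, x * y = 1

theorem IsFS.of {r : ℕ} {K : Subalgebra F (Matrix ι ι F)} (h : Cfsg.Geo.IsFieldSubalgebra r K) :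
    IsFS K := ⟨h.comm, h.inv⟩

theorem IsFS.mulVec_eq_zero {K : Subalgebra F (Matrix ι ι F)} (hK : IsFS K)
    {x : Matrix ι ι F} (hx : x ∈ K) (hx0 : x ≠ 0) {v : ι → F} (h : x *ᵥ v = 0) : v = 0 := by
  obtain ⟨y, hy, hxy⟩ := hK.inv x hx hx0
  have hyx : y * x = 1 := by
    rw [← hK.comm x hx y hy]
    exact hxy
  calc v = (y * x) *ᵥ v := by rw [hyx, Matrix.one_mulVec]
    _ = y *ᵥ (x *ᵥ v) := (Matrix.mulVec_mulVec v y x).symm
    _ = 0 := by rw [h, Matrix.mulVec_zero]

theorem mem_normalizer_of_commute (K : Subalgebra F (Matrix ι ι F)) (g : GL ι F)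
    (h : ∀ k ∈ K, (g : Matrix ι ι F) * k = k * (g : Matrix ι ι F)) :
    g ∈ Cfsg.Geo.subalgebraNormalizer K := by
  have hinv : (g : Matrix ι ι F) * ((g⁻¹ : GL ι F) : Matrix ι ι F) = 1 := by
    rw [← Units.val_mul, mul_inv_cancel, Units.val_one]
  have hinv' : ((g⁻¹ : GL ι F) : Matrix ι ι F) * (g : Matrix ι ι F) = 1 := by
    rw [← Units.val_mul, inv_mul_cancel, Units.val_one]
  intro k
  constructor
  · intro hk
    rw [h k hk, mul_assoc, hinv, mul_one]
    exact hk
  · intro hk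
    have h1 := h _ hk
    have h2 : k = (g : Matrix ι ι F) * k * ((g⁻¹ : GL ι F) : Matrix ι ι F) := by
      have e1 : k = ((g⁻¹ : GL ι F) : Matrix ι ι F) *
          ((g : Matrix ι ι F) * k * ((g⁻¹ : GL ι F) : Matrix ι ι F)) * (g : Matrix ι ι F) := by
        simp only [mul_assoc]
        rw [hinv', mul_one, ← mul_assoc, hinv', one_mul]
      have e2 : ((g⁻¹ : GL ι F) : Matrix ι ι F) *
          ((g : Matrix ι ι F) * k * ((g⁻¹ : GL ι F) : Matrix ι ι F)) * (g : Matrix ι ι F) =
          (g : Matrix ι ι F) * k * ((g⁻¹ : GL ι F) : Matrix ι ι F) := by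
        rw [mul_assoc ((g⁻¹ : GL ι F) : Matrix ι ι F), ← h1, ← mul_assoc, hinv', one_mul]
      exact e1.trans e2
    rw [h2]
    exact hk

/-- The matrix of `x ↦ ψ x *ᵥ v`. -/
noncomputable def rankMat (ψ : (ι → F) →ₗ[F] Matrix ι ι F) (v : ι → F) : Matrix ι ι F :=
  LinearMap.toMatrix' ({ toFun := fun x => ψ x *ᵥ v
                         map_add' := fun x y => by rw [map_add, Matrix.add_mulVec]
                         map_smul' := fun c x => by
                          rw [map_smul, Matrix.smul_mulVec, RingHom.id_apply] } :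
    (ι → F) →ₗ[F] (ι → F))

theorem rankMat_mulVec (ψ : (ι → F) →ₗ[F] Matrix ι ι F) (v x : ι → F) :
    rankMat ψ v *ᵥ x = ψ x *ᵥ v := by
  unfold rankMat
  rw [LinearMap.toMatrix'_mulVec]
  rfl

theorem matrix_ext_mulVec {A B : Matrix ι ι F} (h : ∀ x, A *ᵥ x = B *ᵥ x) : A = B := by
  apply Matrix.toLin'.injective
  apply LinearMap.ext
  intro x
  rw [Matrix.toLin'_apply, Matrix.toLin'_apply, h]

theorem rankMat_mul_self (ψ : (ι → F) →ₗ[F] Matrix ι ι F) (v : ι → F)
    (h : ∀ x, ψ (ψ x *ᵥ v) = 0) : rankMat ψ v * rankMat ψ v = 0 := by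
  apply matrix_ext_mulVec
  intro x
  rw [← Matrix.mulVec_mulVec, rankMat_mulVec, rankMat_mulVec, h, Matrix.zero_mulVec,
    Matrix.zero_mulVec]

/-- A unipotent matrix `1 + A` with `A * A = 0` over a finite field lies in the special linear
group. -/
theorem exists_unipotent [Finite F] [Nonempty ι] (A : Matrix ι ι F) (hA : A * A = 0) :
    ∃ g : GL ι F, (g : Matrix ι ι F) = 1 + A ∧ g ∈ Cfsg.Geo.specialLinear ι F := by
  obtain ⟨p, hp⟩ := CharP.exists F
  have := hp
  have hprime : p.Prime := by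
    have := Fintype.ofFinite F
    exact CharP.char_is_prime F p
  have := Fact.mk hprime
  have h1 : (1 + A) * (1 - A) = 1 := by
    rw [mul_sub, add_mul, add_mul, one_mul, one_mul, mul_one, hA]
    abel
  have h2 : (1 - A) * (1 + A) = 1 := by
    rw [mul_add, sub_mul, sub_mul, one_mul, one_mul, mul_one, hA]
    abel
  refine ⟨⟨1 + A, 1 - A, h1, h2⟩, rfl, ?_⟩
  show Matrix.GeneralLinearGroup.det _ = 1
  apply Units.ext
  rw [Matrix.GeneralLinearGroup.val_det_apply]
  show (1 + A).det = 1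
  have hAp : A ^ p = 0 := by
    apply pow_eq_zero_of_le hprime.two_le
    rw [pow_two, hA]
  have h3 : (1 + A) ^ p = 1 := by
    rw [add_pow_char_of_commute p (Commute.one_left A), one_pow, hAp, add_zero]
  have h4 : (1 + A).det ^ p = 1 ^ p := by
    rw [← Matrix.det_pow, h3, Matrix.det_one, one_pow]
  exact frobenius_inj F p h4

/-- The key lemma: an element `x ↦ x + ψ x *ᵥ v`, where `ψ` takes values in a small subalgebra
`S` of the field `K`, can normalise `K` only if `K = S`. -/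
theorem not_normalizer_aux {K S : Subalgebra F (Matrix ι ι F)} (hK : IsFS K) (hSK : S ≤ K)
    (ψ : (ι → F) →ₗ[F] Matrix ι ι F) (hψS : ∀ x, ψ x ∈ S) (v w : ι → F) (hv : v ≠ 0)
    (hw : ψ w = 1) (hdim : 2 * Module.finrank F S < Fintype.card ι)
    (g : GL ι F) (hg : ∀ x, (g : Matrix ι ι F) *ᵥ x = x + ψ x *ᵥ v)
    (hgN : g ∈ Cfsg.Geo.subalgebraNormalizer K) : ∀ k ∈ K, k ∈ S := by
  intro k hk
  have hinv' : ((g⁻¹ : GL ι F) : Matrix ι ι F) * (g : Matrix ι ι F) = 1 := by
    rw [← Units.val_mul, inv_mul_cancel, Units.val_one]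
  have hinv : (g : Matrix ι ι F) * ((g⁻¹ : GL ι F) : Matrix ι ι F) = 1 := by
    rw [← Units.val_mul, mul_inv_cancel, Units.val_one]
  have hk' : (g : Matrix ι ι F) * k * ((g⁻¹ : GL ι F) : Matrix ι ι F) ∈ K := (hgN k).mp hk
  set k' := (g : Matrix ι ι F) * k * ((g⁻¹ : GL ι F) : Matrix ι ι F) with hk'def
  have hk'g : k' * (g : Matrix ι ι F) = (g : Matrix ι ι F) * k := by
    rw [hk'def, mul_assoc, hinv', mul_one]
  have hD : k' - k = 0 := by
    by_contra hD
    obtain ⟨y, hy, hDy⟩ := hK.inv (k' - k) (K.sub_mem hk' hk) hD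
    have hyD : y * (k' - k) = 1 := by
      rw [← hK.comm (k' - k) (K.sub_mem hk' hk) y hy]
      exact hDy
    -- the map `T`
    let T : (S × S) →ₗ[F] (ι → F) :=
      { toFun := fun ab => (ab.1 : Matrix ι ι F) *ᵥ v + k *ᵥ ((ab.2 : Matrix ι ι F) *ᵥ v)
        map_add' := by
          intro a b
          simp only [Prod.fst_add, Prod.snd_add, Subalgebra.coe_add, Matrix.add_mulVec,
            Matrix.mulVec_add]
          abel
        map_smul' := by
          intro c a
          simp only [Prod.smul_fst, Prod.smul_snd, Subalgebra.coe_smul, Matrix.smul_mulVec,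
            Matrix.mulVec_smul, RingHom.id_apply, smul_add] }
    have hM : ∀ x, ((k' - k) * (g : Matrix ι ι F)) *ᵥ x ∈ LinearMap.range T := by
      intro x
      refine ⟨(⟨ψ (k *ᵥ x), hψS _⟩, ⟨-ψ x, S.neg_mem (hψS _)⟩), ?_⟩
      show ψ (k *ᵥ x) *ᵥ v + k *ᵥ ((-ψ x) *ᵥ v) = _
      rw [sub_mul, hk'g, Matrix.sub_mulVec, ← Matrix.mulVec_mulVec, ← Matrix.mulVec_mulVec, hg,
        hg, Matrix.mulVec_add, Matrix.neg_mulVec, Matrix.mulVec_neg]
      abel
    have hsurj : LinearMap.range T = ⊤ := by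
      rw [eq_top_iff]
      intro z _
      have hz : z = ((k' - k) * (g : Matrix ι ι F)) *ᵥ
          (((g⁻¹ : GL ι F) : Matrix ι ι F) *ᵥ (y *ᵥ z)) := by
        rw [Matrix.mulVec_mulVec, Matrix.mulVec_mulVec, mul_assoc (k' - k), hinv, mul_one, hDy,
          Matrix.one_mulVec]
      rw [hz]
      exact hM _
    have h1 : Module.finrank F (LinearMap.range T) ≤ Module.finrank F (S × S) :=
      LinearMap.finrank_range_le T
    rw [hsurj, finrank_top, Module.finrank_prod, Module.finrank_fintype_fun_eq_card] at h1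
    omega
  have hkk : k' = k := sub_eq_zero.mp hD
  have hcomm : (g : Matrix ι ι F) * k = k * (g : Matrix ι ι F) := by
    rw [← hk'g, hkk]
  have h1 := congrArg (fun M : Matrix ι ι F => M *ᵥ w) hcomm
  simp only [← Matrix.mulVec_mulVec] at h1
  rw [hg, hg, hw, Matrix.one_mulVec, Matrix.mulVec_add] at h1
  have h2 : (ψ (k *ᵥ w) - k) *ᵥ v = 0 := by
    rw [Matrix.sub_mulVec]
    have h3 := add_left_cancel h1
    rw [h3, sub_self]
  have h4 : ψ (k *ᵥ w) - k = 0 := by
    by_contra hne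
    exact hv (hK.mulVec_eq_zero (K.sub_mem (hSK (hψS _)) hk) hne h2)
  have h5 : k = ψ (k *ᵥ w) := (sub_eq_zero.mp h4).symm
  rw [h5]
  exact hψS _

end General

section FieldStructure

variable {ι : Type} [Fintype ι] [DecidableEq ι] {F : Type*} [Field F]

open Classical in
/-- The field structure on a field subalgebra. -/
@[reducible] noncomputable def IsFS.field [Nonempty ι] {S : Subalgebra F (Matrix ι ι F)}
    (hS : IsFS S) : Field ↥S :=
  { (inferInstance : Ring ↥S) with
    mul_comm := fun x y => Subtype.ext (hS.comm x.1 x.2 y.1 y.2)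
    inv := fun x => if h : x = 0 then 0 else
      ⟨Classical.choose (hS.inv x.1 x.2 (fun h0 => h (Subtype.ext h0))),
        (Classical.choose_spec (hS.inv x.1 x.2 (fun h0 => h (Subtype.ext h0)))).1⟩
    exists_pair_ne := ⟨0, 1, fun h => zero_ne_one (congrArg Subtype.val h)⟩
    mul_inv_cancel := fun x hx => by
      apply Subtype.ext
      show x.1 * (if h : x = 0 then (0 : ↥S) else
        ⟨Classical.choose (hS.inv x.1 x.2 (fun h0 => h (Subtype.ext h0))),
          (Classical.choose_spec (hS.inv x.1 x.2 (fun h0 => h (Subtype.ext h0)))).1⟩).1 = 1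
      rw [dif_neg hx]
      exact (Classical.choose_spec (hS.inv x.1 x.2 (fun h0 => hx (Subtype.ext h0)))).2
    inv_zero := dif_pos rfl
    nnqsmul := _
    nnqsmul_def := fun _ _ => rfl
    qsmul := _
    qsmul_def := fun _ _ => rfl }

/-- The module structure of the natural module over a subalgebra of the matrix algebra. -/
@[reducible] def subModule (S : Subalgebra F (Matrix ι ι F)) : Module ↥S (ι → F) where
  smul := fun a x => (a : Matrix ι ι F) *ᵥ x
  one_smul := fun x => Matrix.one_mulVec x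
  mul_smul := fun a b x => (Matrix.mulVec_mulVec x a.1 b.1).symm
  smul_zero := fun a => Matrix.mulVec_zero a.1
  smul_add := fun a x y => Matrix.mulVec_add a.1 x y
  add_smul := fun a b x => Matrix.add_mulVec a.1 b.1 x
  zero_smul := fun x => Matrix.zero_mulVec x

/-- A linear functional over the field subalgebra `S` vanishing at `v`. -/
theorem exists_functional [Nonempty ι] {S : Subalgebra F (Matrix ι ι F)} (hS : IsFS S)
    (hdim : Module.finrank F S < Fintype.card ι) (v : ι → F) :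
    ∃ ψ : (ι → F) →ₗ[F] Matrix ι ι F, (∀ x, ψ x ∈ S) ∧ (∀ a ∈ S, ∀ x, ψ (a *ᵥ x) = a * ψ x) ∧
      ψ v = 0 ∧ ∃ w, ψ w = 1 := by
  let _i1 := hS.field
  let _i2 := subModule S
  have hsm : ∀ (a : S) (x : ι → F), a • x = (a : Matrix ι ι F) *ᵥ x := fun _ _ => rfl
  obtain ⟨w, hw⟩ : ∃ w : ι → F, w ∉ Submodule.span ↥S {v} := by
    by_contra hcon
    push Not at hcon
    let T : ↥S →ₗ[F] (ι → F) :=
      { toFun := fun a => (a : Matrix ι ι F) *ᵥ v
        map_add' := fun a b => by rw [Subalgebra.coe_add, Matrix.add_mulVec]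
        map_smul' := fun c a => by
          rw [Subalgebra.coe_smul, Matrix.smul_mulVec, RingHom.id_apply] }
    have hsurj : LinearMap.range T = ⊤ := by
      rw [eq_top_iff]
      intro z _
      obtain ⟨a, ha⟩ := Submodule.mem_span_singleton.mp (hcon z)
      exact ⟨a, ha⟩
    have h1 := LinearMap.finrank_range_le T
    rw [hsurj, finrank_top, Module.finrank_fintype_fun_eq_card] at h1
    omega
  obtain ⟨f, hfw, hf⟩ := Submodule.exists_le_ker_of_notMem hw
  have hfv : f v = 0 := hf (Submodule.mem_span_singleton_self v)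
  have hlin : ∀ (a : S) (x : ι → F), f ((a : Matrix ι ι F) *ᵥ x) = a * f x := by
    intro a x
    rw [← hsm, map_smul, smul_eq_mul]
  refine ⟨{ toFun := fun x => (((f w)⁻¹ * f x : S) : Matrix ι ι F)
            map_add' := ?_
            map_smul' := ?_ }, ?_, ?_, ?_, w, ?_⟩
  · intro x y
    rw [map_add, mul_add, Subalgebra.coe_add]
  · intro c x
    have h1 : c • x = ((algebraMap F ↥S c : ↥S) : Matrix ι ι F) *ᵥ x := by
      rw [Subalgebra.coe_algebraMap, Algebra.algebraMap_eq_smul_one, Matrix.smul_mulVec,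
        Matrix.one_mulVec]
    rw [h1, hlin, RingHom.id_apply, ← Algebra.smul_def, mul_smul_comm, Subalgebra.coe_smul]
  · intro x
    exact ((f w)⁻¹ * f x).2
  · intro a ha x
    show (((f w)⁻¹ * f (a *ᵥ x) : S) : Matrix ι ι F) = a * (((f w)⁻¹ * f x : S) : Matrix ι ι F)
    have h1 := hlin ⟨a, ha⟩ x
    rw [h1, mul_left_comm]
    rfl
  · show (((f w)⁻¹ * f v : S) : Matrix ι ι F) = 0
    rw [hfv, mul_zero]
    rfl
  · show (((f w)⁻¹ * f w : S) : Matrix ι ι F) = 1
    rw [inv_mul_cancel₀ hfw]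
    rfl

end FieldStructure

section Frob

variable {ι : Type} [Fintype ι] [DecidableEq ι] {F : Type*} [Field F]

/-- The fixed points in `K` of `x ↦ x ^ N`, when this map is additive on `K` and fixes the
scalars. -/
def frobFix (K : Subalgebra F (Matrix ι ι F)) (hK : IsFS K) (N : ℕ)
    (hadd : ∀ x ∈ K, ∀ y ∈ K, (x + y) ^ N = x ^ N + y ^ N) (hm : ∀ c : F, c ^ N = c) :
    Subalgebra F (Matrix ι ι F) where
  carrier := {x | x ∈ K ∧ x ^ N = x}
  mul_mem' := by
    rintro x y ⟨hx, hx'⟩ ⟨hy, hy'⟩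
    refine ⟨K.mul_mem hx hy, ?_⟩
    rw [(show Commute x y from hK.comm x hx y hy).mul_pow, hx', hy']
  add_mem' := by
    rintro x y ⟨hx, hx'⟩ ⟨hy, hy'⟩
    refine ⟨K.add_mem hx hy, ?_⟩
    rw [hadd x hx y hy, hx', hy']
  algebraMap_mem' := by
    intro c
    refine ⟨K.algebraMap_mem c, ?_⟩
    rw [← map_pow, hm]

variable {K : Subalgebra F (Matrix ι ι F)} {hK : IsFS K} {N : ℕ}
  {hadd : ∀ x ∈ K, ∀ y ∈ K, (x + y) ^ N = x ^ N + y ^ N} {hm : ∀ c : F, c ^ N = c}

theorem mem_frobFix {x : Matrix ι ι F} : x ∈ frobFix K hK N hadd hm ↔ x ∈ K ∧ x ^ N = x :=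
  Iff.rfl

theorem frobFix_le : frobFix K hK N hadd hm ≤ K := fun _ hx => hx.1

theorem isFS_frobFix : IsFS (frobFix K hK N hadd hm) := by
  refine ⟨fun x hx y hy => hK.comm x hx.1 y hy.1, ?_⟩
  intro x hx hx0
  obtain ⟨y, hy, hxy⟩ := hK.inv x hx.1 hx0
  refine ⟨y, ⟨hy, ?_⟩, hxy⟩
  have hyN : y ^ N ∈ K := K.pow_mem hy N
  have h1 : x * y ^ N = 1 := by
    rw [← hx.2, ← (show Commute x y from hK.comm x hx.1 y hy).mul_pow, hxy, one_pow]
  have h2 : y * x = 1 := by
    rw [← hK.comm x hx.1 y hy]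
    exact hxy
  calc y ^ N = (y * x) * y ^ N := by rw [h2, one_mul]
    _ = y * (x * y ^ N) := mul_assoc _ _ _
    _ = y := by rw [h1, mul_one]

theorem normalizer_le_frobFix :
    Cfsg.Geo.subalgebraNormalizer K ≤ Cfsg.Geo.subalgebraNormalizer (frobFix K hK N hadd hm) := by
  intro g hg k
  have hinv' : ((g⁻¹ : GL ι F) : Matrix ι ι F) * (g : Matrix ι ι F) = 1 := by
    rw [← Units.val_mul, inv_mul_cancel, Units.val_one]
  rw [mem_frobFix, mem_frobFix, ← hg k, Units.conj_pow]
  constructor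
  · rintro ⟨h1, h2⟩
    exact ⟨h1, by rw [h2]⟩
  · rintro ⟨h1, h2⟩
    refine ⟨h1, ?_⟩
    have h3 := congrArg (fun M : Matrix ι ι F =>
      ((g⁻¹ : GL ι F) : Matrix ι ι F) * M * (g : Matrix ι ι F)) h2
    simp only [mul_assoc] at h3
    rw [hinv', mul_one, ← mul_assoc, hinv', one_mul, mul_one, ← mul_assoc, hinv', one_mul] at h3
    exact h3

end Frob

section Facts

variable {ι : Type} [Fintype ι] [DecidableEq ι] {F : Type*} [Field F] [Fintype F]

/-- The Frobenius-fixed subalgebra `K₀` of a field subalgebra `K` of degree `r = s * t`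
(`s, t ≥ 2`): it contains a non-scalar element, it is a proper subalgebra of `K`, and its
dimension is at most `s`. -/
theorem frobFix_facts [Nonempty ι] {K : Subalgebra F (Matrix ι ι F)} (hK : IsFS K) {r s : ℕ}
    (hr : Module.finrank F K = r) (hs : s ∣ r) (hs2 : 2 ≤ s) (hsr : s < r)
    (K₀ : Subalgebra F (Matrix ι ι F))
    (hK₀ : ∀ x, x ∈ K₀ ↔ x ∈ K ∧ x ^ (Fintype.card F ^ s) = x) :
    (∃ k ∈ K₀, ∀ c : F, k ≠ algebraMap F (Matrix ι ι F) c) ∧ (∃ k ∈ K, k ∉ K₀) ∧
      Module.finrank F K₀ ≤ s := by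
  classical
  let _i := hK.field
  set q := Fintype.card F with hq
  have hq2 : 2 ≤ q := Fintype.one_lt_card
  have hcardK : Nat.card ↥K = q ^ r := by
    rw [Module.natCard_eq_pow_finrank (K := F) (V := ↥K), hr, Nat.card_eq_fintype_card]
  have hunits : Nat.card (↥K)ˣ = q ^ r - 1 := by rw [Nat.card_units, hcardK]
  obtain ⟨ζ, hζ⟩ := IsCyclic.exists_generator (α := (↥K)ˣ)
  have hord : orderOf ζ = q ^ r - 1 := by
    rw [orderOf_eq_card_of_forall_mem_zpowers hζ, hunits]
  obtain ⟨t, rfl⟩ := hs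
  have ht2 : 2 ≤ t := by
    rcases t with _ | _ | t
    · omega
    · omega
    · omega
  have hqs : q ^ 2 ≤ q ^ s := Nat.pow_le_pow_right (by omega) hs2
  have hqs' : q < q ^ s := by nlinarith
  have hqst : q ^ s < q ^ (s * t) := Nat.pow_lt_pow_right (by omega) (by nlinarith)
  have hdvd : q ^ s - 1 ∣ q ^ (s * t) - 1 := by
    have h := Nat.sub_dvd_pow_sub_pow (q ^ s) 1 t
    rwa [one_pow, ← pow_mul] at h
  obtain ⟨e, he⟩ := hdvd
  have he0 : 0 < e := by
    rcases Nat.eq_zero_or_pos e with h | h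
    · rw [h, mul_zero] at he
      omega
    · exact h
  have hpow1 : ζ ^ ((q ^ s - 1) * e) = 1 := by
    rw [← he, ← hord, pow_orderOf_eq_one]
  refine ⟨⟨(((ζ ^ e : (↥K)ˣ) : ↥K) : Matrix ι ι F), ?_, ?_⟩, ⟨((ζ : ↥K) : Matrix ι ι F), ?_, ?_⟩,
    ?_⟩
  · rw [hK₀]
    refine ⟨Subtype.property _, ?_⟩
    have hpow : (ζ ^ e) ^ (q ^ s) = ζ ^ e := by
      have h1 : e * q ^ s = (q ^ s - 1) * e + e := by
        have : q ^ s = (q ^ s - 1) + 1 := by omega
        nlinarith
      rw [← pow_mul, h1, pow_add, hpow1, one_mul]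
    have h2 := congrArg (fun u : (↥K)ˣ => ((u : ↥K) : Matrix ι ι F)) hpow
    simp only [Units.val_pow_eq_pow_val, Subalgebra.coe_pow] at h2 ⊢
    exact h2
  · intro c hc
    have hc' : ((ζ ^ e : (↥K)ˣ) : ↥K) = algebraMap F ↥K c := Subtype.ext hc
    have hc0 : c ≠ 0 := by
      rintro rfl
      rw [map_zero] at hc'
      exact Units.ne_zero _ hc'
    have h1 : ((ζ ^ e : (↥K)ˣ) : ↥K) ^ (q - 1) = 1 := by
      rw [hc', ← map_pow, FiniteField.pow_card_sub_one_eq_one c hc0, map_one]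
    have h2 : (ζ ^ e) ^ (q - 1) = 1 := by
      apply Units.ext
      rw [Units.val_pow_eq_pow_val, h1, Units.val_one]
    rw [← pow_mul] at h2
    have h3 := orderOf_dvd_of_pow_eq_one h2
    rw [hord, he, mul_comm] at h3
    have h4 : q ^ s - 1 ∣ q - 1 := Nat.dvd_of_mul_dvd_mul_left he0 h3
    have h5 := Nat.le_of_dvd (by omega) h4
    omega
  · exact Subtype.property _
  · intro hmem
    have h1 := ((hK₀ _).mp hmem).2
    have h2 : ζ ^ (q ^ s) = ζ := by
      apply Units.ext
      apply Subtype.ext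
      rw [Units.val_pow_eq_pow_val, Subalgebra.coe_pow]
      exact h1
    have h3 : ζ ^ (q ^ s - 1) = 1 := by
      have h4 : ζ ^ (q ^ s - 1) * ζ = 1 * ζ := by
        rw [← pow_succ, one_mul, Nat.sub_add_cancel (by omega)]
        exact h2
      exact mul_right_cancel h4
    have h5 := orderOf_dvd_of_pow_eq_one h3
    rw [hord] at h5
    have h6 := Nat.le_of_dvd (by omega) h5
    omega
  · have hcard0 : Nat.card ↥K₀ = q ^ Module.finrank F ↥K₀ := by
      rw [Module.natCard_eq_pow_finrank (K := F) (V := ↥K₀), Nat.card_eq_fintype_card]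
    have hone : 1 < q ^ s := by omega
    have hP : (Polynomial.X ^ (q ^ s) - Polynomial.X : Polynomial ↥K) ≠ 0 :=
      FiniteField.X_pow_card_sub_X_ne_zero ↥K hone
    have hdeg : (Polynomial.X ^ (q ^ s) - Polynomial.X : Polynomial ↥K).natDegree = q ^ s :=
      FiniteField.X_pow_card_sub_X_natDegree_eq ↥K hone
    have hmemK : ∀ x : ↥K₀, (x : Matrix ι ι F) ∈ K := fun x => ((hK₀ x.1).mp x.2).1
    have hroot : ∀ x : ↥K₀, (⟨x.1, hmemK x⟩ : ↥K) ∈
        (Polynomial.X ^ (q ^ s) - Polynomial.X : Polynomial ↥K).roots.toFinset := by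
      intro x
      rw [Multiset.mem_toFinset, Polynomial.mem_roots hP, Polynomial.IsRoot.def,
        Polynomial.eval_sub, Polynomial.eval_pow, Polynomial.eval_X, sub_eq_zero]
      apply Subtype.ext
      rw [Subalgebra.coe_pow]
      exact ((hK₀ x.1).mp x.2).2
    have hinj : Function.Injective (fun x : ↥K₀ =>
        (⟨⟨x.1, hmemK x⟩, hroot x⟩ : {y : ↥K //
          y ∈ (Polynomial.X ^ (q ^ s) - Polynomial.X : Polynomial ↥K).roots.toFinset})) := by
      intro x y hxy
      apply Subtype.ext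
      have h1 := congrArg (fun z : {y : ↥K //
          y ∈ (Polynomial.X ^ (q ^ s) - Polynomial.X : Polynomial ↥K).roots.toFinset} =>
          ((z : ↥K) : Matrix ι ι F)) hxy
      exact h1
    have h1 := Nat.card_le_card_of_injective _ hinj
    have h1' : Nat.card {y : ↥K //
        y ∈ (Polynomial.X ^ (q ^ s) - Polynomial.X : Polynomial ↥K).roots.toFinset} =
        (Polynomial.X ^ (q ^ s) - Polynomial.X : Polynomial ↥K).roots.toFinset.card := by
      rw [Nat.card_eq_fintype_card, Fintype.card_coe]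
    rw [h1'] at h1
    have h2 := Multiset.toFinset_card_le
      (Polynomial.X ^ (q ^ s) - Polynomial.X : Polynomial ↥K).roots
    have h3 := Polynomial.card_roots' (Polynomial.X ^ (q ^ s) - Polynomial.X : Polynomial ↥K)
    rw [hdeg] at h3
    have h4 : q ^ Module.finrank F ↥K₀ ≤ q ^ s := by
      rw [← hcard0]
      omega
    exact (Nat.pow_le_pow_iff_right (by omega)).mp h4

end Facts

end Cfsg.Agent.Helper98
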