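import Mathlib

set_option autoImplicit false

namespace Cfsg.Agent.Helper98

/-- A non-commutative simple group has trivial centre: every non-identity element fails to commute
with something. -/
theorem exists_not_commute_of_simple {S : Type*} [Group S] [IsSimpleGroup S] (hS : ¬ IsMulCommutative S)
    (a : S) (ha : a ≠ 1) : ∃ s : S, s * a ≠ a * s := by
  by_contra hcon
  push Not at hcon
  have hac : a ∈ Subgroup.center S := by
    rw [Subgroup.mem_center_iff]
    exact hcon
  rcases (inferInstance : (Subgroup.center S).Normal).eq_bot_or_eq_top with h | h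
  · rw [h, Subgroup.mem_bot] at hac
    exact ha hac
  · apply hS
    refine ⟨⟨fun x y => ?_⟩⟩
    have hy : y ∈ Subgroup.center S := h ▸ Subgroup.mem_top y
    rw [Subgroup.mem_center_iff] at hy
    exact hy x

/-- If a normal subgroup of a power of a non-abelian simple group has an element with non-trivial
`i`-th coordinate, it contains the whole `i`-th factor. -/
theorem mulSingle_mem_of_normal {S ι : Type*} [Group S] [IsSimpleGroup S] (hS : ¬ IsMulCommutative S)
    [DecidableEq ι] (N : Subgroup (ι → S)) [hN : N.Normal] (i : ι) (y : ι → S) (hy : y ∈ N)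
    (hyi : y i ≠ 1) (s : S) : Pi.mulSingle i s ∈ N := by
  have hnorm : (N.comap (MonoidHom.mulSingle (fun _ : ι => S) i)).Normal := hN.comap _
  obtain ⟨t, ht⟩ := exists_not_commute_of_simple hS (y i) hyi
  have hc : Pi.mulSingle i t * y * (Pi.mulSingle i t)⁻¹ * y⁻¹ ∈ N :=
    N.mul_mem (hN.conj_mem y hy _) (N.inv_mem hy)
  have hc' : Pi.mulSingle i t * y * (Pi.mulSingle i t)⁻¹ * y⁻¹ =
      Pi.mulSingle i (t * y i * t⁻¹ * (y i)⁻¹) := by
    funext j
    by_cases hj : j = i
    · subst hj
      simp
    · simp [Pi.mulSingle_eq_of_ne hj]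
  rw [hc'] at hc
  rcases hnorm.eq_bot_or_eq_top with h | h
  · exfalso
    have : t * y i * t⁻¹ * (y i)⁻¹ ∈ N.comap (MonoidHom.mulSingle (fun _ : ι => S) i) := hc
    rw [h, Subgroup.mem_bot] at this
    apply ht
    calc t * y i = (t * y i * t⁻¹ * (y i)⁻¹) * (y i * t) := by group
      _ = y i * t := by rw [this, one_mul]
  · have : s ∈ N.comap (MonoidHom.mulSingle (fun _ : ι => S) i) := h ▸ Subgroup.mem_top s
    exact this

/-- Normal subgroups of a finite power of a non-abelian simple group are subproducts. -/
theorem mem_normal_pi_iff {S ι : Type*} [Group S] [IsSimpleGroup S] (hS : ¬ IsMulCommutative S)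
    [Finite ι] (N : Subgroup (ι → S)) [hN : N.Normal] (x : ι → S) :
    x ∈ N ↔ ∀ i, (∀ y ∈ N, y i = 1) → x i = 1 := by
  classical
  constructor
  · intro hx i hi
    exact hi x hx
  · intro h
    apply Subgroup.pi_mem_of_mulSingle_mem
    intro i
    by_cases hi : ∀ y ∈ N, y i = 1
    · rw [h i hi, Pi.mulSingle_one]
      exact N.one_mem
    · push Not at hi
      obtain ⟨y, hy, hyi⟩ := hi
      exact mulSingle_mem_of_normal hS N i y hy hyi _

end Cfsg.Agent.Helper98
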