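import Mathlib

set_option autoImplicit false
set_option linter.unusedSimpArgs false

namespace Cfsg.Agent.Helper98

open Matrix
open scoped commutatorElement

/-- `SL₂(R)`. -/
abbrev SL2 (R : Type*) [CommRing R] := Matrix.SpecialLinearGroup (Fin 2) R

section Basic

variable {R : Type*} [CommRing R]

/-- The element `[[a, b], [c, d]]` of `SL₂(R)`. -/
def mk2 (a b c d : R) (h : a * d - b * c = 1) : SL2 R :=
  ⟨!![a, b; c, d], by rw [Matrix.det_fin_two_of]; exact h⟩

@[simp] theorem mk2_00 (a b c d : R) (h : a * d - b * c = 1) : (mk2 a b c d h).1 0 0 = a := rfl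
@[simp] theorem mk2_01 (a b c d : R) (h : a * d - b * c = 1) : (mk2 a b c d h).1 0 1 = b := rfl
@[simp] theorem mk2_10 (a b c d : R) (h : a * d - b * c = 1) : (mk2 a b c d h).1 1 0 = c := rfl
@[simp] theorem mk2_11 (a b c d : R) (h : a * d - b * c = 1) : (mk2 a b c d h).1 1 1 = d := rfl

theorem sl2_ext {g h : SL2 R} (h00 : g.1 0 0 = h.1 0 0) (h01 : g.1 0 1 = h.1 0 1)
    (h10 : g.1 1 0 = h.1 1 0) (h11 : g.1 1 1 = h.1 1 1) : g = h := by
  apply Matrix.SpecialLinearGroup.ext
  intro i j
  fin_cases i <;> fin_cases j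
  · exact h00
  · exact h01
  · exact h10
  · exact h11

theorem sl2_det (g : SL2 R) : g.1 0 0 * g.1 1 1 - g.1 0 1 * g.1 1 0 = 1 := by
  have h := g.2
  rw [Matrix.det_fin_two] at h
  exact h

theorem mul_00 (g h : SL2 R) : (g * h).1 0 0 = g.1 0 0 * h.1 0 0 + g.1 0 1 * h.1 1 0 := by
  rw [Matrix.SpecialLinearGroup.coe_mul, Matrix.mul_apply, Fin.sum_univ_two]

theorem mul_01 (g h : SL2 R) : (g * h).1 0 1 = g.1 0 0 * h.1 0 1 + g.1 0 1 * h.1 1 1 := by
  rw [Matrix.SpecialLinearGroup.coe_mul, Matrix.mul_apply, Fin.sum_univ_two]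

theorem mul_10 (g h : SL2 R) : (g * h).1 1 0 = g.1 1 0 * h.1 0 0 + g.1 1 1 * h.1 1 0 := by
  rw [Matrix.SpecialLinearGroup.coe_mul, Matrix.mul_apply, Fin.sum_univ_two]

theorem mul_11 (g h : SL2 R) : (g * h).1 1 1 = g.1 1 0 * h.1 0 1 + g.1 1 1 * h.1 1 1 := by
  rw [Matrix.SpecialLinearGroup.coe_mul, Matrix.mul_apply, Fin.sum_univ_two]

theorem inv_00 (g : SL2 R) : (g⁻¹).1 0 0 = g.1 1 1 := by
  rw [Matrix.SpecialLinearGroup.coe_inv, Matrix.adjugate_fin_two]; rfl

theorem inv_01 (g : SL2 R) : (g⁻¹).1 0 1 = - g.1 0 1 := by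
  rw [Matrix.SpecialLinearGroup.coe_inv, Matrix.adjugate_fin_two]; rfl

theorem inv_10 (g : SL2 R) : (g⁻¹).1 1 0 = - g.1 1 0 := by
  rw [Matrix.SpecialLinearGroup.coe_inv, Matrix.adjugate_fin_two]; rfl

theorem inv_11 (g : SL2 R) : (g⁻¹).1 1 1 = g.1 0 0 := by
  rw [Matrix.SpecialLinearGroup.coe_inv, Matrix.adjugate_fin_two]; rfl

theorem one_00 : (1 : SL2 R).1 0 0 = 1 := rfl
theorem one_01 : (1 : SL2 R).1 0 1 = 0 := rfl
theorem one_10 : (1 : SL2 R).1 1 0 = 0 := rfl
theorem one_11 : (1 : SL2 R).1 1 1 = 1 := rfl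

/-- Upper unitriangular element. -/
def eU (x : R) : SL2 R := mk2 1 x 0 1 (by ring)

/-- Lower unitriangular element. -/
def eL (x : R) : SL2 R := mk2 1 0 x 1 (by ring)

/-- Diagonal element. -/
def eD (t s : R) (h : t * s = 1) : SL2 R := mk2 t 0 0 s (by rw [h]; ring)

open Classical in
/-- The diagonal element `diag(1 + y, 1 - y)` for `y` of square zero (and `1` otherwise). -/
noncomputable def eH (y : R) : SL2 R :=
  if h : y * y = 0 then mk2 (1 + y) 0 0 (1 - y) (by linear_combination (-1 : R) * h) else 1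

theorem eH_eq {y : R} (h : y * y = 0) :
    eH y = mk2 (1 + y) 0 0 (1 - y) (by linear_combination (-1 : R) * h) := by
  unfold eH
  rw [dif_pos h]

theorem eH_10 (y : R) : (eH y).1 1 0 = 0 := by
  unfold eH
  split_ifs with h
  · rfl
  · rfl

theorem comm_eU_eL {a b : R} (ha : a * a = 0) (hb : b * b = 0) :
    ⁅eU a, eL b⁆ = eH (a * b) := by
  have hab : a * b * (a * b) = 0 := by linear_combination (b * b) * ha
  rw [eH_eq hab, commutatorElement_def]
  apply sl2_ext
  · simp only [mul_00, mul_01, mul_10, mul_11, inv_00, inv_01, inv_10, inv_11, eU, eL, mk2_00,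
      mk2_01, mk2_10, mk2_11]
    linear_combination (b * b) * ha
  · simp only [mul_00, mul_01, mul_10, mul_11, inv_00, inv_01, inv_10, inv_11, eU, eL, mk2_00,
      mk2_01, mk2_10, mk2_11]
    linear_combination (-b) * ha
  · simp only [mul_00, mul_01, mul_10, mul_11, inv_00, inv_01, inv_10, inv_11, eU, eL, mk2_00,
      mk2_01, mk2_10, mk2_11]
    linear_combination a * hb
  · simp only [mul_00, mul_01, mul_10, mul_11, inv_00, inv_01, inv_10, inv_11, eU, eL, mk2_00,
      mk2_01, mk2_10, mk2_11]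
    ring

theorem comm_eH_eU {a : R} (ha : a * a = 0) (b : R) :
    ⁅eH a, eU b⁆ = eU (2 * a * b) := by
  rw [eH_eq ha, commutatorElement_def]
  apply sl2_ext
  · simp only [mul_00, mul_01, mul_10, mul_11, inv_00, inv_01, inv_10, inv_11, eU, mk2_00,
      mk2_01, mk2_10, mk2_11]
    linear_combination (-1 : R) * ha
  · simp only [mul_00, mul_01, mul_10, mul_11, inv_00, inv_01, inv_10, inv_11, eU, mk2_00,
      mk2_01, mk2_10, mk2_11]
    linear_combination (2 * b) * ha
  · simp only [mul_00, mul_01, mul_10, mul_11, inv_00, inv_01, inv_10, inv_11, eU, mk2_00,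
      mk2_01, mk2_10, mk2_11]
    ring
  · simp only [mul_00, mul_01, mul_10, mul_11, inv_00, inv_01, inv_10, inv_11, eU, mk2_00,
      mk2_01, mk2_10, mk2_11]
    linear_combination (-1 : R) * ha

theorem comm_eH_eL {a : R} (ha : a * a = 0) (b : R) :
    ⁅eH a, eL b⁆ = eL (-(2 * a * b)) := by
  rw [eH_eq ha, commutatorElement_def]
  apply sl2_ext
  · simp only [mul_00, mul_01, mul_10, mul_11, inv_00, inv_01, inv_10, inv_11, eL, mk2_00,
      mk2_01, mk2_10, mk2_11]
    linear_combination (-1 : R) * ha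
  · simp only [mul_00, mul_01, mul_10, mul_11, inv_00, inv_01, inv_10, inv_11, eL, mk2_00,
      mk2_01, mk2_10, mk2_11]
    ring
  · simp only [mul_00, mul_01, mul_10, mul_11, inv_00, inv_01, inv_10, inv_11, eL, mk2_00,
      mk2_01, mk2_10, mk2_11]
    linear_combination (2 * b) * ha
  · simp only [mul_00, mul_01, mul_10, mul_11, inv_00, inv_01, inv_10, inv_11, eL, mk2_00,
      mk2_01, mk2_10, mk2_11]
    linear_combination (-1 : R) * ha

theorem comm_eD_eU (t s : R) (h : t * s = 1) (x : R) :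
    ⁅eD t s h, eU x⁆ = eU ((t * t - 1) * x) := by
  rw [commutatorElement_def]
  apply sl2_ext
  · simp only [mul_00, mul_01, mul_10, mul_11, inv_00, inv_01, inv_10, inv_11, eU, eD, mk2_00,
      mk2_01, mk2_10, mk2_11]
    linear_combination h
  · simp only [mul_00, mul_01, mul_10, mul_11, inv_00, inv_01, inv_10, inv_11, eU, eD, mk2_00,
      mk2_01, mk2_10, mk2_11]
    linear_combination (-x) * h
  · simp only [mul_00, mul_01, mul_10, mul_11, inv_00, inv_01, inv_10, inv_11, eU, eD, mk2_00,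
      mk2_01, mk2_10, mk2_11]
    ring
  · simp only [mul_00, mul_01, mul_10, mul_11, inv_00, inv_01, inv_10, inv_11, eU, eD, mk2_00,
      mk2_01, mk2_10, mk2_11]
    linear_combination h

theorem comm_eD_eL (t s : R) (h : t * s = 1) (x : R) :
    ⁅eD s t (by rw [mul_comm]; exact h), eL x⁆ = eL ((t * t - 1) * x) := by
  rw [commutatorElement_def]
  apply sl2_ext
  · simp only [mul_00, mul_01, mul_10, mul_11, inv_00, inv_01, inv_10, inv_11, eL, eD, mk2_00,
      mk2_01, mk2_10, mk2_11]
    linear_combination h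
  · simp only [mul_00, mul_01, mul_10, mul_11, inv_00, inv_01, inv_10, inv_11, eL, eD, mk2_00,
      mk2_01, mk2_10, mk2_11]
    ring
  · simp only [mul_00, mul_01, mul_10, mul_11, inv_00, inv_01, inv_10, inv_11, eL, eD, mk2_00,
      mk2_01, mk2_10, mk2_11]
    linear_combination (-x) * h
  · simp only [mul_00, mul_01, mul_10, mul_11, inv_00, inv_01, inv_10, inv_11, eL, eD, mk2_00,
      mk2_01, mk2_10, mk2_11]
    linear_combination h

end Basic

section Local

variable {R : Type*} [CommRing R] [IsLocalRing R]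

/-- The subgroup of `SL₂(R)` of the matrices whose lower-left entry is a non-unit. -/
def hsub (R : Type*) [CommRing R] [IsLocalRing R] : Subgroup (SL2 R) where
  carrier := {g | g.1 1 0 ∈ IsLocalRing.maximalIdeal R}
  mul_mem' := by
    intro g h hg hh
    show (g * h).1 1 0 ∈ IsLocalRing.maximalIdeal R
    rw [mul_10]
    exact Ideal.add_mem _ (Ideal.mul_mem_right _ _ hg) (Ideal.mul_mem_left _ _ hh)
  one_mem' := by
    show (1 : SL2 R).1 1 0 ∈ IsLocalRing.maximalIdeal R
    rw [one_10]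
    exact Ideal.zero_mem _
  inv_mem' := by
    intro g hg
    show (g⁻¹).1 1 0 ∈ IsLocalRing.maximalIdeal R
    rw [inv_10]
    exact (IsLocalRing.maximalIdeal R).neg_mem hg

theorem mem_hsub' (g : SL2 R) : g ∈ hsub R ↔ g.1 1 0 ∈ IsLocalRing.maximalIdeal R := Iff.rfl

theorem mem_hsub (g : SL2 R) : g ∈ hsub R ↔ ¬ IsUnit (g.1 1 0) := by
  rw [mem_hsub', IsLocalRing.mem_maximalIdeal, mem_nonunits_iff]

theorem one_notMem_max : (1 : R) ∉ IsLocalRing.maximalIdeal R := by
  rw [IsLocalRing.mem_maximalIdeal, mem_nonunits_iff, not_not]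
  exact isUnit_one

omit [IsLocalRing R] in
theorem bruhat_aux (g : SL2 R) (ci : R) (hci : ci * g.1 1 0 = 1) :
    g = eU ((g.1 0 0 - 1) * ci) * eL (g.1 1 0) * eU ((g.1 1 1 - 1) * ci) := by
  have hdet := sl2_det g
  apply sl2_ext
  · simp only [mul_00, mul_01, mul_10, mul_11, eU, eL, mk2_00, mk2_01, mk2_10, mk2_11]
    linear_combination (-(g.1 0 0 - 1)) * hci
  · simp only [mul_00, mul_01, mul_10, mul_11, eU, eL, mk2_00, mk2_01, mk2_10, mk2_11]
    linear_combination (-(g.1 0 1) - (g.1 0 0 - 1) * (g.1 1 1 - 1) * ci) * hci + (-ci) * hdet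
  · simp only [mul_00, mul_01, mul_10, mul_11, eU, eL, mk2_00, mk2_01, mk2_10, mk2_11]
    ring
  · simp only [mul_00, mul_01, mul_10, mul_11, eU, eL, mk2_00, mk2_01, mk2_10, mk2_11]
    linear_combination (-(g.1 1 1 - 1)) * hci

/-- `SL₂` of a local ring is generated by the elementary matrices. -/
theorem mem_closure_gens (g : SL2 R) :
    g ∈ Subgroup.closure (Set.range (eU : R → SL2 R) ∪ Set.range (eL : R → SL2 R)) := by
  have hU : ∀ x : R, eU x ∈
      Subgroup.closure (Set.range (eU : R → SL2 R) ∪ Set.range (eL : R → SL2 R)) :=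
    fun x => Subgroup.subset_closure (Or.inl ⟨x, rfl⟩)
  have hL : ∀ x : R, eL x ∈
      Subgroup.closure (Set.range (eU : R → SL2 R) ∪ Set.range (eL : R → SL2 R)) :=
    fun x => Subgroup.subset_closure (Or.inr ⟨x, rfl⟩)
  have key : ∀ g : SL2 R, IsUnit (g.1 1 0) → g ∈
      Subgroup.closure (Set.range (eU : R → SL2 R) ∪ Set.range (eL : R → SL2 R)) := by
    intro g hc
    obtain ⟨u, hu⟩ := hc
    have hci : (↑u⁻¹ : R) * g.1 1 0 = 1 := by
      rw [← hu]
      exact u.inv_mul
    rw [bruhat_aux g _ hci]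
    exact mul_mem (mul_mem (hU _) (hL _)) (hU _)
  by_cases hc : IsUnit (g.1 1 0)
  · exact key g hc
  · have hcm : g.1 1 0 ∈ IsLocalRing.maximalIdeal R := by
      rw [IsLocalRing.mem_maximalIdeal, mem_nonunits_iff]
      exact hc
    have ha : g.1 0 0 ∉ IsLocalRing.maximalIdeal R := by
      intro ha
      apply one_notMem_max (R := R)
      have hdet := sl2_det g
      rw [← hdet]
      exact Ideal.sub_mem _ (Ideal.mul_mem_right _ _ ha) (Ideal.mul_mem_left _ _ hcm)
    have hc' : IsUnit ((eL 1 * g).1 1 0) := by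
      by_contra hcon
      apply ha
      have h1 : (eL 1 * g).1 1 0 ∈ IsLocalRing.maximalIdeal R := by
        rw [IsLocalRing.mem_maximalIdeal, mem_nonunits_iff]
        exact hcon
      rw [mul_10] at h1
      simp only [eL, mk2_10, mk2_11, one_mul] at h1
      have h2 := Ideal.sub_mem _ h1 hcm
      rwa [add_sub_cancel_right] at h2
    have h3 := key (eL 1 * g) hc'
    have h4 : g = (eL 1)⁻¹ * (eL 1 * g) := by group
    rw [h4]
    exact mul_mem (inv_mem (hL 1)) h3

/-- `SL₂` of a local ring in which `2` and `3` are units is perfect. -/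
theorem commutator_sl2_eq_top (h2 : IsUnit (2 : R)) (h3 : IsUnit (3 : R)) :
    commutator (SL2 R) = ⊤ := by
  rw [eq_top_iff]
  intro g _
  obtain ⟨u2, hu2⟩ := h2
  obtain ⟨u3, hu3⟩ := h3
  have h22 : (2 : R) * ↑u2⁻¹ = 1 := by
    rw [← hu2]
    exact u2.mul_inv
  have h33 : (3 : R) * ↑u3⁻¹ = 1 := by
    rw [← hu3]
    exact u3.mul_inv
  have hx : ∀ x : R, ((2 : R) * 2 - 1) * (↑u3⁻¹ * x) = x := by
    intro x
    linear_combination x * h33
  have hle : Subgroup.closure (Set.range (eU : R → SL2 R) ∪ Set.range (eL : R → SL2 R)) ≤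
      commutator (SL2 R) := by
    rw [Subgroup.closure_le]
    rintro _ (⟨x, rfl⟩ | ⟨x, rfl⟩)
    · have h := comm_eD_eU (2 : R) ↑u2⁻¹ h22 (↑u3⁻¹ * x)
      rw [hx] at h
      rw [← h, commutator_def]
      exact Subgroup.commutator_mem_commutator (Subgroup.mem_top _) (Subgroup.mem_top _)
    · have h := comm_eD_eL (2 : R) ↑u2⁻¹ h22 (↑u3⁻¹ * x)
      rw [hx] at h
      rw [← h, commutator_def]
      exact Subgroup.commutator_mem_commutator (Subgroup.mem_top _) (Subgroup.mem_top _)
  exact hle (mem_closure_gens g)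

theorem eU_mem_hsub (x : R) : eU x ∈ hsub R := by
  rw [mem_hsub']
  exact Ideal.zero_mem _

/-- `hsub R` is a maximal subgroup of `SL₂(R)`. -/
theorem isCoatom_hsub : IsCoatom (hsub R) := by
  constructor
  · intro h
    have hw : mk2 (0 : R) (-1) 1 0 (by ring) ∈ hsub R := by
      rw [h]
      exact Subgroup.mem_top _
    rw [mem_hsub'] at hw
    exact one_notMem_max hw
  · intro K hK
    rw [eq_top_iff]
    obtain ⟨g, hgK, hgH⟩ := SetLike.exists_of_lt hK
    rw [mem_hsub, not_not] at hgH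
    obtain ⟨u, hu⟩ := hgH
    have hci : (↑u⁻¹ : R) * g.1 1 0 = 1 := by
      rw [← hu]
      exact u.inv_mul
    have hdet := sl2_det g
    have hU : ∀ x : R, eU x ∈ K := fun x => hK.le (eU_mem_hsub x)
    have hwdet : (0 : R) * 0 - (-(↑u⁻¹ : R)) * g.1 1 0 = 1 := by
      linear_combination hci
    have hw : mk2 (0 : R) (-(↑u⁻¹ : R)) (g.1 1 0) 0 hwdet ∈ K := by
      have h1 : mk2 (0 : R) (-(↑u⁻¹ : R)) (g.1 1 0) 0 hwdet =
          eU (-(g.1 0 0) * ↑u⁻¹) * g * eU (-(g.1 1 1) * ↑u⁻¹) := by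
        apply sl2_ext
        · simp only [mul_00, mul_01, mul_10, mul_11, eU, mk2_00, mk2_01, mk2_10, mk2_11]
          linear_combination (g.1 0 0) * hci
        · simp only [mul_00, mul_01, mul_10, mul_11, eU, mk2_00, mk2_01, mk2_10, mk2_11]
          linear_combination (g.1 0 1 - g.1 0 0 * g.1 1 1 * ↑u⁻¹) * hci + (↑u⁻¹ : R) * hdet
        · simp only [mul_00, mul_01, mul_10, mul_11, eU, mk2_00, mk2_01, mk2_10, mk2_11]
          ring
        · simp only [mul_00, mul_01, mul_10, mul_11, eU, mk2_00, mk2_01, mk2_10, mk2_11]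
          linear_combination (g.1 1 1) * hci
      rw [h1]
      exact K.mul_mem (K.mul_mem (hU _) hgK) (hU _)
    have hL : ∀ x : R, eL x ∈ K := by
      intro x
      have h1 : eL x = mk2 (0 : R) (-(↑u⁻¹ : R)) (g.1 1 0) 0 hwdet * eU (-x * ↑u⁻¹ * ↑u⁻¹) *
          (mk2 (0 : R) (-(↑u⁻¹ : R)) (g.1 1 0) 0 hwdet)⁻¹ := by
        apply sl2_ext
        · simp only [mul_00, mul_01, mul_10, mul_11, inv_00, inv_01, inv_10, inv_11, eU, eL,
            mk2_00, mk2_01, mk2_10, mk2_11]
          linear_combination (-1 : R) * hci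
        · simp only [mul_00, mul_01, mul_10, mul_11, inv_00, inv_01, inv_10, inv_11, eU, eL,
            mk2_00, mk2_01, mk2_10, mk2_11]
          ring
        · simp only [mul_00, mul_01, mul_10, mul_11, inv_00, inv_01, inv_10, inv_11, eU, eL,
            mk2_00, mk2_01, mk2_10, mk2_11]
          linear_combination (-x * (↑u⁻¹ * g.1 1 0 + 1)) * hci
        · simp only [mul_00, mul_01, mul_10, mul_11, inv_00, inv_01, inv_10, inv_11, eU, eL,
            mk2_00, mk2_01, mk2_10, mk2_11]
          linear_combination (-1 : R) * hci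
      rw [h1]
      exact K.mul_mem (K.mul_mem hw (hU _)) (K.inv_mem hw)
    intro g' _
    have hcl : Subgroup.closure (Set.range (eU : R → SL2 R) ∪ Set.range (eL : R → SL2 R)) ≤ K := by
      rw [Subgroup.closure_le]
      rintro _ (⟨x, rfl⟩ | ⟨x, rfl⟩)
      · exact hU x
      · exact hL x
    exact hcl (mem_closure_gens g')

end Local

section Derived

variable {R : Type*} [CommRing R] [IsLocalRing R]

/-- The derived series of `hsub R`, as subgroups of `SL₂(R)`. -/
def dser (R : Type*) [CommRing R] [IsLocalRing R] (n : ℕ) : Subgroup (SL2 R) :=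
  (derivedSeries ↥(hsub R) n).map (hsub R).subtype

theorem dser_zero : dser R 0 = hsub R := by
  unfold dser
  rw [derivedSeries_zero, ← MonoidHom.range_eq_map, Subgroup.range_subtype]

theorem dser_succ (n : ℕ) : dser R (n + 1) = ⁅dser R n, dser R n⁆ := by
  unfold dser
  rw [derivedSeries_succ, Subgroup.map_commutator]

/-- `y` has square zero and the elementary and diagonal elements attached to its multiples lie
in the `n`-th derived subgroup of `hsub R`. -/
def IsGood (n : ℕ) (y : R) : Prop :=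
  y * y = 0 ∧ ∀ c : R, eU (c * y) ∈ dser R n ∧ eL (c * y) ∈ dser R n ∧ eH (c * y) ∈ dser R n

theorem isGood_zero {y : R} (hy : y * y = 0) : IsGood 0 y := by
  refine ⟨hy, fun c => ?_⟩
  rw [dser_zero]
  refine ⟨eU_mem_hsub _, ?_, ?_⟩
  · rw [mem_hsub]
    intro hu
    have h1 : IsUnit ((eL (c * y)).1 1 0 * (eL (c * y)).1 1 0) := hu.mul hu
    have h2 : (eL (c * y)).1 1 0 * (eL (c * y)).1 1 0 = 0 := by
      show c * y * (c * y) = 0
      linear_combination (c * c) * hy
    rw [h2] at h1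
    exact not_isUnit_zero h1
  · rw [mem_hsub', eH_10]
    exact Ideal.zero_mem _

theorem IsGood.mul (h2 : IsUnit (2 : R)) {n : ℕ} {y₁ y₂ : R} (h₁ : IsGood n y₁)
    (h₂ : IsGood n y₂) : IsGood (n + 1) (y₁ * y₂) := by
  obtain ⟨u2, hu2⟩ := h2
  have h22 : (2 : R) * ↑u2⁻¹ = 1 := by
    rw [← hu2]
    exact u2.mul_inv
  have hy₁ := h₁.1
  have hy₂ := h₂.1
  refine ⟨by linear_combination (y₂ * y₂) * hy₁, fun c => ?_⟩
  rw [dser_succ]
  have hsq : ∀ c : R, (c * y₁) * (c * y₁) = 0 := fun c => by linear_combination (c * c) * hy₁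
  have hsq2 : (1 * y₂) * (1 * y₂) = 0 := by linear_combination hy₂
  refine ⟨?_, ?_, ?_⟩
  · have h := comm_eH_eU (hsq (c * ↑u2⁻¹)) (1 * y₂)
    have e : 2 * (c * ↑u2⁻¹ * y₁) * (1 * y₂) = c * (y₁ * y₂) := by
      linear_combination (c * y₁ * y₂) * h22
    rw [e] at h
    rw [← h]
    exact Subgroup.commutator_mem_commutator (h₁.2 _).2.2 (h₂.2 1).1
  · have h := comm_eH_eL (hsq (-c * ↑u2⁻¹)) (1 * y₂)
    have e : -(2 * (-c * ↑u2⁻¹ * y₁) * (1 * y₂)) = c * (y₁ * y₂) := by
      linear_combination (c * y₁ * y₂) * h22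
    rw [e] at h
    rw [← h]
    exact Subgroup.commutator_mem_commutator (h₁.2 _).2.2 (h₂.2 1).2.1
  · have h := comm_eU_eL (hsq c) hsq2
    have e : c * y₁ * (1 * y₂) = c * (y₁ * y₂) := by ring
    rw [e] at h
    rw [← h]
    exact Subgroup.commutator_mem_commutator (h₁.2 c).1 (h₂.2 1).2.1

theorem isGood_prod (h2 : IsUnit (2 : R)) : ∀ (n : ℕ) (l : List R), l.length = 2 ^ n →
    (∀ y ∈ l, y * y = 0) → IsGood n l.prod := by
  intro n
  induction n with
  | zero =>
    intro l hl hsq
    rw [pow_zero, List.length_eq_one_iff] at hl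
    obtain ⟨y, rfl⟩ := hl
    rw [List.prod_singleton]
    exact isGood_zero (hsq y (by simp))
  | succ n ih =>
    intro l hl hsq
    have h1 : (l.take (2 ^ n)).length = 2 ^ n := by
      rw [List.length_take, hl, pow_succ]
      omega
    have h2' : (l.drop (2 ^ n)).length = 2 ^ n := by
      rw [List.length_drop, hl, pow_succ]
      omega
    have hprod : l.prod = (l.take (2 ^ n)).prod * (l.drop (2 ^ n)).prod := by
      rw [← List.prod_append, List.take_append_drop]
    rw [hprod]
    exact (ih _ h1 (fun y hy => hsq y (List.mem_of_mem_take hy))).mul h2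
      (ih _ h2' (fun y hy => hsq y (List.mem_of_mem_drop hy)))

/-- The derived length of `hsub R` exceeds `d` as soon as `R` has `2 ^ d` elements of square
zero with non-zero product. -/
theorem derivedSeries_hsub_ne_bot (h2 : IsUnit (2 : R)) (d : ℕ) (l : List R)
    (hl : l.length = 2 ^ d) (hsq : ∀ y ∈ l, y * y = 0) (hprod : l.prod ≠ 0) :
    derivedSeries ↥(hsub R) d ≠ ⊥ := by
  intro h
  have hg := isGood_prod h2 d l hl hsq
  have h1 := (hg.2 1).1
  unfold dser at h1
  rw [h, Subgroup.map_bot, Subgroup.mem_bot] at h1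
  have h3 := congrArg (fun g : SL2 R => g.1 0 1) h1
  simp only [eU, mk2_01, one_01, one_mul] at h3
  exact hprod h3

end Derived

section Solvable

/-- A group with a homomorphism to a solvable group whose kernel is commutative is solvable. -/
theorem isSolvable_of_comm_ker {G G'' : Type*} [Group G] [Group G''] (φ : G →* G'')
    [Group.IsSolvable G''] (hker : ∀ a b : G, φ a = 1 → φ b = 1 → a * b = b * a) :
    Group.IsSolvable G := by
  have : Group.IsSolvable ↥φ.ker := by
    apply Group.isSolvable_of_comm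
    intro a b
    apply Subtype.ext
    exact hker a b a.2 b.2
  apply Group.isSolvable_of_ker_le_range φ.ker.subtype φ
  rw [Subgroup.range_subtype]

theorem isSolvable_hsub_field (K : Type*) [Field K] : Group.IsSolvable ↥(hsub K) := by
  have h10 : ∀ g : ↥(hsub K), g.1.1 1 0 = 0 := by
    intro g
    have h := g.2
    rw [mem_hsub, isUnit_iff_ne_zero, not_not] at h
    exact h
  have hdet : ∀ g : ↥(hsub K), g.1.1 0 0 * g.1.1 1 1 = 1 := by
    intro g
    have h := sl2_det g.1
    rw [h10 g, mul_zero, sub_zero] at h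
    exact h
  let φ : ↥(hsub K) →* Kˣ :=
    { toFun := fun g => Units.mkOfMulEqOne (g.1.1 0 0) (g.1.1 1 1) (hdet g)
      map_one' := by
        apply Units.ext
        rfl
      map_mul' := by
        intro g h
        apply Units.ext
        show (g.1 * h.1).1 0 0 = g.1.1 0 0 * h.1.1 0 0
        rw [mul_00, h10 h, mul_zero, add_zero] }
  apply isSolvable_of_comm_ker φ
  intro a b ha hb
  have ha0 : a.1.1 0 0 = 1 := congrArg Units.val ha
  have hb0 : b.1.1 0 0 = 1 := congrArg Units.val hb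
  have ha1 : a.1.1 1 1 = 1 := by
    have h := hdet a
    rwa [ha0, one_mul] at h
  have hb1 : b.1.1 1 1 = 1 := by
    have h := hdet b
    rwa [hb0, one_mul] at h
  apply Subtype.ext
  show a.1 * b.1 = b.1 * a.1
  apply sl2_ext
  · rw [mul_00, mul_00, h10 a, h10 b, ha0, hb0]
    ring
  · rw [mul_01, mul_01, ha0, hb0, ha1, hb1]
    ring
  · rw [mul_10, mul_10, h10 a, h10 b, ha0, hb0, ha1, hb1]
  · rw [mul_11, mul_11, h10 a, h10 b, ha1, hb1]
    ring

end Solvable

section Tower

variable (R : Type) [CommRing R] [IsLocalRing R]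

theorem isLocalRing_dual : IsLocalRing (TrivSqZeroExt R R) := by
  apply IsLocalRing.of_nonunits_add
  intro a b ha hb
  rw [mem_nonunits_iff, TrivSqZeroExt.isUnit_iff_isUnit_fst] at ha hb ⊢
  rw [TrivSqZeroExt.fst_add]
  exact IsLocalRing.nonunits_add ha hb

/-- Reduction `SL₂(R[ε]) → SL₂(R)`. -/
def redHom : SL2 (TrivSqZeroExt R R) →* SL2 R :=
  Matrix.SpecialLinearGroup.map (TrivSqZeroExt.fstHom R R R).toRingHom

omit [IsLocalRing R] in
theorem redHom_apply (g : SL2 (TrivSqZeroExt R R)) (i j : Fin 2) :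
    (redHom R g).1 i j = (g.1 i j).fst := rfl

omit [IsLocalRing R] in
theorem ker_redHom_comm (a b : SL2 (TrivSqZeroExt R R)) (ha : redHom R a = 1)
    (hb : redHom R b = 1) : a * b = b * a := by
  have fa : ∀ i j, (a.1 i j).fst = (1 : SL2 R).1 i j := fun i j => by
    rw [← ha, redHom_apply]
  have fb : ∀ i j, (b.1 i j).fst = (1 : SL2 R).1 i j := fun i j => by
    rw [← hb, redHom_apply]
  have a00 := fa 0 0
  have a01 := fa 0 1
  have a10 := fa 1 0
  have a11 := fa 1 1
  have b00 := fb 0 0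
  have b01 := fb 0 1
  have b10 := fb 1 0
  have b11 := fb 1 1
  rw [one_00] at a00 b00
  rw [one_01] at a01 b01
  rw [one_10] at a10 b10
  rw [one_11] at a11 b11
  apply sl2_ext
  · rw [mul_00, mul_00]
    apply TrivSqZeroExt.ext
    · simp only [TrivSqZeroExt.fst_add, TrivSqZeroExt.fst_mul, a00, a01, a10, a11, b00, b01, b10,
        b11]
    · simp only [TrivSqZeroExt.snd_add, TrivSqZeroExt.snd_mul, a00, a01, a10, a11, b00, b01, b10,
        b11, smul_eq_mul, MulOpposite.smul_eq_mul_unop, MulOpposite.unop_op]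
      ring
  · rw [mul_01, mul_01]
    apply TrivSqZeroExt.ext
    · simp only [TrivSqZeroExt.fst_add, TrivSqZeroExt.fst_mul, a00, a01, a10, a11, b00, b01, b10,
        b11]
    · simp only [TrivSqZeroExt.snd_add, TrivSqZeroExt.snd_mul, a00, a01, a10, a11, b00, b01, b10,
        b11, smul_eq_mul, MulOpposite.smul_eq_mul_unop, MulOpposite.unop_op]
      ring
  · rw [mul_10, mul_10]
    apply TrivSqZeroExt.ext
    · simp only [TrivSqZeroExt.fst_add, TrivSqZeroExt.fst_mul, a00, a01, a10, a11, b00, b01, b10,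
        b11]
    · simp only [TrivSqZeroExt.snd_add, TrivSqZeroExt.snd_mul, a00, a01, a10, a11, b00, b01, b10,
        b11, smul_eq_mul, MulOpposite.smul_eq_mul_unop, MulOpposite.unop_op]
      ring
  · rw [mul_11, mul_11]
    apply TrivSqZeroExt.ext
    · simp only [TrivSqZeroExt.fst_add, TrivSqZeroExt.fst_mul, a00, a01, a10, a11, b00, b01, b10,
        b11]
    · simp only [TrivSqZeroExt.snd_add, TrivSqZeroExt.snd_mul, a00, a01, a10, a11, b00, b01, b10,
        b11, smul_eq_mul, MulOpposite.smul_eq_mul_unop, MulOpposite.unop_op]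
      ring

theorem isSolvable_hsub_dual [Group.IsSolvable ↥(hsub R)] :
    haveI := isLocalRing_dual R
    Group.IsSolvable ↥(hsub (TrivSqZeroExt R R)) := by
  have := isLocalRing_dual R
  let φ : ↥(hsub (TrivSqZeroExt R R)) →* ↥(hsub R) :=
    ((redHom R).comp (hsub (TrivSqZeroExt R R)).subtype).codRestrict (hsub R) (by
      intro g
      show redHom R g.1 ∈ hsub R
      have hg := g.2
      rw [mem_hsub] at hg ⊢
      rw [redHom_apply]
      rwa [TrivSqZeroExt.isUnit_iff_isUnit_fst] at hg)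
  apply isSolvable_of_comm_ker φ
  intro a b ha hb
  have ha' : redHom R a.1 = 1 := congrArg Subtype.val ha
  have hb' : redHom R b.1 = 1 := congrArg Subtype.val hb
  apply Subtype.ext
  show a.1 * b.1 = b.1 * a.1
  exact ker_redHom_comm R a.1 b.1 ha' hb'

end Tower

theorem isUnit_two_zmod5 : IsUnit (2 : ZMod 5) := ⟨⟨2, 3, by decide, by decide⟩, rfl⟩

theorem isUnit_three_zmod5 : IsUnit (3 : ZMod 5) := ⟨⟨3, 2, by decide, by decide⟩, rfl⟩

/-- Finite local rings with residue field `𝔽₅` containing `m` elements of square zero with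
non-zero product, for which the subgroup `hsub` of `SL₂` is solvable. -/
theorem exists_tower (m : ℕ) : ∃ (R : Type) (_ : CommRing R) (_ : Finite R) (_ : IsLocalRing R),
    IsUnit (2 : R) ∧ IsUnit (3 : R) ∧ Group.IsSolvable ↥(hsub R) ∧
      ∃ l : List R, l.length = m ∧ (∀ y ∈ l, y * y = 0) ∧ l.prod ≠ 0 := by
  induction m with
  | zero =>
    have : Fact (Nat.Prime 5) := ⟨by norm_num⟩
    refine ⟨ZMod 5, inferInstance, inferInstance, inferInstance, ?_, ?_,
      isSolvable_hsub_field (ZMod 5), [], rfl, ?_, ?_⟩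
    · exact isUnit_two_zmod5
    · exact isUnit_three_zmod5
    · intro y hy
      simp at hy
    · simp
  | succ m ih =>
    obtain ⟨R, cr, fin, loc, h2, h3, hs, l, hl, hsq, hprod⟩ := ih
    have := isLocalRing_dual R
    refine ⟨TrivSqZeroExt R R, inferInstance, inferInstanceAs (Finite (R × R)),
      isLocalRing_dual R, ?_, ?_, isSolvable_hsub_dual R,
      TrivSqZeroExt.inr 1 :: l.map TrivSqZeroExt.inl, ?_, ?_, ?_⟩
    · rw [TrivSqZeroExt.isUnit_iff_isUnit_fst]
      exact h2
    · rw [TrivSqZeroExt.isUnit_iff_isUnit_fst]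
      exact h3
    · simp [hl]
    · intro y hy
      rcases List.mem_cons.mp hy with rfl | hy'
      · exact TrivSqZeroExt.inr_mul_inr R 1 1
      · obtain ⟨x, hx, rfl⟩ := List.mem_map.mp hy'
        rw [TrivSqZeroExt.inl_mul_inl, hsq x hx, TrivSqZeroExt.inl_zero]
    · intro h
      apply hprod
      have h1 : (l.map (TrivSqZeroExt.inl : R → TrivSqZeroExt R R)).prod =
          TrivSqZeroExt.inl l.prod := List.prod_hom l (TrivSqZeroExt.inlHom R R)
      rw [List.prod_cons, h1] at h
      have h2' := congrArg TrivSqZeroExt.snd h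
      simpa using h2'

/-- For every `d` there is a finite perfect group with a solvable maximal subgroup of derived
length greater than `d`. -/
theorem exists_perfect_solvable_maximal (d : ℕ) :
    ∃ (G : Type) (_ : Group G) (_ : Finite G) (H : Subgroup G), commutator G = ⊤ ∧ IsCoatom H ∧
      Group.IsSolvable H ∧ derivedSeries H d ≠ ⊥ := by
  obtain ⟨R, cr, fin, loc, h2, h3, hs, l, hl, hsq, hprod⟩ := exists_tower (2 ^ d)
  exact ⟨SL2 R, inferInstance, inferInstance, hsub R, commutator_sl2_eq_top h2 h3, isCoatom_hsub,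
    hs, derivedSeries_hsub_ne_bot h2 d l hl hsq hprod⟩

end Cfsg.Agent.Helper98
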