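import Mathlib
import Cfsg.Agent.Helper98.Basic

set_option autoImplicit false

namespace Cfsg.Agent.Helper98

open scoped Pointwise

/-- The setwise stabiliser of a half-set lies strictly inside a proper subgroup (the stabiliser of
the partition into the set and its complement). -/
theorem exists_between_stabilizer_half {Ω : Type*} [Fintype Ω] [DecidableEq Ω]
    (hΩ : 2 < Fintype.card Ω) (O : Set Ω) (hO : Nat.card O = Nat.card ↥Oᶜ) :
    ∃ P : Subgroup (Equiv.Perm Ω), MulAction.stabilizer (Equiv.Perm Ω) O < P ∧ P ≠ ⊤ := by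
  classical
  have hcard : Nat.card O + Nat.card ↥Oᶜ = Fintype.card Ω := by
    rw [Nat.card_coe_set_eq, Nat.card_coe_set_eq, Set.ncard_add_ncard_compl, Nat.card_eq_fintype_card]
  have h2 : 2 ≤ Nat.card O := by omega
  have h2' : 1 ≤ Nat.card ↥Oᶜ := by omega
  obtain ⟨x, x', hx, hx', hxx'⟩ : ∃ x x', x ∈ O ∧ x' ∈ O ∧ x ≠ x' := by
    rw [Nat.card_coe_set_eq] at h2
    have := (Set.one_lt_ncard_iff (s := O) (Set.toFinite O)).mp h2
    obtain ⟨a, b, ha, hb, hab⟩ := this
    exact ⟨a, b, ha, hb, hab⟩
  obtain ⟨y, hy⟩ : ∃ y, y ∈ Oᶜ := by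
    rw [Nat.card_coe_set_eq] at h2'
    have : Oᶜ.Nonempty := by
      rw [← Set.ncard_pos (Set.toFinite _)]
      exact h2'
    exact this
  let P : Subgroup (Equiv.Perm Ω) :=
    { carrier := {g | g • O = O ∨ g • O = Oᶜ}
      mul_mem' := by
        intro g h hg hh
        rcases hh with hh | hh
        · rcases hg with hg | hg
          · left; rw [mul_smul, hh, hg]
          · right; rw [mul_smul, hh, hg]
        · rcases hg with hg | hg
          · right; rw [mul_smul, hh, Set.smul_set_compl, hg]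
          · left; rw [mul_smul, hh, Set.smul_set_compl, hg, compl_compl]
      one_mem' := by left; simp
      inv_mem' := by
        intro g hg
        rcases hg with hg | hg
        · left
          rw [inv_smul_eq_iff, hg]
        · right
          rw [inv_smul_eq_iff, Set.smul_set_compl, hg, compl_compl] }
  have hSP : MulAction.stabilizer (Equiv.Perm Ω) O ≤ P := by
    intro g hg
    left
    exact hg
  obtain ⟨e⟩ : Nonempty ({x // x ∈ O} ≃ {x // x ∈ Oᶜ}) := by
    have : Finite O := Set.toFinite O |>.to_subtype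
    have : Finite ↥Oᶜ := Set.toFinite Oᶜ |>.to_subtype
    exact (Finite.card_eq).mp hO
  have hg : e.extendSubtype • O = Oᶜ := by
    ext z
    constructor
    · rintro ⟨w, hw, rfl⟩
      exact e.extendSubtype_mem w hw
    · intro hz
      refine ⟨e.extendSubtype⁻¹ z, ?_, by simp⟩
      by_contra hn
      have := e.extendSubtype_not_mem _ hn
      simp at this
      exact hz this
  have hne : MulAction.stabilizer (Equiv.Perm Ω) O ≠ P := by
    intro h
    have hmem : e.extendSubtype ∈ P := Or.inr hg
    rw [← h, MulAction.mem_stabilizer_iff, hg] at hmem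
    have : x ∈ Oᶜ := by rw [hmem]; exact hx
    exact this hx
  refine ⟨P, lt_of_le_of_ne hSP hne, fun hPtop => ?_⟩
  have hswap : Equiv.swap x y ∈ P := hPtop ▸ Subgroup.mem_top _
  have hyO : y ∈ Equiv.swap x y • O := ⟨x, hx, by simp⟩
  have hx'O : x' ∈ Equiv.swap x y • O := by
    refine ⟨x', hx', ?_⟩
    have hx'y : x' ≠ y := fun h => hy (h ▸ hx')
    simp [Equiv.swap_apply_of_ne_of_ne hxx'.symm hx'y]
  rcases hswap with h | h
  · rw [h] at hyO
    exact hy hyO
  · rw [h] at hx'O
    exact hx'O hx'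

/-- Inside a point stabiliser of the symmetric group, the stabiliser of a set through the point is
maximal, unless the set minus the point is half of the rest. -/
theorem isCoatom_stabilizer_inf_subgroupOf {Ω : Type*} [Fintype Ω] [DecidableEq Ω] (a : Ω)
    (O : Set Ω) (ha : a ∈ O) (h1 : ∃ x ∈ O, x ≠ a) (h2 : ∃ y, y ∉ O)
    (hcard : Fintype.card Ω ≠ 2 * O.ncard - 1) :
    IsCoatom ((MulAction.stabilizer (Equiv.Perm Ω) a ⊓ MulAction.stabilizer (Equiv.Perm Ω) O).subgroupOf
      (MulAction.stabilizer (Equiv.Perm Ω) a)) := by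
  classical
  set ψ : Equiv.Perm {x : Ω // x ≠ a} →* Equiv.Perm Ω := Equiv.Perm.ofSubtype with hψ
  have hψi : Function.Injective ψ := Equiv.Perm.ofSubtype_injective
  have hrange : ψ.range = MulAction.stabilizer (Equiv.Perm Ω) a := by
    ext g
    rw [hψ, Equiv.Perm.mem_range_ofSubtype_iff, MulAction.mem_stabilizer_iff]
    constructor
    · intro h
      by_contra hga
      have : a ∈ (g.support : Set Ω) := by simpa using hga
      exact (h this) rfl
    · intro h x hx
      simp only [Finset.mem_coe, Equiv.Perm.mem_support] at hx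
      intro hxa
      apply hx
      rw [show x = a from hxa]
      exact h
  set O' : Set {x : Ω // x ≠ a} := Subtype.val ⁻¹' O with hO'
  have hS' : IsCoatom (MulAction.stabilizer (Equiv.Perm {x : Ω // x ≠ a}) O') := by
    apply Equiv.Perm.isCoatom_stabilizer
    · obtain ⟨x, hx, hxa⟩ := h1
      exact ⟨⟨x, hxa⟩, hx⟩
    · obtain ⟨y, hy⟩ := h2
      exact ⟨⟨y, fun h => hy (h ▸ ha)⟩, hy⟩
    · have hc1 : Nat.card {x : Ω // x ≠ a} = Fintype.card Ω - 1 := by
        rw [Nat.card_eq_fintype_card, Fintype.card_subtype_compl, Fintype.card_subtype_eq]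
      have hc2 : O'.ncard + 1 = O.ncard := by
        have h3 : O'.ncard = (O \ {a}).ncard := by
          rw [hO', ← Set.ncard_image_of_injective _ Subtype.val_injective]
          congr 1
          ext x
          simp only [Set.mem_image, Set.mem_preimage, Subtype.exists, exists_and_right, exists_eq_right,
            Set.mem_sdiff, Set.mem_singleton_iff]
          constructor
          · rintro ⟨hxa, hx⟩
            exact ⟨hx, hxa⟩
          · rintro ⟨hx, hxa⟩
            exact ⟨hxa, hx⟩
        rw [h3, Set.ncard_sdiff_singleton_add_one ha (Set.toFinite O)]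
      have hpos : 0 < Fintype.card Ω := Fintype.card_pos_iff.mpr ⟨a⟩
      rw [hc1]
      omega
  have hmap : (MulAction.stabilizer (Equiv.Perm {x : Ω // x ≠ a}) O').map ψ =
      MulAction.stabilizer (Equiv.Perm Ω) a ⊓ MulAction.stabilizer (Equiv.Perm Ω) O := by
    have hiff : ∀ g' : Equiv.Perm {x : Ω // x ≠ a},
        g' ∈ MulAction.stabilizer (Equiv.Perm {x : Ω // x ≠ a}) O' ↔
          ψ g' ∈ MulAction.stabilizer (Equiv.Perm Ω) O := by
      intro g'
      rw [MulAction.mem_stabilizer_set, MulAction.mem_stabilizer_set]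
      constructor
      · intro h x
        by_cases hxa : x = a
        · rw [hxa, Equiv.Perm.smul_def, hψ, Equiv.Perm.ofSubtype_apply_of_not_mem g' (by simp)]
        · have := h ⟨x, hxa⟩
          rw [Equiv.Perm.smul_def, hψ, Equiv.Perm.ofSubtype_apply_of_mem g' hxa]
          exact this
      · intro h x
        have := h x.1
        rw [Equiv.Perm.smul_def, hψ, Equiv.Perm.ofSubtype_apply_coe] at this
        exact this
    ext g
    constructor
    · rintro ⟨g', hg', rfl⟩
      refine ⟨?_, (hiff g').mp hg'⟩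
      rw [← hrange]
      exact ⟨g', rfl⟩
    · rintro ⟨hga, hgO⟩
      rw [← hrange] at hga
      obtain ⟨g', rfl⟩ := hga
      exact ⟨g', (hiff g').mpr hgO, rfl⟩
  have := isCoatom_map_subgroupOf_range ψ hψi _ hS'
  rwa [hmap, hrange] at this

/-- In the symmetric group of even degree `2m ≥ 4` some maximal subgroup of a point stabiliser is
not maximal in another maximal subgroup containing it. -/
theorem exists_not_second_maximal {Ω : Type*} [Fintype Ω] [DecidableEq Ω] (m : ℕ) (hm : 2 ≤ m)
    (hΩ : Fintype.card Ω = 2 * m) :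
    ∃ M H K : Subgroup (Equiv.Perm Ω), IsCoatom M ∧ M.index = 2 * m ∧ H ≤ M ∧
      IsCoatom (H.subgroupOf M) ∧ IsCoatom K ∧ H ≤ K ∧ ¬ IsCoatom (H.subgroupOf K) := by
  classical
  obtain ⟨t, -, ht⟩ := Finset.exists_subset_card_eq (s := (Finset.univ : Finset Ω)) (n := m)
    (by rw [Finset.card_univ, hΩ]; omega)
  set O : Set Ω := (t : Set Ω) with hOdef
  have hOcard : O.ncard = m := by rw [hOdef, Set.ncard_coe_finset, ht]
  have hOc : Oᶜ.ncard = m := by
    have := Set.ncard_add_ncard_compl O
    rw [Nat.card_eq_fintype_card, hΩ, hOcard] at this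
    omega
  obtain ⟨a, a', ha, ha', haa'⟩ : ∃ a a', a ∈ O ∧ a' ∈ O ∧ a ≠ a' := by
    have := (Set.one_lt_ncard_iff (s := O) (Set.toFinite O)).mp (by omega)
    obtain ⟨a, b, ha, hb, hab⟩ := this
    exact ⟨a, b, ha, hb, hab⟩
  obtain ⟨y, hy⟩ : ∃ y, y ∉ O := by
    have : Oᶜ.Nonempty := by
      rw [← Set.ncard_pos (Set.toFinite _)]
      omega
    exact this
  have hnt : Nontrivial Ω := ⟨⟨a, a', haa'⟩⟩
  obtain ⟨P, hP, hPtop⟩ := exists_between_stabilizer_half (by omega) O
    (by rw [Nat.card_coe_set_eq, Nat.card_coe_set_eq, hOcard, hOc])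
  obtain ⟨K, hK, hPK⟩ := (eq_top_or_exists_le_coatom P).resolve_left hPtop
  refine ⟨MulAction.stabilizer (Equiv.Perm Ω) a,
    MulAction.stabilizer (Equiv.Perm Ω) a ⊓ MulAction.stabilizer (Equiv.Perm Ω) O, K,
    MulAction.IsPreprimitive.isCoatom_stabilizer_of_isPreprimitive (G := Equiv.Perm Ω) a, ?_, inf_le_left, ?_, hK,
    inf_le_right.trans (hP.le.trans hPK), ?_⟩
  · rw [MulAction.index_stabilizer_of_transitive, Nat.card_eq_fintype_card, hΩ]
  · apply isCoatom_stabilizer_inf_subgroupOf a O ha ⟨a', ha', haa'.symm⟩ ⟨y, hy⟩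
    rw [hΩ, hOcard]
    omega
  · intro hco
    have hSK : MulAction.stabilizer (Equiv.Perm Ω) O ≤ K := hP.le.trans hPK
    have hlt : (MulAction.stabilizer (Equiv.Perm Ω) a ⊓ MulAction.stabilizer (Equiv.Perm Ω) O).subgroupOf K <
        (MulAction.stabilizer (Equiv.Perm Ω) O).subgroupOf K := by
      refine lt_of_le_of_ne (fun x hx => hx.2) ?_
      intro heq
      have hsw : Equiv.swap a a' ∈ MulAction.stabilizer (Equiv.Perm Ω) O :=
        Equiv.Perm.swap_mem_stabilizer ha ha'
      have : (⟨Equiv.swap a a', hSK hsw⟩ : K) ∈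
          (MulAction.stabilizer (Equiv.Perm Ω) O).subgroupOf K := hsw
      rw [← heq] at this
      have h1 : Equiv.swap a a' ∈ MulAction.stabilizer (Equiv.Perm Ω) a := this.1
      rw [MulAction.mem_stabilizer_iff, Equiv.Perm.smul_def, Equiv.swap_apply_left] at h1
      exact haa' h1.symm
    have := hco.2 _ hlt
    rw [Subgroup.subgroupOf_eq_top] at this
    exact absurd (hPK.trans this) (not_le_of_gt hP)

end Cfsg.Agent.Helper98
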