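import Cfsg.Agent.Helper98.Basic

set_option autoImplicit false

namespace Cfsg.Agent.Helper98

open scoped Pointwise
open MulAction

section SwapSets

variable {X : Type*} [DecidableEq X]

theorem swap_mem_iff_of_mem {S : Set X} {p q : X} (hp : p ∈ S) (hq : q ∈ S) (x : X) :
    Equiv.swap p q x ∈ S ↔ x ∈ S := by
  by_cases hxp : x = p
  · subst hxp
    rw [Equiv.swap_apply_left]
    exact ⟨fun _ => hp, fun _ => hq⟩
  by_cases hxq : x = q
  · subst hxq
    rw [Equiv.swap_apply_right]
    exact ⟨fun _ => hq, fun _ => hp⟩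
  rw [Equiv.swap_apply_of_ne_of_ne hxp hxq]

theorem swap_mem_iff_of_notMem {S : Set X} {p q : X} (hp : p ∉ S) (hq : q ∉ S) (x : X) :
    Equiv.swap p q x ∈ S ↔ x ∈ S := by
  by_cases hxp : x = p
  · subst hxp
    rw [Equiv.swap_apply_left]
    exact ⟨fun h => absurd h hq, fun h => absurd h hp⟩
  by_cases hxq : x = q
  · subst hxq
    rw [Equiv.swap_apply_right]
    exact ⟨fun h => absurd h hp, fun h => absurd h hq⟩
  rw [Equiv.swap_apply_of_ne_of_ne hxp hxq]

end SwapSets

/-- The core of the second-maximality theorem: if `G` acts on a set `X` of odd size inducing all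
even permutations, `H` is the stabiliser of the point `a` in the maximal subgroup `K` and `H` is
maximal in the stabiliser of `a` in `G`, then there is no subgroup strictly between `H` and `K`. -/
theorem no_between_of_alt {G X : Type*} [Group G] [Finite G] [Fintype X] [DecidableEq X]
    [MulAction G X] (hodd : Odd (Fintype.card X))
    (halt : ∀ c : Equiv.Perm X, Equiv.Perm.sign c = 1 → ∃ g : G, ∀ x, g • x = c x)
    (a : X) (htrans : ∀ x : X, ∃ g : G, g • a = x)
    (H K : Subgroup G) (hK : IsCoatom K) (hKM : K ⊓ stabilizer G a = H)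
    (hmaxM : ∀ T : Subgroup G, H ≤ T → T ≤ stabilizer G a → T = H ∨ T = stabilizer G a)
    (L : Subgroup G) (hHL : H ≤ L) (hLK : L ≤ K) (hLH : L ≠ H) (hLK' : L ≠ K) : False := by
  obtain ⟨l₀, hl₀L, hl₀H⟩ : ∃ l ∈ L, l ∉ H := by
    by_contra h
    push Not at h
    exact hLH (le_antisymm h hHL)
  obtain ⟨k₀, hk₀K, hk₀L⟩ : ∃ k ∈ K, k ∉ L := by
    by_contra h
    push Not at h
    exact hLK' (le_antisymm hLK h)
  have hLM : ∀ l ∈ L, l • a = a → l ∈ H := fun l hl hla => hKM ▸ ⟨hLK hl, hla⟩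
  have hHa : ∀ h ∈ H, h • a = a := by
    intro h hh
    rw [← hKM] at hh
    exact hh.2
  have hya : l₀ • a ≠ a := fun h => hl₀H (hLM l₀ hl₀L h)
  have star : ∀ k ∈ K, ∀ l₁ ∈ L, ∀ l₂ ∈ L, k • l₁ • a = l₂ • a → k ∈ L := by
    intro k hk l₁ hl₁ l₂ hl₂ h
    have h1 : (l₂⁻¹ * k * l₁) • a = a := by
      rw [mul_smul, mul_smul, h, inv_smul_smul]
    have h2 : l₂⁻¹ * k * l₁ ∈ H := by
      rw [← hKM]
      exact ⟨K.mul_mem (K.mul_mem (K.inv_mem (hLK hl₂)) hk) (hLK hl₁), h1⟩
    have h3 : l₂⁻¹ * k * l₁ ∈ L := hHL h2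
    have h4 : k = l₂ * (l₂⁻¹ * k * l₁) * l₁⁻¹ := by group
    rw [h4]
    exact L.mul_mem (L.mul_mem hl₂ h3) (L.inv_mem hl₁)
  have hzB : ∀ l ∈ L, l • a ≠ k₀ • a := by
    intro l hl h
    exact hk₀L (star k₀ hk₀K 1 L.one_mem l hl (by rw [one_smul]; exact h.symm))
  have hza : a ≠ k₀ • a := by
    have := hzB 1 L.one_mem
    rwa [one_smul] at this
  have hyz : l₀ • a ≠ k₀ • a := hzB l₀ hl₀L
  by_cases hT : ∀ x : X, ∃ k ∈ K, k • a = x
  · -- `K` is transitive
    set B : Set X := {x | ∃ l ∈ L, l • a = x} with hB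
    have haB : a ∈ B := ⟨1, L.one_mem, one_smul _ _⟩
    have hyB : l₀ • a ∈ B := ⟨l₀, hl₀L, rfl⟩
    have hzB' : k₀ • a ∉ B := fun ⟨l, hl, h⟩ => hzB l hl h
    have hLB : ∀ l ∈ L, ∀ x, l • x ∈ B ↔ x ∈ B := by
      intro l hl x
      constructor
      · rintro ⟨l', hl', h⟩
        refine ⟨l⁻¹ * l', L.mul_mem (L.inv_mem hl) hl', ?_⟩
        rw [mul_smul, h, inv_smul_smul]
      · rintro ⟨l', hl', rfl⟩
        exact ⟨l * l', L.mul_mem hl hl', mul_smul _ _ _⟩
    -- index computations
    have horbL : (orbit L a : Set X) = B := by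
      ext x
      constructor
      · rintro ⟨l, rfl⟩
        exact ⟨l, l.2, rfl⟩
      · rintro ⟨l, hl, rfl⟩
        exact ⟨⟨l, hl⟩, rfl⟩
    have horbK : (orbit K a : Set X) = Set.univ := by
      ext x
      simp only [Set.mem_univ, iff_true]
      obtain ⟨k, hk, rfl⟩ := hT x
      exact ⟨⟨k, hk⟩, rfl⟩
    have hstabL : stabilizer L a = H.subgroupOf L := by
      ext l
      rw [mem_stabilizer_iff, Subgroup.mem_subgroupOf]
      constructor
      · intro h
        exact hLM l l.2 h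
      · intro h
        exact hHa _ h
    have hstabK : stabilizer K a = H.subgroupOf K := by
      ext k
      rw [mem_stabilizer_iff, Subgroup.mem_subgroupOf]
      constructor
      · intro h
        rw [← hKM]
        exact ⟨k.2, h⟩
      · intro h
        exact hHa _ h
    have hidxL : H.relIndex L = B.ncard := by
      have h1 := index_stabilizer (G := L) (x := a)
      rw [hstabL, horbL] at h1
      exact h1
    have hidxK : H.relIndex K = Fintype.card X := by
      have h1 := index_stabilizer (G := K) (x := a)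
      rw [hstabK, horbK, Set.ncard_univ, Nat.card_eq_fintype_card] at h1
      exact h1
    have hmul := Subgroup.relIndex_mul_relIndex H L K hHL hLK
    rw [hidxL, hidxK] at hmul
    have hodd' := hodd
    rw [← hmul, Nat.odd_mul] at hodd'
    obtain ⟨hoddB, hoddI⟩ := hodd'
    have hI1 : L.relIndex K ≠ 1 := by
      intro h
      rw [Subgroup.relIndex_eq_one] at h
      exact hLK' (le_antisymm hLK h)
    have hI3 : 3 ≤ L.relIndex K := by
      rcases hoddI with ⟨m, hm⟩
      omega
    have hB2 : B.ncard ≠ 1 := by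
      intro h
      rw [Set.ncard_eq_one] at h
      obtain ⟨b, hb⟩ := h
      have h1 : a = b := by
        have := haB
        rw [hb] at this
        exact this
      have h2 : l₀ • a = b := by
        have := hyB
        rw [hb] at this
        exact this
      exact hya (h2.trans h1.symm)
    have hB3 : 3 ≤ B.ncard := by
      rcases hoddB with ⟨m, hm⟩
      omega
    have hn3 : 3 * B.ncard ≤ Fintype.card X := by
      rw [← hmul]
      nlinarith
    -- a third point of `B`
    obtain ⟨y₂, hy₂B, hy₂a, hy₂y⟩ : ∃ y₂ ∈ B, y₂ ≠ a ∧ y₂ ≠ l₀ • a := by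
      by_contra hcon
      push Not at hcon
      have hsub : B ⊆ {a, l₀ • a} := by
        intro x hx
        by_cases hxa : x = a
        · exact Or.inl hxa
        · exact Or.inr (hcon x hx hxa)
      have h1 := Set.ncard_le_ncard hsub (Set.toFinite _)
      have h2 : ({a, l₀ • a} : Set X).ncard ≤ 2 := by
        rw [Set.ncard_pair (Ne.symm hya)]
      omega
    have hy₂z : y₂ ≠ k₀ • a := fun h => hzB' (h ▸ hy₂B)
    -- a point outside `B` and its translate
    set B' : Set X := (fun x => k₀ • x) '' B with hB'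
    obtain ⟨z'', hz''⟩ : ∃ z'' : X, z'' ∉ B ∪ B' := by
      by_contra hcon
      push Not at hcon
      have huniv : B ∪ B' = Set.univ := Set.eq_univ_of_forall hcon
      have h1 : (B ∪ B').ncard ≤ B.ncard + B'.ncard := Set.ncard_union_le B B'
      have h2 : B'.ncard = B.ncard :=
        Set.ncard_image_of_injective B (MulAction.injective k₀)
      rw [huniv, Set.ncard_univ, Nat.card_eq_fintype_card] at h1
      omega
    have hz''B : z'' ∉ B := fun h => hz'' (Or.inl h)
    have hz''B' : z'' ∉ B' := fun h => hz'' (Or.inr h)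
    -- the stabiliser of `B` in the point stabiliser is `H`
    have hTH : stabilizer G a ⊓ stabilizer G B = H := by
      have hle : H ≤ stabilizer G a ⊓ stabilizer G B := by
        intro h hh
        have h1 : h ∈ stabilizer G a := hHa h hh
        have h2 : h ∈ stabilizer G B := mem_stabilizer_set.mpr (hLB h (hHL hh))
        exact ⟨h1, h2⟩
      rcases hmaxM _ hle inf_le_left with h | h
      · exact h
      · exfalso
        obtain ⟨g₁, hg₁⟩ := halt (Equiv.swap (l₀ • a) y₂ * Equiv.swap (l₀ • a) (k₀ • a)) (by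
          rw [Equiv.Perm.sign_mul, Equiv.Perm.sign_swap (Ne.symm hy₂y), Equiv.Perm.sign_swap hyz]
          rfl)
        have hg₁a : g₁ • a = a := by
          rw [hg₁, Equiv.Perm.mul_apply, Equiv.swap_apply_of_ne_of_ne (Ne.symm hya) hza,
            Equiv.swap_apply_of_ne_of_ne (Ne.symm hya) (Ne.symm hy₂a)]
        have hg₁y : g₁ • l₀ • a = k₀ • a := by
          rw [hg₁, Equiv.Perm.mul_apply, Equiv.swap_apply_left,
            Equiv.swap_apply_of_ne_of_ne (Ne.symm hyz) (Ne.symm hy₂z)]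
        have hg₁M : g₁ ∈ stabilizer G a ⊓ stabilizer G B := by
          rw [h]
          exact hg₁a
        have h2 : g₁ ∈ stabilizer G B := hg₁M.2
        rw [mem_stabilizer_set] at h2
        have h3 := (h2 (l₀ • a)).mpr hyB
        rw [hg₁y] at h3
        exact hzB' h3
    -- the second element
    have hzz'' : k₀ • a ≠ z'' := fun h => hz''B' (h ▸ ⟨a, haB, rfl⟩)
    obtain ⟨g₂, hg₂⟩ := halt (Equiv.swap (k₀ • a) z'' * Equiv.swap (l₀ • a) y₂) (by
      rw [Equiv.Perm.sign_mul, Equiv.Perm.sign_swap hzz'', Equiv.Perm.sign_swap (Ne.symm hy₂y)]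
      rfl)
    have haz'' : a ≠ z'' := fun h => hz''B (h ▸ haB)
    have hg₂a : g₂ • a = a := by
      rw [hg₂, Equiv.Perm.mul_apply, Equiv.swap_apply_of_ne_of_ne (Ne.symm hya) (Ne.symm hy₂a),
        Equiv.swap_apply_of_ne_of_ne hza haz'']
    have hg₂B : g₂ ∈ stabilizer G B := by
      rw [mem_stabilizer_set]
      intro x
      rw [hg₂, Equiv.Perm.mul_apply, swap_mem_iff_of_notMem hzB' hz''B,
        swap_mem_iff_of_mem hyB hy₂B]
    have hg₂H : g₂ ∈ H := by
      rw [← hTH]
      have h1 : g₂ ∈ stabilizer G a := hg₂a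
      exact ⟨h1, hg₂B⟩
    have hg₂K : g₂ ∈ K := hLK (hHL hg₂H)
    -- the point `y'' = k₀ • y`
    have hy''B : k₀ • l₀ • a ∉ B := by
      rintro ⟨l, hl, h⟩
      exact hk₀L (star k₀ hk₀K l₀ hl₀L l hl h.symm)
    have hy''B' : k₀ • l₀ • a ∈ B' := ⟨l₀ • a, hyB, rfl⟩
    have hg₂y'' : g₂ • k₀ • l₀ • a = k₀ • l₀ • a := by
      have e1 : Equiv.swap (l₀ • a) y₂ (k₀ • l₀ • a) = k₀ • l₀ • a :=
        Equiv.swap_apply_of_ne_of_ne (fun h => hy''B (by rw [h]; exact hyB))
          (fun h => hy''B (by rw [h]; exact hy₂B))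
      have e2 : Equiv.swap (k₀ • a) z'' (k₀ • l₀ • a) = k₀ • l₀ • a :=
        Equiv.swap_apply_of_ne_of_ne (fun h => hya (MulAction.injective k₀ h))
          (fun h => hz''B' (by rw [← h]; exact hy''B'))
      rw [hg₂, Equiv.Perm.mul_apply, e1, e2]
    have hg₂z : g₂ • k₀ • a = z'' := by
      have e1 : Equiv.swap (l₀ • a) y₂ (k₀ • a) = k₀ • a :=
        Equiv.swap_apply_of_ne_of_ne (Ne.symm hyz) (Ne.symm hy₂z)
      rw [hg₂, Equiv.Perm.mul_apply, e1, Equiv.swap_apply_left]
    have hkL : k₀⁻¹ * g₂ * k₀ ∈ L := by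
      apply star _ (K.mul_mem (K.mul_mem (K.inv_mem hk₀K) hg₂K) hk₀K) l₀ hl₀L l₀ hl₀L
      rw [mul_smul, mul_smul, hg₂y'', inv_smul_smul]
    have h5 : (k₀⁻¹ * g₂ * k₀) • a ∈ B := ⟨_, hkL, rfl⟩
    rw [mul_smul, mul_smul, hg₂z] at h5
    apply hz''B'
    refine ⟨k₀⁻¹ • z'', h5, ?_⟩
    simp
  · -- `K` is intransitive
    push Not at hT
    obtain ⟨x₁, hx₁⟩ := hT
    set Δ : Set X := {x | ∃ k ∈ K, k • a = x} with hΔ
    have haΔ : a ∈ Δ := ⟨1, K.one_mem, one_smul _ _⟩
    have hyΔ : l₀ • a ∈ Δ := ⟨l₀, hLK hl₀L, rfl⟩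
    have hzΔ : k₀ • a ∈ Δ := ⟨k₀, hk₀K, rfl⟩
    have hx₁Δ : x₁ ∉ Δ := fun ⟨k, hk, h⟩ => hx₁ k hk h
    have hKΔ : K ≤ stabilizer G Δ := by
      intro k hk
      rw [mem_stabilizer_set]
      intro x
      constructor
      · rintro ⟨k', hk', h⟩
        refine ⟨k⁻¹ * k', K.mul_mem (K.inv_mem hk) hk', ?_⟩
        rw [mul_smul, h, inv_smul_smul]
      · rintro ⟨k', hk', rfl⟩
        exact ⟨k * k', K.mul_mem hk hk', mul_smul _ _ _⟩
    have hΔtop : stabilizer G Δ ≠ ⊤ := by
      intro h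
      obtain ⟨g, hg⟩ := htrans x₁
      have h1 : g ∈ stabilizer G Δ := h ▸ Subgroup.mem_top g
      rw [mem_stabilizer_set] at h1
      have h2 := (h1 a).mpr haΔ
      rw [hg] at h2
      exact hx₁Δ h2
    have hKeq : K = stabilizer G Δ := by
      rcases eq_or_lt_of_le hKΔ with h | h
      · exact h
      · exact absurd (hK.2 _ h) hΔtop
    -- an even permutation fixing `a`, preserving `Δ` and mapping `y` to `z`
    obtain ⟨c, hc1, hca, hcy, hcΔ⟩ : ∃ c : Equiv.Perm X, Equiv.Perm.sign c = 1 ∧ c a = a ∧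
        c (l₀ • a) = k₀ • a ∧ ∀ x, c x ∈ Δ ↔ x ∈ Δ := by
      by_cases hw : ∃ w ∈ Δ, w ≠ a ∧ w ≠ l₀ • a ∧ w ≠ k₀ • a
      · obtain ⟨w, hwΔ, hwa, hwy, hwz⟩ := hw
        refine ⟨Equiv.swap (l₀ • a) w * Equiv.swap (l₀ • a) (k₀ • a), ?_, ?_, ?_, ?_⟩
        · rw [Equiv.Perm.sign_mul, Equiv.Perm.sign_swap (Ne.symm hwy), Equiv.Perm.sign_swap hyz]
          rfl
        · rw [Equiv.Perm.mul_apply, Equiv.swap_apply_of_ne_of_ne (Ne.symm hya) hza,
            Equiv.swap_apply_of_ne_of_ne (Ne.symm hya) (Ne.symm hwa)]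
        · rw [Equiv.Perm.mul_apply, Equiv.swap_apply_left,
            Equiv.swap_apply_of_ne_of_ne (Ne.symm hyz) (Ne.symm hwz)]
        · intro x
          rw [Equiv.Perm.mul_apply, swap_mem_iff_of_mem hyΔ hwΔ, swap_mem_iff_of_mem hyΔ hzΔ]
      · push Not at hw
        have hx₁a : x₁ ≠ a := fun h => hx₁Δ (h ▸ haΔ)
        have hx₁y : x₁ ≠ l₀ • a := fun h => hx₁Δ (h ▸ hyΔ)
        have hx₁z : x₁ ≠ k₀ • a := fun h => hx₁Δ (h ▸ hzΔ)
        obtain ⟨q, hq⟩ : ∃ q : X, q ∉ ({a, l₀ • a, k₀ • a, x₁} : Finset X) := by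
          by_contra hcon
          push Not at hcon
          have huniv : ({a, l₀ • a, k₀ • a, x₁} : Finset X) = Finset.univ :=
            Finset.eq_univ_iff_forall.mpr hcon
          have hcard : ({a, l₀ • a, k₀ • a, x₁} : Finset X).card = 4 := by
            rw [Finset.card_insert_of_notMem, Finset.card_insert_of_notMem,
              Finset.card_insert_of_notMem, Finset.card_singleton]
            · simpa using Ne.symm hx₁z
            · simp only [Finset.mem_insert, Finset.mem_singleton, not_or]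
              exact ⟨hyz, Ne.symm hx₁y⟩
            · simp only [Finset.mem_insert, Finset.mem_singleton, not_or]
              exact ⟨Ne.symm hya, hza, Ne.symm hx₁a⟩
          rw [huniv, Finset.card_univ] at hcard
          rw [hcard] at hodd
          revert hodd
          decide
        simp only [Finset.mem_insert, Finset.mem_singleton, not_or] at hq
        obtain ⟨hqa, hqy, hqz, hqx₁⟩ := hq
        have hqΔ : q ∉ Δ := by
          intro h
          rcases Classical.em (q = a) with h1 | h1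
          · exact hqa h1
          · rcases Classical.em (q = l₀ • a) with h2 | h2
            · exact hqy h2
            · exact hqz (hw q h h1 h2)
        refine ⟨Equiv.swap (l₀ • a) (k₀ • a) * Equiv.swap x₁ q, ?_, ?_, ?_, ?_⟩
        · rw [Equiv.Perm.sign_mul, Equiv.Perm.sign_swap hyz,
            Equiv.Perm.sign_swap (fun h => hqx₁ h.symm)]
          rfl
        · rw [Equiv.Perm.mul_apply, Equiv.swap_apply_of_ne_of_ne (Ne.symm hx₁a) (Ne.symm hqa),
            Equiv.swap_apply_of_ne_of_ne (Ne.symm hya) hza]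
        · rw [Equiv.Perm.mul_apply, Equiv.swap_apply_of_ne_of_ne (Ne.symm hx₁y) (Ne.symm hqy),
            Equiv.swap_apply_left]
        · intro x
          rw [Equiv.Perm.mul_apply, swap_mem_iff_of_mem hyΔ hzΔ, swap_mem_iff_of_notMem hx₁Δ hqΔ]
    obtain ⟨g, hg⟩ := halt c hc1
    have hgH : g ∈ H := by
      rw [← hKM, hKeq]
      have h1 : g ∈ stabilizer G Δ := by
        rw [mem_stabilizer_set]
        intro x
        rw [hg]
        exact hcΔ x
      have h2 : g ∈ stabilizer G a := by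
        rw [mem_stabilizer_iff, hg, hca]
      exact ⟨h1, h2⟩
    apply hzB (g * l₀) (L.mul_mem (hHL hgH) hl₀L)
    rw [mul_smul, hg, hcy]

/-- Second maximal subgroups below a maximal subgroup of odd index `n`, when every primitive
group of degree `n` contains the alternating group. -/
theorem second_max_of_odd_index {G : Type*} [Group G] [Finite G] (n : ℕ) (hodd : Odd n)
    (hA : ∀ P : Subgroup (Equiv.Perm (Fin n)), MulAction.IsPreprimitive P (Fin n) →
      alternatingGroup (Fin n) ≤ P)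
    (M : Subgroup G) (hM : IsCoatom M) (hn : M.index = n) (H : Subgroup G) (hHM : H ≤ M)
    (hmax : IsCoatom (H.subgroupOf M)) (K : Subgroup G) (hK : IsCoatom K) (hHK : H ≤ K) :
    IsCoatom (H.subgroupOf K) := by
  classical
  by_cases hKM : K = M
  · subst hKM
    exact hmax
  let _inst : Fintype (G ⧸ M) := Fintype.ofFinite _
  have hcard : Fintype.card (G ⧸ M) = n := by
    rw [← Nat.card_eq_fintype_card, ← Subgroup.index_eq_card, hn]
  have hstab : stabilizer G ((1 : G) : G ⧸ M) = M := MulAction.stabilizer_quotient M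
  have htrans : ∀ x : G ⧸ M, ∃ g : G, g • ((1 : G) : G ⧸ M) = x := by
    intro x
    obtain ⟨g, rfl⟩ := QuotientGroup.mk_surjective x
    exact ⟨g, by rw [MulAction.Quotient.smul_mk, smul_eq_mul, mul_one]⟩
  have hnt : Nontrivial (G ⧸ M) := by
    rw [← Fintype.one_lt_card_iff_nontrivial, hcard, ← hn]
    have h1 : M.index ≠ 1 := fun h => hM.1 (Subgroup.index_eq_one.mp h)
    have h0 : M.index ≠ 0 := Subgroup.index_ne_zero_of_finite
    omega
  have hprim : IsPreprimitive G (G ⧸ M) := by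
    rw [← isCoatom_stabilizer_iff_preprimitive (G := G) (a := ((1 : G) : G ⧸ M)), hstab]
    exact hM
  let e : (G ⧸ M) ≃ Fin n := Fintype.equivFinOfCardEq hcard
  let Ψ : G →* Equiv.Perm (Fin n) :=
    (e.permCongrHom).toMonoidHom.comp (MulAction.toPermHom G (G ⧸ M))
  have hΨ : ∀ (g : G) (x : G ⧸ M), Ψ g (e x) = e (g • x) := by
    intro g x
    show e.permCongr (MulAction.toPerm g) (e x) = e (g • x)
    rw [Equiv.permCongr_apply, Equiv.symm_apply_apply]
    rfl
  let φ : G → Ψ.range := fun g => ⟨Ψ g, g, rfl⟩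
  let f : (G ⧸ M) →ₑ[φ] Fin n :=
    { toFun := e
      map_smul' := fun g x => (hΨ g x).symm }
  have hP : IsPreprimitive Ψ.range (Fin n) :=
    IsPreprimitive.of_surjective (f := f) e.surjective
  have hAP := hA _ hP
  have halt : ∀ c : Equiv.Perm (G ⧸ M), Equiv.Perm.sign c = 1 → ∃ g : G, ∀ x, g • x = c x := by
    intro c hc
    have h1 : e.permCongr c ∈ alternatingGroup (Fin n) := by
      rw [Equiv.Perm.mem_alternatingGroup, Equiv.Perm.sign_permCongr, hc]
    obtain ⟨g, hg⟩ := hAP h1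
    refine ⟨g, fun x => ?_⟩
    apply e.injective
    rw [← hΨ, hg, Equiv.permCongr_apply, Equiv.symm_apply_apply]
  obtain ⟨hHneM, hmaxM⟩ := (isCoatom_subgroupOf_iff hHM).mp hmax
  have hKMH : K ⊓ M = H := by
    rcases hmaxM (K ⊓ M) (le_inf hHK hHM) inf_le_right with h | h
    · exact h
    · exfalso
      have hMK : M ≤ K := by
        rw [← h]
        exact inf_le_left
      rcases eq_or_lt_of_le hMK with h' | h'
      · exact hKM h'.symm
      · exact hK.1 (hM.2 K h')
  rw [isCoatom_subgroupOf_iff hHK]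
  refine ⟨?_, ?_⟩
  · intro hHeqK
    have hKleM : K ≤ M := hHeqK ▸ hHM
    rcases eq_or_lt_of_le hKleM with h' | h'
    · exact hKM h'
    · exact hM.1 (hK.2 M h')
  · intro L hHL hLK
    by_contra hcon
    push Not at hcon
    refine no_between_of_alt (G := G) (X := G ⧸ M) (by rw [hcard]; exact hodd) halt
      ((1 : G) : G ⧸ M) htrans H K hK (by rw [hstab]; exact hKMH) ?_ L hHL hLK hcon.1 hcon.2
    intro T hHT hTM
    rw [hstab] at hTM ⊢
    exact hmaxM T hHT hTM

end Cfsg.Agent.Helper98
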