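import Cfsg.Agent.Helper98.SymAut

set_option autoImplicit false

namespace Cfsg.Agent.Helper98

/-! ### Isomorphisms of symmetric groups preserving transpositions -/

section SwapIso

variable {X Ω : Type*} [Fintype X] [DecidableEq X] [Fintype Ω] [DecidableEq Ω]

/-- An isomorphism of symmetric groups of degree at least five which, together with its inverse,
preserves transpositions maps point stabilisers to point stabilisers. -/
theorem exists_fix_iff_of_swap_preserving (hcard : Fintype.card X = Fintype.card Ω)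
    (h5 : 5 ≤ Fintype.card Ω) (ψ : Equiv.Perm X ≃* Equiv.Perm Ω)
    (h1 : ∀ s : Equiv.Perm X, s.IsSwap → (ψ s).IsSwap)
    (h2 : ∀ s : Equiv.Perm Ω, s.IsSwap → (ψ.symm s).IsSwap) (c₀ : X) :
    ∃ x₀ : Ω, ∀ g : Equiv.Perm X, g c₀ = c₀ ↔ ψ g x₀ = x₀ := by
  have hsw : ∀ c : {c : X // c ≠ c₀}, (ψ (Equiv.swap c₀ c.1)).IsSwap :=
    fun c => h1 _ ⟨c₀, c.1, c.2.symm, rfl⟩
  have hnc : ∀ i j : {c : X // c ≠ c₀}, i ≠ j →
      ¬ Commute (ψ (Equiv.swap c₀ i.1)) (ψ (Equiv.swap c₀ j.1)) := by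
    intro i j hij hcomm
    have hc : Equiv.swap c₀ i.1 * Equiv.swap c₀ j.1 = Equiv.swap c₀ j.1 * Equiv.swap c₀ i.1 := by
      apply ψ.injective
      rw [map_mul, map_mul]
      exact hcomm
    have hij' : i.1 ≠ j.1 := fun h => hij (Subtype.ext h)
    have h1 := congrArg (fun σ : Equiv.Perm X => σ j.1) hc
    simp only [Equiv.Perm.mul_apply, Equiv.swap_apply_right, Equiv.swap_apply_left] at h1
    rw [Equiv.swap_apply_of_ne_of_ne j.2 hij'.symm, Equiv.swap_apply_right] at h1
    exact i.2 h1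
  have hIcard : Fintype.card {c : X // c ≠ c₀} = Fintype.card Ω - 1 := by
    rw [Fintype.card_subtype_compl, Fintype.card_subtype_eq, hcard]
  have h4 : ∀ i j k : {c : X // c ≠ c₀}, ∃ l, l ≠ i ∧ l ≠ j ∧ l ≠ k := by
    intro i j k
    by_contra hcon
    push Not at hcon
    have hsub : (Finset.univ : Finset {c : X // c ≠ c₀}) ⊆ {i, j, k} := by
      intro l _
      simp only [Finset.mem_insert, Finset.mem_singleton]
      by_cases h1 : l = i
      · exact Or.inl h1
      by_cases h2 : l = j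
      · exact Or.inr (Or.inl h2)
      exact Or.inr (Or.inr (hcon l h1 h2))
    have hle := Finset.card_le_card hsub
    have h3 : ({i, j, k} : Finset {c : X // c ≠ c₀}).card ≤ 3 := Finset.card_le_three
    rw [Finset.card_univ, hIcard] at hle
    omega
  have h2' : ∃ i j : {c : X // c ≠ c₀}, i ≠ j := by
    have hone : 1 < Fintype.card {c : X // c ≠ c₀} := by
      rw [hIcard]
      omega
    obtain ⟨i, j, hij⟩ := Fintype.exists_pair_of_one_lt_card hone
    exact ⟨i, j, hij⟩
  obtain ⟨x₀, hx₀⟩ := star_of_pairwise_not_commute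
    (fun c : {c : X // c ≠ c₀} => ψ (Equiv.swap c₀ c.1)) hsw hnc h2' h4
  refine ⟨x₀, ?_⟩
  have hle : MulAction.stabilizer (Equiv.Perm Ω) x₀ ≤
      (MulAction.stabilizer (Equiv.Perm X) c₀).map ψ.toMonoidHom := by
    apply stabilizer_le_of_swap_mem
    intro y z hy hz hyz
    have hsw' := h2 (Equiv.swap y z) ⟨y, z, hyz, rfl⟩
    have hfix : ψ.symm (Equiv.swap y z) c₀ = c₀ := by
      by_contra hmv
      have e1 := isSwap_eq_swap_apply hsw' hmv
      have h3 := hx₀ ⟨ψ.symm (Equiv.swap y z) c₀, hmv⟩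
      simp only at h3
      rw [← e1, MulEquiv.apply_symm_apply] at h3
      exact h3 (Equiv.swap_apply_of_ne_of_ne hy.symm hz.symm)
    exact ⟨ψ.symm (Equiv.swap y z), hfix, MulEquiv.apply_symm_apply _ _⟩
  have heq : MulAction.stabilizer (Equiv.Perm Ω) x₀ =
      (MulAction.stabilizer (Equiv.Perm X) c₀).map ψ.toMonoidHom := by
    apply eq_of_le_of_index_eq hle
    · rw [Subgroup.index_map_of_bijective ψ.bijective, index_stabilizer_perm,
        index_stabilizer_perm, hcard]
    · rw [Subgroup.index_map_of_bijective ψ.bijective, index_stabilizer_perm]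
      omega
  intro g
  constructor
  · intro hg
    have h3 : ψ g ∈ (MulAction.stabilizer (Equiv.Perm X) c₀).map ψ.toMonoidHom := ⟨g, hg, rfl⟩
    rw [← heq] at h3
    exact h3
  · intro hg
    have h3 : ψ g ∈ MulAction.stabilizer (Equiv.Perm Ω) x₀ := hg
    rw [heq] at h3
    obtain ⟨g', hg', hgg⟩ := h3
    have : g' = g := ψ.injective hgg
    rw [← this]
    exact hg'

theorem eq_of_fix_iff (h3 : 3 ≤ Fintype.card Ω) {p q : Ω}
    (h : ∀ k : Equiv.Perm Ω, k p = p ↔ k q = q) : p = q := by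
  by_contra hpq
  obtain ⟨z, hz⟩ : ∃ z, z ≠ p ∧ z ≠ q := by
    by_contra hcon
    push Not at hcon
    have hsub : (Finset.univ : Finset Ω) ⊆ {p, q} := by
      intro z _
      simp only [Finset.mem_insert, Finset.mem_singleton]
      by_cases hzp : z = p
      · exact Or.inl hzp
      · exact Or.inr (hcon z hzp)
    have hle := Finset.card_le_card hsub
    have h2 : ({p, q} : Finset Ω).card ≤ 2 := Finset.card_le_two
    rw [Finset.card_univ] at hle
    omega
  have h1 := (h (Equiv.swap p z)).mpr (Equiv.swap_apply_of_ne_of_ne (Ne.symm hpq) (Ne.symm hz.2))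
  rw [Equiv.swap_apply_left] at h1
  exact hz.1 h1

/-- An automorphism of the symmetric group of degree at least five which, together with its
inverse, preserves transpositions is inner. -/
theorem exists_conj_of_swap_preserving (h5 : 5 ≤ Fintype.card Ω)
    (γ : Equiv.Perm Ω ≃* Equiv.Perm Ω)
    (h1 : ∀ s : Equiv.Perm Ω, s.IsSwap → (γ s).IsSwap)
    (h2 : ∀ s : Equiv.Perm Ω, s.IsSwap → (γ.symm s).IsSwap) :
    ∃ π : Equiv.Perm Ω, ∀ g, γ g = π * g * π⁻¹ := by
  choose π₀ hπ₀ using exists_fix_iff_of_swap_preserving rfl h5 γ h1 h2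
  have hinj : Function.Injective π₀ := by
    intro x x' hxx
    apply eq_of_fix_iff (by omega)
    intro k
    rw [hπ₀ x k, hπ₀ x' k, hxx]
  have key : ∀ g x, γ g (π₀ x) = π₀ (g x) := by
    intro g x
    apply eq_of_fix_iff (by omega)
    intro k
    obtain ⟨h, rfl⟩ := γ.surjective k
    rw [← hπ₀ (g x) h]
    have h3 := hπ₀ x (g⁻¹ * h * g)
    rw [map_mul, map_mul, map_inv] at h3
    simp only [Equiv.Perm.mul_apply] at h3
    have e1 : (γ h) ((γ g) (π₀ x)) = (γ g) (π₀ x) ↔
        (γ g)⁻¹ ((γ h) ((γ g) (π₀ x))) = π₀ x := Equiv.Perm.inv_eq_iff_eq.symm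
    have e2 : h (g x) = g x ↔ g⁻¹ (h (g x)) = x := Equiv.Perm.inv_eq_iff_eq.symm
    rw [e1, e2]
    exact h3.symm
  refine ⟨Equiv.ofBijective π₀ (Finite.injective_iff_bijective.mp hinj), fun g => ?_⟩
  ext w
  obtain ⟨x, rfl⟩ := (Finite.injective_iff_bijective.mp hinj).2 w
  rw [key]
  simp only [Equiv.Perm.mul_apply]
  have e1 : (Equiv.ofBijective π₀ (Finite.injective_iff_bijective.mp hinj))⁻¹ (π₀ x) = x := by
    rw [Equiv.Perm.inv_eq_iff_eq]
    rfl
  rw [e1]
  rfl

end SwapIso

/-! ### Automorphisms of the symmetric group of degree six -/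

section Six

variable {Ω : Type*} [Fintype Ω] [DecidableEq Ω]

/-- The image of a transposition under an automorphism of the symmetric group of degree six is a
transposition or a product of three disjoint transpositions. -/
theorem cycleType_map_swap_six (h6 : Fintype.card Ω = 6) (ψ : Equiv.Perm Ω ≃* Equiv.Perm Ω)
    (s : Equiv.Perm Ω) (hs : s.IsSwap) :
    (ψ s).cycleType = {2} ∨ (ψ s).cycleType = {2, 2, 2} := by
  have hord : orderOf (ψ s) = 2 := by rw [MulEquiv.orderOf_eq, hs.orderOf]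
  obtain ⟨k, hk⟩ := Equiv.Perm.cycleType_prime_order (σ := ψ s) (by rw [hord]; exact Nat.prime_two)
  rw [hord] at hk
  have hsX : s.cycleType = {2} := Equiv.Perm.isSwap_iff_cycleType.mp hs
  have hcount := card_cycleType_mulEquiv ψ s
  rw [hk, hsX] at hcount
  have hcondX := (Equiv.Perm.exists_with_cycleType_iff Ω).mp ⟨s, hsX⟩
  have hcondΩ := (Equiv.Perm.exists_with_cycleType_iff Ω).mp ⟨ψ s, hk⟩
  have h1 := Equiv.Perm.card_of_cycleType_mul_eq Ω ({2} : Multiset ℕ)
  have h2 := Equiv.Perm.card_of_cycleType_mul_eq Ω (Multiset.replicate (k + 1) 2)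
  rw [if_pos hcondX] at h1
  rw [if_pos hcondΩ, hcount, ← h1] at h2
  have hpos : 0 < (Finset.univ.filter fun g : Equiv.Perm Ω => g.cycleType = {2}).card :=
    Finset.card_pos.mpr ⟨s, by simp [hsX]⟩
  have h3 := Nat.eq_of_mul_eq_mul_left hpos h2
  have hsum : (Multiset.replicate (k + 1) 2).sum = 2 * (k + 1) := by
    rw [Multiset.sum_replicate, smul_eq_mul, mul_comm]
  have hprod : (Multiset.replicate (k + 1) 2).prod = 2 ^ (k + 1) := Multiset.prod_replicate _ _
  have hfin : (Multiset.replicate (k + 1) 2).toFinset = {2} := by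
    ext x
    rw [Multiset.mem_toFinset, Multiset.mem_replicate, Finset.mem_singleton]
    simp
  have hcnt : (Multiset.replicate (k + 1) 2).count 2 = k + 1 := Multiset.count_replicate_self _ _
  rw [hsum, hprod, hfin, Finset.prod_singleton, hcnt] at h3
  simp only [Multiset.sum_singleton, Multiset.prod_singleton, Multiset.toFinset_singleton,
    Finset.prod_singleton, Multiset.count_singleton_self, Nat.factorial_one, mul_one] at h3
  have h2k : 2 * (k + 1) ≤ Fintype.card Ω := by
    have := hcondΩ.1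
    rwa [hsum] at this
  rw [h6] at h3 h2k
  have hk3 : k ≤ 2 := by omega
  interval_cases k
  · left
    rw [hk]
    rfl
  · exfalso
    simp [Nat.factorial] at h3
  · right
    rw [hk]
    rfl

theorem exists_isSwap (h6 : Fintype.card Ω = 6) : ∃ s : Equiv.Perm Ω, s.IsSwap := by
  have h1 : 1 < Fintype.card Ω := by omega
  obtain ⟨x, y, hxy⟩ := Fintype.exists_pair_of_one_lt_card h1
  exact ⟨Equiv.swap x y, x, y, hxy, rfl⟩

/-- An automorphism of the symmetric group maps the class of transpositions onto a class. -/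
theorem isSwap_symm_of_cycleType_eq (α : Equiv.Perm Ω ≃* Equiv.Perm Ω) (s₀ : Equiv.Perm Ω)
    (hs₀ : s₀.IsSwap) (τ : Equiv.Perm Ω) (hτ : τ.cycleType = (α s₀).cycleType) :
    (α.symm τ).IsSwap := by
  have hs₀' : s₀.cycleType = {2} := Equiv.Perm.isSwap_iff_cycleType.mp hs₀
  have hcount := card_cycleType_mulEquiv α s₀
  have hsub : (Finset.univ.filter fun g : Equiv.Perm Ω => g.cycleType = s₀.cycleType).image α ⊆
      Finset.univ.filter fun g : Equiv.Perm Ω => g.cycleType = (α s₀).cycleType := by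
    intro g hg
    rw [Finset.mem_image] at hg
    obtain ⟨s, hs, rfl⟩ := hg
    simp only [Finset.mem_filter, Finset.mem_univ, true_and] at hs ⊢
    rw [← Equiv.Perm.isConj_iff_cycleType_eq] at hs ⊢
    exact (α : Equiv.Perm Ω →* Equiv.Perm Ω).map_isConj hs
  have heq := Finset.eq_of_subset_of_card_le hsub (by
    rw [Finset.card_image_of_injective _ α.injective, hcount])
  have hmem : τ ∈ Finset.univ.filter fun g : Equiv.Perm Ω => g.cycleType = (α s₀).cycleType := by
    simp [hτ]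
  rw [← heq, Finset.mem_image] at hmem
  obtain ⟨s, hs, rfl⟩ := hmem
  simp only [Finset.mem_filter, Finset.mem_univ, true_and] at hs
  rw [MulEquiv.symm_apply_apply, Equiv.Perm.isSwap_iff_cycleType, hs, hs₀']

theorem swap_type_six (h6 : Fintype.card Ω = 6) (α : Equiv.Perm Ω ≃* Equiv.Perm Ω) :
    (∀ s : Equiv.Perm Ω, s.IsSwap → (α s).IsSwap) ∨
      (∀ s : Equiv.Perm Ω, s.IsSwap → (α s).cycleType = {2, 2, 2}) := by
  obtain ⟨s₀, hs₀⟩ := exists_isSwap h6
  have hconj : ∀ s : Equiv.Perm Ω, s.IsSwap → (α s).cycleType = (α s₀).cycleType := by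
    intro s hs
    rw [← Equiv.Perm.isConj_iff_cycleType_eq]
    apply (α : Equiv.Perm Ω →* Equiv.Perm Ω).map_isConj
    rw [Equiv.Perm.isConj_iff_cycleType_eq, Equiv.Perm.isSwap_iff_cycleType.mp hs,
      Equiv.Perm.isSwap_iff_cycleType.mp hs₀]
  rcases cycleType_map_swap_six h6 α s₀ hs₀ with h | h
  · left
    intro s hs
    rw [Equiv.Perm.isSwap_iff_cycleType, hconj s hs, h]
  · right
    intro s hs
    rw [hconj s hs, h]

theorem isSwap_symm_of_type_one (h6 : Fintype.card Ω = 6) (α : Equiv.Perm Ω ≃* Equiv.Perm Ω)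
    (h1 : ∀ s : Equiv.Perm Ω, s.IsSwap → (α s).IsSwap) (s : Equiv.Perm Ω) (hs : s.IsSwap) :
    (α.symm s).IsSwap := by
  obtain ⟨s₀, hs₀⟩ := exists_isSwap h6
  apply isSwap_symm_of_cycleType_eq α s₀ hs₀
  rw [Equiv.Perm.isSwap_iff_cycleType.mp hs, Equiv.Perm.isSwap_iff_cycleType.mp (h1 s₀ hs₀)]

theorem symm_type_two (h6 : Fintype.card Ω = 6) (α : Equiv.Perm Ω ≃* Equiv.Perm Ω)
    (h2 : ∀ s : Equiv.Perm Ω, s.IsSwap → (α s).cycleType = {2, 2, 2}) (s : Equiv.Perm Ω)
    (hs : s.IsSwap) : (α.symm s).cycleType = {2, 2, 2} := by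
  rcases swap_type_six h6 α.symm with h | h
  · exfalso
    obtain ⟨s₀, hs₀⟩ := exists_isSwap h6
    have h3 := isSwap_symm_of_type_one h6 α.symm h s₀ hs₀
    rw [MulEquiv.symm_symm, Equiv.Perm.isSwap_iff_cycleType, h2 s₀ hs₀] at h3
    revert h3
    decide
  · exact h s hs

theorem isSwap_of_type_two (h6 : Fintype.card Ω = 6) (α : Equiv.Perm Ω ≃* Equiv.Perm Ω)
    (h2 : ∀ s : Equiv.Perm Ω, s.IsSwap → (α s).cycleType = {2, 2, 2}) (τ : Equiv.Perm Ω)
    (hτ : τ.cycleType = {2, 2, 2}) : (α τ).IsSwap := by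
  obtain ⟨s₀, hs₀⟩ := exists_isSwap h6
  have h3 := isSwap_symm_of_cycleType_eq α.symm s₀ hs₀ τ
    (by rw [hτ, symm_type_two h6 α h2 s₀ hs₀])
  rwa [MulEquiv.symm_symm] at h3

/-- Every subgroup of index `n` of the symmetric group of degree `n ≥ 5` is the preimage of a
point stabiliser under an automorphism. -/
theorem exists_aut_of_index (h5 : 5 ≤ Fintype.card Ω) (H : Subgroup (Equiv.Perm Ω))
    (hH : H.index = Fintype.card Ω) :
    ∃ (α : Equiv.Perm Ω ≃* Equiv.Perm Ω) (x : Ω), ∀ g, g ∈ H ↔ α g x = x := by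
  classical
  have hfin : Fintype (Equiv.Perm Ω ⧸ H) := Fintype.ofFinite _
  have hXcard : Fintype.card (Equiv.Perm Ω ⧸ H) = Fintype.card Ω := by
    rw [← hH, Subgroup.index_eq_card, Nat.card_eq_fintype_card]
  have hnt : Nontrivial Ω := by
    rw [← Fintype.one_lt_card_iff_nontrivial]
    omega
  set ρ : Equiv.Perm Ω →* Equiv.Perm (Equiv.Perm Ω ⧸ H) :=
    MulAction.toPermHom (Equiv.Perm Ω) (Equiv.Perm Ω ⧸ H) with hρ
  have hker : ρ.ker = H.normalCore := (Subgroup.normalCore_eq_ker H).symm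
  have hinj : Function.Injective ρ := by
    rw [← MonoidHom.ker_eq_bot_iff, hker]
    by_contra hne
    have hnt' : Nontrivial H.normalCore := (Subgroup.nontrivial_iff_ne_bot _).mpr hne
    have hle : alternatingGroup Ω ≤ H.normalCore :=
      Equiv.Perm.alternatingGroup_le_of_normal (by rwa [Nat.card_eq_fintype_card]) hnt'
    have hle' : alternatingGroup Ω ≤ H := hle.trans (Subgroup.normalCore_le H)
    have hdvd := Subgroup.index_dvd_of_le hle'
    rw [alternatingGroup.index_eq_two, hH] at hdvd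
    have := Nat.le_of_dvd (by norm_num) hdvd
    omega
  have hbij : Function.Bijective ρ := by
    rw [Fintype.bijective_iff_injective_and_card]
    exact ⟨hinj, by rw [Fintype.card_perm, Fintype.card_perm, hXcard]⟩
  have e : (Equiv.Perm Ω ⧸ H) ≃ Ω := Fintype.equivOfCardEq hXcard
  refine ⟨(MulEquiv.ofBijective ρ hbij).trans e.permCongrHom,
    e (QuotientGroup.mk 1), fun g => ?_⟩
  have h1 : ((MulEquiv.ofBijective ρ hbij).trans e.permCongrHom) g (e (QuotientGroup.mk 1)) =
      e (QuotientGroup.mk (g * 1)) := by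
    show e (ρ g (e.symm (e (QuotientGroup.mk 1)))) = _
    rw [Equiv.symm_apply_apply]
    rfl
  rw [h1, e.injective.eq_iff, QuotientGroup.eq]
  simp

end Six

/-! ### The transitive subgroup of index six -/

section Exotic

/-- The symmetric group of degree five has exactly six Sylow `5`-subgroups. -/
theorem card_sylow_five : Nat.card (Sylow 5 (Equiv.Perm (Fin 5))) = 6 := by
  have hp : Fact (Nat.Prime 5) := ⟨by norm_num⟩
  have hG : Nat.card (Equiv.Perm (Fin 5)) = 120 := by
    rw [Nat.card_perm, Nat.card_eq_fintype_card, Fintype.card_fin]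
    rfl
  obtain ⟨P⟩ : Nonempty (Sylow 5 (Equiv.Perm (Fin 5))) := inferInstance
  have hP5 : Nat.card P = 5 := by
    obtain ⟨n, hn⟩ := IsPGroup.iff_card.mp P.isPGroup'
    have h1 : 5 ∣ Nat.card P := P.dvd_card_of_dvd_card (by rw [hG]; norm_num)
    have h2 : Nat.card P ∣ 120 := by
      have h := Subgroup.card_subgroup_dvd_card (P : Subgroup (Equiv.Perm (Fin 5)))
      rw [hG] at h
      exact h
    rw [hn] at h1 h2 ⊢
    have hn1 : n ≠ 0 := by
      rintro rfl
      norm_num at h1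
    have hn2 : n < 2 := by
      by_contra hcon
      push Not at hcon
      have h3 : 5 ^ 2 ∣ 120 := (pow_dvd_pow 5 hcon).trans h2
      norm_num at h3
    have hn3 : n = 1 := by omega
    rw [hn3, pow_one]
  have hidx : (P : Subgroup (Equiv.Perm (Fin 5))).index = 24 := by
    have h1 := Subgroup.card_mul_index (P : Subgroup (Equiv.Perm (Fin 5)))
    rw [hG] at h1
    have h2 : Nat.card (P : Subgroup (Equiv.Perm (Fin 5))) = 5 := hP5
    rw [h2] at h1
    omega
  have hmod := card_sylow_modEq_one 5 (Equiv.Perm (Fin 5))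
  have hdvd := P.card_dvd_index
  rw [hidx] at hdvd
  have hle := Nat.le_of_dvd (by norm_num) hdvd
  have hne1 : Nat.card (Sylow 5 (Equiv.Perm (Fin 5))) ≠ 1 := by
    intro h1
    have hsub : Subsingleton (Sylow 5 (Equiv.Perm (Fin 5))) :=
      (Nat.card_eq_one_iff_unique.mp h1).1
    have hnorm : (P : Subgroup (Equiv.Perm (Fin 5))).Normal := P.normal_of_subsingleton
    have hnt : Nontrivial (P : Subgroup (Equiv.Perm (Fin 5))) := by
      rw [← Finite.one_lt_card_iff_nontrivial]
      have h2 : Nat.card (P : Subgroup (Equiv.Perm (Fin 5))) = 5 := hP5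
      omega
    have hA : alternatingGroup (Fin 5) ≤ (P : Subgroup (Equiv.Perm (Fin 5))) :=
      Equiv.Perm.alternatingGroup_le_of_normal (by simp) hnt
    have h3 := Subgroup.card_dvd_of_le hA
    have h4 : Nat.card (P : Subgroup (Equiv.Perm (Fin 5))) = 5 := hP5
    rw [nat_card_alternatingGroup, h4, Nat.card_eq_fintype_card, Fintype.card_fin] at h3
    revert h3
    decide
  have key : ∀ n ≤ 24, n ∣ 24 → n % 5 = 1 → n ≠ 1 → n = 6 := by decide
  obtain ⟨n, hn⟩ : ∃ n, Nat.card (Sylow 5 (Equiv.Perm (Fin 5))) = n := ⟨_, rfl⟩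
  rw [hn] at hmod hdvd hne1 hle ⊢
  have hmod' : n % 5 = 1 := by
    unfold Nat.ModEq at hmod
    omega
  exact key n hle hdvd hmod' hne1

variable {Ω : Type*} [Fintype Ω] [DecidableEq Ω]

omit [DecidableEq Ω] in
/-- The symmetric group of degree six has a subgroup of index six without fixed points. -/
theorem exists_exotic (h6 : Fintype.card Ω = 6) :
    ∃ H₂ : Subgroup (Equiv.Perm Ω), H₂.index = 6 ∧ ∀ x : Ω, ∃ g ∈ H₂, g x ≠ x := by
  classical
  have hp : Fact (Nat.Prime 5) := ⟨by norm_num⟩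
  have hG : Nat.card (Equiv.Perm (Fin 5)) = 120 := by
    rw [Nat.card_perm, Nat.card_eq_fintype_card, Fintype.card_fin]
    rfl
  have hX := card_sylow_five
  have hfin : Fintype (Sylow 5 (Equiv.Perm (Fin 5))) := Fintype.ofFinite _
  have hXf : Fintype.card (Sylow 5 (Equiv.Perm (Fin 5))) = 6 := by
    rw [← Nat.card_eq_fintype_card, hX]
  have hinj : Function.Injective
      (MulAction.toPermHom (Equiv.Perm (Fin 5)) (Sylow 5 (Equiv.Perm (Fin 5)))) := by
    rw [← MonoidHom.ker_eq_bot_iff]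
    by_contra hne
    have hnt : Nontrivial (MulAction.toPermHom (Equiv.Perm (Fin 5))
        (Sylow 5 (Equiv.Perm (Fin 5)))).ker := (Subgroup.nontrivial_iff_ne_bot _).mpr hne
    have hA : alternatingGroup (Fin 5) ≤ (MulAction.toPermHom (Equiv.Perm (Fin 5))
        (Sylow 5 (Equiv.Perm (Fin 5)))).ker :=
      Equiv.Perm.alternatingGroup_le_of_normal (by simp) hnt
    obtain ⟨P⟩ : Nonempty (Sylow 5 (Equiv.Perm (Fin 5))) := inferInstance
    have hle : alternatingGroup (Fin 5) ≤ MulAction.stabilizer (Equiv.Perm (Fin 5)) P := by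
      intro g hg
      have h1 := hA hg
      rw [MonoidHom.mem_ker] at h1
      have h2 : MulAction.toPermHom (Equiv.Perm (Fin 5)) (Sylow 5 (Equiv.Perm (Fin 5))) g P =
          g • P := rfl
      rw [h1] at h2
      exact h2.symm
    have hdvd := Subgroup.index_dvd_of_le hle
    rw [MulAction.index_stabilizer_of_transitive, hX, alternatingGroup.index_eq_two] at hdvd
    revert hdvd
    decide
  have hcard : Nat.card (MulAction.toPermHom (Equiv.Perm (Fin 5))
      (Sylow 5 (Equiv.Perm (Fin 5)))).range = 120 := by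
    rw [← hG]
    exact (Nat.card_congr (MonoidHom.ofInjective hinj).toEquiv).symm
  have hidx : (MulAction.toPermHom (Equiv.Perm (Fin 5))
      (Sylow 5 (Equiv.Perm (Fin 5)))).range.index = 6 := by
    have h1 := Subgroup.card_mul_index (MulAction.toPermHom (Equiv.Perm (Fin 5))
      (Sylow 5 (Equiv.Perm (Fin 5)))).range
    rw [hcard, Nat.card_perm, hX] at h1
    have h2 : Nat.factorial 6 = 720 := rfl
    omega
  have e : Sylow 5 (Equiv.Perm (Fin 5)) ≃ Ω := Fintype.equivOfCardEq (hXf.trans h6.symm)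
  refine ⟨(MulAction.toPermHom (Equiv.Perm (Fin 5)) (Sylow 5 (Equiv.Perm (Fin 5)))).range.map
    (e.permCongrHom : Equiv.Perm (Sylow 5 (Equiv.Perm (Fin 5))) →* Equiv.Perm Ω), ?_, ?_⟩
  · rw [Subgroup.index_map_equiv, hidx]
  · intro x
    have hnt : Nontrivial (Sylow 5 (Equiv.Perm (Fin 5))) := by
      rw [← Fintype.one_lt_card_iff_nontrivial, hXf]
      norm_num
    obtain ⟨Q', hQ'⟩ := exists_ne (e.symm x)
    obtain ⟨g₅, hg₅⟩ := MulAction.exists_smul_eq (Equiv.Perm (Fin 5)) (e.symm x) Q'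
    refine ⟨e.permCongr (MulAction.toPermHom (Equiv.Perm (Fin 5))
      (Sylow 5 (Equiv.Perm (Fin 5))) g₅), ⟨_, ⟨g₅, rfl⟩, rfl⟩, ?_⟩
    rw [Equiv.permCongr_apply]
    intro h
    apply hQ'
    rw [← hg₅]
    apply e.injective
    rw [Equiv.apply_symm_apply]
    exact h

end Exotic

/-! ### The two classes of subgroups of index six -/

section Classes

variable {Ω : Type*} [Fintype Ω] [DecidableEq Ω]

omit [Fintype Ω] [DecidableEq Ω] in
theorem map_conj_stabilizer (g : Equiv.Perm Ω) (x : Ω) :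
    Subgroup.map (MulAut.conj g).toMonoidHom (MulAction.stabilizer (Equiv.Perm Ω) x) =
      MulAction.stabilizer (Equiv.Perm Ω) (g x) := by
  ext h
  constructor
  · rintro ⟨k, hk, rfl⟩
    have hk' : k x = x := hk
    show (g * k * g⁻¹) (g x) = g x
    simp [hk']
  · intro hh
    have hh' : h (g x) = g x := hh
    refine ⟨g⁻¹ * h * g, ?_, ?_⟩
    · show (g⁻¹ * h * g) x = x
      simp [hh']
    · show g * (g⁻¹ * h * g) * g⁻¹ = h
      group

/-- The symmetric group of degree six has exactly two conjugacy classes of subgroups of index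
six. -/
theorem sym6_index_six (h6 : Fintype.card Ω = 6) :
    ∃ H₁ H₂ : Subgroup (Equiv.Perm Ω), H₁.index = 6 ∧ H₂.index = 6 ∧
      (¬ ∃ g : Equiv.Perm Ω, Subgroup.map (MulAut.conj g).toMonoidHom H₁ = H₂) ∧
      ∀ H : Subgroup (Equiv.Perm Ω), H.index = 6 →
        ∃ g : Equiv.Perm Ω, Subgroup.map (MulAut.conj g).toMonoidHom H₁ = H ∨
          Subgroup.map (MulAut.conj g).toMonoidHom H₂ = H := by
  have h5 : 5 ≤ Fintype.card Ω := by omega
  obtain ⟨x₁⟩ : Nonempty Ω := Fintype.card_pos_iff.mp (by omega)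
  obtain ⟨H₂, hH₂, hfree⟩ := exists_exotic h6
  -- subgroups of index six coming from a transposition-preserving automorphism
  have typeI : ∀ (H : Subgroup (Equiv.Perm Ω)) (α : Equiv.Perm Ω ≃* Equiv.Perm Ω) (x : Ω),
      (∀ g, g ∈ H ↔ α g x = x) → (∀ s : Equiv.Perm Ω, s.IsSwap → (α s).IsSwap) →
      ∃ y : Ω, H = MulAction.stabilizer (Equiv.Perm Ω) y := by
    intro H α x hα h1
    obtain ⟨π, hπ⟩ := exists_conj_of_swap_preserving h5 α h1 (isSwap_symm_of_type_one h6 α h1)
    refine ⟨π⁻¹ x, ?_⟩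
    ext g
    rw [hα g, hπ g]
    show π (g (π⁻¹ x)) = x ↔ g (π⁻¹ x) = π⁻¹ x
    rw [Equiv.Perm.eq_inv_iff_eq]
  obtain ⟨α₂, x₂, hα₂⟩ := exists_aut_of_index h5 H₂ (hH₂.trans h6.symm)
  have hα₂II : ∀ s : Equiv.Perm Ω, s.IsSwap → (α₂ s).cycleType = {2, 2, 2} := by
    rcases swap_type_six h6 α₂ with h | h
    · exfalso
      obtain ⟨y, hy⟩ := typeI H₂ α₂ x₂ hα₂ h
      obtain ⟨g, hg, hgy⟩ := hfree y
      rw [hy] at hg
      exact hgy hg
    · exact h
  refine ⟨MulAction.stabilizer (Equiv.Perm Ω) x₁, H₂, ?_, hH₂, ?_, ?_⟩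
  · rw [index_stabilizer_perm, h6]
  · rintro ⟨g, hg⟩
    rw [map_conj_stabilizer] at hg
    obtain ⟨k, hk, hkx⟩ := hfree (g x₁)
    rw [← hg] at hk
    exact hkx hk
  · intro H hH
    obtain ⟨α, x, hα⟩ := exists_aut_of_index h5 H (hH.trans h6.symm)
    rcases swap_type_six h6 α with h | h
    · obtain ⟨y, hy⟩ := typeI H α x hα h
      refine ⟨Equiv.swap x₁ y, Or.inl ?_⟩
      rw [map_conj_stabilizer, Equiv.swap_apply_left, hy]
    · -- both automorphisms interchange the two classes of involutions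
      set g₀ : Equiv.Perm Ω := Equiv.swap x₂ x with hg₀
      have hg₀x : g₀ x₂ = x := Equiv.swap_apply_left _ _
      set γ : Equiv.Perm Ω ≃* Equiv.Perm Ω := α₂.trans ((MulAut.conj g₀).trans α.symm) with hγ
      have hγ_apply : ∀ k, γ k = α.symm (g₀ * α₂ k * g₀⁻¹) := fun k => rfl
      have hγ_symm : ∀ k, γ.symm k = α₂.symm (g₀⁻¹ * α k * g₀) := by
        intro k
        apply γ.injective
        rw [MulEquiv.apply_symm_apply, hγ_apply, MulEquiv.apply_symm_apply]
        have : g₀ * (g₀⁻¹ * α k * g₀) * g₀⁻¹ = α k := by group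
        rw [this, MulEquiv.symm_apply_apply]
      have hγ1 : ∀ s : Equiv.Perm Ω, s.IsSwap → (γ s).IsSwap := by
        intro s hs
        rw [hγ_apply]
        have h3 := isSwap_of_type_two h6 α.symm (symm_type_two h6 α h) (g₀ * α₂ s * g₀⁻¹)
          (by rw [Equiv.Perm.cycleType_conj, hα₂II s hs])
        exact h3
      have hγ2 : ∀ s : Equiv.Perm Ω, s.IsSwap → (γ.symm s).IsSwap := by
        intro s hs
        rw [hγ_symm]
        have e1 : g₀⁻¹ * α s * g₀ = g₀⁻¹ * α s * g₀⁻¹⁻¹ := by rw [inv_inv]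
        have h3 := isSwap_of_type_two h6 α₂.symm (symm_type_two h6 α₂ hα₂II) (g₀⁻¹ * α s * g₀)
          (by rw [e1, Equiv.Perm.cycleType_conj, h s hs])
        exact h3
      obtain ⟨π, hπ⟩ := exists_conj_of_swap_preserving h5 γ hγ1 hγ2
      have hmem : ∀ k, k ∈ H₂ ↔ γ k ∈ H := by
        intro k
        rw [hα₂ k, hα (γ k), hγ_apply, MulEquiv.apply_symm_apply]
        show α₂ k x₂ = x₂ ↔ g₀ (α₂ k (g₀⁻¹ x)) = x
        have e1 : g₀⁻¹ x = x₂ := by
          rw [Equiv.Perm.inv_eq_iff_eq, hg₀x]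
        rw [e1]
        constructor
        · intro h3
          rw [h3, hg₀x]
        · intro h3
          apply g₀.injective
          rw [h3, hg₀x]
      refine ⟨π, Or.inr ?_⟩
      ext k
      constructor
      · rintro ⟨k', hk', rfl⟩
        have h3 := (hmem k').mp hk'
        rw [hπ k'] at h3
        exact h3
      · intro hk
        refine ⟨π⁻¹ * k * π, ?_, ?_⟩
        · apply (hmem _).mpr
          rw [hπ]
          have : π * (π⁻¹ * k * π) * π⁻¹ = k := by group
          rw [this]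
          exact hk
        · show π * (π⁻¹ * k * π) * π⁻¹ = k
          group

end Classes

end Cfsg.Agent.Helper98
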