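import Mathlib

set_option autoImplicit false

namespace Cfsg.Agent.Helper98

open Nat

/-! ### Numerical lemmas -/

theorem fact_ineq_A (i : ℕ) : 2 ^ (i + 4) * (i + 4)! < 2 * (2 * i + 6)! := by
  induction i with
  | zero => decide
  | succ i ih =>
    have h1 : 2 ^ (i + 1 + 4) * (i + 1 + 4)! = 2 * (i + 5) * (2 ^ (i + 4) * (i + 4)!) := by
      have hf : (i + 1 + 4)! = (i + 5) * (i + 4)! := Nat.factorial_succ (i + 4)
      have hp : 2 ^ (i + 1 + 4) = 2 * 2 ^ (i + 4) := by ring
      rw [hf, hp]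
      ring
    have h2 : (2 * (i + 1) + 6)! = (2 * i + 8) * (2 * i + 7) * (2 * i + 6)! := by
      rw [show 2 * (i + 1) + 6 = (2 * i + 6) + 1 + 1 by ring, Nat.factorial_succ, Nat.factorial_succ]
      ring
    rw [h1, h2]
    have h3 : 2 * (i + 5) ≤ (2 * i + 8) * (2 * i + 7) := by nlinarith
    have h4 : 0 < (2 * i + 6)! := Nat.factorial_pos _
    calc 2 * (i + 5) * (2 ^ (i + 4) * (i + 4)!) < 2 * (i + 5) * (2 * (2 * i + 6)!) := by
          apply Nat.mul_lt_mul_of_pos_left ih (by omega)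
      _ ≤ (2 * i + 8) * (2 * i + 7) * (2 * (2 * i + 6)!) := Nat.mul_le_mul_right _ h3
      _ = 2 * ((2 * i + 8) * (2 * i + 7) * (2 * i + 6)!) := by ring

theorem fact_ineq_B (i m : ℕ) : (m + 1)! * 2 ^ (i + 2) * (i + 2)! < 2 * (m + 2 * i + 3)! := by
  induction i with
  | zero =>
    have h2 : (m + 2 * 0 + 3)! = (m + 3) * (m + 2) * (m + 1)! := by
      rw [show m + 2 * 0 + 3 = (m + 1) + 1 + 1 by ring, Nat.factorial_succ, Nat.factorial_succ]
      ring
    rw [h2]
    have h4 : 0 < (m + 1)! := Nat.factorial_pos _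
    have h3 : 2 ^ (0 + 2) * (0 + 2)! < 2 * ((m + 3) * (m + 2)) := by
      norm_num [Nat.factorial]
      nlinarith
    calc (m + 1)! * 2 ^ (0 + 2) * (0 + 2)! = (m + 1)! * (2 ^ (0 + 2) * (0 + 2)!) := by ring
      _ < (m + 1)! * (2 * ((m + 3) * (m + 2))) := Nat.mul_lt_mul_of_pos_left h3 h4
      _ = 2 * ((m + 3) * (m + 2) * (m + 1)!) := by ring
  | succ i ih =>
    have h1 : (m + 1)! * 2 ^ (i + 1 + 2) * (i + 1 + 2)! =
        2 * (i + 3) * ((m + 1)! * 2 ^ (i + 2) * (i + 2)!) := by
      have hf : (i + 1 + 2)! = (i + 3) * (i + 2)! := Nat.factorial_succ (i + 2)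
      have hp : 2 ^ (i + 1 + 2) = 2 * 2 ^ (i + 2) := by ring
      rw [hf, hp]
      ring
    have h2 : (m + 2 * (i + 1) + 3)! = (m + 2 * i + 5) * (m + 2 * i + 4) * (m + 2 * i + 3)! := by
      rw [show m + 2 * (i + 1) + 3 = (m + 2 * i + 3) + 1 + 1 by ring, Nat.factorial_succ,
        Nat.factorial_succ]
      ring
    rw [h1, h2]
    have h3 : 2 * (i + 3) ≤ (m + 2 * i + 5) * (m + 2 * i + 4) := by nlinarith
    calc 2 * (i + 3) * ((m + 1)! * 2 ^ (i + 2) * (i + 2)!)
        < 2 * (i + 3) * (2 * (m + 2 * i + 3)!) := Nat.mul_lt_mul_of_pos_left ih (by omega)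
      _ ≤ (m + 2 * i + 5) * (m + 2 * i + 4) * (2 * (m + 2 * i + 3)!) := Nat.mul_le_mul_right _ h3
      _ = 2 * ((m + 2 * i + 5) * (m + 2 * i + 4) * (m + 2 * i + 3)!) := by ring

/-- The class of transpositions and the class of products of `j` disjoint transpositions in the
symmetric group of degree `n` have centralizers of the same order only when `j = 1` or `n = 6`. -/
theorem swap_count_eq (n j : ℕ) (hj : 1 ≤ j) (h2j : 2 * j ≤ n) (hn : n ≠ 6)
    (h : (n - 2)! * 2 = (n - 2 * j)! * 2 ^ j * j !) : j = 1 := by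
  by_contra hj1
  have hj2 : 2 ≤ j := by omega
  obtain ⟨m, rfl⟩ : ∃ m, n = m + 2 * j := ⟨n - 2 * j, by omega⟩
  rw [show m + 2 * j - 2 * j = m by omega] at h
  rcases Nat.eq_zero_or_pos m with hm | hm
  · subst hm
    rcases Nat.lt_or_ge j 4 with hj4 | hj4
    · interval_cases j
      · simp [Nat.factorial] at h
      · exact hn rfl
    · obtain ⟨i, rfl⟩ : ∃ i, j = i + 4 := ⟨j - 4, by omega⟩
      have := fact_ineq_A i
      rw [show 0 + 2 * (i + 4) - 2 = 2 * i + 6 by omega] at h
      simp only [Nat.factorial_zero, one_mul] at h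
      omega
  · obtain ⟨m', rfl⟩ : ∃ m', m = m' + 1 := ⟨m - 1, by omega⟩
    obtain ⟨i, rfl⟩ : ∃ i, j = i + 2 := ⟨j - 2, by omega⟩
    have := fact_ineq_B i m'
    rw [show m' + 1 + 2 * (i + 2) - 2 = m' + 2 * i + 3 by omega] at h
    omega

/-! ### Isomorphisms of symmetric groups preserve transpositions (degree ≠ 6) -/

section SwapPreserving

variable {X Ω : Type*} [Fintype X] [DecidableEq X] [Fintype Ω] [DecidableEq Ω]

/-- An isomorphism of symmetric groups preserves the number of elements of the cycle type of a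
given element. -/
theorem card_cycleType_mulEquiv (ψ : Equiv.Perm X ≃* Equiv.Perm Ω) (s : Equiv.Perm X) :
    (Finset.univ.filter fun g : Equiv.Perm Ω => g.cycleType = (ψ s).cycleType).card =
      (Finset.univ.filter fun g : Equiv.Perm X => g.cycleType = s.cycleType).card := by
  symm
  refine Finset.card_bij' (fun g _ => ψ g) (fun g _ => ψ.symm g) ?_ ?_ ?_ ?_
  · intro g hg
    simp only [Finset.mem_filter, Finset.mem_univ, true_and] at hg ⊢
    rw [← Equiv.Perm.isConj_iff_cycleType_eq] at hg ⊢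
    exact (ψ : Equiv.Perm X →* Equiv.Perm Ω).map_isConj hg
  · intro g hg
    simp only [Finset.mem_filter, Finset.mem_univ, true_and] at hg ⊢
    rw [← Equiv.Perm.isConj_iff_cycleType_eq] at hg ⊢
    have := (ψ.symm : Equiv.Perm Ω →* Equiv.Perm X).map_isConj hg
    simpa using this
  · intro g _
    simp
  · intro g _
    simp

theorem isSwap_map_of_mulEquiv (hcard : Fintype.card X = Fintype.card Ω) (h6 : Fintype.card Ω ≠ 6)
    (ψ : Equiv.Perm X ≃* Equiv.Perm Ω) (s : Equiv.Perm X) (hs : s.IsSwap) : (ψ s).IsSwap := by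
  have hord : orderOf (ψ s) = 2 := by rw [MulEquiv.orderOf_eq, hs.orderOf]
  obtain ⟨k, hk⟩ := Equiv.Perm.cycleType_prime_order (σ := ψ s) (by rw [hord]; exact Nat.prime_two)
  rw [hord] at hk
  have hsX : s.cycleType = {2} := Equiv.Perm.isSwap_iff_cycleType.mp hs
  have hcount := card_cycleType_mulEquiv ψ s
  rw [hk, hsX] at hcount
  have hcondX := (Equiv.Perm.exists_with_cycleType_iff X).mp ⟨s, hsX⟩
  have hcondΩ := (Equiv.Perm.exists_with_cycleType_iff Ω).mp ⟨ψ s, hk⟩
  have h1 := Equiv.Perm.card_of_cycleType_mul_eq X ({2} : Multiset ℕ)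
  have h2 := Equiv.Perm.card_of_cycleType_mul_eq Ω (Multiset.replicate (k + 1) 2)
  rw [if_pos hcondX] at h1
  rw [if_pos hcondΩ, hcount, ← hcard, ← h1] at h2
  have hpos : 0 < (Finset.univ.filter fun g : Equiv.Perm X => g.cycleType = {2}).card :=
    Finset.card_pos.mpr ⟨s, by simp [hsX]⟩
  have h3 := Nat.eq_of_mul_eq_mul_left hpos h2
  have hsum : (Multiset.replicate (k + 1) 2).sum = 2 * (k + 1) := by
    rw [Multiset.sum_replicate, smul_eq_mul, mul_comm]
  have hprod : (Multiset.replicate (k + 1) 2).prod = 2 ^ (k + 1) := Multiset.prod_replicate _ _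
  have hfin : (Multiset.replicate (k + 1) 2).toFinset = {2} := by
    ext x
    rw [Multiset.mem_toFinset, Multiset.mem_replicate, Finset.mem_singleton]
    simp
  have hcnt : (Multiset.replicate (k + 1) 2).count 2 = k + 1 := Multiset.count_replicate_self _ _
  rw [hsum, hprod, hfin, Finset.prod_singleton, hcnt] at h3
  simp only [Multiset.sum_singleton, Multiset.prod_singleton, Multiset.toFinset_singleton,
    Finset.prod_singleton, Multiset.count_singleton_self, Nat.factorial_one, mul_one] at h3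
  have h2k : 2 * (k + 1) ≤ Fintype.card Ω := by
    have := hcondΩ.1
    rwa [hsum] at this
  have hk1 : k + 1 = 1 := by
    apply swap_count_eq (Fintype.card Ω) (k + 1) (by omega) h2k h6
    rw [← hcard]
    exact h3.symm
  rw [Equiv.Perm.isSwap_iff_cycleType, hk, hk1]
  rfl

end SwapPreserving

/-! ### Families of pairwise non-commuting transpositions -/

section Star

variable {Ω : Type*} [DecidableEq Ω]

theorem exists_common_moved {s t : Equiv.Perm Ω} (h : ¬ Commute s t) : ∃ x, s x ≠ x ∧ t x ≠ x := by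
  by_contra hcon
  push Not at hcon
  apply h
  apply Equiv.Perm.Disjoint.commute
  intro x
  by_cases hx : s x = x
  · exact Or.inl hx
  · exact Or.inr (hcon x hx)

theorem swap_moved {p q y : Ω} (h : Equiv.swap p q y ≠ y) : y = p ∨ y = q := by
  by_contra hcon
  push Not at hcon
  exact h (Equiv.swap_apply_of_ne_of_ne hcon.1 hcon.2)

theorem isSwap_eq_swap_apply {s : Equiv.Perm Ω} (hs : s.IsSwap) {x : Ω} (hx : s x ≠ x) :
    s = Equiv.swap x (s x) := by
  obtain ⟨a, b, hab, rfl⟩ := hs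
  rcases swap_moved hx with rfl | rfl
  · rw [Equiv.swap_apply_left]
  · rw [Equiv.swap_apply_right, Equiv.swap_comm]

/-- A family of at least four pairwise non-commuting transpositions moves a common point. -/
theorem star_of_pairwise_not_commute {I : Type*} (t : I → Equiv.Perm Ω) (hsw : ∀ i, (t i).IsSwap)
    (hnc : ∀ i j, i ≠ j → ¬ Commute (t i) (t j)) (h2 : ∃ i j : I, i ≠ j)
    (h4 : ∀ i j k : I, ∃ l, l ≠ i ∧ l ≠ j ∧ l ≠ k) : ∃ x₀, ∀ i, t i x₀ ≠ x₀ := by
  obtain ⟨i₁, i₂, h12⟩ := h2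
  obtain ⟨x, hx1, hx2⟩ := exists_common_moved (hnc i₁ i₂ h12)
  have e1 := isSwap_eq_swap_apply (hsw i₁) hx1
  have e2 := isSwap_eq_swap_apply (hsw i₂) hx2
  set b := t i₁ x with hb
  set c := t i₂ x with hc
  have hbc : b ≠ c := by
    intro h
    apply hnc i₁ i₂ h12
    rw [e1, e2, h]
  refine ⟨x, ?_⟩
  by_contra hcon
  push Not at hcon
  obtain ⟨i₃, h3⟩ := hcon
  have h31 : i₃ ≠ i₁ := fun h => hx1 (by rw [hb, ← h]; exact h3)
  have h32 : i₃ ≠ i₂ := fun h => hx2 (by rw [hc, ← h]; exact h3)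
  -- t i₃ moves b and c
  have h3b : t i₃ b ≠ b := by
    obtain ⟨y, hy1, hy2⟩ := exists_common_moved (hnc i₃ i₁ h31)
    rw [e1] at hy2
    rcases swap_moved hy2 with rfl | rfl
    · exact absurd h3 hy1
    · exact hy1
  have h3c : t i₃ c ≠ c := by
    obtain ⟨y, hy1, hy2⟩ := exists_common_moved (hnc i₃ i₂ h32)
    rw [e2] at hy2
    rcases swap_moved hy2 with rfl | rfl
    · exact absurd h3 hy1
    · exact hy1
  have e3 := isSwap_eq_swap_apply (hsw i₃) h3b
  have e3' : t i₃ = Equiv.swap b c := by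
    rw [e3] at h3c
    rcases swap_moved h3c with h | h
    · exact absurd h.symm hbc
    · rw [e3, ← h]
  obtain ⟨i₄, h41, h42, h43⟩ := h4 i₁ i₂ i₃
  by_cases h4x : t i₄ x = x
  · have h4b : t i₄ b ≠ b := by
      obtain ⟨y, hy1, hy2⟩ := exists_common_moved (hnc i₄ i₁ h41)
      rw [e1] at hy2
      rcases swap_moved hy2 with rfl | rfl
      · exact absurd h4x hy1
      · exact hy1
    have h4c : t i₄ c ≠ c := by
      obtain ⟨y, hy1, hy2⟩ := exists_common_moved (hnc i₄ i₂ h42)
      rw [e2] at hy2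
      rcases swap_moved hy2 with rfl | rfl
      · exact absurd h4x hy1
      · exact hy1
    have e4 := isSwap_eq_swap_apply (hsw i₄) h4b
    have e4' : t i₄ = Equiv.swap b c := by
      rw [e4] at h4c
      rcases swap_moved h4c with h | h
      · exact absurd h.symm hbc
      · rw [e4, ← h]
    apply hnc i₄ i₃ h43
    rw [e4', e3']
  · have e4 := isSwap_eq_swap_apply (hsw i₄) h4x
    obtain ⟨y, hy1, hy2⟩ := exists_common_moved (hnc i₄ i₃ h43)
    rw [e3'] at hy2
    rw [e4] at hy1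
    have hxb : x ≠ b := fun h => hx1 h.symm
    have hxc : x ≠ c := fun h => hx2 h.symm
    rcases swap_moved hy2 with rfl | rfl
    · rcases swap_moved hy1 with h | h
      · exact hxb h.symm
      · apply hnc i₄ i₁ h41
        rw [e4, e1, ← h]
    · rcases swap_moved hy1 with h | h
      · exact hxc h.symm
      · apply hnc i₄ i₂ h42
        rw [e4, e2, ← h]

end Star

/-! ### Subgroups of index `n` in the symmetric group of degree `n ≠ 6` -/

section IndexN

variable {Ω : Type*} [Fintype Ω] [DecidableEq Ω]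

theorem stabilizer_le_of_swap_mem (x₀ : Ω) (H : Subgroup (Equiv.Perm Ω))
    (h : ∀ y z : Ω, y ≠ x₀ → z ≠ x₀ → y ≠ z → Equiv.swap y z ∈ H) :
    MulAction.stabilizer (Equiv.Perm Ω) x₀ ≤ H := by
  intro g hg
  have hg' : g x₀ = x₀ := hg
  have hrange : g ∈ (Equiv.Perm.ofSubtype : Equiv.Perm {y // y ≠ x₀} →* Equiv.Perm Ω).range := by
    rw [Equiv.Perm.mem_range_ofSubtype_iff]
    intro y hy
    simp only [Finset.mem_coe, Equiv.Perm.mem_support] at hy
    show y ≠ x₀
    rintro rfl
    exact hy hg'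
  obtain ⟨k, rfl⟩ := hrange
  have hk : k ∈ Subgroup.closure {σ : Equiv.Perm {y // y ≠ x₀} | σ.IsSwap} := by
    rw [Equiv.Perm.closure_isSwap]
    trivial
  have hle : Subgroup.closure {σ : Equiv.Perm {y // y ≠ x₀} | σ.IsSwap} ≤
      H.comap Equiv.Perm.ofSubtype := by
    rw [Subgroup.closure_le]
    rintro σ ⟨a, b, hab, rfl⟩
    show Equiv.Perm.ofSubtype (Equiv.swap a b) ∈ H
    rw [Equiv.Perm.ofSubtype_swap_eq]
    exact h a b a.2 b.2 (fun hh => hab (Subtype.ext hh))
  exact hle hk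

theorem eq_of_le_of_index_eq {G : Type*} [Group G] {K L : Subgroup G} (hle : K ≤ L)
    (hidx : K.index = L.index) (h0 : L.index ≠ 0) : K = L := by
  apply le_antisymm hle
  rw [← Subgroup.relIndex_eq_one]
  have h1 := Subgroup.relIndex_mul_index hle
  rw [hidx] at h1
  have h2 : K.relIndex L * L.index = 1 * L.index := by rw [h1, one_mul]
  exact Nat.eq_of_mul_eq_mul_right (Nat.pos_of_ne_zero h0) h2

omit [DecidableEq Ω] in
theorem index_stabilizer_perm (x : Ω) :
    (MulAction.stabilizer (Equiv.Perm Ω) x).index = Fintype.card Ω := by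
  rw [MulAction.index_stabilizer_of_transitive, Nat.card_eq_fintype_card]

/-- The main case: degree at least five and different from six. -/
theorem exists_stabilizer_le_of_index (h5 : 5 ≤ Fintype.card Ω) (h6 : Fintype.card Ω ≠ 6)
    (H : Subgroup (Equiv.Perm Ω)) (hH : H.index = Fintype.card Ω) :
    ∃ x : Ω, MulAction.stabilizer (Equiv.Perm Ω) x ≤ H := by
  classical
  have hfin : Fintype (Equiv.Perm Ω ⧸ H) := Fintype.ofFinite _
  have hXcard : Fintype.card (Equiv.Perm Ω ⧸ H) = Fintype.card Ω := by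
    rw [← hH, Subgroup.index_eq_card, Nat.card_eq_fintype_card]
  have hnt : Nontrivial Ω := by
    rw [← Fintype.one_lt_card_iff_nontrivial]
    omega
  set ρ : Equiv.Perm Ω →* Equiv.Perm (Equiv.Perm Ω ⧸ H) :=
    MulAction.toPermHom (Equiv.Perm Ω) (Equiv.Perm Ω ⧸ H) with hρ
  have hker : ρ.ker = H.normalCore := (Subgroup.normalCore_eq_ker H).symm
  have hinj : Function.Injective ρ := by
    rw [← MonoidHom.ker_eq_bot_iff, hker]
    by_contra hne
    have hnt' : Nontrivial H.normalCore := (Subgroup.nontrivial_iff_ne_bot _).mpr hne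
    have hle : alternatingGroup Ω ≤ H.normalCore :=
      Equiv.Perm.alternatingGroup_le_of_normal (by rwa [Nat.card_eq_fintype_card]) hnt'
    have hle' : alternatingGroup Ω ≤ H := hle.trans (Subgroup.normalCore_le H)
    have hdvd := Subgroup.index_dvd_of_le hle'
    rw [alternatingGroup.index_eq_two, hH] at hdvd
    have := Nat.le_of_dvd (by norm_num) hdvd
    omega
  have hbij : Function.Bijective ρ := by
    rw [Fintype.bijective_iff_injective_and_card]
    exact ⟨hinj, by rw [Fintype.card_perm, Fintype.card_perm, hXcard]⟩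
  set ψ : Equiv.Perm (Equiv.Perm Ω ⧸ H) ≃* Equiv.Perm Ω := (MulEquiv.ofBijective ρ hbij).symm
    with hψ
  have hψρ : ∀ g, ψ (ρ g) = g := fun g => (MulEquiv.ofBijective ρ hbij).symm_apply_apply g
  have hρψ : ∀ σ, ρ (ψ σ) = σ := fun σ => (MulEquiv.ofBijective ρ hbij).apply_symm_apply σ
  set c₀ : Equiv.Perm Ω ⧸ H := QuotientGroup.mk 1 with hc₀
  have hmem : ∀ g, ρ g c₀ = c₀ → g ∈ H := by
    intro g hg
    have h1 : ρ g c₀ = QuotientGroup.mk (g * 1) := rfl
    rw [h1, hc₀, QuotientGroup.eq] at hg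
    simpa using hg
  have hsw : ∀ c : {c : Equiv.Perm Ω ⧸ H // c ≠ c₀}, (ψ (Equiv.swap c₀ c.1)).IsSwap :=
    fun c => isSwap_map_of_mulEquiv hXcard h6 ψ _ ⟨c₀, c.1, c.2.symm, rfl⟩
  have hnc : ∀ i j : {c : Equiv.Perm Ω ⧸ H // c ≠ c₀}, i ≠ j →
      ¬ Commute (ψ (Equiv.swap c₀ i.1)) (ψ (Equiv.swap c₀ j.1)) := by
    intro i j hij hcomm
    have hc : Equiv.swap c₀ i.1 * Equiv.swap c₀ j.1 = Equiv.swap c₀ j.1 * Equiv.swap c₀ i.1 := by
      apply ψ.injective
      rw [map_mul, map_mul]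
      exact hcomm
    have hij' : i.1 ≠ j.1 := fun h => hij (Subtype.ext h)
    have h1 := congrArg (fun σ : Equiv.Perm (Equiv.Perm Ω ⧸ H) => σ j.1) hc
    simp only [Equiv.Perm.mul_apply, Equiv.swap_apply_right, Equiv.swap_apply_left] at h1
    rw [Equiv.swap_apply_of_ne_of_ne j.2 hij'.symm, Equiv.swap_apply_right] at h1
    exact i.2 h1
  have hIcard : Fintype.card {c : Equiv.Perm Ω ⧸ H // c ≠ c₀} = Fintype.card Ω - 1 := by
    rw [Fintype.card_subtype_compl, Fintype.card_subtype_eq, hXcard]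
  have h4 : ∀ i j k : {c : Equiv.Perm Ω ⧸ H // c ≠ c₀}, ∃ l, l ≠ i ∧ l ≠ j ∧ l ≠ k := by
    intro i j k
    by_contra hcon
    push Not at hcon
    have hsub : (Finset.univ : Finset {c : Equiv.Perm Ω ⧸ H // c ≠ c₀}) ⊆ {i, j, k} := by
      intro l _
      simp only [Finset.mem_insert, Finset.mem_singleton]
      by_cases h1 : l = i
      · exact Or.inl h1
      by_cases h2 : l = j
      · exact Or.inr (Or.inl h2)
      exact Or.inr (Or.inr (hcon l h1 h2))
    have hle := Finset.card_le_card hsub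
    have h3 : ({i, j, k} : Finset {c : Equiv.Perm Ω ⧸ H // c ≠ c₀}).card ≤ 3 :=
      Finset.card_le_three
    rw [Finset.card_univ, hIcard] at hle
    omega
  have h2 : ∃ i j : {c : Equiv.Perm Ω ⧸ H // c ≠ c₀}, i ≠ j := by
    have hone : 1 < Fintype.card {c : Equiv.Perm Ω ⧸ H // c ≠ c₀} := by
      rw [hIcard]
      omega
    obtain ⟨i, j, hij⟩ := Fintype.exists_pair_of_one_lt_card hone
    exact ⟨i, j, hij⟩
  obtain ⟨x₀, hx₀⟩ := star_of_pairwise_not_commute
    (fun c : {c : Equiv.Perm Ω ⧸ H // c ≠ c₀} => ψ (Equiv.swap c₀ c.1)) hsw hnc h2 h4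
  refine ⟨x₀, stabilizer_le_of_swap_mem x₀ H ?_⟩
  intro y z hy hz hyz
  apply hmem
  by_contra hmv
  have hsw' : (ρ (Equiv.swap y z)).IsSwap := by
    have := isSwap_map_of_mulEquiv hXcard.symm (by rw [hXcard]; exact h6) ψ.symm
      (Equiv.swap y z) ⟨y, z, hyz, rfl⟩
    have he : ψ.symm (Equiv.swap y z) = ρ (Equiv.swap y z) := rfl
    rwa [he] at this
  have e1 := isSwap_eq_swap_apply hsw' hmv
  have hne : ρ (Equiv.swap y z) c₀ ≠ c₀ := hmv
  have h3 := hx₀ ⟨ρ (Equiv.swap y z) c₀, hne⟩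
  simp only at h3
  rw [← e1, hψρ] at h3
  exact h3 (Equiv.swap_apply_of_ne_of_ne hy.symm hz.symm)

/-- A subgroup of order six of the symmetric group of degree four fixes a point. -/
theorem exists_fixed_of_card_four (hcard : Fintype.card Ω = 4) (H : Subgroup (Equiv.Perm Ω))
    (hH : Nat.card H = 6) : ∃ d : Ω, ∀ h ∈ H, h d = d := by
  have hp3 : Fact (Nat.Prime 3) := ⟨by norm_num⟩
  obtain ⟨g, hg⟩ := exists_prime_orderOf_dvd_card' 3 (by rw [hH]; norm_num : 3 ∣ Nat.card H)
  have hg3 : (g : Equiv.Perm Ω) ^ 3 = 1 := by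
    have h1 := pow_orderOf_eq_one g
    rw [hg] at h1
    have h2 := congrArg Subtype.val h1
    simpa using h2
  have hg1 : (g : Equiv.Perm Ω) ≠ 1 := by
    intro h
    have h1 : g = 1 := Subtype.ext h
    rw [h1, orderOf_one] at hg
    omega
  have hmod := Equiv.Perm.card_compl_support_modEq (p := 3) (n := 1) (σ := (g : Equiv.Perm Ω))
    (by simpa using hg3)
  rw [hcard] at hmod
  have hle : (g : Equiv.Perm Ω).supportᶜ.card ≤ 4 := hcard ▸ Finset.card_le_univ _
  have hne4 : (g : Equiv.Perm Ω).supportᶜ.card ≠ 4 := by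
    intro h4
    apply hg1
    have h1 : (g : Equiv.Perm Ω).supportᶜ = Finset.univ := by
      apply Finset.eq_univ_of_card
      rw [h4, hcard]
    have h2 : (g : Equiv.Perm Ω).support = ∅ := by simpa using h1
    exact Equiv.Perm.support_eq_empty_iff.mp h2
  have h1 : (g : Equiv.Perm Ω).supportᶜ.card = 1 := by
    unfold Nat.ModEq at hmod
    omega
  obtain ⟨d, hd⟩ := Finset.card_eq_one.mp h1
  have hfix : ∀ x, (g : Equiv.Perm Ω) x = x ↔ x = d := by
    intro x
    have h2 : x ∈ (g : Equiv.Perm Ω).supportᶜ ↔ x = d := by rw [hd]; simp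
    simpa using h2
  refine ⟨d, ?_⟩
  by_contra hcon
  push Not at hcon
  obtain ⟨h, hh, hhd⟩ := hcon
  have hgd : (g : Equiv.Perm Ω) d = d := (hfix d).mpr rfl
  have hge : (g : Equiv.Perm Ω) (h d) ≠ h d := fun hc => hhd ((hfix _).mp hc)
  have hinj : Function.Injective
      ![d, h d, (g : Equiv.Perm Ω) (h d), (g : Equiv.Perm Ω) ((g : Equiv.Perm Ω) (h d))] := by
    have h01 : d ≠ h d := fun hc => hhd hc.symm
    have h02 : d ≠ (g : Equiv.Perm Ω) (h d) := by
      intro hc
      apply hhd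
      apply (g : Equiv.Perm Ω).injective
      rw [← hc, hgd]
    have h03 : d ≠ (g : Equiv.Perm Ω) ((g : Equiv.Perm Ω) (h d)) := by
      intro hc
      apply hhd
      apply (g : Equiv.Perm Ω).injective
      apply (g : Equiv.Perm Ω).injective
      rw [← hc, hgd, hgd]
    have h12 : h d ≠ (g : Equiv.Perm Ω) (h d) := fun hc => hge hc.symm
    have h13 : h d ≠ (g : Equiv.Perm Ω) ((g : Equiv.Perm Ω) (h d)) := by
      intro hc
      apply hge
      have h3 : (g : Equiv.Perm Ω) ((g : Equiv.Perm Ω) ((g : Equiv.Perm Ω) (h d))) = h d := by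
        have := congrArg (fun σ : Equiv.Perm Ω => σ (h d)) hg3
        simpa [pow_succ, Equiv.Perm.mul_apply] using this
      rw [← hc] at h3
      exact h3
    have h23 : (g : Equiv.Perm Ω) (h d) ≠ (g : Equiv.Perm Ω) ((g : Equiv.Perm Ω) (h d)) := by
      intro hc
      exact h12 ((g : Equiv.Perm Ω).injective hc)
    intro i j hij
    fin_cases i <;> fin_cases j <;> simp_all
  have hsurj : Function.Surjective
      ![d, h d, (g : Equiv.Perm Ω) (h d), (g : Equiv.Perm Ω) ((g : Equiv.Perm Ω) (h d))] := by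
    have hb := (Fintype.bijective_iff_injective_and_card _).mpr ⟨hinj, by simp [hcard]⟩
    exact hb.2
  have horb : MulAction.orbit H d = Set.univ := by
    apply Set.eq_univ_of_forall
    intro y
    obtain ⟨i, rfl⟩ := hsurj y
    fin_cases i
    · exact ⟨1, by simp⟩
    · exact ⟨⟨h, hh⟩, rfl⟩
    · exact ⟨g * ⟨h, hh⟩, rfl⟩
    · exact ⟨g * g * ⟨h, hh⟩, rfl⟩
  have hidx := MulAction.index_stabilizer (G := H) (x := d)
  rw [horb, Set.ncard_univ, Nat.card_eq_fintype_card, hcard] at hidx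
  have hdvd := Subgroup.index_dvd_card (MulAction.stabilizer H d)
  rw [hidx, hH] at hdvd
  omega

/-- A subgroup of the symmetric group of degree `n ≤ 4` of index `n` fixes a point. -/
theorem exists_fixed_of_card_le_four (h4 : Fintype.card Ω ≤ 4) (H : Subgroup (Equiv.Perm Ω))
    (hH : H.index = Fintype.card Ω) : ∃ d : Ω, ∀ h ∈ H, h d = d := by
  have h0 : H.index ≠ 0 := Subgroup.index_ne_zero_of_finite
  have hmul := Subgroup.card_mul_index H
  rw [Nat.card_eq_fintype_card (α := Equiv.Perm Ω), Fintype.card_perm, hH] at hmul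
  rw [hH] at h0
  have hne : Nonempty Ω := Fintype.card_pos_iff.mp (Nat.pos_of_ne_zero h0)
  rcases Nat.lt_or_ge (Fintype.card Ω) 3 with h3 | h3
  · -- `H` is trivial
    have hc : Nat.card H = 1 := by
      have : Fintype.card Ω = 1 ∨ Fintype.card Ω = 2 := by omega
      rcases this with h | h
      · rw [h] at hmul
        simpa [Nat.factorial] using hmul
      · rw [h] at hmul
        simpa [Nat.factorial] using hmul
    have hbot : H = ⊥ := Subgroup.card_eq_one.mp hc
    obtain ⟨d⟩ := hne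
    refine ⟨d, fun h hh => ?_⟩
    rw [hbot, Subgroup.mem_bot] at hh
    rw [hh]
    rfl
  · rcases Nat.lt_or_ge (Fintype.card Ω) 4 with h3' | h4'
    · have h3'' : Fintype.card Ω = 3 := by omega
      rw [h3''] at hmul
      have hc : Nat.card H = 2 := by
        simp [Nat.factorial] at hmul
        omega
      have hp2 : Fact (Nat.Prime 2) := ⟨Nat.prime_two⟩
      have hP : IsPGroup 2 H := IsPGroup.of_card (n := 1) (by rw [hc]; rfl)
      obtain ⟨d, hd⟩ := hP.nonempty_fixed_point_of_prime_not_dvd_card Ω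
        (by rw [Nat.card_eq_fintype_card, h3'']; norm_num)
      exact ⟨d, fun h hh => hd ⟨h, hh⟩⟩
    · have h4'' : Fintype.card Ω = 4 := by omega
      rw [h4''] at hmul
      have hc : Nat.card H = 6 := by
        simp [Nat.factorial] at hmul
        omega
      exact exists_fixed_of_card_four h4'' H hc

/-- A subgroup of index `n` in the symmetric group of degree `n ≠ 6` is a point stabilizer. -/
theorem exists_eq_stabilizer_of_index (h6 : Fintype.card Ω ≠ 6) (H : Subgroup (Equiv.Perm Ω))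
    (hH : H.index = Fintype.card Ω) : ∃ x : Ω, H = MulAction.stabilizer (Equiv.Perm Ω) x := by
  have h0 : H.index ≠ 0 := Subgroup.index_ne_zero_of_finite
  rcases Nat.lt_or_ge (Fintype.card Ω) 5 with h5 | h5
  · obtain ⟨d, hd⟩ := exists_fixed_of_card_le_four (by omega) H hH
    refine ⟨d, eq_of_le_of_index_eq (fun h hh => hd h hh) ?_ ?_⟩
    · rw [hH, index_stabilizer_perm]
    · rw [index_stabilizer_perm, ← hH]
      exact h0
  · obtain ⟨x, hx⟩ := exists_stabilizer_le_of_index h5 h6 H hH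
    refine ⟨x, (eq_of_le_of_index_eq hx ?_ h0).symm⟩
    rw [hH, index_stabilizer_perm]

end IndexN

end Cfsg.Agent.Helper98
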