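import Mathlib

set_option autoImplicit false

namespace Cfsg.Agent.Helper98

open scoped Pointwise
open MulAction

variable {Ω ι : Type*}

/-- The permutations preserving the partition of `Ω` into the fibres of `f`. -/
def blockPres (f : Ω → ι) : Subgroup (Equiv.Perm Ω) where
  carrier := {g | ∀ x y, f x = f y ↔ f (g x) = f (g y)}
  mul_mem' := fun {g h} hg hh x y => (hh x y).trans (hg (h x) (h y))
  one_mem' := fun _ _ => Iff.rfl
  inv_mem' := fun {g} hg x y => by
    have := hg (g⁻¹ x) (g⁻¹ y)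
    simpa using this.symm

theorem mem_blockPres {f : Ω → ι} {g : Equiv.Perm Ω} :
    g ∈ blockPres f ↔ ∀ x y, f x = f y ↔ f (g x) = f (g y) := Iff.rfl

theorem closure_blockPres (f : Ω → ι) :
    Subgroup.closure {g : Equiv.Perm Ω | ∀ x y, f x = f y ↔ f (g x) = f (g y)} = blockPres f :=
  Subgroup.closure_eq (blockPres f)

theorem swap_mem_blockPres [DecidableEq Ω] {f : Ω → ι} {x y : Ω} (h : f x = f y) :
    Equiv.swap x y ∈ blockPres f := by
  have key : ∀ z, f (Equiv.swap x y z) = f z := by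
    intro z
    by_cases hzx : z = x
    · subst hzx; simp [h]
    · by_cases hzy : z = y
      · subst hzy; simp [h]
      · rw [Equiv.swap_apply_of_ne_of_ne hzx hzy]
  intro u v
  rw [key u, key v]

/-- An element of a subgroup `G` of permutations that maps one point of a block into the block
maps the whole block into itself. -/
theorem block_fix {G : Subgroup (Equiv.Perm Ω)} {B : Set Ω} (hB : IsBlock G B)
    {g : Equiv.Perm Ω} (hg : g ∈ G) {x : Ω} (hx : x ∈ B) (hgx : g x ∈ B) {y : Ω} (hy : y ∈ B) :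
    g y ∈ B := by
  have h := (isBlock_iff_smul_eq_of_mem.mp hB) (g := ⟨g, hg⟩) hx hgx
  rw [← h]
  exact Set.smul_mem_smul_set (a := (⟨g, hg⟩ : G)) hy

section BlockTheorem

variable {f : Ω → ι} {Q G : Subgroup (Equiv.Perm Ω)}

/-- A block of an overgroup of a rich partition-preserving group which contains two points of
different fibres is everything. -/
theorem block_eq_univ_of_outer (hQG : Q ≤ G)
    (houter : ∀ x z w, f z ≠ f x → f w ≠ f x → ∃ g ∈ Q, g x = x ∧ g z = w)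
    {B : Set Ω} (hB : IsBlock G B) {x z : Ω} (hx : x ∈ B) (hz : z ∈ B) (hxz : f z ≠ f x) :
    B = Set.univ := by
  have h1 : ∀ x z, x ∈ B → z ∈ B → f z ≠ f x → ∀ w, f w ≠ f x → w ∈ B := by
    intro x z hx hz hxz w hw
    obtain ⟨g, hg, hgx, hgz⟩ := houter x z w hxz hw
    have := block_fix hB (hQG hg) hx (hgx.symm ▸ hx) hz
    rwa [hgz] at this
  rw [Set.eq_univ_iff_forall]
  intro w
  by_cases hw : f w = f x
  · exact h1 z x hz hx (Ne.symm hxz) w (by rw [hw]; exact Ne.symm hxz)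
  · exact h1 x z hx hz hxz w hw

/-- A non-trivial block of an overgroup of a rich partition-preserving group is a fibre. -/
theorem block_eq_fibre (hQG : Q ≤ G)
    (hinner : ∀ x y y', f y = f x → f y' = f x → y ≠ x → y' ≠ x → ∃ g ∈ Q, g x = x ∧ g y = y')
    (houter : ∀ x z w, f z ≠ f x → f w ≠ f x → ∃ g ∈ Q, g x = x ∧ g z = w)
    {B : Set Ω} (hB : IsBlock G B) {x y : Ω} (hx : x ∈ B) (hy : y ∈ B) (hxy : y ≠ x)
    (hne : B ≠ Set.univ) : B = {w | f w = f x} := by
  have hsame : ∀ z ∈ B, f z = f x := by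
    intro z hz
    by_contra h
    exact hne (block_eq_univ_of_outer hQG houter hB hx hz h)
  ext w
  constructor
  · exact hsame w
  · intro hw
    by_cases hwx : w = x
    · rw [hwx]; exact hx
    · obtain ⟨g, hg, hgx, hgy⟩ := hinner x y w (hsame y hy) hw hxy hwx
      have := block_fix hB (hQG hg) hx (hgx.symm ▸ hx) hy
      rwa [hgy] at this

/-- An overgroup of a rich partition-preserving group which does not preserve the partition
is primitive. -/
theorem isPreprimitive_of_rich (hQ : Q ≤ blockPres f) (hQG : Q ≤ G)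
    (htrans : ∀ x y, ∃ g ∈ Q, g x = y)
    (hinner : ∀ x y y', f y = f x → f y' = f x → y ≠ x → y' ≠ x → ∃ g ∈ Q, g x = x ∧ g y = y')
    (houter : ∀ x z w, f z ≠ f x → f w ≠ f x → ∃ g ∈ Q, g x = x ∧ g z = w)
    (hG : ¬ G ≤ blockPres f) : IsPreprimitive G Ω := by
  have hpt : IsPretransitive G Ω := by
    refine ⟨fun x y => ?_⟩
    obtain ⟨g, hg, hgxy⟩ := htrans x y
    exact ⟨⟨g, hQG hg⟩, hgxy⟩
  refine { toIsPretransitive := hpt, isTrivialBlock_of_isBlock := ?_ }
  intro B hB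
  by_contra hnt
  unfold IsTrivialBlock at hnt
  push Not at hnt
  obtain ⟨hns, hnu⟩ := hnt
  obtain ⟨x₀, hx₀, y₀, hy₀, hxy₀⟩ := hns
  apply hG
  have hBeq := block_eq_fibre hQG hinner houter hB hx₀ hy₀ (Ne.symm hxy₀) hnu
  -- every element of G maps the fibre of x₀ onto a fibre
  have hstar : ∀ g ∈ G, ∀ w, f w = f x₀ ↔ f (g w) = f (g x₀) := by
    intro g hg w
    have hB' : IsBlock G ((⟨g, hg⟩ : G) • B) := hB.translate _
    have hgx : g x₀ ∈ (⟨g, hg⟩ : G) • B := Set.smul_mem_smul_set (a := (⟨g, hg⟩ : G)) hx₀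
    have hgy : g y₀ ∈ (⟨g, hg⟩ : G) • B := Set.smul_mem_smul_set (a := (⟨g, hg⟩ : G)) hy₀
    have hne' : (⟨g, hg⟩ : G) • B ≠ Set.univ := by
      intro h
      apply hnu
      rw [Set.eq_univ_iff_forall] at h ⊢
      intro w
      obtain ⟨v, hv, hvw⟩ := h (g w)
      have : v = w := g.injective hvw
      rwa [← this]
    have hne'' : g y₀ ≠ g x₀ := fun h => hxy₀ (g.injective h).symm
    have hBeq' := block_eq_fibre hQG hinner houter hB' hgx hgy hne'' hne'
    constructor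
    · intro hw
      have hwB : w ∈ B := by rw [hBeq]; exact hw
      have : g w ∈ (⟨g, hg⟩ : G) • B := Set.smul_mem_smul_set (a := (⟨g, hg⟩ : G)) hwB
      rw [hBeq'] at this
      exact this
    · intro hw
      have : g w ∈ (⟨g, hg⟩ : G) • B := by rw [hBeq']; exact hw
      obtain ⟨v, hv, hvw⟩ := this
      have hvw' : v = w := g.injective hvw
      rw [hBeq] at hv
      rw [← hvw']; exact hv
  intro g hg x y
  obtain ⟨h, hh, hhx⟩ := htrans x₀ x
  have hhG : h ∈ G := hQG hh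
  have hhP : h ∈ blockPres f := hQ hh
  have h1 := hstar (g * h) (G.mul_mem hg hhG) (h⁻¹ y)
  have hy : h (h⁻¹ y) = y := by simp
  simp only [Equiv.Perm.coe_mul, Function.comp_apply, hy, hhx] at h1
  have h2 := hhP (h⁻¹ y) x₀
  simp only [hy, hhx] at h2
  rw [eq_comm, h2.symm, h1, eq_comm]

end BlockTheorem

section Uniform

variable [Fintype Ω] [DecidableEq Ω] {a b : ℕ} {f : Ω → Fin b}

omit [DecidableEq Ω] in
/-- Coordinates on `Ω` adapted to a map `f` with fibres of constant size `a`. -/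
theorem exists_coord (hf : ∀ i : Fin b, Nat.card {x : Ω // f x = i} = a) :
    ∃ Φ : Ω ≃ Fin b × Fin a, ∀ x, (Φ x).1 = f x := by
  have e : ∀ i : Fin b, {x : Ω // f x = i} ≃ Fin a := fun i => Finite.equivFinOfCardEq (hf i)
  refine ⟨(Equiv.sigmaFiberEquiv f).symm.trans
    ((Equiv.sigmaCongrRight e).trans (Equiv.sigmaEquivProd _ _)), fun x => ?_⟩
  rfl

/-- The permutation of `Ω` acting as `σ × τ` in coordinates. -/
def liftPerm (Φ : Ω ≃ Fin b × Fin a) (σ : Equiv.Perm (Fin b)) (τ : Equiv.Perm (Fin a)) :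
    Equiv.Perm Ω :=
  Φ.trans ((Equiv.prodCongr σ τ).trans Φ.symm)

omit [Fintype Ω] [DecidableEq Ω] in
theorem liftPerm_apply (Φ : Ω ≃ Fin b × Fin a) (σ : Equiv.Perm (Fin b)) (τ : Equiv.Perm (Fin a))
    (x : Ω) : Φ (liftPerm Φ σ τ x) = (σ (Φ x).1, τ (Φ x).2) := by
  simp [liftPerm, Prod.map]

omit [Fintype Ω] [DecidableEq Ω] in
theorem f_liftPerm {Φ : Ω ≃ Fin b × Fin a} (hΦ : ∀ x, (Φ x).1 = f x) (σ : Equiv.Perm (Fin b))
    (τ : Equiv.Perm (Fin a)) (x : Ω) : f (liftPerm Φ σ τ x) = σ (f x) := by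
  rw [← hΦ, liftPerm_apply, hΦ]

omit [Fintype Ω] [DecidableEq Ω] in
theorem liftPerm_mem_blockPres {Φ : Ω ≃ Fin b × Fin a} (hΦ : ∀ x, (Φ x).1 = f x)
    (σ : Equiv.Perm (Fin b)) (τ : Equiv.Perm (Fin a)) : liftPerm Φ σ τ ∈ blockPres f := by
  intro x y
  rw [f_liftPerm hΦ, f_liftPerm hΦ, σ.injective.eq_iff]

omit [Fintype Ω] [DecidableEq Ω] in
theorem liftPerm_fix {Φ : Ω ≃ Fin b × Fin a} (hΦ : ∀ x, (Φ x).1 = f x)
    (σ : Equiv.Perm (Fin b)) (x : Ω) (hx : σ (f x) = f x) : liftPerm Φ σ 1 x = x := by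
  apply Φ.injective
  rw [liftPerm_apply, hΦ, hx]
  ext
  · simp [hΦ]
  · simp

/-- The full partition-preserving group is transitive. -/
theorem blockPres_trans (hf : ∀ i : Fin b, Nat.card {x : Ω // f x = i} = a) (x y : Ω) :
    ∃ g ∈ blockPres f, g x = y := by
  obtain ⟨Φ, hΦ⟩ := exists_coord hf
  set g₁ := liftPerm Φ (Equiv.swap (f x) (f y)) 1 with hg₁
  have h1 : f (g₁ x) = f y := by rw [hg₁, f_liftPerm hΦ, Equiv.swap_apply_left]
  refine ⟨Equiv.swap (g₁ x) y * g₁, (blockPres f).mul_mem (swap_mem_blockPres h1)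
    (liftPerm_mem_blockPres hΦ _ _), ?_⟩
  simp

omit [Fintype Ω] in
theorem blockPres_inner (x y y' : Ω) (hy : f y = f x) (hy' : f y' = f x) (hyx : y ≠ x)
    (hy'x : y' ≠ x) : ∃ g ∈ blockPres f, g x = x ∧ g y = y' := by
  refine ⟨Equiv.swap y y', swap_mem_blockPres (hy.trans hy'.symm), ?_, Equiv.swap_apply_left _ _⟩
  exact Equiv.swap_apply_of_ne_of_ne (Ne.symm hyx) (Ne.symm hy'x)

theorem blockPres_outer (hf : ∀ i : Fin b, Nat.card {x : Ω // f x = i} = a) (x z w : Ω)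
    (hz : f z ≠ f x) (hw : f w ≠ f x) : ∃ g ∈ blockPres f, g x = x ∧ g z = w := by
  obtain ⟨Φ, hΦ⟩ := exists_coord hf
  set g₁ := liftPerm Φ (Equiv.swap (f z) (f w)) 1 with hg₁
  have h1 : f (g₁ z) = f w := by rw [hg₁, f_liftPerm hΦ, Equiv.swap_apply_left]
  have h2 : g₁ x = x := by
    apply liftPerm_fix hΦ
    exact Equiv.swap_apply_of_ne_of_ne (Ne.symm hz) (Ne.symm hw)
  refine ⟨Equiv.swap (g₁ z) w * g₁, (blockPres f).mul_mem (swap_mem_blockPres h1)
    (liftPerm_mem_blockPres hΦ _ _), ?_, by simp⟩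
  rw [Equiv.Perm.coe_mul, Function.comp_apply, h2]
  apply Equiv.swap_apply_of_ne_of_ne
  · intro h
    apply hw
    rw [← h1, ← h]
  · intro h
    exact hw (by rw [h])

omit [DecidableEq Ω] in
/-- Two distinct points in a given fibre. -/
theorem exists_pair_in_fibre (hf : ∀ i : Fin b, Nat.card {x : Ω // f x = i} = a) (ha : 2 ≤ a)
    (i : Fin b) : ∃ u v : Ω, u ≠ v ∧ f u = i ∧ f v = i := by
  obtain ⟨Φ, hΦ⟩ := exists_coord hf
  refine ⟨Φ.symm (i, ⟨0, by omega⟩), Φ.symm (i, ⟨1, by omega⟩), ?_, ?_, ?_⟩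
  · intro h
    have := Φ.symm.injective h
    simp at this
  · rw [← hΦ]; simp
  · rw [← hΦ]; simp

/-- The full partition-preserving group is a proper subgroup. -/
theorem blockPres_ne_top (hf : ∀ i : Fin b, Nat.card {x : Ω // f x = i} = a) (ha : 2 ≤ a)
    (hb : 2 ≤ b) : blockPres f ≠ ⊤ := by
  obtain ⟨u, v, huv, hu, hv⟩ := exists_pair_in_fibre hf ha ⟨0, by omega⟩
  obtain ⟨w, w', _, hw, _⟩ := exists_pair_in_fibre hf ha ⟨1, by omega⟩
  intro h
  have hmem : Equiv.swap v w ∈ blockPres f := h ▸ Subgroup.mem_top _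
  have hne : ∀ t, f t = (⟨0, by omega⟩ : Fin b) → t ≠ w := by
    intro t ht htw
    rw [htw, hw] at ht
    simp [Fin.ext_iff] at ht
  have := (hmem u v).mp (hu.trans hv.symm)
  rw [Equiv.swap_apply_left, Equiv.swap_apply_of_ne_of_ne huv (hne u hu), hu, hw] at this
  simp [Fin.ext_iff] at this

/-- The stabiliser of a partition into `b ≥ 2` blocks of equal size `a ≥ 2` is a maximal subgroup
of the symmetric group. -/
theorem isCoatom_blockPres (hf : ∀ i : Fin b, Nat.card {x : Ω // f x = i} = a) (ha : 2 ≤ a)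
    (hb : 2 ≤ b) : IsCoatom (blockPres f) := by
  refine ⟨blockPres_ne_top hf ha hb, fun G hG => ?_⟩
  have hprim : IsPreprimitive G Ω :=
    isPreprimitive_of_rich le_rfl hG.le (blockPres_trans hf) blockPres_inner (blockPres_outer hf)
      (not_le_of_gt hG)
  obtain ⟨u, v, huv, hu, hv⟩ := exists_pair_in_fibre hf ha ⟨0, by omega⟩
  exact Equiv.Perm.subgroup_eq_top_of_isPreprimitive_of_isSwap_mem hprim (Equiv.swap u v)
    ⟨u, v, huv, rfl⟩ (hG.le (swap_mem_blockPres (hu.trans hv.symm)))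

end Uniform

end Cfsg.Agent.Helper98
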