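import Cfsg.Agent.Helper98.Wreath
import Cfsg.Agent.Helper98.Basic

set_option autoImplicit false

namespace Cfsg.Agent.Helper98

open MulAction

section AltWreath

variable {Ω : Type*} [Fintype Ω] [DecidableEq Ω] {a b : ℕ} {f : Ω → Fin b}

omit [Fintype Ω] in
theorem sign_swap_mul_swap {x x' y y' : Ω} (hx : x ≠ x') (hy : y ≠ y') [Fintype Ω] :
    Equiv.Perm.sign (Equiv.swap x x' * Equiv.swap y y') = 1 := by
  rw [Equiv.Perm.sign_mul, Equiv.Perm.sign_swap hx, Equiv.Perm.sign_swap hy]
  rfl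

theorem swap_mul_swap_mem_altBlock {x x' y y' : Ω} (hx : x ≠ x') (hfx : f x = f x')
    (hy : y ≠ y') (hfy : f y = f y') :
    Equiv.swap x x' * Equiv.swap y y' ∈ blockPres f ⊓ alternatingGroup Ω :=
  ⟨(blockPres f).mul_mem (swap_mem_blockPres hfx) (swap_mem_blockPres hfy),
    Equiv.Perm.mem_alternatingGroup.mpr (sign_swap_mul_swap hx hy)⟩

omit [DecidableEq Ω] in
theorem exists_other_pair (hf : ∀ i : Fin b, Nat.card {x : Ω // f x = i} = a) (ha : 2 ≤ a)
    (hb : 2 ≤ b) (x : Ω) : ∃ u v : Ω, u ≠ v ∧ f u = f v ∧ f u ≠ f x := by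
  obtain ⟨i, hi⟩ : ∃ i : Fin b, i ≠ f x := by
    by_cases h : f x = ⟨0, by omega⟩
    · exact ⟨⟨1, by omega⟩, by rw [h]; simp [Fin.ext_iff]⟩
    · exact ⟨⟨0, by omega⟩, Ne.symm h⟩
  obtain ⟨u, v, huv, hu, hv⟩ := exists_pair_in_fibre hf ha i
  exact ⟨u, v, huv, hu.trans hv.symm, by rw [hu]; exact hi⟩

theorem even_or_mul_swap_even (g : Equiv.Perm Ω) (hg : g ∈ blockPres f) {u v : Ω} (huv : u ≠ v)
    (hfuv : f u = f v) : g ∈ blockPres f ⊓ alternatingGroup Ω ∨
      g * Equiv.swap u v ∈ blockPres f ⊓ alternatingGroup Ω := by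
  rcases Int.units_eq_one_or (Equiv.Perm.sign g) with h | h
  · left
    exact ⟨hg, Equiv.Perm.mem_alternatingGroup.mpr h⟩
  · right
    refine ⟨(blockPres f).mul_mem hg (swap_mem_blockPres hfuv), ?_⟩
    have h1 : Equiv.Perm.sign (g * Equiv.swap u v) = 1 := by
      rw [Equiv.Perm.sign_mul, h, Equiv.Perm.sign_swap huv]
      rfl
    exact Equiv.Perm.mem_alternatingGroup.mpr h1

theorem altBlock_trans (hf : ∀ i : Fin b, Nat.card {x : Ω // f x = i} = a) (ha : 2 ≤ a)
    (hb : 2 ≤ b) (x y : Ω) : ∃ g ∈ blockPres f ⊓ alternatingGroup Ω, g x = y := by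
  obtain ⟨g, hg, hgx⟩ := blockPres_trans hf x y
  obtain ⟨u, v, huv, hfuv, hux⟩ := exists_other_pair hf ha hb x
  rcases even_or_mul_swap_even g hg huv hfuv with h | h
  · exact ⟨g, h, hgx⟩
  · refine ⟨_, h, ?_⟩
    rw [Equiv.Perm.mul_apply, Equiv.swap_apply_of_ne_of_ne, hgx]
    · rintro rfl
      exact hux rfl
    · rintro rfl
      exact hux hfuv

theorem altBlock_inner (hf : ∀ i : Fin b, Nat.card {x : Ω // f x = i} = a) (ha : 2 ≤ a)
    (hb : 2 ≤ b) (x y y' : Ω) (hy : f y = f x) (hy' : f y' = f x) (hyx : y ≠ x) (hy'x : y' ≠ x) :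
    ∃ g ∈ blockPres f ⊓ alternatingGroup Ω, g x = x ∧ g y = y' := by
  by_cases hyy : y = y'
  · exact ⟨1, Subgroup.one_mem _, rfl, hyy⟩
  · obtain ⟨u, v, huv, hfuv, hux⟩ := exists_other_pair hf ha hb x
    have hxu : x ≠ u := by
      rintro rfl
      exact hux rfl
    have hxv : x ≠ v := by
      rintro rfl
      exact hux hfuv
    have hyu : y ≠ u := by
      rintro rfl
      exact hux hy
    have hyv : y ≠ v := by
      rintro rfl
      exact hux (hfuv.trans hy)
    refine ⟨Equiv.swap y y' * Equiv.swap u v,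
      swap_mul_swap_mem_altBlock hyy (hy.trans hy'.symm) huv hfuv, ?_, ?_⟩
    · rw [Equiv.Perm.mul_apply, Equiv.swap_apply_of_ne_of_ne hxu hxv,
        Equiv.swap_apply_of_ne_of_ne (Ne.symm hyx) (Ne.symm hy'x)]
    · rw [Equiv.Perm.mul_apply, Equiv.swap_apply_of_ne_of_ne hyu hyv, Equiv.swap_apply_left]

omit [DecidableEq Ω] in
theorem card_fibre (hf : ∀ i : Fin b, Nat.card {x : Ω // f x = i} = a) (i : Fin b) :
    (Finset.univ.filter (fun t => f t = i)).card = a := by
  rw [← hf i, Nat.card_eq_fintype_card, Fintype.card_subtype]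

theorem exists_pair_avoid (hf : ∀ i : Fin b, Nat.card {x : Ω // f x = i} = a) (ha : 2 ≤ a)
    (h3 : 3 ≤ a ∨ 3 ≤ b) (x z : Ω) (hz : f z ≠ f x) :
    ∃ u v : Ω, u ≠ v ∧ f u = f v ∧ u ≠ x ∧ v ≠ x ∧ u ≠ z ∧ v ≠ z := by
  rcases h3 with h3 | h3
  · have hc : 1 < ((Finset.univ.filter (fun t => f t = f x)).erase x).card := by
      rw [Finset.card_erase_of_mem (by simp), card_fibre hf]
      omega
    obtain ⟨u, hu, v, hv, huv⟩ := Finset.one_lt_card.mp hc
    simp only [Finset.mem_erase, Finset.mem_filter, Finset.mem_univ, true_and] at hu hv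
    refine ⟨u, v, huv, hu.2.trans hv.2.symm, hu.1, hv.1, ?_, ?_⟩
    · rintro rfl
      exact hz hu.2
    · rintro rfl
      exact hz hv.2
  · obtain ⟨i, hix, hiz⟩ : ∃ i : Fin b, i ≠ f x ∧ i ≠ f z := by
      by_cases h0 : (⟨0, by omega⟩ : Fin b) ≠ f x ∧ (⟨0, by omega⟩ : Fin b) ≠ f z
      · exact ⟨_, h0⟩
      by_cases h1 : (⟨1, by omega⟩ : Fin b) ≠ f x ∧ (⟨1, by omega⟩ : Fin b) ≠ f z
      · exact ⟨_, h1⟩
      refine ⟨⟨2, by omega⟩, ?_, ?_⟩ <;>
      · simp only [Fin.ext_iff, ne_eq] at *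
        omega
    obtain ⟨u, v, huv, hu, hv⟩ := exists_pair_in_fibre hf ha i
    refine ⟨u, v, huv, hu.trans hv.symm, ?_, ?_, ?_, ?_⟩
    · rintro rfl
      exact hix hu.symm
    · rintro rfl
      exact hix hv.symm
    · rintro rfl
      exact hiz hu.symm
    · rintro rfl
      exact hiz hv.symm

theorem altBlock_outer (hf : ∀ i : Fin b, Nat.card {x : Ω // f x = i} = a) (ha : 2 ≤ a)
    (h3 : 3 ≤ a ∨ 3 ≤ b) (x z w : Ω) (hz : f z ≠ f x) (hw : f w ≠ f x) :
    ∃ g ∈ blockPres f ⊓ alternatingGroup Ω, g x = x ∧ g z = w := by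
  obtain ⟨g, hg, hgx, hgz⟩ := blockPres_outer hf x z w hz hw
  obtain ⟨u, v, huv, hfuv, hux, hvx, huz, hvz⟩ := exists_pair_avoid hf ha h3 x z hz
  rcases even_or_mul_swap_even g hg huv hfuv with h | h
  · exact ⟨g, h, hgx, hgz⟩
  · refine ⟨_, h, ?_, ?_⟩
    · rw [Equiv.Perm.mul_apply, Equiv.swap_apply_of_ne_of_ne (Ne.symm hux) (Ne.symm hvx), hgx]
    · rw [Equiv.Perm.mul_apply, Equiv.swap_apply_of_ne_of_ne (Ne.symm huz) (Ne.symm hvz), hgz]

/-! ### Blocks of size two -/

theorem exists_partner (hf2 : ∀ i : Fin b, Nat.card {x : Ω // f x = i} = 2) (x : Ω) :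
    ∃ x', x' ≠ x ∧ f x' = f x ∧ ∀ y, f y = f x → y = x ∨ y = x' := by
  have hc := card_fibre hf2 (f x)
  obtain ⟨p, q, hpq, hs⟩ := Finset.card_eq_two.mp hc
  have hmem : ∀ y, f y = f x ↔ y = p ∨ y = q := by
    intro y
    have h1 : y ∈ Finset.univ.filter (fun t => f t = f x) ↔ y ∈ ({p, q} : Finset Ω) := by rw [hs]
    simpa using h1
  rcases (hmem x).mp rfl with h | h
  · subst h
    exact ⟨q, Ne.symm hpq, (hmem q).mpr (Or.inr rfl), fun y hy => (hmem y).mp hy⟩
  · subst h
    exact ⟨p, hpq, (hmem p).mpr (Or.inl rfl), fun y hy => ((hmem y).mp hy).symm⟩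

theorem eq_or_eq_of_fibre (hf2 : ∀ i : Fin b, Nat.card {x : Ω // f x = i} = 2) {u u' : Ω}
    (hu : f u' = f u) (huu : u' ≠ u) (y : Ω) (hy : f y = f u) : y = u ∨ y = u' := by
  obtain ⟨u'', _, _, h3⟩ := exists_partner hf2 u
  rcases h3 u' hu with h | h
  · exact absurd h huu
  · rw [h]
    exact h3 y hy

/-- With blocks of size two, interchanging two blocks is an even partition-preserving
permutation. -/
theorem blockSwap_mem (hf2 : ∀ i : Fin b, Nat.card {x : Ω // f x = i} = 2) {u u' v v' : Ω}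
    (hu : f u' = f u) (huu : u' ≠ u) (hv : f v' = f v) (hvv : v' ≠ v) (huv : f u ≠ f v) :
    Equiv.swap u v * Equiv.swap u' v' ∈ blockPres f ⊓ alternatingGroup Ω := by
  have h1 : u ≠ v := fun h => huv (by rw [h])
  have h2 : u' ≠ v' := fun h => huv (by rw [← hu, ← hv, h])
  have h3 : u ≠ v' := fun h => huv (by rw [← hv, h])
  have h4 : v ≠ u' := fun h => huv (by rw [← hu, h])
  refine ⟨?_, Equiv.Perm.mem_alternatingGroup.mpr (sign_swap_mul_swap h1 h2)⟩
  have key : ∀ p, f ((Equiv.swap u v * Equiv.swap u' v') p) = Equiv.swap (f u) (f v) (f p) := by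
    intro p
    rw [Equiv.Perm.mul_apply]
    by_cases hpu : p = u
    · subst hpu
      rw [Equiv.swap_apply_of_ne_of_ne (Ne.symm huu) h3, Equiv.swap_apply_left,
        Equiv.swap_apply_left]
    by_cases hpv : p = v
    · subst hpv
      rw [Equiv.swap_apply_of_ne_of_ne h4 (Ne.symm hvv), Equiv.swap_apply_right,
        Equiv.swap_apply_right]
    by_cases hpu' : p = u'
    · subst hpu'
      rw [Equiv.swap_apply_left, Equiv.swap_apply_of_ne_of_ne (Ne.symm h3) hvv, hu,
        Equiv.swap_apply_left, hv]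
    by_cases hpv' : p = v'
    · subst hpv'
      rw [Equiv.swap_apply_right, Equiv.swap_apply_of_ne_of_ne huu (Ne.symm h4), hv,
        Equiv.swap_apply_right, hu]
    rw [Equiv.swap_apply_of_ne_of_ne hpu' hpv', Equiv.swap_apply_of_ne_of_ne hpu hpv,
      Equiv.swap_apply_of_ne_of_ne]
    · intro h
      rcases eq_or_eq_of_fibre hf2 hu huu p h with h | h
      · exact hpu h
      · exact hpu' h
    · intro h
      rcases eq_or_eq_of_fibre hf2 hv hvv p h with h | h
      · exact hpv h
      · exact hpv' h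
  intro p q
  rw [key p, key q, (Equiv.swap (f u) (f v)).injective.eq_iff]

omit [Fintype Ω] in
theorem conj_swap_mul_swap (g : Equiv.Perm Ω) (p q r s : Ω) :
    g * (Equiv.swap p q * Equiv.swap r s) * g⁻¹ =
      Equiv.swap (g p) (g q) * Equiv.swap (g r) (g s) := by
  rw [Equiv.swap_apply_apply, Equiv.swap_apply_apply]
  group

omit [Fintype Ω] in
theorem swap_cancel_mem (G : Subgroup (Equiv.Perm Ω)) {p q c d e : Ω}
    (h1 : Equiv.swap p q * Equiv.swap c d ∈ G) (h2 : Equiv.swap p q * Equiv.swap c e ∈ G) :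
    Equiv.swap c d * Equiv.swap c e ∈ G := by
  have h3 := G.mul_mem (G.inv_mem h1) h2
  have e1 : (Equiv.swap p q * Equiv.swap c d)⁻¹ * (Equiv.swap p q * Equiv.swap c e) =
      Equiv.swap c d * Equiv.swap c e := by
    rw [mul_inv_rev, Equiv.swap_inv, Equiv.swap_inv, mul_assoc, Equiv.swap_mul_self_mul]
  rwa [e1] at h3

/-- With blocks of size two (and the number of blocks at least three and different from four), a
group containing all even partition-preserving permutations and an element mapping some block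
to a non-block contains a 3-cycle. -/
theorem exists_threeCycle_core (hf2 : ∀ i : Fin b, Nat.card {x : Ω // f x = i} = 2) (hb : 3 ≤ b)
    (hb4 : b ≠ 4) (G : Subgroup (Equiv.Perm Ω)) (hQG : blockPres f ⊓ alternatingGroup Ω ≤ G)
    (g : Equiv.Perm Ω) (hg : g ∈ G) (x x' : Ω) (hxx : f x' = f x)
    (hgx : f (g x) ≠ f (g x')) : ∃ c ∈ G, c.IsThreeCycle := by
  have hxx' : x ≠ x' := by
    rintro rfl
    exact hgx rfl
  -- notation
  obtain ⟨u', huu, hu, hu3⟩ := exists_partner hf2 (g x)
  obtain ⟨v', hvv, hv, hv3⟩ := exists_partner hf2 (g x')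
  have huv : g x ≠ g x' := fun h => hgx (by rw [h])
  have huv' : g x ≠ v' := fun h => hgx (by rw [← hv, h])
  have hu'v : u' ≠ g x' := fun h => hgx (by rw [← hu, h])
  have hu'v' : u' ≠ v' := fun h => hgx (by rw [← hu, ← hv, h])
  -- conjugates
  have hconj : ∀ y y' : Ω, y ≠ y' → f y = f y' →
      Equiv.swap (g x) (g x') * Equiv.swap (g y) (g y') ∈ G := by
    intro y y' hyy hfy
    rw [← conj_swap_mul_swap]
    exact G.mul_mem (G.mul_mem hg (hQG (swap_mul_swap_mem_altBlock hxx' hxx.symm hyy hfy)))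
      (G.inv_mem hg)
  by_cases hA : ∃ y y' : Ω, y ≠ y' ∧ f y = f y' ∧ f (g y) = f (g y')
  · obtain ⟨y, y', hyy, hfy, hgy⟩ := hA
    have hcd : g y ≠ g y' := fun h => hyy (g.injective h)
    have E1 := hconj y y' hyy hfy
    have E2 : Equiv.swap (g y) (g y') * Equiv.swap (g x') v' ∈ G :=
      hQG (swap_mul_swap_mem_altBlock hcd hgy (Ne.symm hvv) hv.symm)
    have E3 := G.mul_mem E1 E2
    have e3 : Equiv.swap (g x) (g x') * Equiv.swap (g y) (g y') *
        (Equiv.swap (g y) (g y') * Equiv.swap (g x') v') =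
        Equiv.swap (g x') (g x) * Equiv.swap (g x') v' := by
      rw [mul_assoc, Equiv.swap_mul_self_mul, Equiv.swap_comm]
    rw [e3] at E3
    exact ⟨_, E3, Equiv.Perm.isThreeCycle_swap_mul_swap_same (Ne.symm huv) (Ne.symm hvv) huv'⟩
  · push Not at hA
    -- the block containing the preimage of u'
    obtain ⟨y', hyy, hfy, -⟩ := exists_partner hf2 (g.symm u')
    have hgy : g (g.symm u') = u' := g.apply_symm_apply u'
    have hd1 : g y' ≠ u' := by
      intro h
      apply hyy
      apply g.injective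
      rw [h, hgy]
    have hd2 : f (g y') ≠ f u' := by
      have := hA y' (g.symm u') hyy hfy
      rwa [hgy] at this
    have H := hconj (g.symm u') y' (Ne.symm hyy) hfy.symm
    rw [hgy] at H
    have K : Equiv.swap (g x) (g x') * Equiv.swap u' v' ∈ G :=
      hQG (blockSwap_mem hf2 hu huu hv hvv hgx)
    have T := swap_cancel_mem G K H
    by_cases hd : g y' = v'
    · -- a third block
      rw [hd] at H
      obtain ⟨i, hix, hiy⟩ : ∃ i : Fin b, i ≠ f x ∧ i ≠ f (g.symm u') := by
        by_cases h0 : (⟨0, by omega⟩ : Fin b) ≠ f x ∧ (⟨0, by omega⟩ : Fin b) ≠ f (g.symm u')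
        · exact ⟨_, h0⟩
        by_cases h1 : (⟨1, by omega⟩ : Fin b) ≠ f x ∧ (⟨1, by omega⟩ : Fin b) ≠ f (g.symm u')
        · exact ⟨_, h1⟩
        have hne : f x ≠ f (g.symm u') := by
          intro h
          rcases eq_or_eq_of_fibre hf2 hxx (Ne.symm hxx') (g.symm u') h.symm with h' | h'
          · apply huu
            rw [← hgy, h']
          · apply hu'v
            rw [← hgy, h']
        refine ⟨⟨2, by omega⟩, ?_, ?_⟩ <;>
        · simp only [Fin.ext_iff, ne_eq] at *
          omega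
      obtain ⟨z, z', hzz, hz, hz'⟩ := exists_pair_in_fibre hf2 le_rfl i
      have hfz : f (g z) ≠ f (g z') := hA z z' hzz (hz.trans hz'.symm)
      -- the images of `z`, `z'` avoid the blocks of `u` and `v`
      have havoid : ∀ t, f t = i → f (g t) ≠ f (g x) ∧ f (g t) ≠ f (g x') := by
        intro t ht
        have htx : t ≠ x := fun h => hix (by rw [← ht, h])
        have htx' : t ≠ x' := fun h => hix (by rw [← ht, h, hxx])
        have hty : t ≠ g.symm u' := fun h => hiy (by rw [← ht, h])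
        have hty' : t ≠ y' := fun h => hiy (by rw [← ht, h, hfy])
        constructor
        · intro h
          rcases hu3 (g t) h with h' | h'
          · exact htx (g.injective h')
          · apply hty
            apply g.injective
            rw [h', hgy]
        · intro h
          rcases hv3 (g t) h with h' | h'
          · exact htx' (g.injective h')
          · apply hty'
            apply g.injective
            rw [h', hd]
      obtain ⟨hzu, hzv⟩ := havoid z hz
      obtain ⟨hz'u, hz'v⟩ := havoid z' hz'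
      -- a fifth block
      obtain ⟨j, hj⟩ : ∃ j : Fin b, j ∉ ({f (g x), f (g x'), f (g z), f (g z')} : Finset (Fin b)) := by
        by_contra hcon
        push Not at hcon
        have huniv : ({f (g x), f (g x'), f (g z), f (g z')} : Finset (Fin b)) = Finset.univ :=
          Finset.eq_univ_iff_forall.mpr hcon
        have hcard : ({f (g x), f (g x'), f (g z), f (g z')} : Finset (Fin b)).card = 4 := by
          rw [Finset.card_insert_of_notMem, Finset.card_insert_of_notMem,
            Finset.card_insert_of_notMem, Finset.card_singleton]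
          · simpa using hfz
          · simp only [Finset.mem_insert, Finset.mem_singleton, not_or]
            exact ⟨Ne.symm hzv, Ne.symm hz'v⟩
          · simp only [Finset.mem_insert, Finset.mem_singleton, not_or]
            exact ⟨hgx, Ne.symm hzu, Ne.symm hz'u⟩
        rw [huniv, Finset.card_univ, Fintype.card_fin] at hcard
        exact hb4 hcard
      simp only [Finset.mem_insert, Finset.mem_singleton, not_or] at hj
      obtain ⟨hj1, hj2, hj3, hj4⟩ := hj
      obtain ⟨w, w', hww, hw, hw'⟩ := exists_pair_in_fibre hf2 le_rfl j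
      obtain ⟨d', hdd, hd', -⟩ := exists_partner hf2 (g z')
      have hq : Equiv.swap (g z') d' * Equiv.swap w w' ∈ G :=
        hQG (swap_mul_swap_mem_altBlock (Ne.symm hdd) hd'.symm hww (hw.trans hw'.symm))
      have h1 := hconj z z' hzz (hz.trans hz'.symm)
      have h2 := G.mul_mem (G.mul_mem hq h1) (G.inv_mem hq)
      rw [conj_swap_mul_swap] at h2
      have fixq : ∀ t, f t ≠ f (g z') → f t ≠ j →
          (Equiv.swap (g z') d' * Equiv.swap w w') t = t := by
        intro t ht1 ht2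
        have e1 : Equiv.swap w w' t = t :=
          Equiv.swap_apply_of_ne_of_ne (fun h => ht2 (by rw [h, hw]))
            (fun h => ht2 (by rw [h, hw']))
        have e2 : Equiv.swap (g z') d' t = t :=
          Equiv.swap_apply_of_ne_of_ne (fun h => ht1 (by rw [h]))
            (fun h => ht1 (by rw [h, hd']))
        rw [Equiv.Perm.mul_apply, e1, e2]
      have hqd : (Equiv.swap (g z') d' * Equiv.swap w w') (g z') = d' := by
        have e1 : Equiv.swap w w' (g z') = g z' :=
          Equiv.swap_apply_of_ne_of_ne (fun h => hj4 (by rw [h, hw]))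
            (fun h => hj4 (by rw [h, hw']))
        rw [Equiv.Perm.mul_apply, e1, Equiv.swap_apply_left]
      rw [fixq (g x) (Ne.symm hz'u) (Ne.symm hj1), fixq (g x') (Ne.symm hz'v) (Ne.symm hj2),
        fixq (g z) hfz (Ne.symm hj3), hqd] at h2
      have T2 := swap_cancel_mem G h1 h2
      refine ⟨_, T2, Equiv.Perm.isThreeCycle_swap_mul_swap_same ?_ ?_ (Ne.symm hdd)⟩
      · exact fun h => hfz (by rw [h])
      · exact fun h => hfz (by rw [h, hd'])
    · exact ⟨_, T, Equiv.Perm.isThreeCycle_swap_mul_swap_same hu'v' (Ne.symm hd1)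
        (Ne.symm hd)⟩

theorem exists_threeCycle_of_not_le (hf2 : ∀ i : Fin b, Nat.card {x : Ω // f x = i} = 2)
    (hb : 3 ≤ b) (hb4 : b ≠ 4) (G : Subgroup (Equiv.Perm Ω))
    (hQG : blockPres f ⊓ alternatingGroup Ω ≤ G) (hG : ¬ G ≤ blockPres f) :
    ∃ c ∈ G, c.IsThreeCycle := by
  obtain ⟨g, hg, hgP⟩ := SetLike.not_le_iff_exists.mp hG
  rw [mem_blockPres] at hgP
  push Not at hgP
  obtain ⟨x, y, hxy⟩ := hgP
  rcases hxy with ⟨h1, h2⟩ | ⟨h1, h2⟩
  · exact exists_threeCycle_core hf2 hb hb4 G hQG g hg x y h1.symm h2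
  · refine exists_threeCycle_core hf2 hb hb4 G hQG g⁻¹ (G.inv_mem hg) (g x) (g y) h2.symm ?_
    simpa using h1

omit [DecidableEq Ω] in
theorem card_eq_mul (hf : ∀ i : Fin b, Nat.card {x : Ω // f x = i} = a) :
    Fintype.card Ω = b * a := by
  obtain ⟨Φ, _⟩ := exists_coord hf
  rw [Fintype.card_congr Φ, Fintype.card_prod, Fintype.card_fin, Fintype.card_fin]

theorem altBlock_ne (hf : ∀ i : Fin b, Nat.card {x : Ω // f x = i} = a) (ha : 2 ≤ a)
    (hb : 2 ≤ b) : blockPres f ⊓ alternatingGroup Ω ≠ alternatingGroup Ω := by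
  obtain ⟨u, v, huv, hu, hv⟩ := exists_pair_in_fibre hf ha ⟨0, by omega⟩
  obtain ⟨w, w', _, hw, _⟩ := exists_pair_in_fibre hf ha ⟨1, by omega⟩
  intro h
  have hvw : v ≠ w := by
    intro h'
    rw [h', hw] at hv
    simp [Fin.ext_iff] at hv
  have huw : u ≠ w := by
    intro h'
    rw [h', hw] at hu
    simp [Fin.ext_iff] at hu
  have hmem : Equiv.swap v w * Equiv.swap u v ∈ alternatingGroup Ω :=
    Equiv.Perm.mem_alternatingGroup.mpr (sign_swap_mul_swap hvw huv)
  rw [← h] at hmem
  have h1 := (hmem.1 u v).mp (hu.trans hv.symm)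
  rw [Equiv.Perm.mul_apply, Equiv.Perm.mul_apply, Equiv.swap_apply_left, Equiv.swap_apply_right,
    Equiv.swap_apply_left, Equiv.swap_apply_of_ne_of_ne huv huw, hw, hu] at h1
  simp [Fin.ext_iff] at h1

/-- The even part of the stabiliser of a partition into `b ≥ 2` blocks of equal size `a ≥ 2` is a
maximal subgroup of the alternating group, unless the degree is `8`. -/
theorem isCoatom_altBlock (h8 : Fintype.card Ω ≠ 8)
    (hf : ∀ i : Fin b, Nat.card {x : Ω // f x = i} = a) (ha : 2 ≤ a) (hb : 2 ≤ b) :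
    IsCoatom ((blockPres f ⊓ alternatingGroup Ω).subgroupOf (alternatingGroup Ω)) := by
  rw [isCoatom_subgroupOf_iff inf_le_right]
  refine ⟨altBlock_ne hf ha hb, fun L hQL hLA => ?_⟩
  by_cases hL : L ≤ blockPres f
  · left
    exact le_antisymm (le_inf hL hLA) hQL
  right
  have hcard := card_eq_mul hf
  by_cases h3 : 3 ≤ a ∨ 3 ≤ b
  · apply le_antisymm hLA
    have hprim : IsPreprimitive L Ω :=
      isPreprimitive_of_rich inf_le_left hQL (altBlock_trans hf ha hb) (altBlock_inner hf ha hb)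
        (altBlock_outer hf ha h3) hL
    obtain ⟨c, hc, hc3⟩ : ∃ c ∈ L, c.IsThreeCycle := by
      by_cases ha3 : 3 ≤ a
      · have hc : 2 < (Finset.univ.filter (fun t => f t = (⟨0, by omega⟩ : Fin b))).card := by
          rw [card_fibre hf]
          omega
        obtain ⟨u, v, w, hu, hv, hw, huv, huw, hvw⟩ := Finset.two_lt_card_iff.mp hc
        simp only [Finset.mem_filter, Finset.mem_univ, true_and] at hu hv hw
        exact ⟨Equiv.swap u v * Equiv.swap u w,
          hQL (swap_mul_swap_mem_altBlock huv (hu.trans hv.symm) huw (hu.trans hw.symm)),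
          Equiv.Perm.isThreeCycle_swap_mul_swap_same huv huw hvw⟩
      · have ha2 : a = 2 := by omega
        subst ha2
        have hb3 : 3 ≤ b := by omega
        have hb4 : b ≠ 4 := by
          rintro rfl
          exact h8 (by rw [hcard])
        exact exists_threeCycle_of_not_le hf hb3 hb4 L hQL hL
    exact Equiv.Perm.alternatingGroup_le_of_isPreprimitive_of_isThreeCycle_mem hprim hc3 hc
  · -- the case of two blocks of size two
    have ha2 : a = 2 := by omega
    have hb2 : b = 2 := by omega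
    subst ha2
    subst hb2
    have hΩ : Fintype.card Ω = 4 := hcard
    have hnt : Nontrivial Ω := by
      rw [← Fintype.one_lt_card_iff_nontrivial]
      omega
    have hA12 : Nat.card (alternatingGroup Ω) = 12 := by
      rw [nat_card_alternatingGroup, Nat.card_eq_fintype_card, hΩ]
      rfl
    have hpt : IsPretransitive (↥(blockPres f ⊓ alternatingGroup Ω)) Ω := by
      refine ⟨fun x y => ?_⟩
      obtain ⟨g, hg, hgxy⟩ := altBlock_trans hf le_rfl le_rfl x y
      exact ⟨⟨g, hg⟩, hgxy⟩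
    have h4Q : 4 ∣ Nat.card (blockPres f ⊓ alternatingGroup Ω : Subgroup (Equiv.Perm Ω)) := by
      obtain ⟨x⟩ : Nonempty Ω := inferInstance
      have h1 := MulAction.index_stabilizer_of_transitive
        (G := ↥(blockPres f ⊓ alternatingGroup Ω)) (x := x)
      rw [Nat.card_eq_fintype_card, hΩ] at h1
      rw [← h1]
      exact Subgroup.index_dvd_card _
    have hQL' := Subgroup.card_dvd_of_le hQL
    have hL12 : Nat.card L ∣ 12 := hA12 ▸ Subgroup.card_dvd_of_le hLA
    have h4L : 4 ∣ Nat.card L := h4Q.trans hQL'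
    have hLcases : Nat.card L = 4 ∨ Nat.card L = 12 := by
      obtain ⟨k, hk⟩ := h4L
      rw [hk] at hL12 ⊢
      have hk3 : k ∣ 3 := (Nat.mul_dvd_mul_iff_left (by norm_num : 0 < 4)).mp hL12
      rcases (Nat.dvd_prime Nat.prime_three).mp hk3 with rfl | rfl <;> simp
    rcases hLcases with h | h
    · exfalso
      apply hL
      have h1 : blockPres f ⊓ alternatingGroup Ω = L :=
        Subgroup.eq_of_le_of_card_ge hQL (by rw [h]; exact Nat.le_of_dvd Nat.card_pos h4Q)
      rw [← h1]
      exact inf_le_left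
    · exact Subgroup.eq_of_le_of_card_ge hLA (by rw [h, hA12])

end AltWreath

end Cfsg.Agent.Helper98
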